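import Mathlib
import Cfsg.Prelude.Def_Classical

/-! S3664 team project (helper7): finite groups of unbounded order with the prime graph of
`PSp₆(3)`.  Definitions and the EXACT piece statements; every `St…` is a `Prop`, a piece is a
theorem `… : St…` (possibly from other `St…` as hypotheses).

The graph: vertices `2, 3, 5, 7, 13`; edges `2–3`, `2–5`, `3–5`, `2–7`; `13` isolated.
The family: `M^k ⋊ (Sz(8) ⋊ C₃)`, `M = Mat₄(𝔽₈)` with a twisted action. -/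

set_option autoImplicit false

namespace Cfsg.Agent.H7.Ps

universe u

/-- adjacency in the prime graph of `PSp₆(3)` -/
def Adj (p q : ℕ) : Prop :=
  (p = 2 ∧ q = 3) ∨ (p = 3 ∧ q = 2) ∨ (p = 2 ∧ q = 5) ∨ (p = 5 ∧ q = 2) ∨
  (p = 3 ∧ q = 5) ∨ (p = 5 ∧ q = 3) ∨ (p = 2 ∧ q = 7) ∨ (p = 7 ∧ q = 2)

/-- `G` has the prime graph of `PSp₆(3)` -/
def HasGraph (G : Type u) [Group G] : Prop :=
  (∀ p : ℕ, p.Prime → (p ∣ Nat.card G ↔ p = 2 ∨ p = 3 ∨ p = 5 ∨ p = 7 ∨ p = 13)) ∧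
  (∀ p q : ℕ, p.Prime → q.Prime → p ≠ q → ((∃ g : G, orderOf g = p * q) ↔ Adj p q))

/-- element-order data that determine the graph -/
structure Data (G : Type u) [Group G] : Prop where
  primes : ∀ p : ℕ, p.Prime → p ∣ Nat.card G → p = 2 ∨ p = 3 ∨ p = 5 ∨ p = 7 ∨ p = 13
  ex6 : ∃ g : G, orderOf g = 6
  ex10 : ∃ g : G, orderOf g = 10
  ex15 : ∃ g : G, orderOf g = 15
  ex14 : ∃ g : G, orderOf g = 14
  ex13 : ∃ g : G, orderOf g = 13
  no21 : ∀ g : G, orderOf g ≠ 21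
  no35 : ∀ g : G, orderOf g ≠ 35
  no26 : ∀ g : G, orderOf g ≠ 26
  no39 : ∀ g : G, orderOf g ≠ 39
  no65 : ∀ g : G, orderOf g ≠ 65
  no91 : ∀ g : G, orderOf g ≠ 91

/-- [PS-CRIT] the data give the graph -/
def StCrit : Prop := ∀ (G : Type u) [Group G] [Finite G], Data G → HasGraph G

/-! ### the side of `PSp₆(3)` -/

/-- `6 × 6` matrices over `𝔽₃` (indexed by `Fin 3 ⊕ Fin 3`, as in Mathlib's symplectic group) -/
abbrev Mat : Type := Matrix (Fin 3 ⊕ Fin 3) (Fin 3 ⊕ Fin 3) (ZMod 3)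

/-- `Sp₆(3)` -/
abbrev Sp : Submonoid Mat := Matrix.symplecticGroup (Fin 3) (ZMod 3)

/-- `PSp₆(3)` over `ZMod 3` -/
abbrev L : Type := Cfsg.PSp 3 (ZMod 3)

/-- [PS-TRANS] every field with 3 elements gives the same group -/
def StTrans : Prop := ∀ (F : Type u) [Field F] [Fintype F], Fintype.card F = 3 →
  Nonempty (L ≃* Cfsg.PSp 3 F)

/-- [PS-PRIMES] the primes dividing `|PSp₆(3)|` -/
def StPrimes : Prop := ∀ p : ℕ, p.Prime → p ∣ Nat.card L →
  p = 2 ∨ p = 3 ∨ p = 5 ∨ p = 7 ∨ p = 13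

/-- [PS-EX6] -/
def StEx6 : Prop := ∃ g : L, orderOf g = 6
/-- [PS-EX10] -/
def StEx10 : Prop := ∃ g : L, orderOf g = 10
/-- [PS-EX15] -/
def StEx15 : Prop := ∃ g : L, orderOf g = 15
/-- [PS-EX14] -/
def StEx14 : Prop := ∃ g : L, orderOf g = 14
/-- [PS-EX13] -/
def StEx13 : Prop := ∃ g : L, orderOf g = 13

/-- [PS-ODD] the non-adjacent pairs of odd primes (from the landed rows S2469 and S2472) -/
def StOdd : Prop := 5 ∣ Nat.card L → 7 ∣ Nat.card L → 13 ∣ Nat.card L →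
  ∀ g : L, orderOf g ≠ 21 ∧ orderOf g ≠ 35 ∧ orderOf g ≠ 39 ∧ orderOf g ≠ 65 ∧ orderOf g ≠ 91

/-- [PS-F1] an element of order 13 of `Sp₆(3)` fixes no non-zero vector -/
def StF1 : Prop := ∀ B : Mat, B ∈ Sp → B ^ 13 = 1 → B ≠ 1 →
  ∀ v : Fin 3 ⊕ Fin 3 → ZMod 3, B.mulVec v = v → v = 0

/-- [PS-F2] an involution of `Sp₆(3)` commuting with an element of order 13 is `±1` -/
def StF2 : Prop := ∀ B T : Mat, B ∈ Sp → T ∈ Sp → B ^ 13 = 1 → B ≠ 1 → T * B = B * T →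
  T * T = 1 → T = 1 ∨ T = -1

/-- [PS-F3] no `T ∈ Sp₆(3)` with `T² = -1` commutes with an element of order 13 -/
def StF3 : Prop := ∀ B T : Mat, B ∈ Sp → T ∈ Sp → B ^ 13 = 1 → B ≠ 1 → T * B = B * T →
  T * T = -1 → False

/-- [PS-NO26] no element of order 26 -/
def StNo26 : Prop := ∀ g : L, orderOf g ≠ 26

/-! ### the family -/

/-- data for the family: a group `A` acting on an elementary abelian 2-group `M` -/
structure FamData (A : Type) [Group A] (M : Type) [AddCommGroup M] [DistribMulAction A M] :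
    Prop where
  two : ∀ x : M, x + x = 0
  nz : ∃ x : M, x ≠ 0
  primes : ∀ p : ℕ, p.Prime → p ∣ Nat.card A → p = 2 ∨ p = 3 ∨ p = 5 ∨ p = 7 ∨ p = 13
  ex6 : ∃ a : A, orderOf a = 6
  ex15 : ∃ a : A, orderOf a = 15
  fix5 : ∃ a : A, orderOf a = 5 ∧ ∃ x : M, x ≠ 0 ∧ a • x = x
  fix7 : ∃ a : A, orderOf a = 7 ∧ ∃ x : M, x ≠ 0 ∧ a • x = x
  ex13 : ∃ a : A, orderOf a = 13
  fpf13 : ∀ a : A, orderOf a = 13 → ∀ x : M, a • x = x → x = 0
  no21 : ∀ a : A, orderOf a ≠ 21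
  no35 : ∀ a : A, orderOf a ≠ 35
  no26 : ∀ a : A, orderOf a ≠ 26
  no39 : ∀ a : A, orderOf a ≠ 39
  no65 : ∀ a : A, orderOf a ≠ 65
  no91 : ∀ a : A, orderOf a ≠ 91

/-- [PS-FAM] the split extensions `M^k ⋊ A` have the data, and unbounded order -/
def StFam : Prop := ∀ (A : Type) [Group A] [Finite A] (M : Type) [AddCommGroup M] [Finite M]
    [DistribMulAction A M], FamData A M →
  ∀ N : ℕ, ∃ (H : Type) (_ : Group H) (_ : Finite H), N < Nat.card H ∧ Data H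

/-- [PS-INST] an instance of the family data (`A = Sz(8) ⋊ C₃`, `M = Mat₄(𝔽₈)`) -/
def StInst : Prop := ∃ (A : Type) (_ : Group A) (_ : Finite A) (M : Type) (_ : AddCommGroup M)
    (_ : Finite M) (_ : DistribMulAction A M), FamData A M

/-- [PS-IDX3] (generic) a normal subgroup `S` of index 3 and order prime to 3: the element orders
`21, 35, 26, 39, 65, 91` do not occur in `A` as soon as `35, 26, 65, 91` do not occur in `S` and
the centralizer in `S` of ONE element of order 3 has no element of order 7 or 13 -/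
def StIdx3 : Prop := ∀ (A : Type) [Group A] [Finite A] (S : Subgroup A), S.Normal →
  S.index = 3 → ¬ 3 ∣ Nat.card S →
  (∀ s ∈ S, orderOf s ≠ 35 ∧ orderOf s ≠ 26 ∧ orderOf s ≠ 65 ∧ orderOf s ≠ 91) →
  ∀ t : A, orderOf t = 3 → (∀ s ∈ S, s * t = t * s → orderOf s ≠ 7 ∧ orderOf s ≠ 13) →
  ∀ a : A, orderOf a ≠ 21 ∧ orderOf a ≠ 35 ∧ orderOf a ≠ 26 ∧ orderOf a ≠ 39 ∧
    orderOf a ≠ 65 ∧ orderOf a ≠ 91

/-- [PS-TW13] (generic) over a field with 8 elements: if `g ∈ Mat₄` has `g ^ 13 = 1` and fixes no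
non-zero vector, then the only `X` with `g X = X g⁽²⁾` (`g⁽²⁾` = entrywise squares) is `0` -/
def StTw13 : Prop := ∀ (F : Type) [Field F] [Fintype F], Fintype.card F = 8 →
  ∀ g : Matrix (Fin 4) (Fin 4) F, g ^ 13 = 1 → (∀ v : Fin 4 → F, g.mulVec v = v → v = 0) →
  ∀ X : Matrix (Fin 4) (Fin 4) F, g * X = X * g.map (fun a => a ^ 2) → X = 0

/-- the final statement, for one field with 3 elements -/
def StMain : Prop := ∀ (F : Type u) [Field F] [Fintype F], Fintype.card F = 3 → ∀ N : ℕ,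
  ∃ (H : Type) (_ : Group H) (_ : Finite H), N < Nat.card H ∧
    ((∀ p : ℕ, p.Prime → (p ∣ Nat.card (Cfsg.PSp 3 F) ↔ p ∣ Nat.card H)) ∧
    (∀ p q : ℕ, p.Prime → q.Prime → p ≠ q →
      ((∃ g : (Cfsg.PSp 3 F), orderOf g = p * q) ↔ (∃ g : H, orderOf g = p * q))))

end Cfsg.Agent.H7.Ps
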