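import Mathlib
import Cfsg.Prelude.Def_Classical
import Cfsg.Prelude.Def_ClassicalGeometry
import Cfsg.Agent.H7.OmegaCenter
import Cfsg.Agent.H7.PSL2
import Cfsg.Agent.S0264
import Cfsg.Agent.S0286

set_option autoImplicit false

namespace Cfsg.Agent.H7

open Matrix Cfsg

open scoped MatrixGroups

section Omega3

variable {F : Type*} [Field F]

/-- The trace-zero matrix attached to a vector. -/
def phiL : (Unit ⊕ (Fin 1 ⊕ Fin 1) → F) →ₗ[F] Matrix (Fin 2) (Fin 2) F where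
  toFun v := !![v (Sum.inl ()), v (Sum.inr (Sum.inl 0)); v (Sum.inr (Sum.inr 0)), -v (Sum.inl ())]
  map_add' := by
    intro x y
    ext i j
    fin_cases i <;> fin_cases j <;> simp [add_comm]
  map_smul' := by
    intro c x
    ext i j
    fin_cases i <;> fin_cases j <;> simp

/-- The coordinates of a matrix. -/
def psiL : Matrix (Fin 2) (Fin 2) F →ₗ[F] (Unit ⊕ (Fin 1 ⊕ Fin 1) → F) where
  toFun X := Sum.elim (fun _ => X 0 0) (Sum.elim (fun _ => X 0 1) (fun _ => X 1 0))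
  map_add' := by
    intro X Y
    funext i
    rcases i with _ | _ | _ <;> simp
  map_smul' := by
    intro c X
    funext i
    rcases i with _ | _ | _ <;> simp

theorem phiL_apply (v : Unit ⊕ (Fin 1 ⊕ Fin 1) → F) :
    phiL v = !![v (Sum.inl ()), v (Sum.inr (Sum.inl 0)); v (Sum.inr (Sum.inr 0)),
      -v (Sum.inl ())] := rfl

theorem psiL_apply (X : Matrix (Fin 2) (Fin 2) F) :
    psiL X = Sum.elim (fun _ => X 0 0) (Sum.elim (fun _ => X 0 1) (fun _ => X 1 0)) := rfl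

theorem psiL_phiL (v : Unit ⊕ (Fin 1 ⊕ Fin 1) → F) : psiL (phiL v) = v := by
  funext i
  rcases i with ⟨⟩ | i | i
  · simp [phiL_apply, psiL_apply]
  · obtain rfl : i = 0 := Subsingleton.elim _ _
    simp [phiL_apply, psiL_apply]
  · obtain rfl : i = 0 := Subsingleton.elim _ _
    simp [phiL_apply, psiL_apply]

theorem phiL_psiL (X : Matrix (Fin 2) (Fin 2) F) (h : X.trace = 0) : phiL (psiL X) = X := by
  rw [Matrix.trace_fin_two] at h
  have h11 : X 1 1 = -X 0 0 := by linear_combination h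
  ext i j
  fin_cases i <;> fin_cases j <;> simp [phiL_apply, psiL_apply, h11]

theorem trace_phiL (v : Unit ⊕ (Fin 1 ⊕ Fin 1) → F) : (phiL v).trace = 0 := by
  rw [Matrix.trace_fin_two, phiL_apply]
  simp

theorem det_phiL (v : Unit ⊕ (Fin 1 ⊕ Fin 1) → F) :
    (phiL v).det = -(quadFormOdd 1 F v) := by
  rw [phiL_apply, Matrix.det_fin_two_of]
  simp [quadFormOdd]
  ring

theorem trace_conj (g : GL (Fin 2) F) (X : Matrix (Fin 2) (Fin 2) F) :
    ((g : Matrix (Fin 2) (Fin 2) F) * X * ((g⁻¹ : GL (Fin 2) F) : Matrix (Fin 2) (Fin 2) F)).trace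
      = X.trace := by
  rw [Matrix.trace_mul_cycle, ← Units.val_mul, inv_mul_cancel]
  simp

theorem det_conj (g : GL (Fin 2) F) (X : Matrix (Fin 2) (Fin 2) F) :
    ((g : Matrix (Fin 2) (Fin 2) F) * X * ((g⁻¹ : GL (Fin 2) F) : Matrix (Fin 2) (Fin 2) F)).det
      = X.det := by
  rw [Matrix.det_mul, Matrix.det_mul, mul_right_comm, ← Matrix.det_mul, ← Units.val_mul,
    mul_inv_cancel]
  simp

/-- The action of `GL₂` on trace-zero matrices by conjugation, in coordinates. -/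
def conjT (g : GL (Fin 2) F) :
    (Unit ⊕ (Fin 1 ⊕ Fin 1) → F) →ₗ[F] (Unit ⊕ (Fin 1 ⊕ Fin 1) → F) :=
  psiL.comp ((LinearMap.mulLeft F (g : Matrix (Fin 2) (Fin 2) F)).comp
    ((LinearMap.mulRight F ((g⁻¹ : GL (Fin 2) F) : Matrix (Fin 2) (Fin 2) F)).comp phiL))

theorem conjT_apply (g : GL (Fin 2) F) (v : Unit ⊕ (Fin 1 ⊕ Fin 1) → F) :
    conjT g v = psiL ((g : Matrix (Fin 2) (Fin 2) F) * phiL v *
      ((g⁻¹ : GL (Fin 2) F) : Matrix (Fin 2) (Fin 2) F)) := by
  simp [conjT, mul_assoc]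

theorem phiL_conjT (g : GL (Fin 2) F) (v : Unit ⊕ (Fin 1 ⊕ Fin 1) → F) :
    phiL (conjT g v) = (g : Matrix (Fin 2) (Fin 2) F) * phiL v *
      ((g⁻¹ : GL (Fin 2) F) : Matrix (Fin 2) (Fin 2) F) := by
  rw [conjT_apply, phiL_psiL]
  rw [trace_conj, trace_phiL]

/-- The conjugation action as a monoid homomorphism into the endomorphisms. -/
def conjHom : GL (Fin 2) F →* Module.End F (Unit ⊕ (Fin 1 ⊕ Fin 1) → F) where
  toFun := conjT
  map_one' := by
    apply LinearMap.ext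
    intro v
    rw [conjT_apply]
    simp [psiL_phiL]
  map_mul' := by
    intro g h
    apply LinearMap.ext
    intro v
    rw [Module.End.mul_apply, conjT_apply, conjT_apply, phiL_conjT, _root_.mul_inv_rev, Units.val_mul,
      Units.val_mul]
    simp only [mul_assoc]

/-- The conjugation action as a homomorphism `GL₂(F) → GL₃(F)`. -/
noncomputable def rhoGL : GL (Fin 2) F →* GL (Unit ⊕ (Fin 1 ⊕ Fin 1)) F :=
  ((LinearMap.toMatrixAlgEquiv' (R := F)
    (n := Unit ⊕ (Fin 1 ⊕ Fin 1))).toRingEquiv.toMulEquiv.toMonoidHom.comp conjHom).toHomUnits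

theorem rhoGL_mulVec (g : GL (Fin 2) F) (v : Unit ⊕ (Fin 1 ⊕ Fin 1) → F) :
    ((rhoGL g : GL (Unit ⊕ (Fin 1 ⊕ Fin 1)) F) :
      Matrix (Unit ⊕ (Fin 1 ⊕ Fin 1)) (Unit ⊕ (Fin 1 ⊕ Fin 1)) F) *ᵥ v = conjT g v := by
  show LinearMap.toMatrix' (conjT g) *ᵥ v = conjT g v
  rw [LinearMap.toMatrix'_mulVec]

theorem rhoGL_mem (g : GL (Fin 2) F) : rhoGL g ∈ isometryGroup F (quadFormOdd 1 F) := by
  rw [Cfsg.Agent.H49.mem_isometryGroup_iff]
  intro v
  rw [rhoGL_mulVec]
  have h1 := det_phiL (conjT g v)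
  rw [phiL_conjT, det_conj, det_phiL] at h1
  exact (neg_injective h1).symm

/-- The conjugation action as a homomorphism into the orthogonal group. -/
noncomputable def rhoO : GL (Fin 2) F →* ↥(isometryGroup F (quadFormOdd 1 F)) :=
  rhoGL.codRestrict _ rhoGL_mem

theorem rhoO_mulVec (g : GL (Fin 2) F) (v : Unit ⊕ (Fin 1 ⊕ Fin 1) → F) :
    ((rhoO g : GL (Unit ⊕ (Fin 1 ⊕ Fin 1)) F) :
      Matrix (Unit ⊕ (Fin 1 ⊕ Fin 1)) (Unit ⊕ (Fin 1 ⊕ Fin 1)) F) *ᵥ v = conjT g v :=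
  rhoGL_mulVec g v

/-- The conjugation action of `SL₂(F)` lands in `Ω₃(F)`. -/
noncomputable def sigma3 (hF : ∃ a : F, a ≠ 0 ∧ a ≠ 1) :
    SL(2, F) →* ↥(Omega F (quadFormOdd 1 F)) :=
  (rhoO.comp Matrix.SpecialLinearGroup.toGL).codRestrict _ (fun s => by
    apply Cfsg.Agent.H49.map_mem_commutator rhoO
    rw [Cfsg.Agent.S0264.result 2 (fun _ => hF), ← range_toGL_eq_ker_det]
    exact ⟨s, rfl⟩)

theorem sigma3_mulVec (hF : ∃ a : F, a ≠ 0 ∧ a ≠ 1) (s : SL(2, F))
    (v : Unit ⊕ (Fin 1 ⊕ Fin 1) → F) :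
    (((sigma3 hF s : ↥(isometryGroup F (quadFormOdd 1 F))) :
      GL (Unit ⊕ (Fin 1 ⊕ Fin 1)) F) :
      Matrix (Unit ⊕ (Fin 1 ⊕ Fin 1)) (Unit ⊕ (Fin 1 ⊕ Fin 1)) F) *ᵥ v =
      conjT (Matrix.SpecialLinearGroup.toGL s) v :=
  rhoGL_mulVec _ v

theorem sigma3_ker (hF : ∃ a : F, a ≠ 0 ∧ a ≠ 1) :
    (sigma3 hF).ker = Subgroup.center SL(2, F) := by
  ext s
  rw [MonoidHom.mem_ker, sl2_mem_center_iff]
  constructor
  · intro h
    have hv : ∀ v, conjT (Matrix.SpecialLinearGroup.toGL s) v = v := by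
      intro v
      rw [← sigma3_mulVec hF, h]
      simp
    have hc : ∀ v : Unit ⊕ (Fin 1 ⊕ Fin 1) → F, s.1 * phiL v = phiL v * s.1 := by
      intro v
      have h2 := phiL_conjT (Matrix.SpecialLinearGroup.toGL s) v
      rw [hv v] at h2
      have h3 := congrArg (fun X => X *
        ((Matrix.SpecialLinearGroup.toGL s : GL (Fin 2) F) : Matrix (Fin 2) (Fin 2) F)) h2
      beta_reduce at h3
      rw [mul_assoc, ← Units.val_mul, inv_mul_cancel, Units.val_one, mul_one] at h3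
      exact h3.symm
    have h1 := hc (Pi.single (Sum.inr (Sum.inl 0)) 1)
    have h2 := hc (Pi.single (Sum.inr (Sum.inr 0)) 1)
    have e1 := congrFun (congrFun h1 0) 0
    have e2 := congrFun (congrFun h1 0) 1
    have e3 := congrFun (congrFun h2 0) 0
    simp [phiL_apply, Matrix.mul_apply, Fin.sum_univ_two] at e1 e2 e3
    exact ⟨e3, e1.symm, e2⟩
  · rintro ⟨h01, h10, h00⟩
    apply Subtype.ext
    apply Cfsg.Agent.H49.isometry_ext
    intro v
    rw [sigma3_mulVec, conjT_apply]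
    have hcomm : (Matrix.SpecialLinearGroup.toGL s : GL (Fin 2) F).1 * phiL v =
        phiL v * (Matrix.SpecialLinearGroup.toGL s : GL (Fin 2) F).1 := by
      show s.1 * phiL v = phiL v * s.1
      ext i j
      fin_cases i <;> fin_cases j <;>
        simp [phiL_apply, Matrix.mul_apply, Fin.sum_univ_two, h01, h10, h00] <;> ring
    rw [hcomm, mul_assoc, ← Units.val_mul, mul_inv_cancel, Units.val_one, mul_one, psiL_phiL]
    simp

theorem sigma3_surjective [Fintype F] (hodd : Odd (Fintype.card F))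
    (hF : ∃ a : F, a ≠ 0 ∧ a ≠ 1) : Function.Surjective (sigma3 hF) := by
  classical
  have h2F : (2 : F) ≠ 0 := two_ne_zero_of_odd_card hodd
  rw [← MonoidHom.range_eq_top]
  apply Subgroup.eq_top_of_card_eq
  have h1 := Nat.card_congr (QuotientGroup.quotientKerEquivRange (sigma3 hF)).toEquiv
  rw [← h1]
  have h2 := Subgroup.card_eq_card_quotient_mul_card_subgroup (sigma3 hF).ker
  have hk : Nat.card (sigma3 hF).ker = 2 := by rw [sigma3_ker, card_center_SL2 hodd]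
  rw [hk, card_SL2] at h2
  have hidx := Cfsg.Agent.H18.index_commutator (qOdd 1 F) h2F (qOdd_nondeg 1 h2F) (by
    simp only [Fintype.card_sum, Fintype.card_unit, Fintype.card_fin]
    omega)
  have h3 := Subgroup.card_mul_index (commutator ↥(isometryGroup F ⇑(qOdd 1 F)))
  rw [hidx] at h3
  have hO := Cfsg.Agent.S0286.result (F := F) rfl hodd 1
  rw [qOdd_coe] at h3
  rw [hO] at h3
  simp only [one_pow, pow_one, Finset.prod_range_one, zero_add, mul_one] at h3
  have h4 : 2 * Fintype.card F * (Fintype.card F ^ 2 - 1) =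
      2 * (Fintype.card F * (Fintype.card F ^ 2 - 1)) := by ring
  rw [h4] at h3
  change Nat.card ↥(Omega F (quadFormOdd 1 F)) * 4 = _ at h3
  omega

end Omega3

end Cfsg.Agent.H7
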