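import Mathlib

set_option autoImplicit false

namespace Cfsg.Agent.H7

/-- Two involutions whose product has odd order are conjugate. -/
theorem isConj_of_odd_orderOf_mul {G : Type*} [Group G] {x z : G} (hx : x * x = 1)
    (hz : z * z = 1) (h : Odd (orderOf (x * z))) : IsConj x z := by
  obtain ⟨m, hm⟩ := h
  have hr : (x * z) ^ (2 * m + 1) = 1 := by rw [← hm]; exact pow_orderOf_eq_one _
  have hxinv : x⁻¹ = x := inv_eq_of_mul_eq_one_right hx
  have hzinv : z⁻¹ = z := inv_eq_of_mul_eq_one_right hz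
  have hconj : x * (x * z) * x⁻¹ = (x * z)⁻¹ := by
    rw [hxinv, mul_inv_rev, hxinv, hzinv, ← mul_assoc, hx, one_mul]
  have hpow : ∀ j : ℕ, x * (x * z) ^ j * x⁻¹ = ((x * z)⁻¹) ^ j := by
    intro j; rw [← conj_pow, hconj]
  rw [isConj_iff]
  refine ⟨((x * z) ^ (m + 1))⁻¹, ?_⟩
  have h1 : x * (x * z) ^ (m + 1) = ((x * z)⁻¹) ^ (m + 1) * x := by
    have := hpow (m + 1)
    rw [mul_inv_eq_iff_eq_mul] at this
    exact this
  rw [inv_inv, mul_assoc, h1, ← mul_assoc, inv_pow, ← mul_inv_rev, ← pow_add]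
  have h2 : (x * z) ^ (m + 1 + (m + 1)) = x * z := by
    have : m + 1 + (m + 1) = (2 * m + 1) + 1 := by ring
    rw [this, pow_succ, hr, one_mul]
  rw [h2, mul_inv_rev, hxinv, hzinv, mul_assoc, hx, mul_one]

/-- Abstract criterion: the odd-product graph on a class of involutions is connected of
diameter exactly two. -/
theorem invGraph_connected_diam {G : Type*} [Group G] (t : G) (ht : orderOf t = 2)
    (H1 : ∀ x y : G, orderOf x = 2 → orderOf y = 2 →
      ∃ z, z * z = 1 ∧ Odd (orderOf (x * z)) ∧ Odd (orderOf (z * y)))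
    (H2 : ∃ s, orderOf s = 2 ∧ orderOf (t * s) = 2) :
    (SimpleGraph.fromRel fun x y : {x : G // IsConj t x} =>
        Odd (orderOf (x.1 * y.1))).Connected ∧
    (SimpleGraph.fromRel fun x y : {x : G // IsConj t x} =>
        Odd (orderOf (x.1 * y.1))).diam = 2 := by
  set Γ := SimpleGraph.fromRel fun x y : {x : G // IsConj t x} =>
        Odd (orderOf (x.1 * y.1)) with hΓ
  have hord : ∀ x : {x : G // IsConj t x}, orderOf x.1 = 2 := fun x => by
    obtain ⟨c, hc⟩ := x.2
    rw [← hc.orderOf_eq, ht]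
  have hsq : ∀ x : G, orderOf x = 2 → x * x = 1 := fun x hx => by
    rw [← pow_two, ← hx, pow_orderOf_eq_one]
  have step : ∀ (x z : {x : G // IsConj t x}), Odd (orderOf (x.1 * z.1)) → Γ.edist x z ≤ 1 := by
    intro x z hxz
    by_cases h : x = z
    · subst h; simp
    · have : Γ.Adj x z := by
        rw [hΓ, SimpleGraph.fromRel_adj]; exact ⟨h, Or.inl hxz⟩
      exact (SimpleGraph.edist_eq_one_iff_adj.mpr this).le
  have key : ∀ x y : {x : G // IsConj t x}, Γ.edist x y ≤ 2 := by
    intro x y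
    obtain ⟨z, hz, hxz, hzy⟩ := H1 x.1 y.1 (hord x) (hord y)
    have hcz : IsConj t z := x.2.trans (isConj_of_odd_orderOf_mul (hsq _ (hord x)) hz hxz)
    have h1 := step x ⟨z, hcz⟩ hxz
    have h2 := step ⟨z, hcz⟩ y hzy
    calc Γ.edist x y ≤ Γ.edist x ⟨z, hcz⟩ + Γ.edist ⟨z, hcz⟩ y := SimpleGraph.edist_triangle
      _ ≤ 1 + 1 := add_le_add h1 h2
      _ = 2 := by norm_num
  have hediam : Γ.ediam ≤ 2 := SimpleGraph.ediam_le_of_edist_le key
  have hne : Γ.ediam ≠ ⊤ := ne_top_of_le_ne_top (by simp) hediam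
  have : Nonempty {x : G // IsConj t x} := ⟨⟨t, IsConj.refl t⟩⟩
  have hconn : Γ.Connected := SimpleGraph.connected_of_ediam_ne_top hne
  refine ⟨hconn, le_antisymm ?_ ?_⟩
  · have h1 : Γ.diam = Γ.ediam.toNat := rfl
    rw [h1]
    exact ENat.toNat_le_of_le_natCast hediam
  · obtain ⟨s, hs, hts⟩ := H2
    obtain ⟨z, hz, htz, hzs⟩ := H1 t s ht hs
    have hcz : IsConj t z := isConj_of_odd_orderOf_mul (hsq _ ht) hz htz
    have hcs : IsConj t s := hcz.trans (isConj_of_odd_orderOf_mul hz (hsq _ hs) hzs)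
    have hst : orderOf (s * t) = 2 := by
      have : s * t = (t * s)⁻¹ := by
        rw [mul_inv_rev, inv_eq_of_mul_eq_one_right (hsq _ hs),
          inv_eq_of_mul_eq_one_right (hsq _ ht)]
      rw [this, orderOf_inv, hts]
    have hdist : 2 ≤ Γ.dist (⟨t, IsConj.refl t⟩ : {x : G // IsConj t x}) ⟨s, hcs⟩ := by
      by_contra hlt
      rw [not_le] at hlt
      have h01 : Γ.dist (⟨t, IsConj.refl t⟩ : {x : G // IsConj t x}) ⟨s, hcs⟩ = 0 ∨
          Γ.dist (⟨t, IsConj.refl t⟩ : {x : G // IsConj t x}) ⟨s, hcs⟩ = 1 := by omega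
      rcases h01 with h0 | h1
      · have := (hconn.dist_eq_zero_iff).mp h0
        have hts' : t = s := congrArg Subtype.val this
        rw [← hts', hsq _ ht, orderOf_one] at hts
        exact absurd hts (by norm_num)
      · have hadj := SimpleGraph.dist_eq_one_iff_adj.mp h1
        rw [hΓ, SimpleGraph.fromRel_adj] at hadj
        rcases hadj.2 with h | h
        · simp only [hts] at h; exact absurd h (by decide)
        · simp only [hst] at h; exact absurd h (by decide)
    exact hdist.trans (SimpleGraph.dist_le_diam hne)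

end Cfsg.Agent.H7
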