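import Cfsg.Agent.H7.RTDefs0
/-!
Team project S2358 (helper7): in the small Ree group `²G₂(q)`, `q = 3^(2m+1) ≥ 27`, any two cyclic
subgroups of the same order `d` dividing one of `(q-1)/2`, `(q+1)/4`, `q - r + 1`, `q + r + 1`
(`r = 3^(m+1)`) are conjugate.  It follows from the STATEMENT of S1158 (a cyclic subgroup `T` of
each of the four orders, with `|N(T)|` known and `N(T₀) = N(T)` for `1 ≠ T₀ ≤ T`).

This file: exact statements (as `Prop`-valued definitions) of the pieces; Mathlib only.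
-/
set_option autoImplicit false

namespace Cfsg.Agent.H7.RU

open Cfsg.Agent.H7.RT

universe u

/-- (INTO) a cyclic Hall subgroup `T` with `gcd(|T|, |N(T) : T|) = 1` and `N(T₀) = N(T)` for all
`1 ≠ T₀ ≤ T` contains a conjugate of every cyclic subgroup whose order divides `|T|` -/
def StToralInto : Prop :=
  ∀ (G : Type u) [Group G] [Finite G] (T : Subgroup G), IsCyclic T →
    (Nat.card T).Coprime (Nat.card G / Nat.card T) →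
    (Nat.card T).Coprime (Nat.card ↥(Subgroup.normalizer (T : Set G)) / Nat.card T) →
    (∀ T₀ : Subgroup G, T₀ ≤ T → T₀ ≠ ⊥ →
      Subgroup.normalizer (T₀ : Set G) = Subgroup.normalizer (T : Set G)) →
    ∀ A : Subgroup G, IsCyclic A → Nat.card A ∣ Nat.card T →
      ∃ c : G, A.map (MulAut.conj c).toMonoidHom ≤ T

/-- (CONJ) under the same hypotheses, two cyclic subgroups of the same order dividing `|T|` are
conjugate -/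
def StToralConj : Prop :=
  ∀ (G : Type u) [Group G] [Finite G] (T : Subgroup G), IsCyclic T →
    (Nat.card T).Coprime (Nat.card G / Nat.card T) →
    (Nat.card T).Coprime (Nat.card ↥(Subgroup.normalizer (T : Set G)) / Nat.card T) →
    (∀ T₀ : Subgroup G, T₀ ≤ T → T₀ ≠ ⊥ →
      Subgroup.normalizer (T₀ : Set G) = Subgroup.normalizer (T : Set G)) →
    ∀ d : ℕ, d ∣ Nat.card T → ∀ A B : Subgroup G, IsCyclic A → IsCyclic B → Nat.card A = d →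
      Nat.card B = d → ∃ g : G, B = A.map (MulAut.conj g).toMonoidHom

/-- (ARA) arithmetic for the torus of order `(q-1)/2`, `|N| = 2(q-1)` -/
def StArA : Prop :=
  ∀ m : ℕ, 1 ≤ m →
    ((3 ^ (2 * m + 1) - 1) / 2).Coprime
      ((3 ^ (2 * m + 1)) ^ 3 * (3 ^ (2 * m + 1) - 1) * ((3 ^ (2 * m + 1)) ^ 3 + 1) /
        ((3 ^ (2 * m + 1) - 1) / 2)) ∧
    ((3 ^ (2 * m + 1) - 1) / 2).Coprime
      (2 * (3 ^ (2 * m + 1) - 1) / ((3 ^ (2 * m + 1) - 1) / 2))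

/-- (ARB) arithmetic for the torus of order `(q+1)/4`, `|N| = 6(q+1)` -/
def StArB : Prop :=
  ∀ m : ℕ, 1 ≤ m →
    ((3 ^ (2 * m + 1) + 1) / 4).Coprime
      ((3 ^ (2 * m + 1)) ^ 3 * (3 ^ (2 * m + 1) - 1) * ((3 ^ (2 * m + 1)) ^ 3 + 1) /
        ((3 ^ (2 * m + 1) + 1) / 4)) ∧
    ((3 ^ (2 * m + 1) + 1) / 4).Coprime
      (6 * (3 ^ (2 * m + 1) + 1) / ((3 ^ (2 * m + 1) + 1) / 4))

/-- (ARC) arithmetic for the torus of order `q - r + 1`, `|N| = 6(q-r+1)` -/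
def StArC : Prop :=
  ∀ m : ℕ, 1 ≤ m →
    (3 ^ (2 * m + 1) - 3 ^ (m + 1) + 1).Coprime
      ((3 ^ (2 * m + 1)) ^ 3 * (3 ^ (2 * m + 1) - 1) * ((3 ^ (2 * m + 1)) ^ 3 + 1) /
        (3 ^ (2 * m + 1) - 3 ^ (m + 1) + 1)) ∧
    (3 ^ (2 * m + 1) - 3 ^ (m + 1) + 1).Coprime
      (6 * (3 ^ (2 * m + 1) - 3 ^ (m + 1) + 1) / (3 ^ (2 * m + 1) - 3 ^ (m + 1) + 1))

/-- (ARD) arithmetic for the torus of order `q + r + 1`, `|N| = 6(q+r+1)` -/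
def StArD : Prop :=
  ∀ m : ℕ, 1 ≤ m →
    (3 ^ (2 * m + 1) + 3 ^ (m + 1) + 1).Coprime
      ((3 ^ (2 * m + 1)) ^ 3 * (3 ^ (2 * m + 1) - 1) * ((3 ^ (2 * m + 1)) ^ 3 + 1) /
        (3 ^ (2 * m + 1) + 3 ^ (m + 1) + 1)) ∧
    (3 ^ (2 * m + 1) + 3 ^ (m + 1) + 1).Coprime
      (6 * (3 ^ (2 * m + 1) + 3 ^ (m + 1) + 1) / (3 ^ (2 * m + 1) + 3 ^ (m + 1) + 1))

/-- the conclusion of S1158 for a group `G` -/
def H1158 (G : Type u) [Group G] (m : ℕ) : Prop :=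
  ∀ kn ∈ ({((3 ^ (2 * m + 1) - 1) / 2, 2 * (3 ^ (2 * m + 1) - 1)),
      ((3 ^ (2 * m + 1) + 1) / 4, 6 * (3 ^ (2 * m + 1) + 1)),
      (3 ^ (2 * m + 1) - 3 ^ (m + 1) + 1, 6 * (3 ^ (2 * m + 1) - 3 ^ (m + 1) + 1)),
      (3 ^ (2 * m + 1) + 3 ^ (m + 1) + 1, 6 * (3 ^ (2 * m + 1) + 3 ^ (m + 1) + 1))} : Set (ℕ × ℕ)),
    ∃ A : Subgroup G, IsCyclic A ∧ Nat.card A = kn.1 ∧
      Nat.card (Subgroup.normalizer (A : Set G)) = kn.2 ∧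
      ∀ A₀ : Subgroup G, A₀ ≤ A → A₀ ≠ ⊥ →
        Subgroup.normalizer (A₀ : Set G) = Subgroup.normalizer (A : Set G)

/-- the assembly: the conclusion of S2358 from that of S1158 -/
theorem s2358_of {G : Type u} [Group G] [Finite G] {m : ℕ} (hm : 1 ≤ m)
    (hcard : Nat.card G =
      (3 ^ (2 * m + 1)) ^ 3 * (3 ^ (2 * m + 1) - 1) * ((3 ^ (2 * m + 1)) ^ 3 + 1))
    (h1158 : H1158 G m) (hTC : StToralConj.{u}) (hA : StArA) (hB : StArB) (hC : StArC)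
    (hD : StArD) (d : ℕ)
    (hd : d ∣ (3 ^ (2 * m + 1) - 1) / 2 ∨ d ∣ (3 ^ (2 * m + 1) + 1) / 4 ∨
      d ∣ 3 ^ (2 * m + 1) - 3 ^ (m + 1) + 1 ∨ d ∣ 3 ^ (2 * m + 1) + 3 ^ (m + 1) + 1)
    (A B : Subgroup G) (hAc : IsCyclic A) (hBc : IsCyclic B) (hAd : Nat.card A = d)
    (hBd : Nat.card B = d) : ∃ g : G, B = A.map (MulAut.conj g).toMonoidHom := by
  have key : ∀ kn : ℕ × ℕ, kn ∈ ({((3 ^ (2 * m + 1) - 1) / 2, 2 * (3 ^ (2 * m + 1) - 1)),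
      ((3 ^ (2 * m + 1) + 1) / 4, 6 * (3 ^ (2 * m + 1) + 1)),
      (3 ^ (2 * m + 1) - 3 ^ (m + 1) + 1, 6 * (3 ^ (2 * m + 1) - 3 ^ (m + 1) + 1)),
      (3 ^ (2 * m + 1) + 3 ^ (m + 1) + 1, 6 * (3 ^ (2 * m + 1) + 3 ^ (m + 1) + 1))} :
        Set (ℕ × ℕ)) →
      kn.1.Coprime ((3 ^ (2 * m + 1)) ^ 3 * (3 ^ (2 * m + 1) - 1) *
        ((3 ^ (2 * m + 1)) ^ 3 + 1) / kn.1) → kn.1.Coprime (kn.2 / kn.1) → d ∣ kn.1 →
      ∃ g : G, B = A.map (MulAut.conj g).toMonoidHom := by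
    intro kn hkn h1 h2 hdk
    obtain ⟨T, hTc, hTk, hTn, hTN⟩ := h1158 kn hkn
    exact hTC G T hTc (by rw [hTk, hcard]; exact h1) (by rw [hTk, hTn]; exact h2) hTN d
      (by rw [hTk]; exact hdk) A B hAc hBc hAd hBd
  rcases hd with h | h | h | h
  · exact key ((3 ^ (2 * m + 1) - 1) / 2, 2 * (3 ^ (2 * m + 1) - 1)) (Or.inl rfl)
      (hA m hm).1 (hA m hm).2 h
  · exact key ((3 ^ (2 * m + 1) + 1) / 4, 6 * (3 ^ (2 * m + 1) + 1)) (Or.inr (Or.inl rfl))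
      (hB m hm).1 (hB m hm).2 h
  · exact key (3 ^ (2 * m + 1) - 3 ^ (m + 1) + 1, 6 * (3 ^ (2 * m + 1) - 3 ^ (m + 1) + 1))
      (Or.inr (Or.inr (Or.inl rfl))) (hC m hm).1 (hC m hm).2 h
  · exact key (3 ^ (2 * m + 1) + 3 ^ (m + 1) + 1, 6 * (3 ^ (2 * m + 1) + 3 ^ (m + 1) + 1))
      (Or.inr (Or.inr (Or.inr rfl))) (hD m hm).1 (hD m hm).2 h

end Cfsg.Agent.H7.RU
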