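import Mathlib
/-!
Team project S3626 (helper7): for `L = ²G₂(q)`, `q = 3^(2m+1) ≥ 27`, there are finite groups of
arbitrarily large order with the same set of element orders as `L × L × L`.

The groups: `L₀ × L₀ × M_k`, where `L₀` is a copy of `L` in `Type` and
`M_k = V^k ⋊ (Z₂ × PSL₂(q))`, `V = M₂(F)` with `(ε, g) · X = ε g X (g^{[3]})ᵀ` (`g^{[3]}` the
entrywise cube of `g`; this is the module `N ⊗ N^{(3)}`, on which `-1 ∈ SL₂` acts trivially).
The element orders of `M_k` are exactly the divisors of `6`, `9`, `q - 1`, `(q + 1)/2`, and those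
of `L` are the divisors of `6`, `9`, `q - 1`, `(q + 1)/2`, `q - r + 1`, `q + r + 1` (S1159); an
`lcm` of three element orders of `L` is always an `lcm` of two of them and one of `M_k`.

This file: the definitions and the exact statements (as `Prop`-valued definitions) of the pieces;
Mathlib only.
-/
set_option autoImplicit false

namespace Cfsg.Agent.H7.RV

open Matrix

open scoped MatrixGroups

universe u

section defs

variable (F : Type) [Field F] [CharP F 3]

/-- the Frobenius twist `g ↦ g^{[3]}` (entrywise cube) on `SL₂(F)` -/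
noncomputable def tw : SL(2, F) →* SL(2, F) := Matrix.SpecialLinearGroup.map (frobenius F 3)

theorem tw_apply (g : SL(2, F)) (i j : Fin 2) :
    ((tw F g : SL(2, F)) : Matrix (Fin 2) (Fin 2) F) i j = (g : Matrix (Fin 2) (Fin 2) F) i j ^ 3 :=
  rfl

/-- `X ↦ ε • (g X (g^{[3]})ᵀ)`, for `p = (ε, g)` -/
noncomputable def actFun (p : ℤˣ × SL(2, F)) (X : Matrix (Fin 2) (Fin 2) F) :
    Matrix (Fin 2) (Fin 2) F :=
  ((p.1 : ℤˣ) : ℤ) • ((p.2 : Matrix (Fin 2) (Fin 2) F) * X *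
    ((tw F p.2 : SL(2, F)) : Matrix (Fin 2) (Fin 2) F)ᵀ)

theorem actFun_def (p : ℤˣ × SL(2, F)) (X : Matrix (Fin 2) (Fin 2) F) :
    actFun F p X = ((p.1 : ℤˣ) : ℤ) • ((p.2 : Matrix (Fin 2) (Fin 2) F) * X *
      ((tw F p.2 : SL(2, F)) : Matrix (Fin 2) (Fin 2) F)ᵀ) :=
  rfl

theorem actFun_one (X : Matrix (Fin 2) (Fin 2) F) : actFun F 1 X = X := by
  simp [actFun]

theorem actFun_mul (p q : ℤˣ × SL(2, F)) (X : Matrix (Fin 2) (Fin 2) F) :
    actFun F (p * q) X = actFun F p (actFun F q X) := by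
  simp only [actFun, Prod.fst_mul, Prod.snd_mul, Units.val_mul, map_mul,
    Matrix.SpecialLinearGroup.coe_mul, Matrix.transpose_mul, Matrix.mul_smul, Matrix.smul_mul,
    smul_smul, Matrix.mul_assoc]

theorem actFun_add (p : ℤˣ × SL(2, F)) (X Y : Matrix (Fin 2) (Fin 2) F) :
    actFun F p (X + Y) = actFun F p X + actFun F p Y := by
  simp only [actFun, Matrix.mul_add, Matrix.add_mul, smul_add]

theorem actFun_zero (p : ℤˣ × SL(2, F)) : actFun F p 0 = 0 := by
  simp [actFun]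

/-- `(1, -1)` acts trivially -/
theorem actFun_neg_one (X : Matrix (Fin 2) (Fin 2) F) : actFun F (1, -1) X = X := by
  have h : tw F (-1) = -1 := by
    ext i j
    rw [tw_apply]
    fin_cases i <;> fin_cases j <;> simp [Matrix.SpecialLinearGroup.coe_neg] <;> norm_num
  simp [actFun, h, Matrix.SpecialLinearGroup.coe_neg]

/-- `(-1, 1)` acts as negation -/
theorem actFun_neg (X : Matrix (Fin 2) (Fin 2) F) : actFun F (-1, 1) X = -X := by
  simp [actFun]

/-- the action on `k`-tuples of matrices, as automorphisms of the multiplicative copy -/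
noncomputable def act (k : ℕ) :
    ℤˣ × SL(2, F) →* MulAut (Multiplicative (Fin k → Matrix (Fin 2) (Fin 2) F)) where
  toFun p := AddEquiv.toMultiplicative
    { toFun := fun T i => actFun F p (T i)
      invFun := fun T i => actFun F p⁻¹ (T i)
      left_inv := fun T => by
        funext i
        show actFun F p⁻¹ (actFun F p (T i)) = T i
        rw [← actFun_mul, inv_mul_cancel, actFun_one]
      right_inv := fun T => by
        funext i
        show actFun F p (actFun F p⁻¹ (T i)) = T i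
        rw [← actFun_mul, mul_inv_cancel, actFun_one]
      map_add' := fun S T => by
        funext i
        exact actFun_add F p (S i) (T i) }
  map_one' := by
    refine MulEquiv.ext fun T => ?_
    apply Multiplicative.toAdd.injective
    funext i
    exact actFun_one F _
  map_mul' p q := by
    refine MulEquiv.ext fun T => ?_
    apply Multiplicative.toAdd.injective
    funext i
    exact actFun_mul F p q _

theorem act_apply (k : ℕ) (p : ℤˣ × SL(2, F))
    (T : Multiplicative (Fin k → Matrix (Fin 2) (Fin 2) F)) :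
    act F k p T = Multiplicative.ofAdd (fun i => actFun F p (Multiplicative.toAdd T i)) :=
  rfl

/-- the group of linear parts: the image of `Z₂ × SL₂(F)`, isomorphic to `Z₂ × PSL₂(F)` -/
noncomputable def linGrp (k : ℕ) :
    Subgroup (MulAut (Multiplicative (Fin k → Matrix (Fin 2) (Fin 2) F))) :=
  (act F k).range

/-- the affine group `M_k = V^k ⋊ (Z₂ × PSL₂(F))` -/
abbrev Mk (k : ℕ) : Type :=
  Multiplicative (Fin k → Matrix (Fin 2) (Fin 2) F) ⋊[(linGrp F k).subtype] ↥(linGrp F k)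

theorem act_one_neg_one (k : ℕ) : act F k (1, -1) = 1 := by
  refine MulEquiv.ext fun T => ?_
  rw [act_apply]
  apply Multiplicative.toAdd.injective
  funext i
  exact actFun_neg_one F _

theorem mem_linGrp (k : ℕ) (a : MulAut (Multiplicative (Fin k → Matrix (Fin 2) (Fin 2) F))) :
    a ∈ linGrp F k ↔ ∃ p : ℤˣ × SL(2, F), act F k p = a :=
  Iff.rfl

/-- the element of `M_k` with translation part `T` and linear part `act p` -/
noncomputable def mkEl (k : ℕ) (T : Fin k → Matrix (Fin 2) (Fin 2) F) (p : ℤˣ × SL(2, F)) :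
    Mk F k :=
  ⟨Multiplicative.ofAdd T, ⟨act F k p, p, rfl⟩⟩

theorem exists_mkEl (k : ℕ) (x : Mk F k) : ∃ T p, x = mkEl F k T p := by
  obtain ⟨v, ⟨a, p, rfl⟩⟩ := x
  exact ⟨Multiplicative.toAdd v, p, rfl⟩

theorem mkEl_right (k : ℕ) (T : Fin k → Matrix (Fin 2) (Fin 2) F) (p : ℤˣ × SL(2, F)) :
    (((mkEl F k T p).right : ↥(linGrp F k)) :
      MulAut (Multiplicative (Fin k → Matrix (Fin 2) (Fin 2) F))) = act F k p :=
  rfl

theorem mkEl_left (k : ℕ) (T : Fin k → Matrix (Fin 2) (Fin 2) F) (p : ℤˣ × SL(2, F)) :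
    (mkEl F k T p).left = Multiplicative.ofAdd T :=
  rfl

theorem mkEl_mul (k : ℕ) (S T : Fin k → Matrix (Fin 2) (Fin 2) F) (p q : ℤˣ × SL(2, F)) :
    mkEl F k S p * mkEl F k T q = mkEl F k (fun i => S i + actFun F p (T i)) (p * q) := by
  refine SemidirectProduct.ext rfl (Subtype.ext ?_)
  show act F k p * act F k q = act F k (p * q)
  rw [map_mul]

end defs

/-! ### The pieces -/

/-- (TRI) every element of `SL₂(q)`, `q = 3^(2m+1)`, has cube `±1` or order dividing `q - 1` or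
`q + 1` -/
def StTri : Prop :=
  ∀ (F : Type) [Field F] [Fintype F] [CharP F 3] (m : ℕ), Fintype.card F = 3 ^ (2 * m + 1) →
    ∀ g : SL(2, F), g ^ 3 = 1 ∨ g ^ 3 = -1 ∨ g ^ (3 ^ (2 * m + 1) - 1) = 1 ∨
      g ^ (3 ^ (2 * m + 1) + 1) = 1

/-- (SQ) the only square roots of `1` in `SL₂(F)` are `±1` -/
def StSq : Prop :=
  ∀ (F : Type) [Field F] [CharP F 3] (g : SL(2, F)), g ^ 2 = 1 → g = 1 ∨ g = -1

/-- (FIX) if `(ε, g)` fixes a non-zero matrix then `g² = -1`, or `ε = 1` and `g³ = ±1` -/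
def StFix : Prop :=
  ∀ (F : Type) [Field F] [Fintype F] [CharP F 3] (m : ℕ), Fintype.card F = 3 ^ (2 * m + 1) →
    ∀ (p : ℤˣ × SL(2, F)) (X : Matrix (Fin 2) (Fin 2) F), X ≠ 0 → actFun F p X = X →
      p.2 ^ 2 = -1 ∨ (p.1 = 1 ∧ (p.2 ^ 3 = 1 ∨ p.2 ^ 3 = -1))

/-- (ONE) the kernel of the action is `{(1, ±1)}` -/
def StOne : Prop :=
  ∀ (F : Type) [Field F] [CharP F 3] (p : ℤˣ × SL(2, F)),
    (∀ X : Matrix (Fin 2) (Fin 2) F, actFun F p X = X) → p.1 = 1 ∧ (p.2 = 1 ∨ p.2 = -1)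

/-- (SING) `SL₂(q)` has an element of order `q + 1` -/
def StSing : Prop :=
  ∀ (F : Type) [Field F] [Fintype F] [CharP F 3] (m : ℕ), Fintype.card F = 3 ^ (2 * m + 1) →
    ∃ g : SL(2, F), orderOf g = 3 ^ (2 * m + 1) + 1

/-- (AFF) in a semidirect product `N ⋊ Q` with `N` abelian of exponent 3: an element whose
`Q`-part `a` acts without non-trivial fixed points has the order of `a`; in general its order
divides `3 · o(a)` -/
def StAff : Prop :=
  ∀ (N : Type) [CommGroup N] (Q : Type) [Group Q] (φ : Q →* MulAut N), (∀ v : N, v ^ 3 = 1) →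
    ∀ x : N ⋊[φ] Q,
      (∀ n : ℕ, (∀ w : N, φ x.right w = w → w = 1) → x.right ^ n = 1 → x ^ n = 1) ∧
      (∀ j : ℕ, x.right ^ j = 1 → x ^ (3 * j) = 1)

/-- (UP) every element of `M_k` has order dividing `6`, `9`, `q - 1` or `(q + 1)/2` -/
def StUp : Prop :=
  ∀ (F : Type) [Field F] [Fintype F] [CharP F 3] (m k : ℕ), Fintype.card F = 3 ^ (2 * m + 1) →
    ∀ x : Mk F k, x ^ 6 = 1 ∨ x ^ 9 = 1 ∨ x ^ (3 ^ (2 * m + 1) - 1) = 1 ∨
      x ^ ((3 ^ (2 * m + 1) + 1) / 2) = 1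

/-- (EX6) `M_k` has an element of order 6 -/
def StEx6 : Prop :=
  ∀ (F : Type) [Field F] [CharP F 3] (k : ℕ), 1 ≤ k → ∃ x : Mk F k, orderOf x = 6

/-- (EX9) `M_k` has an element of order 9 -/
def StEx9 : Prop :=
  ∀ (F : Type) [Field F] [CharP F 3] (k : ℕ), 1 ≤ k → ∃ x : Mk F k, orderOf x = 9

/-- (EXA) `M_k` has an element of order `q - 1` -/
def StExA : Prop :=
  ∀ (F : Type) [Field F] [Fintype F] [CharP F 3] (m k : ℕ), Fintype.card F = 3 ^ (2 * m + 1) →
    1 ≤ k → ∃ x : Mk F k, orderOf x = 3 ^ (2 * m + 1) - 1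

/-- (EXB) `M_k` has an element of order `(q + 1)/2` -/
def StExB : Prop :=
  ∀ (F : Type) [Field F] [Fintype F] [CharP F 3] (m k : ℕ), Fintype.card F = 3 ^ (2 * m + 1) →
    1 ≤ k → ∃ x : Mk F k, orderOf x = (3 ^ (2 * m + 1) + 1) / 2

/-- (CARD) `M_k` is finite of order `> k` -/
def StCard : Prop :=
  ∀ (F : Type) [Field F] [Fintype F] [CharP F 3] (k : ℕ),
    Finite (Mk F k) ∧ k < Nat.card (Mk F k)

/-- (SPEC) the element orders of `M_k` are the divisors of `6`, `9`, `q - 1`, `(q + 1)/2` -/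
def StSpec : Prop :=
  ∀ (F : Type) [Field F] [Fintype F] [CharP F 3] (m k : ℕ), Fintype.card F = 3 ^ (2 * m + 1) →
    1 ≤ k → ∀ n : ℕ, (∃ x : Mk F k, orderOf x = n) ↔
      (n ∣ 6 ∨ n ∣ 9 ∨ n ∣ 3 ^ (2 * m + 1) - 1 ∨ n ∣ (3 ^ (2 * m + 1) + 1) / 2)

/-- (PROD) if the element orders of `L₀` and of `L` are the divisors of `6, 9, a, b, c, d` and
those of `M` are the divisors of `6, 9, a, b`, then `L₀ × L₀ × M` and `L × L × L` have the same
element orders -/
def StProd : Prop :=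
  ∀ (L₀ : Type) [Group L₀] (M : Type) [Group M] (L : Type u) [Group L] (a b c d : ℕ),
    (∀ n : ℕ, (∃ g : L₀, orderOf g = n) ↔ (n ∣ 6 ∨ n ∣ 9 ∨ n ∣ a ∨ n ∣ b ∨ n ∣ c ∨ n ∣ d)) →
    (∀ n : ℕ, (∃ g : L, orderOf g = n) ↔ (n ∣ 6 ∨ n ∣ 9 ∨ n ∣ a ∨ n ∣ b ∨ n ∣ c ∨ n ∣ d)) →
    (∀ n : ℕ, (∃ g : M, orderOf g = n) ↔ (n ∣ 6 ∨ n ∣ 9 ∨ n ∣ a ∨ n ∣ b)) →
    Set.range (orderOf : L₀ × L₀ × M → ℕ) = Set.range (orderOf : L × L × L → ℕ)

end Cfsg.Agent.H7.RV
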