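import Mathlib
import Cfsg.Agent.H91.S4Rel

set_option autoImplicit false

namespace Cfsg.Agent.H7

/-- A recognition criterion for `S₄` from three involutions `d`, `v`, `e` (thought of as `(12)`,
`(34)`, `(23)`) and the auxiliary elements `i = dv`, `j = e i e`, `k = j i`. -/
theorem closure_equiv_S4 {G : Type*} [Group G] [Finite G] (d v e i j k : G)
    (r1 : d * d = 1) (r2 : v * v = 1) (r3 : e * e = 1) (r4 : k * k = 1)
    (r5 : d * v = i) (r6 : v * d = i) (r7 : e * i * e = j) (r8 : j * d * j = v)
    (r9 : j * i = k) (r10 : k * d * k = v) (hbr : e * d * e = d * e * d) (r12 : i ≠ 1) :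
    Nonempty (↥(Subgroup.closure ({d, e, v} : Set G)) ≃* Equiv.Perm (Fin 4)) := by
  have hvd : v ≠ d := by
    intro h
    apply r12
    rw [← r5, h, r1]
  have hv1 : v ≠ 1 := by
    intro h
    rw [h] at r10
    have hd1 : d = 1 := by
      have h3 : k * d * k = k * 1 * k := by rw [r10, mul_one, r4]
      exact mul_left_cancel (mul_right_cancel h3)
    apply r12
    rw [← r5, hd1, h, mul_one]
  have hde : ¬ Commute d e := by
    intro hc
    have hc' : d * e = e * d := hc
    have h1 : e * d * e = d := by rw [← hc', mul_assoc, r3, mul_one]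
    have h2' : d * e * d = e := by rw [hc', mul_assoc, r1, mul_one]
    have hde : d = e := by rw [← h1, hbr, h2']
    have hji : j = i := by
      rw [← r7, ← hde, ← r5, ← mul_assoc, r1, one_mul, r6, r5]
    have hk1 : k = 1 := by
      rw [← r9, hji]
      nth_rewrite 1 [← r5]
      rw [← r6, mul_assoc, ← mul_assoc v v d, r2, one_mul, r1]
    rw [hk1, one_mul, mul_one] at r10
    exact hvd r10.symm
  obtain ⟨H, hH⟩ : ∃ H : Subgroup G, H = Subgroup.closure ({d, e, v} : Set G) := ⟨_, rfl⟩
  have hdH : d ∈ H := by rw [hH]; exact Subgroup.subset_closure (by simp)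
  have heH : e ∈ H := by rw [hH]; exact Subgroup.subset_closure (by simp)
  have hvH : v ∈ H := by rw [hH]; exact Subgroup.subset_closure (by simp)
  have hgen : Subgroup.closure ({⟨d, hdH⟩, ⟨e, heH⟩, ⟨v, hvH⟩} : Set H) = ⊤ := by
    subst hH
    have := Subgroup.closure_closure_coe_preimage (k := ({d, e, v} : Set G))
    convert this using 2
    ext x
    simp [Subtype.ext_iff]
  rw [← hH]
  refine Cfsg.Agent.H91.s4_of_relations (⟨d, hdH⟩ : H) ⟨v, hvH⟩ ⟨e, heH⟩ ?_ ?_ ?_ ?_ ?_ ?_ ?_ ?_
    ?_ ?_ ?_ hgen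
  · exact Subtype.ext r1
  · exact Subtype.ext r2
  · exact Subtype.ext r3
  · exact Subtype.ext (r5.trans r6.symm)
  · exact Subtype.ext hbr
  · intro hc
    apply hde
    have := congrArg Subtype.val hc.eq
    exact this
  · intro h
    exact hvd (congrArg Subtype.val h)
  · intro h
    exact hv1 (congrArg Subtype.val h)
  · apply Subtype.ext
    show (e * (d * v) * e) * d * (e * (d * v) * e) = v
    rw [r5, r7, r8]
  · apply Subtype.ext
    show (e * (d * v) * e * (d * v)) * d * (e * (d * v) * e * (d * v)) = v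
    rw [r5, r7, r9, r10]
  · apply Subtype.ext
    show (e * (d * v) * e * (d * v)) * (e * (d * v) * e * (d * v)) = 1
    rw [r5, r7, r9, r4]

end Cfsg.Agent.H7
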