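import Mathlib

/-!
# S4125 piece T8, part (a): number theory and the finite-field lemma
-/

set_option autoImplicit false

namespace Cfsg.Agent.H7.Baer

/-- If `q` is odd, `e ≡ 3 mod 4`, `e² ≡ 1 mod 2^m` and `e ≡ q^j mod 2^m` then
`q² ≡ 1 mod 2^m`. -/
theorem nt_sq_modEq (q m e j : ℕ) (hq : Odd q) (hm : 2 ≤ m) (he4 : e % 4 = 3)
    (he2 : (e * e) % 2 ^ m = 1) (h : e ≡ q ^ j [MOD 2 ^ m]) : q ^ 2 ≡ 1 [MOD 2 ^ m] := by
  have h4 : (4:ℕ) ∣ 2 ^ m := by
    obtain ⟨k, rfl⟩ := Nat.exists_eq_add_of_le hm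
    exact ⟨2 ^ k, by ring⟩
  have hj : Odd j := by
    by_contra hj
    rw [Nat.not_odd_iff_even] at hj
    obtain ⟨k, rfl⟩ := hj
    have h1 : e ≡ q ^ (k + k) [MOD 4] := h.of_dvd h4
    have h2 : q ^ (k + k) % 4 = 1 := by
      have h3 : q ^ (k + k) = (q ^ k) * (q ^ k) := by ring
      rw [h3]
      obtain ⟨t, ht⟩ : Odd (q ^ k) := hq.pow
      rw [ht]
      have : (2 * t + 1) * (2 * t + 1) = 4 * (t * t + t) + 1 := by ring
      rw [this]; omega
    unfold Nat.ModEq at h1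
    omega
  have h1lt : 1 < 2 ^ m := Nat.one_lt_two_pow (by omega)
  have hcop : Nat.Coprime q (2 ^ m) := Nat.Coprime.pow_right m (Nat.coprime_two_right.mpr hq)
  set u : (ZMod (2 ^ m))ˣ := ZMod.unitOfCoprime q hcop with hu
  have hucoe : (u : ZMod (2 ^ m)) = (q : ZMod (2 ^ m)) := ZMod.coe_unitOfCoprime q hcop
  have he' : ((e : ℕ) : ZMod (2 ^ m)) = (q : ZMod (2 ^ m)) ^ j := by
    have := (ZMod.natCast_eq_natCast_iff e (q ^ j) (2 ^ m)).mpr h
    simpa using this
  have hee : ((e : ℕ) : ZMod (2 ^ m)) * e = 1 := by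
    have : (e * e) ≡ 1 [MOD 2 ^ m] := by
      unfold Nat.ModEq; rw [he2, Nat.mod_eq_of_lt h1lt]
    have := (ZMod.natCast_eq_natCast_iff (e * e) 1 (2 ^ m)).mpr this
    simpa using this
  have hu1 : (u ^ 2) ^ j = 1 := by
    apply Units.ext
    simp only [Units.val_pow_eq_pow_val, hucoe, Units.val_one]
    rw [← pow_mul, mul_comm, pow_mul, ← he', pow_two, hee]
  have hu2 : (u ^ 2) ^ (2 ^ (m - 1)) = 1 := by
    have : NeZero (2 ^ m) := ⟨by positivity⟩
    have hcard : Fintype.card (ZMod (2 ^ m))ˣ = 2 ^ (m - 1) := by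
      rw [ZMod.card_units_eq_totient, Nat.totient_prime_pow Nat.prime_two (by omega)]
      simp
    have := pow_card_eq_one (x := u)
    rw [hcard] at this
    rw [← pow_mul, mul_comm, pow_mul, this, one_pow]
  have hord : orderOf (u ^ 2) = 1 := by
    have d1 := orderOf_dvd_of_pow_eq_one hu1
    have d2 := orderOf_dvd_of_pow_eq_one hu2
    have hc : Nat.Coprime j (2 ^ (m - 1)) :=
      Nat.Coprime.pow_right _ (Nat.coprime_two_right.mpr hj)
    exact Nat.dvd_one.mp (hc ▸ Nat.dvd_gcd d1 d2)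
  have hone : u ^ 2 = 1 := orderOf_eq_one_iff.mp hord
  have hq2 : ((q ^ 2 : ℕ) : ZMod (2 ^ m)) = ((1 : ℕ) : ZMod (2 ^ m)) := by
    have := congrArg (fun x : (ZMod (2 ^ m))ˣ => (x : ZMod (2 ^ m))) hone
    simp only [Units.val_pow_eq_pow_val, hucoe, Units.val_one] at this
    simpa using this
  exact (ZMod.natCast_eq_natCast_iff (q ^ 2) 1 (2 ^ m)).mp hq2

/-- In a finite field `K` of characteristic `q` (odd), if `c` has order `2^m`, `m ≥ 2`, and some
`F_q`-algebra endomorphism maps `c` to `c^e` with `e ≡ 3 mod 4`, `e² ≡ 1 mod 2^m`,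
then `c^(q²) = c`. -/
theorem field_frob_sq {K : Type*} [Field K] [Finite K] {q : ℕ} [Fact q.Prime]
    [Algebra (ZMod q) K] (hq2 : q ≠ 2) (c : K) (m e : ℕ) (hm : 2 ≤ m) (hc : orderOf c = 2 ^ m)
    (he4 : e % 4 = 3) (he2 : (e * e) % 2 ^ m = 1) (σ : K →ₐ[ZMod q] K) (hσ : σ c = c ^ e) :
    c ^ (q ^ 2) = c := by
  obtain ⟨n, hn⟩ := (FiniteField.bijective_frobeniusAlgHom_pow (ZMod q) K).2 σ
  have h1 : σ c = c ^ (q ^ (n : ℕ)) := by
    rw [← hn]
    simp [AlgHom.coe_pow, FiniteField.coe_frobeniusAlgHom, pow_iterate, ZMod.card]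
  have hfin : IsOfFinOrder c := orderOf_pos_iff.mp (by rw [hc]; positivity)
  have h2 : e ≡ q ^ (n : ℕ) [MOD 2 ^ m] := by
    rw [← hc]; exact hfin.pow_eq_pow_iff_modEq.mp (hσ.symm.trans h1)
  have hodd : Odd q := (Fact.out : q.Prime).odd_of_ne_two hq2
  have h3 := nt_sq_modEq q m e n hodd hm he4 he2 h2
  have : c ^ (q ^ 2) = c ^ 1 := hfin.pow_eq_pow_iff_modEq.mpr (hc ▸ h3)
  simpa using this

/-- Version of `field_frob_sq` for a finite commutative domain. -/
theorem domain_frob_sq {K : Type*} [CommRing K] [IsDomain K] [Finite K] {q : ℕ} [Fact q.Prime]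
    [Algebra (ZMod q) K] (hq2 : q ≠ 2) (c : K) (m e : ℕ) (hm : 2 ≤ m) (hc : orderOf c = 2 ^ m)
    (he4 : e % 4 = 3) (he2 : (e * e) % 2 ^ m = 1) (σ : K →ₐ[ZMod q] K) (hσ : σ c = c ^ e) :
    c ^ (q ^ 2) = c := by
  classical
  let _ := Fintype.ofFinite K
  exact @field_frob_sq K (Fintype.fieldOfDomain K) _ q _ ‹_› hq2 c m e hm hc he4 he2 σ hσ

open Polynomial in
/-- A finite commutative domain generated over `F_q` by an element `c` with `c^(q²) = c` has at
most `q²` elements. -/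
theorem card_le_sq_of_pow {K : Type*} [CommRing K] [IsDomain K] [Finite K] {q : ℕ}
    [Fact q.Prime] [Algebra (ZMod q) K] (c : K) (hgen : Algebra.adjoin (ZMod q) {c} = ⊤)
    (hcq : c ^ (q ^ 2) = c) : Nat.card K ≤ q ^ 2 := by
  classical
  have hq : q.Prime := Fact.out
  have hall : ∀ x : K, x ^ (q ^ 2) = x := by
    have h1 : (FiniteField.frobeniusAlgHom (ZMod q) K) ^ 2 = AlgHom.id (ZMod q) K := by
      apply AlgHom.ext_of_adjoin_eq_top hgen
      intro x hx
      rw [Set.mem_singleton_iff] at hx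
      subst hx
      simp only [AlgHom.coe_pow, FiniteField.coe_frobeniusAlgHom, pow_iterate, ZMod.card,
        AlgHom.coe_id, id_eq]
      exact hcq
    intro x
    have h2 := DFunLike.congr_fun h1 x
    simp only [AlgHom.coe_pow, FiniteField.coe_frobeniusAlgHom, pow_iterate, ZMod.card,
      AlgHom.coe_id, id_eq] at h2
    exact h2
  let _ := Fintype.ofFinite K
  rw [Nat.card_eq_fintype_card]
  have hq1 : 1 < q ^ 2 := Nat.one_lt_pow (by norm_num) hq.one_lt
  have hne : (X ^ (q ^ 2) - X : K[X]) ≠ 0 := by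
    intro h0
    have := congrArg (fun p : K[X] => p.coeff 1) h0
    simp only [coeff_sub, coeff_X_pow, coeff_X_one, coeff_zero] at this
    rw [if_neg (by omega)] at this
    simp at this
  have h3 := card_le_degree_of_subset_roots (p := (X ^ (q ^ 2) - X : K[X])) (Z := Finset.univ)
    (fun x _ => by
      rw [mem_roots hne]
      simp [hall x])
  refine h3.trans ?_
  refine (natDegree_sub_le _ _).trans ?_
  simp
  exact hq1.le
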