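import Mathlib
import Cfsg.Agent.H72.BaerDefs
import Cfsg.Agent.H7.BaerT8a

/-!
# S4125 piece T8: the "dimension 2" finite-field lemma
-/

set_option autoImplicit false

namespace Cfsg.Agent.H7.Baer

open Cfsg.Agent.H72.BaerT
open scoped IsMulCommutative

universe u

variable {V : Type u} [CommGroup V]

/-- An `A`-irreducible module has only trivial `c`-invariant additive subgroups. -/
theorem irr_addSubgroup [Finite V] {c : MulAut V} (hirr : Irr (Subgroup.zpowers c))
    (S : AddSubgroup (Additive V))
    (hS : ∀ x ∈ S, Additive.ofMul (c (Additive.toMul x)) ∈ S) : S = ⊥ ∨ S = ⊤ := by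
  let W : Subgroup V :=
    { carrier := {v | Additive.ofMul v ∈ S}
      one_mem' := S.zero_mem
      mul_mem' := fun ha hb => S.add_mem ha hb
      inv_mem' := fun ha => S.neg_mem ha }
  have hWmem : ∀ v : V, v ∈ W ↔ Additive.ofMul v ∈ S := fun v => Iff.rfl
  have hpow : ∀ k : ℕ, ∀ w ∈ W, (c ^ k) w ∈ W := by
    intro k
    induction k with
    | zero => intro w hw; simpa using hw
    | succ k ih =>
      intro w hw
      rw [pow_succ]
      exact ih _ (hS _ hw)
  have hW : Inv (Subgroup.zpowers c) W := by
    intro a ha w hw
    have hfin : IsOfFinOrder c := isOfFinOrder_of_finite c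
    rw [← hfin.mem_powers_iff_mem_zpowers] at ha
    obtain ⟨k, hk⟩ := ha
    rw [← hk]
    exact hpow k w hw
  rcases hirr W hW with h | h
  · left
    ext x
    have := hWmem (Additive.toMul x)
    rw [h, Subgroup.mem_bot] at this
    rw [AddSubgroup.mem_bot]
    constructor
    · intro hx
      have h1 := this.mpr hx
      exact congrArg Additive.ofMul h1
    · intro hx
      rw [hx]; exact S.zero_mem
  · right
    ext x
    have := hWmem (Additive.toMul x)
    rw [h] at this
    simp only [Subgroup.mem_top, true_iff] at this
    simp only [AddSubgroup.mem_top, iff_true]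
    exact this

/-- The `ZMod q`-linear map induced by an automorphism. -/
noncomputable def linOf (q : ℕ) [Module (ZMod q) (Additive V)] :
    MulAut V →* Module.End (ZMod q) (Additive V) where
  toFun f := (MonoidHom.toAdditive f.toMonoidHom).toZModLinearMap q
  map_one' := by ext x; rfl
  map_mul' f g := by ext x; rfl

theorem linOf_apply (q : ℕ) [Module (ZMod q) (Additive V)] (f : MulAut V) (x : Additive V) :
    linOf q f x = Additive.ofMul (f (Additive.toMul x)) := rfl

theorem linOf_injective (q : ℕ) [Module (ZMod q) (Additive V)] :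
    Function.Injective (linOf (V := V) q) := by
  intro f g h
  ext v
  have := congrArg (fun t : Module.End (ZMod q) (Additive V) => t (Additive.ofMul v)) h
  simp only [linOf_apply] at this
  exact congrArg Additive.toMul this

theorem card_dvd_sq_aux {V : Type u} [CommGroup V] [Finite V] (q : ℕ) [Fact q.Prime]
    [Module (ZMod q) (Additive V)]
    (hq2 : q ≠ 2) (hexp : ∀ v : V, v ^ q = 1) (c b : MulAut V) (m e : ℕ) (hm : 2 ≤ m)
    (hc : orderOf c = 2 ^ m) (he4 : e % 4 = 3) (he2 : (e * e) % 2 ^ m = 1)
    (hbc : b * c * b⁻¹ = c ^ e) (hirr : Irr (Subgroup.zpowers c)) : Nat.card V ∣ q ^ 2 := by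
  have hq : q.Prime := Fact.out
  have : Finite (Module.End (ZMod q) (Additive V)) :=
    Finite.of_injective
      (fun f : Module.End (ZMod q) (Additive V) => (⇑f : Additive V → Additive V))
      (fun f g h => LinearMap.coe_injective h)
  have hLinj := linOf_injective (V := V) q
  set C := linOf q c with hC
  set B := linOf q b with hB
  set B' := linOf q b⁻¹ with hB'
  have hBB' : B * B' = 1 := by rw [hB, hB', ← map_mul]; simp
  have hB'B : B' * B = 1 := by rw [hB, hB', ← map_mul]; simp
  have hBC : B * C * B' = C ^ e := by rw [hB, hB', hC, ← map_mul, ← map_mul, hbc, map_pow]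
  have hCord : orderOf C = 2 ^ m := by rw [← hc]; exact orderOf_injective _ hLinj c
  have hCapp : ∀ x : Additive V, C x = Additive.ofMul (c (Additive.toMul x)) := fun x => rfl
  -- `V` is nontrivial
  have hc1 : c ≠ 1 := by
    intro h
    rw [h, orderOf_one] at hc
    have : 1 < 2 ^ m := Nat.one_lt_two_pow (by omega)
    omega
  obtain ⟨v₀, hv₀⟩ : ∃ v₀ : Additive V, v₀ ≠ 0 := by
    by_contra hcon
    push Not at hcon
    apply hc1
    ext v
    have h1 := hcon (Additive.ofMul (c v))
    have h2 := hcon (Additive.ofMul v)
    have h3 : Additive.ofMul (c v) = Additive.ofMul v := by rw [h1, h2]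
    simpa using congrArg Additive.toMul h3
  let K := Algebra.adjoin (ZMod q) ({C} : Set (Module.End (ZMod q) (Additive V)))
  let c' : K := ⟨C, Algebra.subset_adjoin (Set.mem_singleton C)⟩
  -- kernels and ranges of elements of `K`
  have hcomm : ∀ x : K, (x : Module.End (ZMod q) (Additive V)) * C = C * x := by
    intro x
    have := mul_comm x c'
    exact congrArg Subtype.val this
  have hker : ∀ x : K, x ≠ 0 → ∀ v : Additive V, (x : Module.End (ZMod q) (Additive V)) v = 0 →
      v = 0 := by
    intro x hx v hv
    have h1 := irr_addSubgroup hirr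
      (LinearMap.ker (x : Module.End (ZMod q) (Additive V))).toAddSubgroup (by
        intro y hy
        rw [← hCapp]
        have hy' : (x : Module.End (ZMod q) (Additive V)) y = 0 := hy
        show (x : Module.End (ZMod q) (Additive V)) (C y) = 0
        have := congrArg (fun t : Module.End (ZMod q) (Additive V) => t y) (hcomm x)
        simp only [Module.End.mul_apply] at this
        rw [this, hy', map_zero])
    rcases h1 with h1 | h1
    · have : v ∈ (LinearMap.ker (x : Module.End (ZMod q) (Additive V))).toAddSubgroup := hv
      rw [h1] at this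
      exact this
    · exfalso
      apply hx
      apply Subtype.ext
      ext y
      have : y ∈ (LinearMap.ker (x : Module.End (ZMod q) (Additive V))).toAddSubgroup := by
        rw [h1]; trivial
      exact this
  have : Nontrivial K := by
    refine ⟨⟨0, 1, ?_⟩⟩
    intro h
    have := congrArg (fun t : K => (t : Module.End (ZMod q) (Additive V)) v₀) h
    simp at this
    exact hv₀ this.symm
  have : NoZeroDivisors K := by
    refine ⟨?_⟩
    intro x y hxy
    by_cases hx : x = 0
    · exact Or.inl hx
    · right
      apply Subtype.ext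
      ext v
      have := congrArg (fun t : K => (t : Module.End (ZMod q) (Additive V)) v) hxy
      simp only [Subalgebra.coe_mul, Module.End.mul_apply, ZeroMemClass.coe_zero,
        LinearMap.zero_apply] at this
      exact hker x hx _ this
  have : IsDomain K := NoZeroDivisors.to_isDomain K
  -- the automorphism induced by `b`
  have hmem : ∀ x : K, B * (x : Module.End (ZMod q) (Additive V)) * B' ∈ K := by
    rintro ⟨x, hx⟩
    show B * x * B' ∈ Algebra.adjoin (ZMod q) ({C} : Set (Module.End (ZMod q) (Additive V)))
    induction hx using Algebra.adjoin_induction with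
    | mem y hy =>
      rw [Set.mem_singleton_iff] at hy
      rw [hy, hBC]
      exact Subalgebra.pow_mem _ (Algebra.subset_adjoin (Set.mem_singleton C)) e
    | algebraMap r =>
      rw [← Algebra.commutes, mul_assoc, hBB', mul_one]
      exact Subalgebra.algebraMap_mem _ r
    | add y z _ _ hy hz =>
      rw [mul_add, add_mul]
      exact Subalgebra.add_mem _ hy hz
    | mul y z _ _ hy hz =>
      have : B * (y * z) * B' = (B * y * B') * (B * z * B') := by
        calc B * (y * z) * B' = B * y * 1 * z * B' := by simp only [mul_assoc, one_mul]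
          _ = (B * y * B') * (B * z * B') := by rw [← hB'B]; simp only [mul_assoc]
      rw [this]
      exact Subalgebra.mul_mem _ hy hz
  let σ : K →ₐ[ZMod q] K :=
    { toFun := fun x => ⟨B * (x : Module.End (ZMod q) (Additive V)) * B', hmem x⟩
      map_one' := Subtype.ext (by
        show B * ((1 : K) : Module.End (ZMod q) (Additive V)) * B' = ((1 : K) : Module.End (ZMod q) (Additive V))
        rw [Subalgebra.coe_one, mul_one, hBB'])
      map_mul' := fun x y => Subtype.ext (by
        show B * ((x * y : K) : Module.End (ZMod q) (Additive V)) * B' =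
          (B * (x : Module.End (ZMod q) (Additive V)) * B') *
            (B * (y : Module.End (ZMod q) (Additive V)) * B')
        rw [Subalgebra.coe_mul]
        calc B * ((x : Module.End (ZMod q) (Additive V)) * y) * B'
            = B * x * 1 * y * B' := by simp only [mul_assoc, one_mul]
          _ = (B * x * B') * (B * y * B') := by rw [← hB'B]; simp only [mul_assoc])
      map_zero' := Subtype.ext (by
        show B * ((0 : K) : Module.End (ZMod q) (Additive V)) * B' = ((0 : K) : Module.End (ZMod q) (Additive V))
        rw [Subalgebra.coe_zero, mul_zero, zero_mul])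
      map_add' := fun x y => Subtype.ext (by
        show B * ((x + y : K) : Module.End (ZMod q) (Additive V)) * B' =
          (B * (x : Module.End (ZMod q) (Additive V)) * B') +
            (B * (y : Module.End (ZMod q) (Additive V)) * B')
        rw [Subalgebra.coe_add, mul_add, add_mul])
      commutes' := fun r => Subtype.ext (by
        show B * ((algebraMap (ZMod q) K r : K) : Module.End (ZMod q) (Additive V)) * B' =
          ((algebraMap (ZMod q) K r : K) : Module.End (ZMod q) (Additive V))
        rw [Subalgebra.coe_algebraMap, ← Algebra.commutes, mul_assoc, hBB', mul_one]) }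
  have hσ : σ c' = c' ^ e := by
    apply Subtype.ext
    show B * C * B' = ((c' ^ e : K) : Module.End (ZMod q) (Additive V))
    rw [hBC, Subalgebra.coe_pow]
  have hc'ord : orderOf c' = 2 ^ m := by
    rw [← hCord]
    have hinj : Function.Injective
        ((K.val : K →ₐ[ZMod q] Module.End (ZMod q) (Additive V)) :
          K →* Module.End (ZMod q) (Additive V)) := Subtype.val_injective
    exact (orderOf_injective _ hinj c').symm
  have hgen : Algebra.adjoin (ZMod q) ({c'} : Set K) = ⊤ := by
    have h1 : ({c'} : Set K) = (Subtype.val : K → Module.End (ZMod q) (Additive V)) ⁻¹' {C} := by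
      ext x
      simp only [Set.mem_singleton_iff, Set.mem_preimage]
      exact Subtype.ext_iff
    rw [h1]
    exact Algebra.adjoin_adjoin_coe_preimage
  have hcq : c' ^ (q ^ 2) = c' := domain_frob_sq hq2 c' m e hm hc'ord he4 he2 σ hσ
  have hcard : Nat.card K ≤ q ^ 2 := card_le_sq_of_pow c' hgen hcq
  -- `K → V`, `x ↦ x v₀` is surjective
  have hsurj : Function.Surjective (fun x : K => (x : Module.End (ZMod q) (Additive V)) v₀) := by
    let S : AddSubgroup (Additive V) :=
      { carrier := Set.range (fun x : K => (x : Module.End (ZMod q) (Additive V)) v₀)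
        zero_mem' := ⟨0, by simp⟩
        add_mem' := by
          rintro _ _ ⟨x, rfl⟩ ⟨y, rfl⟩
          exact ⟨x + y, by simp⟩
        neg_mem' := by
          rintro _ ⟨x, rfl⟩
          exact ⟨-x, by simp⟩ }
    have h1 := irr_addSubgroup hirr S (by
      rintro _ ⟨x, rfl⟩
      refine ⟨c' * x, ?_⟩
      show ((c' * x : K) : Module.End (ZMod q) (Additive V)) v₀ = _
      rw [Subalgebra.coe_mul]
      rfl)
    rcases h1 with h1 | h1
    · exfalso
      have : v₀ ∈ S := ⟨1, by simp⟩
      rw [h1] at this
      exact hv₀ this
    · intro v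
      have : v ∈ S := by rw [h1]; trivial
      exact this
  have hVK : Nat.card V ≤ Nat.card K := by
    have := Nat.card_le_card_of_surjective _ hsurj
    exact this
  have hVq : Nat.card V ≤ q ^ 2 := hVK.trans hcard
  have hp : IsPGroup q V := fun v => ⟨1, by simpa using hexp v⟩
  obtain ⟨n, hn⟩ := IsPGroup.iff_card.mp hp
  rw [hn] at hVq ⊢
  have : n ≤ 2 := (Nat.pow_le_pow_iff_right hq.one_lt).mp hVq
  exact Nat.pow_dvd_pow q this

/-- **S4125, piece T8.** -/
theorem card_dvd_sq_of_irr {V : Type u} [CommGroup V] [Finite V] (q : ℕ) (hq : q.Prime)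
    (hq2 : q ≠ 2) (hexp : ∀ v : V, v ^ q = 1) (c b : MulAut V) (m e : ℕ) (hm : 2 ≤ m)
    (hc : orderOf c = 2 ^ m) (he4 : e % 4 = 3) (he2 : (e * e) % 2 ^ m = 1)
    (hbc : b * c * b⁻¹ = c ^ e) (hirr : Irr (Subgroup.zpowers c)) : Nat.card V ∣ q ^ 2 := by
  have hsmul : ∀ x : Additive V, q • x = 0 := fun x => by
    show Additive.ofMul (Additive.toMul x ^ q) = 0
    rw [hexp]; rfl
  exact @card_dvd_sq_aux V _ _ q ⟨hq⟩ (AddCommGroup.zmodModule hsmul) hq2 hexp c b m e hm hc he4
    he2 hbc hirr

end Cfsg.Agent.H7.Baer
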