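import Mathlib
import Cfsg.Agent.H7.G23Rep

set_option autoImplicit false

/-!
# The centralizer of an element of order 13 in the 7-dimensional representation of `G₂(3)`
-/

namespace Cfsg.Agent.H7.G23

open Matrix

/-- An element of order `13`: the image of `x₀(1) x₄(1) x₉(1)`. -/
def M0 : Matrix (Fin 7) (Fin 7) (ZMod 3) := !![1, 2, 2, 0, 2, 0, 0; 2, 0, 2, 2, 0, 1, 1; 1, 1, 1, 0, 0, 0, 2; 2, 1, 2, 1, 2, 0, 0; 0, 0, 1, 0, 1, 0, 0; 2, 2, 0, 2, 0, 1, 1; 2, 2, 0, 0, 0, 0, 1]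
def M0P2 : Matrix (Fin 7) (Fin 7) (ZMod 3) := !![1, 1, 1, 1, 1, 2, 0; 0, 0, 1, 1, 2, 1, 0; 2, 1, 2, 2, 2, 1, 2; 2, 1, 0, 0, 2, 1, 2; 1, 1, 2, 0, 1, 0, 2; 2, 1, 0, 2, 2, 0, 1; 2, 0, 2, 1, 1, 2, 0]
def M0P3 : Matrix (Fin 7) (Fin 7) (ZMod 3) := !![1, 2, 2, 1, 2, 0, 2; 2, 1, 2, 0, 1, 1, 0; 1, 2, 2, 0, 1, 2, 2; 1, 1, 2, 1, 0, 2, 1; 0, 2, 1, 2, 0, 1, 1; 1, 2, 0, 1, 1, 1, 2; 1, 2, 0, 2, 1, 2, 0]
def M0P4 : Matrix (Fin 7) (Fin 7) (ZMod 3) := !![1, 0, 0, 2, 0, 2, 2; 2, 2, 0, 1, 2, 2, 0; 0, 0, 0, 2, 0, 1, 1; 1, 2, 2, 1, 1, 0, 2; 1, 1, 0, 2, 1, 0, 0; 1, 0, 0, 1, 2, 0, 2; 1, 2, 2, 1, 1, 1, 1]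
def M0P8 : Matrix (Fin 7) (Fin 7) (ZMod 3) := !![1, 2, 2, 2, 2, 1, 0; 2, 2, 2, 1, 2, 2, 1; 1, 0, 0, 1, 2, 1, 1; 0, 2, 0, 1, 2, 1, 2; 0, 1, 1, 1, 2, 1, 0; 0, 2, 0, 0, 2, 1, 0; 0, 0, 1, 1, 0, 0, 0]
def M0P12 : Matrix (Fin 7) (Fin 7) (ZMod 3) := !![1, 1, 1, 0, 1, 2, 1; 0, 1, 1, 0, 0, 2, 1; 0, 0, 1, 0, 0, 0, 1; 1, 0, 0, 1, 2, 0, 0; 0, 0, 2, 0, 1, 0, 2; 1, 0, 0, 1, 2, 1, 2; 1, 2, 2, 0, 1, 1, 0]
/-- `c(M0)` for the cubic factor `c = X³ + X² + 2` of the characteristic polynomial. -/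
def M0C : Matrix (Fin 7) (Fin 7) (ZMod 3) := !![1, 0, 0, 2, 0, 2, 2; 2, 0, 0, 1, 0, 2, 0; 0, 0, 0, 2, 0, 0, 1; 0, 2, 2, 0, 2, 0, 0; 1, 0, 0, 2, 0, 1, 0; 0, 0, 0, 0, 0, 0, 0; 0, 2, 2, 0, 2, 1, 2]
def M0Q : Matrix (Fin 7) (Fin 7) (ZMod 3) := !![2, 1, 2, 0, 0, 0, 0; 1, 2, 2, 0, 0, 0, 0; 0, 0, 0, 2, 0, 0, 0; 2, 2, 2, 0, 0, 0, 0; 2, 1, 1, 0, 0, 0, 0; 0, 0, 0, 0, 0, 0, 0; 2, 2, 0, 0, 0, 0, 0]
def M0B : Matrix (Fin 7) (Fin 3) (ZMod 3) := !![0, 0, 0; 2, 2, 1; 1, 0, 1; 0, 1, 2; 0, 1, 1; 0, 1, 2; 0, 1, 2]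
def M0L : Matrix (Fin 3) (Fin 7) (ZMod 3) := !![2, 2, 0, 2, 0, 2, 1; 1, 0, 0, 1, 2, 2, 2; 1, 0, 0, 1, 2, 1, 2]
/-- The orbit of a vector `w` in the kernel of `c(M0)`. -/
def m0tbl (j : ℕ) : Fin 7 → ZMod 3 :=
  [![0, 2, 1, 0, 0, 0, 0], ![0, 2, 0, 1, 1, 1, 1], ![0, 1, 1, 2, 1, 2, 2], ![0, 1, 0, 1, 2, 1, 1], ![0, 1, 0, 0, 2, 0, 0], ![0, 0, 1, 2, 2, 2, 2], ![0, 1, 2, 2, 0, 2, 2]].getD j 0
/-- A basis adapted to the bracket. -/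
def M0bas : Fin 7 → Fin 7 → ZMod 3 :=
  ![![0, 2, 1, 0, 0, 0, 0], ![0, 2, 0, 1, 1, 1, 1], ![0, 1, 1, 2, 1, 2, 2], ![1, 1, 2, 1, 2, 0, 0], ![2, 2, 1, 0, 1, 0, 1], ![1, 1, 1, 1, 2, 0, 0], ![2, 1, 0, 0, 2, 0, 0]]
def M0Bf : Matrix (Fin 7) (Fin 7) (ZMod 3) := Matrix.of fun i k => M0bas k i
def M0Rf : Matrix (Fin 7) (Fin 7) (ZMod 3) := !![2, 2, 0, 2, 0, 2, 1; 1, 0, 0, 1, 2, 2, 2; 1, 0, 0, 1, 2, 1, 2; 0, 1, 1, 2, 1, 2, 2; 0, 0, 0, 0, 0, 2, 1; 0, 2, 2, 2, 2, 0, 1; 2, 0, 0, 1, 0, 0, 2]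

theorem M0_word : X7 0 * X7 4 * X7 9 = M0 := by decide +kernel

theorem M0_pows : M0 * M0 = M0P2 ∧ M0P2 * M0 = M0P3 ∧ M0P2 * M0P2 = M0P4 ∧ M0P4 * M0P4 = M0P8 ∧
    M0P8 * M0P4 = M0P12 ∧ M0P12 * M0 = 1 := by decide +kernel

theorem M0C_eq : M0P3 + M0P2 + (2 : ZMod 3) • (1 : Matrix (Fin 7) (Fin 7) (ZMod 3)) = M0C := by decide +kernel

theorem M0_cert : M0B * M0L + M0Q * M0C = 1 := by decide +kernel

theorem M0C_w : M0C *ᵥ m0tbl 0 = 0 := by decide +kernel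

theorem m0_step : ∀ j < 6, M0 *ᵥ m0tbl j = m0tbl (j + 1) := by decide +kernel

theorem M0B_col : ∀ k : Fin 3, (fun i => M0B i k) = m0tbl k := by decide +kernel

theorem m0_frob : ∀ a0 a1 a2 : ZMod 3,
    a0 • m0tbl 0 + a1 • m0tbl 3 + a2 • m0tbl 6 = a0 • m0tbl 0 + a1 • m0tbl 1 + a2 • m0tbl 2 →
      a1 = 0 ∧ a2 = 0 := by decide +kernel

theorem m0_ne : m0tbl 0 ≠ 0 := by decide +kernel

theorem M0_ne_one : M0 ≠ 1 := by decide +kernel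

theorem M0_brk : M0bas 0 = m0tbl 0 ∧ M0bas 1 = m0tbl 1 ∧ M0bas 2 = m0tbl 2 ∧
    bet (m0tbl 0) (m0tbl 1) = M0bas 3 ∧ M0 *ᵥ M0bas 3 = M0bas 4 ∧ M0 *ᵥ M0bas 4 = M0bas 5 ∧
    bet (m0tbl 0) (M0bas 4) = M0bas 6 ∧
    bet (M0bas 3) (M0bas 4) =
      (0 : ZMod 3) • m0tbl 0 + (1 : ZMod 3) • m0tbl 1 + (0 : ZMod 3) • m0tbl 2 := by
  decide +kernel

theorem M0_eps : ∀ ε : ZMod 3, ε • bet (M0bas 3) (M0bas 4) = bet (M0bas 3) (M0bas 4) → ε = 1 := by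
  decide +kernel

theorem M0_basis : M0Bf * M0Rf = 1 := by decide +kernel

theorem M0_pow13 : M0 ^ 13 = 1 := by
  obtain ⟨h2, -, h4, h8, h12, h13⟩ := M0_pows
  have e2 : M0 ^ 2 = M0P2 := by rw [pow_two, h2]
  have e4 : M0 ^ 4 = M0P4 := by rw [show 4 = 2 + 2 from rfl, pow_add, e2, h4]
  have e8 : M0 ^ 8 = M0P8 := by rw [show 8 = 4 + 4 from rfl, pow_add, e4, h8]
  have e12 : M0 ^ 12 = M0P12 := by rw [show 12 = 8 + 4 from rfl, pow_add, e8, e4, h12]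
  rw [show 13 = 12 + 1 from rfl, pow_succ, e12, h13]

theorem M0_span (z : Matrix (Fin 7) (Fin 7) (ZMod 3)) (hc : Commute z M0) :
    ∃ a : Fin 3 → ZMod 3, z *ᵥ m0tbl 0 = ∑ k : Fin 3, a k • ((M0 ^ (k : ℕ)) *ᵥ m0tbl 0) := by
  obtain ⟨h2, h3, -, -, -, -⟩ := M0_pows
  have hzC : Commute z M0C := by
    rw [← M0C_eq, ← h3, ← h2]
    exact (((hc.mul_right hc).mul_right hc).add_right (hc.mul_right hc)).add_right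
      ((Commute.one_right z).smul_right _)
  have h := mulVec_eq_of_cert z M0C M0Q M0B M0L (m0tbl 0) hzC M0C_w M0_cert
  refine ⟨M0L *ᵥ (z *ᵥ m0tbl 0), h.trans ?_⟩
  have hcol : ∀ k : Fin 3, (M0 ^ (k : ℕ)) *ᵥ m0tbl 0 = fun i => M0B i k := by
    intro k
    rw [pow_mulVec_tbl M0 m0tbl 6 m0_step k (by have := k.isLt; omega), M0B_col]
  simp only [hcol]
  ext i
  simp [Matrix.mulVec, dotProduct, mul_comm]

theorem M0_eps_exists (z : Matrix (Fin 7) (Fin 7) (ZMod 3)) (hc : Commute z M0) (s : ℕ) (hs : s = 2 ∨ s = 3 ∨ s = 7)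
    (hz : z ^ s = 1) : ∃ ε : ZMod 3, ε ≠ 0 ∧ z *ᵥ m0tbl 0 = ε • m0tbl 0 := by
  obtain ⟨a, ha⟩ := M0_span z hc
  have h27 : M0 ^ 3 ^ 3 = M0 := by
    rw [show (3 : ℕ) ^ 3 = 13 * 2 + 1 from by norm_num, pow_succ, pow_mul, M0_pow13, one_pow,
      one_mul]
  have hp : ∀ j ≤ 6, (M0 ^ j) *ᵥ m0tbl 0 = m0tbl j := pow_mulVec_tbl M0 m0tbl 6 m0_step
  rcases hs with rfl | rfl | rfl
  · have h3 : z ^ 3 ^ 1 = z := by
      rw [pow_one]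
      calc z ^ 3 = z ^ 2 * z := pow_succ z 2
        _ = z := by rw [hz, one_mul]
    have hf := frob_mulVec z M0 hc a (m0tbl 0) ha 1
    rw [h3] at hf
    have ha' : z *ᵥ m0tbl 0 = a 0 • m0tbl 0 + a 1 • m0tbl 1 + a 2 • m0tbl 2 := by
      rw [ha, Fin.sum_univ_three]
      simp only [Fin.val_zero, Fin.val_one, Fin.val_two]
      rw [hp 0 (by norm_num), hp 1 (by norm_num), hp 2 (by norm_num)]
    have hf' : z *ᵥ m0tbl 0 = a 0 • m0tbl 0 + a 1 • m0tbl 3 + a 2 • m0tbl 6 := by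
      rw [hf, Fin.sum_univ_three]
      simp only [Fin.val_zero, Fin.val_one, Fin.val_two, pow_one, mul_zero, mul_one]
      rw [hp 0 (by norm_num), hp 3 (by norm_num), show 3 * 2 = 6 from rfl, hp 6 (by norm_num)]
    obtain ⟨h1, h2⟩ := m0_frob _ _ _ (hf'.symm.trans ha')
    rw [h1, h2, zero_smul, zero_smul, add_zero, add_zero] at ha'
    refine ⟨a 0, ?_, ha'⟩
    intro h0
    rw [h0, zero_smul] at ha'
    have h4 : (z ^ 2) *ᵥ m0tbl 0 = 0 := by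
      rw [pow_two, ← Matrix.mulVec_mulVec, ha', Matrix.mulVec_zero]
    rw [hz, Matrix.one_mulVec] at h4
    exact m0_ne h4
  · refine ⟨1, one_ne_zero, ?_⟩
    have hf := frob_fix z M0 hc a (m0tbl 0) ha 3 h27
    have h1 : z ^ 3 ^ 3 = 1 := by
      rw [show (3 : ℕ) ^ 3 = 3 * 9 from by norm_num, pow_mul, hz, one_pow]
    rw [h1, Matrix.one_mulVec] at hf
    rw [one_smul]
    exact hf.symm
  · refine ⟨1, one_ne_zero, ?_⟩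
    have hf := frob_fix z M0 hc a (m0tbl 0) ha 3 h27
    have h28 : z * z ^ 3 ^ 3 = 1 := by
      rw [← pow_succ', show (3 : ℕ) ^ 3 + 1 = 7 * 4 from by norm_num, pow_mul, hz, one_pow]
    have hzz : (z * z) *ᵥ m0tbl 0 = m0tbl 0 := by
      have h1 := congrArg (fun v => z *ᵥ v) hf
      simp only [Matrix.mulVec_mulVec] at h1
      rw [h28, Matrix.one_mulVec] at h1
      exact h1.symm
    have h8 : z = (z * z) * ((z * z) * ((z * z) * (z * z))) := by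
      calc z = z ^ 7 * z := by rw [hz, one_mul]
        _ = (z * z) * ((z * z) * ((z * z) * (z * z))) := by
          simp only [pow_succ, pow_zero, one_mul, mul_assoc]
    rw [one_smul]
    have key : ∀ u : Matrix (Fin 7) (Fin 7) (ZMod 3), u *ᵥ m0tbl 0 = m0tbl 0 →
        (u * (u * (u * u))) *ᵥ m0tbl 0 = m0tbl 0 := by
      intro u hu
      rw [← Matrix.mulVec_mulVec, ← Matrix.mulVec_mulVec, ← Matrix.mulVec_mulVec, hu, hu, hu, hu]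
    calc z *ᵥ m0tbl 0 = ((z * z) * ((z * z) * ((z * z) * (z * z)))) *ᵥ m0tbl 0 := by rw [← h8]
      _ = m0tbl 0 := key _ hzz

theorem M0_end (z : Matrix (Fin 7) (Fin 7) (ZMod 3)) (hc : Commute z M0) (hB : PresB z) (ε : ZMod 3) (hε : ε ≠ 0)
    (hzw : z *ᵥ m0tbl 0 = ε • m0tbl 0) : z = 1 := by
  have hsq := zmod3_sq ε hε
  have h1 : z *ᵥ m0tbl 1 = ε • m0tbl 1 := by
    rw [← m0_step 0 (by norm_num), mulVec_comm_of_commute z M0 hc, hzw, Matrix.mulVec_smul]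
  have h2 : z *ᵥ m0tbl 2 = ε • m0tbl 2 := by
    rw [← m0_step 1 (by norm_num), mulVec_comm_of_commute z M0 hc, h1, Matrix.mulVec_smul]
  obtain ⟨b0, b1, b2, b3, b4, b5, b6, btp⟩ := M0_brk
  have ht0 : z *ᵥ M0bas 3 = M0bas 3 := by
    rw [← b3, hB, hzw, h1, bet_smul_left, bet_smul_right, smul_smul, hsq, one_smul]
  have ht1 : z *ᵥ M0bas 4 = M0bas 4 := by rw [← b4, mulVec_comm_of_commute z M0 hc, ht0]
  have ht2 : z *ᵥ M0bas 5 = M0bas 5 := by rw [← b5, mulVec_comm_of_commute z M0 hc, ht1]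
  have htp : z *ᵥ bet (M0bas 3) (M0bas 4) = bet (M0bas 3) (M0bas 4) := by rw [hB, ht0, ht1]
  have htp2 : z *ᵥ bet (M0bas 3) (M0bas 4) = ε • bet (M0bas 3) (M0bas 4) := by
    rw [btp]
    simp only [Matrix.mulVec_add, Matrix.mulVec_smul, hzw, h1, h2]
    module
  have hε1 : ε = 1 := M0_eps ε (htp2.symm.trans htp)
  subst hε1
  rw [one_smul] at hzw h1 h2
  have hx : z *ᵥ M0bas 6 = M0bas 6 := by rw [← b6, hB, hzw, ht1]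
  apply eq_one_of_fix_basis z M0Bf M0Rf M0_basis
  intro k
  show z *ᵥ M0bas k = M0bas k
  fin_cases k
  · show z *ᵥ M0bas 0 = M0bas 0
    rw [b0]; exact hzw
  · show z *ᵥ M0bas 1 = M0bas 1
    rw [b1]; exact h1
  · show z *ᵥ M0bas 2 = M0bas 2
    rw [b2]; exact h2
  · exact ht0
  · exact ht1
  · exact ht2
  · exact hx

/-- The centralizer statement for the element of order `13`. -/
theorem M0_cent (z : Matrix (Fin 7) (Fin 7) (ZMod 3)) (hc : Commute z M0) (hB : PresB z) (s : ℕ)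
    (hs : s = 2 ∨ s = 3 ∨ s = 7) (hz : z ^ s = 1) : z = 1 := by
  obtain ⟨ε, hε, hzw⟩ := M0_eps_exists z hc s hs hz
  exact M0_end z hc hB ε hε hzw

end Cfsg.Agent.H7.G23
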