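import Mathlib

set_option autoImplicit false

/-!
# Generic lemmas for centralizer computations in a matrix group over `ZMod 3`
-/

namespace Cfsg.Agent.H7.G23

open Matrix

section Lin

variable {n : Type*} [Fintype n] [DecidableEq n] {R : Type*} [CommRing R]

/-- A kernel certificate: if `z` commutes with `C`, `C w = 0` and `B L + Q C = 1`, then `z w`
lies in the column space of `B`. -/
theorem mulVec_eq_of_cert {k : Type*} [Fintype k] (z C Q : Matrix n n R) (B : Matrix n k R)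
    (L : Matrix k n R) (w : n → R) (hzC : Commute z C) (hCw : C *ᵥ w = 0)
    (hcert : B * L + Q * C = 1) : z *ᵥ w = B *ᵥ (L *ᵥ (z *ᵥ w)) := by
  have h1 : C *ᵥ (z *ᵥ w) = 0 := by
    rw [Matrix.mulVec_mulVec, ← hzC.eq, ← Matrix.mulVec_mulVec, hCw, Matrix.mulVec_zero]
  calc z *ᵥ w = (1 : Matrix n n R) *ᵥ (z *ᵥ w) := (Matrix.one_mulVec _).symm
    _ = (B * L + Q * C) *ᵥ (z *ᵥ w) := by rw [hcert]
    _ = B *ᵥ (L *ᵥ (z *ᵥ w)) := by
      rw [Matrix.add_mulVec, ← Matrix.mulVec_mulVec, ← Matrix.mulVec_mulVec, h1,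
        Matrix.mulVec_zero, add_zero]

/-- A matrix fixing the columns of an invertible matrix is the identity. -/
theorem eq_one_of_fix_basis (z B R' : Matrix n n R) (hBR : B * R' = 1)
    (hfix : ∀ k, z *ᵥ (fun i => B i k) = fun i => B i k) : z = 1 := by
  have h1 : z * B = B := by
    ext i k
    have := congrFun (hfix k) i
    simpa [Matrix.mulVec, dotProduct, Matrix.mul_apply] using this
  calc z = z * (B * R') := by rw [hBR, mul_one]
    _ = (z * B) * R' := (mul_assoc _ _ _).symm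
    _ = 1 := by rw [h1, hBR]

theorem pow_mulVec_tbl (M : Matrix n n R) (m : ℕ → n → R) (J : ℕ)
    (hstep : ∀ j < J, M *ᵥ m j = m (j + 1)) : ∀ j ≤ J, (M ^ j) *ᵥ m 0 = m j := by
  intro j
  induction j with
  | zero => intro _; simp
  | succ j ih =>
    intro hj
    rw [pow_succ', ← Matrix.mulVec_mulVec, ih (by omega), hstep j (by omega)]

theorem mulVec_comm_of_commute (z M : Matrix n n R) (h : Commute z M) (v : n → R) :
    z *ᵥ (M *ᵥ v) = M *ᵥ (z *ᵥ v) := by
  rw [Matrix.mulVec_mulVec, h.eq, ← Matrix.mulVec_mulVec]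

theorem pow_mulVec_of_eq (z H : Matrix n n R) (hc : Commute z H) (w : n → R)
    (hzw : z *ᵥ w = H *ᵥ w) (j : ℕ) : (z ^ j) *ᵥ w = (H ^ j) *ᵥ w := by
  induction j with
  | zero => simp
  | succ j ih =>
    rw [pow_succ, ← Matrix.mulVec_mulVec, hzw, Matrix.mulVec_mulVec, (hc.pow_left j).eq,
      ← Matrix.mulVec_mulVec, ih, Matrix.mulVec_mulVec, ← pow_succ']

end Lin

section Frob

variable {A : Type*} [Ring A] (p : ℕ) [Fact p.Prime] [CharP A p]

theorem sum_pow_char_pow_of_commute {ι : Type*} (s : Finset ι) (f : ι → A)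
    (hc : ∀ i ∈ s, ∀ j ∈ s, Commute (f i) (f j)) (e : ℕ) :
    (∑ i ∈ s, f i) ^ p ^ e = ∑ i ∈ s, f i ^ p ^ e := by
  classical
  induction s using Finset.induction_on with
  | empty =>
    simp [zero_pow (pow_ne_zero e (Fact.out : p.Prime).ne_zero)]
  | insert i s hi ih =>
    rw [Finset.sum_insert hi, Finset.sum_insert hi, add_pow_char_pow_of_commute, ih]
    · intro a ha b hb
      exact hc a (Finset.mem_insert_of_mem ha) b (Finset.mem_insert_of_mem hb)
    · exact Commute.sum_right _ _ _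
        (fun j hj => hc i (Finset.mem_insert_self i s) j (Finset.mem_insert_of_mem hj))

end Frob

section Mat3

variable {d : ℕ}

theorem zmod3_pow (a : ZMod 3) (e : ℕ) : a ^ 3 ^ e = a := by
  induction e with
  | zero => simp
  | succ e ih => rw [pow_succ, pow_mul, ih]; exact ZMod.pow_card a

/-- The polynomial in `M` with coefficient vector `a`. -/
def polyM (M : Matrix (Fin 7) (Fin 7) (ZMod 3)) (a : Fin d → ZMod 3) :
    Matrix (Fin 7) (Fin 7) (ZMod 3) := ∑ k : Fin d, a k • M ^ (k : ℕ)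

theorem polyM_pow (M : Matrix (Fin 7) (Fin 7) (ZMod 3)) (a : Fin d → ZMod 3) (e : ℕ) :
    polyM M a ^ 3 ^ e = ∑ k : Fin d, a k • M ^ (3 ^ e * (k : ℕ)) := by
  unfold polyM
  rw [sum_pow_char_pow_of_commute 3]
  · apply Finset.sum_congr rfl
    intro k _
    rw [smul_pow, ← pow_mul, mul_comm (k : ℕ), zmod3_pow]
  · intro i _ j _
    exact ((Commute.pow_pow_self M _ _).smul_right _).smul_left _

theorem commute_polyM (z M : Matrix (Fin 7) (Fin 7) (ZMod 3)) (h : Commute z M)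
    (a : Fin d → ZMod 3) : Commute z (polyM M a) :=
  Commute.sum_right _ _ _ (fun k _ => (h.pow_right _).smul_right _)

/-- Frobenius: if `z w = (∑ a_k M^k) w` and `z` commutes with `M`, then
`z^(3^e) w = (∑ a_k M^(3^e k)) w`. -/
theorem frob_mulVec (z M : Matrix (Fin 7) (Fin 7) (ZMod 3)) (hzM : Commute z M)
    (a : Fin d → ZMod 3) (w : Fin 7 → ZMod 3)
    (hzw : z *ᵥ w = ∑ k : Fin d, a k • ((M ^ (k : ℕ)) *ᵥ w)) (e : ℕ) :
    (z ^ 3 ^ e) *ᵥ w = ∑ k : Fin d, a k • ((M ^ (3 ^ e * (k : ℕ))) *ᵥ w) := by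
  have h1 : polyM M a *ᵥ w = ∑ k : Fin d, a k • ((M ^ (k : ℕ)) *ᵥ w) := by
    unfold polyM
    rw [Matrix.sum_mulVec]
    simp [Matrix.smul_mulVec]
  rw [pow_mulVec_of_eq z (polyM M a) (commute_polyM z M hzM a) w (hzw.trans h1.symm), polyM_pow,
    Matrix.sum_mulVec]
  simp [Matrix.smul_mulVec]

/-- If moreover `M^(3^e) = M`, then `z^(3^e) w = z w`. -/
theorem frob_fix (z M : Matrix (Fin 7) (Fin 7) (ZMod 3)) (hzM : Commute z M)
    (a : Fin d → ZMod 3) (w : Fin 7 → ZMod 3)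
    (hzw : z *ᵥ w = ∑ k : Fin d, a k • ((M ^ (k : ℕ)) *ᵥ w)) (e : ℕ) (hM : M ^ 3 ^ e = M) :
    (z ^ 3 ^ e) *ᵥ w = z *ᵥ w := by
  rw [frob_mulVec z M hzM a w hzw e, hzw]
  apply Finset.sum_congr rfl
  intro k _
  rw [pow_mul, hM]

theorem zmod3_sq (ε : ZMod 3) (hε : ε ≠ 0) : ε * ε = 1 := by
  revert ε
  decide

end Mat3

section Syl

variable {G : Type*} [Group G] [Finite G]

/-- If `y` has prime order `p`, `p²` does not divide `|G|`, and no nontrivial element `z` with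
`z ^ s = 1` commutes with `y`, then `G` has no element of order `p * s`. -/
theorem no_order_mul (p s : ℕ) [Fact p.Prime] (hs : 1 < s) (hp2 : ¬ p ^ 2 ∣ Nat.card G) (y : G)
    (hy : orderOf y = p) (hcent : ∀ z : G, Commute z y → z ^ s = 1 → z = 1) (x : G) :
    orderOf x ≠ p * s := by
  intro hx
  have hp : p.Prime := Fact.out
  have hs0 : s ≠ 0 := by omega
  have hx1 : orderOf (x ^ s) = p := by
    rw [orderOf_pow_of_dvd hs0 (by rw [hx]; exact dvd_mul_left s p), hx,
      Nat.mul_div_cancel _ (by omega)]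
  have hfac : (Nat.card G).factorization p = 1 := by
    have h1 : p ∣ Nat.card G := by rw [← hy]; exact orderOf_dvd_natCard y
    have hpos : Nat.card G ≠ 0 := Nat.card_pos.ne'
    apply le_antisymm
    · by_contra hlt
      push_neg at hlt
      exact hp2 ((hp.pow_dvd_iff_le_factorization hpos).mpr hlt)
    · exact (hp.dvd_iff_one_le_factorization hpos).mp h1
  have hcP : Nat.card (Subgroup.zpowers (x ^ s)) = p ^ (Nat.card G).factorization p := by
    rw [Nat.card_zpowers, hx1, hfac, pow_one]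
  have hcQ : Nat.card (Subgroup.zpowers y) = p ^ (Nat.card G).factorization p := by
    rw [Nat.card_zpowers, hy, hfac, pow_one]
  obtain ⟨g, hg⟩ := MulAction.exists_smul_eq G (Sylow.ofCard _ hcP) (Sylow.ofCard _ hcQ)
  have hyQ : y ∈ ((g • Sylow.ofCard (Subgroup.zpowers (x ^ s)) hcP : Sylow p G) : Subgroup G) := by
    rw [hg]; exact Subgroup.mem_zpowers y
  rw [Sylow.coe_subgroup_smul, Subgroup.mem_pointwise_smul_iff_inv_smul_mem] at hyQ
  have hyQ' : g⁻¹ * y * g ∈ Subgroup.zpowers (x ^ s) := by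
    simpa [MulAut.smul_def] using hyQ
  obtain ⟨k, hk⟩ := Subgroup.mem_zpowers_iff.mp hyQ'
  have hy' : y = g * (x ^ s) ^ k * g⁻¹ := by rw [hk]; group
  have hcomm : Commute (x ^ p) ((x ^ s) ^ k) :=
    (((Commute.refl x).pow_left p).pow_right s).zpow_right k
  have hc : Commute (g * x ^ p * g⁻¹) y := by
    rw [hy']
    show g * x ^ p * g⁻¹ * (g * (x ^ s) ^ k * g⁻¹) = g * (x ^ s) ^ k * g⁻¹ * (g * x ^ p * g⁻¹)
    have h := hcomm.eq
    calc g * x ^ p * g⁻¹ * (g * (x ^ s) ^ k * g⁻¹) = g * (x ^ p * (x ^ s) ^ k) * g⁻¹ := by group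
      _ = g * ((x ^ s) ^ k * x ^ p) * g⁻¹ := by rw [h]
      _ = g * (x ^ s) ^ k * g⁻¹ * (g * x ^ p * g⁻¹) := by group
  have hz : (g * x ^ p * g⁻¹) ^ s = 1 := by
    rw [conj_pow, ← pow_mul, ← hx, pow_orderOf_eq_one, mul_one, mul_inv_cancel]
  have h1 := hcent _ hc hz
  have h2 : x ^ p = 1 := by
    have : g⁻¹ * (g * x ^ p * g⁻¹) * g = 1 := by rw [h1]; group
    rw [← this]; group
  have h3 := orderOf_dvd_of_pow_eq_one h2
  rw [hx] at h3
  have h4 := Nat.le_of_dvd hp.pos h3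
  nlinarith [hp.pos]

end Syl

end Cfsg.Agent.H7.G23
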