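import Mathlib
import Cfsg.Agent.H7.G23Rep
import Cfsg.Agent.H23.Simple
import Cfsg.Agent.H23.ChkG2
import Cfsg.Agent.H23.NconjG2
import Cfsg.Agent.H23.TabG2
import Cfsg.Agent.H23.CommG2
import Cfsg.Agent.H23.Tab2G2
import Cfsg.Agent.H23.PerfG2
import Cfsg.Agent.H23.OrdG2
import Cfsg.Agent.H23.FieldMap

set_option autoImplicit false

/-!
# The 7-dimensional representation of `G₂(3)`: the homomorphism and its injectivity
-/

namespace Cfsg.Agent.H7.G23

open Matrix Cfsg.Lie

theorem g23_sem : H23.Sem chevG2 (ZMod 3) (H23.zR chevG2 H23.ctblG2) := H23.chk_G2.sem (ZMod 3)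

theorem good_x (r : ℕ) (t : ZMod 3) : Good (chevG2.x (ZMod 3) r t) := by
  by_cases hr : r < chevG2.nroots
  · have h1 : Good (chevG2.x (ZMod 3) r 1) := by
      rw [ChevalleyDatum.x, dif_pos hr]
      exact good_xMat ⟨r, hr⟩
    have ht : t = 0 ∨ t = 1 ∨ t = 1 + 1 := by revert t; decide
    rcases ht with rfl | rfl | rfl
    · rw [H23.x_zero]; exact good_one
    · exact h1
    · rw [← g23_sem.add]; exact good_mul _ _ h1 h1
  · rw [ChevalleyDatum.x, dif_neg hr]; exact good_one

theorem good_of_mem (g : GL chevG2.Idx (ZMod 3)) (hg : g ∈ chevG2.group (ZMod 3)) :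
    Good (g : Matrix chevG2.Idx chevG2.Idx (ZMod 3)) := by
  have key : ∀ g ∈ Submonoid.closure {g : GL chevG2.Idx (ZMod 3) | ∃ (r : Fin chevG2.nroots)
      (t : ZMod 3), (g : Matrix chevG2.Idx chevG2.Idx (ZMod 3)) = chevG2.xMat (ZMod 3) r t},
      Good (g : Matrix chevG2.Idx chevG2.Idx (ZMod 3)) := by
    intro g h1
    induction h1 using Submonoid.closure_induction with
    | mem x hx =>
      obtain ⟨r, t, h⟩ := hx
      rw [h]
      have h2 := good_x r.val t
      rw [ChevalleyDatum.x, dif_pos r.isLt] at h2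
      exact h2
    | one => exact good_one
    | mul x y _ _ hx hy => rw [Units.val_mul]; exact good_mul _ _ hx hy
  apply key
  rw [← Subgroup.closure_toSubmonoid_of_finite]
  exact hg

/-- The representation of `G₂(3)` on the short-root ideal. -/
def rho : ↥(chevG2.group (ZMod 3)) →* Matrix (Fin 7) (Fin 7) (ZMod 3) where
  toFun g := sub7 ((g : GL chevG2.Idx (ZMod 3)) : Matrix chevG2.Idx chevG2.Idx (ZMod 3))
  map_one' := sub7_one
  map_mul' g h := sub7_mul _ _ (good_of_mem h.1 h.2).1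

theorem rho_presB (g : ↥(chevG2.group (ZMod 3))) : PresB (rho g) := (good_of_mem g.1 g.2).2

/-- The root element `x_r(1)` as an element of `G₂(3)`. -/
noncomputable def xg (r : ℕ) : ↥(chevG2.group (ZMod 3)) :=
  ⟨H23.xU g23_sem r 1, H23.xU_mem_group g23_sem r 1⟩

theorem rho_xg (r : Fin 12) : rho (xg r.val) = X7 r := by
  show sub7 (chevG2.x (ZMod 3) r.val 1) = X7 r
  rw [ChevalleyDatum.x, dif_pos (show r.val < chevG2.nroots from r.isLt)]
  exact xMat_sub7 r

theorem g23_simple : IsSimpleGroup ↥(chevG2.group (ZMod 3)) := by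
  have hP : H23.PackB chevG2 (ZMod 3) (H23.zR chevG2 H23.ctblG2) _ :=
    ⟨H23.chk_G2.sem (ZMod 3), H23.nconj_G2.semN H23.chk_G2.tblOK (ZMod 3),
      H23.comm_G2.semC H23.chk_G2.tblOK (ZMod 3), H23.tab_G2, H23.tabC_G2, H23.etaNeg_G2,
      H23.tab2_G2⟩
  have hperf : commutator ↥(chevG2.group (ZMod 3)) = ⊤ :=
    H23.perfect_of_perfOK H23.chk_G2.tblOK (H23.chk_G2.sem (ZMod 3)) H23.perf_G2
      (fun _ => ⟨2, by decide, by decide⟩)
  exact (H23.simple_of hP (H23.trin_G2.semV H23.chk_G2.tblOK (ZMod 3)) _ H23.tabW_G2 hperf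
    H23.tabT_G2 H23.dynkin_G2).1

theorem X7_zero_ne_one : X7 0 ≠ 1 := by decide

theorem rho_injective : Function.Injective rho := by
  have := g23_simple
  have hker : rho.ker = ⊥ := by
    rcases (rho.normal_ker).eq_bot_or_eq_top with h | h
    · exact h
    · exfalso
      have h1 : xg (0 : Fin 12).val ∈ rho.ker := by rw [h]; trivial
      rw [MonoidHom.mem_ker, rho_xg] at h1
      exact X7_zero_ne_one h1
  intro a b hab
  have h1 : a * b⁻¹ ∈ rho.ker := by
    rw [MonoidHom.mem_ker, map_mul, hab, ← map_mul, mul_inv_cancel, map_one]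
  rw [hker, Subgroup.mem_bot] at h1
  exact mul_inv_eq_one.mp h1

theorem rho_eq_one_iff (g : ↥(chevG2.group (ZMod 3))) : rho g = 1 ↔ g = 1 := by
  constructor
  · intro h
    exact rho_injective (by rw [h, map_one])
  · rintro rfl
    exact map_one _

theorem g23_card : Nat.card ↥(chevG2.group (ZMod 3)) = 4245696 := by
  rw [H23.order_G2 (F := ZMod 3) (q := 3) (by simp)]
  norm_num

end Cfsg.Agent.H7.G23
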