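import Mathlib
import Cfsg.Agent.H7.PSL2Inv

set_option autoImplicit false

/-!
# Element orders of `PSL(2, 13)`
-/

namespace Cfsg.Agent.H7.G23

open Matrix

open scoped MatrixGroups

theorem luc_map {F K : Type*} [Field F] [Field K] (φ : F →+* K) (τ : F) (n : ℕ) :
    luc (φ τ) n = φ (luc τ n) := by
  induction n using Nat.twoStepInduction with
  | zero => simp [luc_zero]
  | one => simp [luc_one]
  | more k ih0 ih1 => rw [luc_add_two, luc_add_two, ih0, ih1, map_sub, map_mul]

instance fact13 : Fact (Nat.Prime 13) := ⟨by norm_num⟩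

theorem luc13 : ∀ t : ZMod 13, luc t 6 = 0 ∨ luc t 7 = 0 ∨ luc t 13 = 0 := by decide

theorem luc13_nine : luc (9 : ZMod 13) 6 = 0 ∧ luc (9 : ZMod 13) 2 * (2 - 7) ≠ 0 ∧
    luc (9 : ZMod 13) 3 * (2 - 7) ≠ 0 := by decide

variable {E : Type*} [Field E] [Fintype E]

theorem luc_card13 (hE : Fintype.card E = 13) (t : E) :
    luc t 6 = 0 ∨ luc t 7 = 0 ∨ luc t 13 = 0 := by
  let e : ZMod 13 ≃+* E := ZMod.ringEquivOfPrime E (by norm_num) hE
  have ht : t = e.toRingHom (e.symm t) := by simp
  rw [ht, luc_map, luc_map, luc_map]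
  rcases luc13 (e.symm t) with h | h | h
  · left; rw [h, map_zero]
  · right; left; rw [h, map_zero]
  · right; right; rw [h, map_zero]

/-- Every element of `PSL(2, 13)` has order dividing `6`, `7` or `13`. -/
theorem psl13_orderOf_dvd (hE : Fintype.card E = 13) (y : PSL(2, E)) :
    orderOf y ∣ 6 ∨ orderOf y ∣ 7 ∨ orderOf y ∣ 13 := by
  obtain ⟨A, rfl⟩ := QuotientGroup.mk_surjective y
  have key : ∀ n : ℕ, n ≠ 0 → luc (A.1 0 0 + A.1 1 1) n = 0 →
      orderOf (QuotientGroup.mk A : PSL(2, E)) ∣ n := by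
    intro n hn h
    apply orderOf_dvd_of_pow_eq_one
    rw [← QuotientGroup.mk_pow]
    exact (QuotientGroup.eq_one_iff _).mpr (sl2_pow_mem_center_of_luc A n hn h)
  rcases luc_card13 hE (A.1 0 0 + A.1 1 1) with h | h | h
  · left; exact key 6 (by norm_num) h
  · right; left; exact key 7 (by norm_num) h
  · right; right; exact key 13 (by norm_num) h

/-- `PSL(2, 13)` has an element of order `6`. -/
theorem psl13_exists_six (hE : Fintype.card E = 13) : ∃ y : PSL(2, E), orderOf y = 6 := by
  let e : ZMod 13 ≃+* E := ZMod.ringEquivOfPrime E (by norm_num) hE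
  have hdet : e.toRingHom 2 * e.toRingHom 7 - 0 * 0 = 1 := by
    rw [← map_mul, zero_mul, sub_zero]
    have : (2 : ZMod 13) * 7 = 1 := by decide
    rw [this, map_one]
  let A : SL(2, E) := slMk (e.toRingHom 2) 0 0 (e.toRingHom 7) hdet
  have htr : A.1 0 0 + A.1 1 1 = e.toRingHom 9 := by
    show e.toRingHom 2 + e.toRingHom 7 = _
    rw [← map_add]
    congr 1
  have hdiff : A.1 0 0 - A.1 1 1 = e.toRingHom (2 - 7) := by
    show e.toRingHom 2 - e.toRingHom 7 = _
    rw [← map_sub]
  obtain ⟨h6, h2, h3⟩ := luc13_nine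
  have hnc : ∀ k : ℕ, luc (9 : ZMod 13) (k + 1) * (2 - 7) ≠ 0 →
      (QuotientGroup.mk A : PSL(2, E)) ^ (k + 1) ≠ 1 := by
    intro k hk h
    rw [← QuotientGroup.mk_pow] at h
    have hc := (QuotientGroup.eq_one_iff _).mp h
    rw [sl2_mem_center_iff] at hc
    have h00 := hc.2.2
    rw [Matrix.SpecialLinearGroup.coe_pow, sl2_pow_luc, htr] at h00
    simp only [Matrix.sub_apply, Matrix.smul_apply, Matrix.one_apply_eq, smul_eq_mul] at h00
    have h1 : luc (e.toRingHom 9) (k + 1) * (A.1 0 0 - A.1 1 1) = 0 := by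
      linear_combination h00
    rw [hdiff, luc_map, ← map_mul] at h1
    exact hk (e.toRingHom.injective (by rw [h1, map_zero]))
  refine ⟨QuotientGroup.mk A, ?_⟩
  apply orderOf_eq_of_pow_and_pow_div_prime (by norm_num)
  · rw [← QuotientGroup.mk_pow]
    apply (QuotientGroup.eq_one_iff _).mpr
    apply sl2_pow_mem_center_of_luc A 6 (by norm_num)
    rw [htr, luc_map, h6, map_zero]
  · intro p hp hpd
    have h23 : p = 2 ∨ p = 3 := by
      have h : p ∣ 2 * 3 := hpd
      rcases (Nat.Prime.dvd_mul hp).mp h with h | h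
      · left; exact (Nat.prime_dvd_prime_iff_eq hp Nat.prime_two).mp h
      · right; exact (Nat.prime_dvd_prime_iff_eq hp Nat.prime_three).mp h
    rcases h23 with rfl | rfl
    · exact hnc 2 h3
    · exact hnc 1 h2

theorem psl13_card (hE : Fintype.card E = 13) : Nat.card PSL(2, E) = 1092 := by
  have h := card_PSL2_odd (F := E) (by rw [hE]; decide)
  rw [hE] at h
  omega

/-- If an element of `PSL(2, 13)` has order `r * s` for distinct primes `r`, `s`, then `r * s = 6`. -/
theorem psl13_order_prod (hE : Fintype.card E = 13) (y : PSL(2, E)) (r s : ℕ) (hr : r.Prime)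
    (hs : s.Prime) (hrs : r ≠ s) (hy : orderOf y = r * s) : r * s = 6 := by
  have hnp : ¬ (r * s).Prime := by
    intro h
    rcases (Nat.prime_mul_iff.mp h) with ⟨-, h1⟩ | ⟨-, h1⟩
    · exact hs.one_lt.ne' h1
    · exact hr.one_lt.ne' h1
  have h2r := hr.two_le
  have h2s := hs.two_le
  have h6 : 6 ≤ r * s := by
    rcases Nat.lt_or_ge r s with h | h
    · have : 3 ≤ s := by omega
      nlinarith
    · have : 3 ≤ r := by omega
      nlinarith
  rcases psl13_orderOf_dvd hE y with h | h | h
  · rw [hy] at h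
    exact le_antisymm (Nat.le_of_dvd (by norm_num) h) h6
  · rw [hy] at h
    exfalso
    rcases (Nat.dvd_prime (by norm_num : Nat.Prime 7)).mp h with h1 | h1
    · omega
    · apply hnp
      rw [h1]
      norm_num
  · rw [hy] at h
    exfalso
    rcases (Nat.dvd_prime (by norm_num : Nat.Prime 13)).mp h with h1 | h1
    · omega
    · apply hnp
      rw [h1]
      norm_num

end Cfsg.Agent.H7.G23
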