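import Mathlib
import Cfsg.Agent.H7.G23Grp
import Cfsg.Agent.H7.G23C0
import Cfsg.Agent.H7.G23C1
import Cfsg.Agent.H7.G23PSL

set_option autoImplicit false

/-!
# Element orders of `G₂(3)`: no elements of order 14, 21, 26, 39, 91, and an element of order 6
-/

namespace Cfsg.Agent.H7.G23

open Matrix Cfsg.Lie

open scoped MatrixGroups

/-- An element of order `6`: the image of `x₀(1) x₀(1) x₁₁(1)`. -/
def M6 : Matrix (Fin 7) (Fin 7) (ZMod 3) := !![1, 0, 0, 0, 0, 0, 0; 0, 0, 0, 0, 0, 2, 0; 0, 0, 0, 0, 0, 0, 1; 0, 0, 0, 1, 0, 0, 0; 0, 0, 0, 0, 1, 0, 0; 0, 1, 0, 0, 0, 1, 0; 0, 0, 2, 0, 0, 0, 1]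
def M6P2 : Matrix (Fin 7) (Fin 7) (ZMod 3) := !![1, 0, 0, 0, 0, 0, 0; 0, 2, 0, 0, 0, 2, 0; 0, 0, 2, 0, 0, 0, 1; 0, 0, 0, 1, 0, 0, 0; 0, 0, 0, 0, 1, 0, 0; 0, 1, 0, 0, 0, 0, 0; 0, 0, 2, 0, 0, 0, 0]
def M6P3 : Matrix (Fin 7) (Fin 7) (ZMod 3) := !![1, 0, 0, 0, 0, 0, 0; 0, 2, 0, 0, 0, 0, 0; 0, 0, 2, 0, 0, 0, 0; 0, 0, 0, 1, 0, 0, 0; 0, 0, 0, 0, 1, 0, 0; 0, 0, 0, 0, 0, 2, 0; 0, 0, 0, 0, 0, 0, 2]

theorem M6_facts : X7 0 * X7 0 * X7 11 = M6 ∧ M6 * M6 = M6P2 ∧ M6P2 * M6 = M6P3 ∧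
    M6P3 * M6P3 = 1 ∧ M6P2 ≠ 1 ∧ M6P3 ≠ 1 := by decide +kernel

noncomputable def y0 : ↥(chevG2.group (ZMod 3)) := xg 0 * xg 4 * xg 9

noncomputable def y1 : ↥(chevG2.group (ZMod 3)) := xg 0 * xg 1 * xg 3 * xg 11

noncomputable def y6 : ↥(chevG2.group (ZMod 3)) := xg 0 * xg 0 * xg 11

theorem rho_y0 : rho y0 = M0 := by
  unfold y0
  rw [map_mul, map_mul, show rho (xg 0) = X7 0 from rho_xg 0,
    show rho (xg 4) = X7 4 from rho_xg 4, show rho (xg 9) = X7 9 from rho_xg 9, M0_word]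

theorem rho_y1 : rho y1 = M1 := by
  unfold y1
  rw [map_mul, map_mul, map_mul, show rho (xg 0) = X7 0 from rho_xg 0,
    show rho (xg 1) = X7 1 from rho_xg 1, show rho (xg 3) = X7 3 from rho_xg 3,
    show rho (xg 11) = X7 11 from rho_xg 11, M1_word]

theorem rho_y6 : rho y6 = M6 := by
  unfold y6
  rw [map_mul, map_mul, show rho (xg 0) = X7 0 from rho_xg 0,
    show rho (xg 11) = X7 11 from rho_xg 11, M6_facts.1]

instance fact7 : Fact (Nat.Prime 7) := ⟨by norm_num⟩

theorem orderOf_y0 : orderOf y0 = 13 := by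
  apply orderOf_eq_prime
  · apply rho_injective
    rw [map_pow, rho_y0, M0_pow13, map_one]
  · intro h
    have h1 := congrArg rho h
    rw [rho_y0, map_one] at h1
    exact M0_ne_one h1

theorem orderOf_y1 : orderOf y1 = 7 := by
  apply orderOf_eq_prime
  · apply rho_injective
    rw [map_pow, rho_y1, M1_pow7, map_one]
  · intro h
    have h1 := congrArg rho h
    rw [rho_y1, map_one] at h1
    exact M1_ne_one h1

theorem orderOf_y6 : orderOf y6 = 6 := by
  obtain ⟨-, h2, h3, h6, n2, n3⟩ := M6_facts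
  have e2 : M6 ^ 2 = M6P2 := by rw [pow_two, h2]
  have e3 : M6 ^ 3 = M6P3 := by rw [pow_succ, e2, h3]
  have e6 : M6 ^ 6 = 1 := by rw [show 6 = 3 + 3 from rfl, pow_add, e3, h6]
  apply orderOf_eq_of_pow_and_pow_div_prime (by norm_num)
  · apply rho_injective
    rw [map_pow, rho_y6, e6, map_one]
  · intro p hp hpd
    have h23 : p = 2 ∨ p = 3 := by
      have h : p ∣ 2 * 3 := hpd
      rcases (Nat.Prime.dvd_mul hp).mp h with h | h
      · left; exact (Nat.prime_dvd_prime_iff_eq hp Nat.prime_two).mp h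
      · right; exact (Nat.prime_dvd_prime_iff_eq hp Nat.prime_three).mp h
    rcases h23 with rfl | rfl
    · intro h
      have h1 := congrArg rho h
      rw [map_pow, rho_y6, map_one, show 6 / 2 = 3 from rfl, e3] at h1
      exact n3 h1
    · intro h
      have h1 := congrArg rho h
      rw [map_pow, rho_y6, map_one, show 6 / 3 = 2 from rfl, e2] at h1
      exact n2 h1

theorem cent_y0 (s : ℕ) (hs : s = 2 ∨ s = 3 ∨ s = 7) (z : ↥(chevG2.group (ZMod 3)))
    (hc : Commute z y0) (hz : z ^ s = 1) : z = 1 := by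
  rw [← rho_eq_one_iff]
  apply M0_cent (rho z) _ (rho_presB z) s hs
  · rw [← map_pow, hz, map_one]
  · have h := hc.map rho
    rwa [rho_y0] at h

theorem cent_y1 (s : ℕ) (hs : s = 2 ∨ s = 3) (z : ↥(chevG2.group (ZMod 3)))
    (hc : Commute z y1) (hz : z ^ s = 1) : z = 1 := by
  rw [← rho_eq_one_iff]
  apply M1_cent (rho z) _ (rho_presB z) s hs
  · rw [← map_pow, hz, map_one]
  · have h := hc.map rho
    rwa [rho_y1] at h

theorem g3_no_order (x : ↥(chevG2.group (ZMod 3))) (n : ℕ)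
    (hn : n = 13 * 2 ∨ n = 13 * 3 ∨ n = 13 * 7 ∨ n = 7 * 2 ∨ n = 7 * 3) : orderOf x ≠ n := by
  have h13 : ¬ 13 ^ 2 ∣ Nat.card ↥(chevG2.group (ZMod 3)) := by rw [g23_card]; norm_num
  have h7 : ¬ 7 ^ 2 ∣ Nat.card ↥(chevG2.group (ZMod 3)) := by rw [g23_card]; norm_num
  rcases hn with rfl | rfl | rfl | rfl | rfl
  · exact no_order_mul 13 2 (by norm_num) h13 y0 orderOf_y0 (cent_y0 2 (by norm_num)) x
  · exact no_order_mul 13 3 (by norm_num) h13 y0 orderOf_y0 (cent_y0 3 (by norm_num)) x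
  · exact no_order_mul 13 7 (by norm_num) h13 y0 orderOf_y0 (cent_y0 7 (by norm_num)) x
  · exact no_order_mul 7 2 (by norm_num) h7 y1 orderOf_y1 (cent_y1 2 (by norm_num)) x
  · exact no_order_mul 7 3 (by norm_num) h7 y1 orderOf_y1 (cent_y1 3 (by norm_num)) x

theorem prime_dvd_card {p : ℕ} (hp : p.Prime) (h : p ∣ 4245696) :
    p = 2 ∨ p = 3 ∨ p = 7 ∨ p = 13 := by
  have h' : p ∣ 2 ^ 6 * 3 ^ 6 * 7 * 13 := by
    rw [show 2 ^ 6 * 3 ^ 6 * 7 * 13 = 4245696 from by norm_num]; exact h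
  rcases (Nat.Prime.dvd_mul hp).mp h' with h1 | h1
  · rcases (Nat.Prime.dvd_mul hp).mp h1 with h2 | h2
    · rcases (Nat.Prime.dvd_mul hp).mp h2 with h3 | h3
      · left; exact (Nat.prime_dvd_prime_iff_eq hp Nat.prime_two).mp (hp.dvd_of_dvd_pow h3)
      · right; left
        exact (Nat.prime_dvd_prime_iff_eq hp Nat.prime_three).mp (hp.dvd_of_dvd_pow h3)
    · right; right; left; exact (Nat.prime_dvd_prime_iff_eq hp (by norm_num)).mp h2
  · right; right; right; exact (Nat.prime_dvd_prime_iff_eq hp (by norm_num)).mp h1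

/-- In `G₂(3)`, an element whose order is a product of two distinct primes has order `6`. -/
theorem g3_order_prod (x : ↥(chevG2.group (ZMod 3))) (r s : ℕ) (hr : r.Prime) (hs : s.Prime)
    (hrs : r ≠ s) (hx : orderOf x = r * s) : r * s = 6 := by
  have hdvd : r * s ∣ 4245696 := by rw [← hx, ← g23_card]; exact orderOf_dvd_natCard x
  rcases prime_dvd_card hr (dvd_trans (dvd_mul_right r s) hdvd) with rfl | rfl | rfl | rfl <;>
    rcases prime_dvd_card hs (dvd_trans (dvd_mul_left s _) hdvd) with rfl | rfl | rfl | rfl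
  all_goals first
    | exact absurd rfl hrs
    | rfl
    | exact absurd hx (g3_no_order x _ (by norm_num))

section Transfer

variable {K L : Type*} [Field K] [Field L]

/-- The map of Chevalley groups of type `G₂` induced by a field homomorphism. -/
noncomputable def resHom (f : K →+* L) : ↥(chevG2.group K) →* ↥(chevG2.group L) :=
  ((H23.glMap chevG2 f).comp (chevG2.group K).subtype).codRestrict (chevG2.group L)
    (fun x => H23.glMap_group_le (H23.chk_G2.sem K) (H23.chk_G2.sem L) f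
      (Subgroup.mem_map_of_mem _ x.2))

theorem resHom_injective (f : K →+* L) : Function.Injective (resHom f) := by
  intro a b h
  have h1 := congrArg Subtype.val h
  exact Subtype.ext (H23.glMap_injective f h1)

end Transfer

theorem exists_order_iff {F : Type*} [Field F] [Fintype F] (hF : Fintype.card F = 3) (n : ℕ) :
    (∃ x : ↥(chevG2.group F), orderOf x = n) ↔
      ∃ x : ↥(chevG2.group (ZMod 3)), orderOf x = n := by
  let e : ZMod 3 ≃+* F := ZMod.ringEquivOfPrime F (by norm_num) hF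
  constructor
  · rintro ⟨x, hx⟩
    exact ⟨resHom e.symm.toRingHom x,
      by rw [orderOf_injective _ (resHom_injective e.symm.toRingHom), hx]⟩
  · rintro ⟨x, hx⟩
    exact ⟨resHom e.toRingHom x, by rw [orderOf_injective _ (resHom_injective e.toRingHom), hx]⟩

/-- The prime graphs of `G₂(3)` and `PSL(2, 13)` coincide. -/
theorem g23_main {F : Type*} [Field F] [Fintype F] (hF : Fintype.card F = 3) {E : Type*} [Field E]
    [Fintype E] (hE : Fintype.card E = 13) :
    ((∀ r : ℕ, r.Prime → (r ∣ Nat.card ↥(chevG2.group F) ↔ r ∣ Nat.card PSL(2, E))) ∧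
      (∀ r s : ℕ, r.Prime → s.Prime → r ≠ s →
        ((∃ x : ↥(chevG2.group F), orderOf x = r * s) ↔ (∃ y : PSL(2, E), orderOf y = r * s)))) := by
  have hcG : Nat.card ↥(chevG2.group F) = 4245696 := by
    rw [H23.order_G2 hF]
    norm_num
  have hcP := psl13_card hE
  constructor
  · intro r hr
    rw [hcG, hcP]
    constructor
    · intro h
      rcases prime_dvd_card hr h with rfl | rfl | rfl | rfl <;> norm_num
    · intro h
      exact dvd_trans h (by norm_num)
  · intro r s hr hs hrs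
    rw [exists_order_iff hF]
    constructor
    · rintro ⟨x, hx⟩
      have h6 := g3_order_prod x r s hr hs hrs hx
      obtain ⟨y, hy⟩ := psl13_exists_six hE
      exact ⟨y, by rw [hy, h6]⟩
    · rintro ⟨y, hy⟩
      have h6 := psl13_order_prod hE y r s hr hs hrs hy
      exact ⟨y6, by rw [orderOf_y6, h6]⟩

end Cfsg.Agent.H7.G23
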