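import Cfsg.Agent.H7.G2Inv5
import Cfsg.Agent.H22.SL2Hom
import Cfsg.Agent.H23.CommAllG2

set_option autoImplicit false

/-!
# The centralizer of an involution of `G₂(q)`, `q` odd: the two subgroups `SL₂`
-/

namespace Cfsg.Agent.H7.G2I

open Cfsg.Lie Cfsg.Agent.H23 Cfsg.Agent.H22
open Matrix (SpecialLinearGroup)

section

variable {F : Type*} [Field F]

/-- `h_r` is multiplicative. -/
theorem hg_mul (r : ℕ) (hr : r < 12) (t u : F) (ht : t ≠ 0) (hu : u ≠ 0) :
    hg r t * hg r u = hg r (t * u) := by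
  have h1 := (act_hg r hr t ht).mul (act_hg r hr u hu)
  have h2 := (act_hg r hr (t * u) (mul_ne_zero ht hu)).inv
    (fun s _ => zpow_ne_zero _ (mul_ne_zero ht hu))
  have h3 := h1.mul h2
  have key : ∀ s : ℕ, t ^ zG r s * u ^ zG r s * ((t * u) ^ zG r s)⁻¹ = 1 := by
    intro s
    rw [mul_zpow]
    exact mul_inv_cancel₀ (mul_ne_zero (zpow_ne_zero _ ht) (zpow_ne_zero _ hu))
  have h4 := act_eq_one h3 (key 7) (key 6)
  exact mul_inv_eq_one.mp h4

/-- The torus is commutative. -/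
theorem diag_comm (h k : GL chevG2.Idx F) (hh : h ∈ chevG2.diagonalSubgroup F)
    (hk : k ∈ chevG2.diagonalSubgroup F) : h * k = k * h := by
  obtain ⟨χ, hχ, hact⟩ := act_of_mem h hh
  obtain ⟨χ', hχ', hact'⟩ := act_of_mem k hk
  have h1 := (hact.mul hact').mul ((hact'.mul hact).inv
    (fun s _ => mul_ne_zero (hχ'.1 s) (hχ.1 s)))
  have key : ∀ s : ℕ, χ s * χ' s * (χ' s * χ s)⁻¹ = 1 := by
    intro s
    rw [mul_comm (χ' s)]
    exact mul_inv_cancel₀ (mul_ne_zero (hχ.1 s) (hχ'.1 s))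
  have h4 := act_eq_one h1 (key 7) (key 6)
  exact mul_inv_eq_one.mp h4

/-- The relations of `SL₂` for a fundamental root. -/
theorem rel_of_r1 {r r' s₀ : ℕ} {n : GL chevG2.Idx F} {ρ : ℕ → ℕ} {η : ℕ → F}
    {Ui : Subgroup (GL chevG2.Idx F)} (R : R1 F r r' s₀ n ρ η Ui)
    (hn : n = nU (pkB F).sem r 1) (hneg : chevG2.neg r = r') (hηr : η r = -1) (hηr' : η r' = -1)
    (hz : zG r r' = -2) :
    (∀ t : F, SL2.wE (xg (F := F) r) (xg r') t = hg r t * n) ∧
    (∀ t : F, SL2.hE (xg (F := F) r) (xg r') t = hg r t) ∧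
    SL2.Rel (xg (F := F) r) (xg r') := by
  have hS := (pkB F).sem
  have hwn : ∀ t : F, SL2.wE (xg (F := F) r) (xg r') t = nU hS r t := by
    intro t
    rw [nU_eq, hneg]
    rfl
  have hw : ∀ t : F, SL2.wE (xg (F := F) r) (xg r') t = hg r t * n := by
    intro t
    rw [hwn, hn]
    exact nU_eq_hU_mul hS r t
  have hh : ∀ t : F, SL2.hE (xg (F := F) r) (xg r') t = hg r t := by
    intro t
    unfold SL2.hE
    rw [hwn, hwn]
    exact (hU_eq hS r t).symm
  refine ⟨hw, hh, ?_⟩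
  constructor
  · intro s t
    exact xg_mul r s t
  · intro s t
    exact xg_mul r' s t
  · intro t u ht
    rw [hw]
    have e1 : n * xg r u = xg r' (-u) * n := by
      have := R.conj r R.hr u
      rw [R.ρr, hηr, neg_one_mul] at this
      rw [← this]; group
    have e2 : hg r t * xg r' (-u) = xg r' (t ^ zG r r' * -u) * hg r t := by
      have := (act_hg r R.hr t ht).2 r' R.hr' (-u)
      rw [← this]; group
    have e3 : t ^ zG r r' * -u = -(t⁻¹ ^ 2 * u) := by
      rw [hz, zpow_neg, inv_pow]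
      have : t ^ (2 : ℤ) = t ^ 2 := by norm_cast
      rw [this]; ring
    rw [mul_assoc, e1, ← mul_assoc, e2, e3, mul_assoc]
  · intro t u ht
    rw [hw]
    have e1 : n * xg r' u = xg r (-u) * n := by
      have := R.conj r' R.hr' u
      rw [R.ρr', hηr', neg_one_mul] at this
      rw [← this]; group
    have e2 : hg r t * xg r (-u) = xg r (t ^ zG r r * -u) * hg r t := by
      have := (act_hg r R.hr t ht).2 r R.hr (-u)
      rw [← this]; group
    have e3 : t ^ zG r r * -u = -(t ^ 2 * u) := by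
      rw [R.zz]
      have : t ^ (2 : ℤ) = t ^ 2 := by norm_cast
      rw [this]; ring
    rw [mul_assoc, e1, ← mul_assoc, e2, e3, mul_assoc]
  · intro t u ht hu
    rw [hh, hh, hh]
    exact hg_mul r R.hr t u ht hu

theorem etaG_0_7 : etaG 0 7 = -1 := by decide +kernel
theorem etaG_0_4 : etaG 0 4 = -1 := by decide +kernel
theorem etaG_1_6 : etaG 1 6 = -1 := by decide +kernel
theorem etaG_1_5 : etaG 1 5 = -1 := by decide +kernel
theorem zG_7_4 : zG 7 4 = -2 := by decide +kernel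
theorem zG_6_5 : zG 6 5 = -2 := by decide +kernel
theorem zG_6_7 : zG 6 7 = -1 := by decide +kernel

theorem ng0_eq : ng F 0 = nU (pkB F).sem 7 1 := by
  show nU (pkB F).sem (chevG2.simple 0) 1 = nU (pkB F).sem 7 1
  rw [simple0_eq]

theorem ng1_eq : ng F 1 = nU (pkB F).sem 6 1 := by
  show nU (pkB F).sem (chevG2.simple 1) 1 = nU (pkB F).sem 6 1
  rw [simple1_eq]

theorem relA_all :
    (∀ t : F, SL2.wE (xg (F := F) 7) (xg 4) t = hg 7 t * ng F 0) ∧
    (∀ t : F, SL2.hE (xg (F := F) 7) (xg 4) t = hg 7 t) ∧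
    SL2.Rel (xg (F := F) 7) (xg 4) :=
  rel_of_r1 r1_a ng0_eq neg7_eq
    (by show ((etaG 0 7 : ℤ) : F) = -1; rw [etaG_0_7]; simp)
    (by show ((etaG 0 4 : ℤ) : F) = -1; rw [etaG_0_4]; simp) zG_7_4

theorem relB_all :
    (∀ t : F, SL2.wE (xg (F := F) 6) (xg 5) t = hg 6 t * ng F 1) ∧
    (∀ t : F, SL2.hE (xg (F := F) 6) (xg 5) t = hg 6 t) ∧
    SL2.Rel (xg (F := F) 6) (xg 5) :=
  rel_of_r1 r1_b ng1_eq neg6_eq
    (by show ((etaG 1 6 : ℤ) : F) = -1; rw [etaG_1_6]; simp)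
    (by show ((etaG 1 5 : ℤ) : F) = -1; rw [etaG_1_5]; simp) zG_6_5

/-- The homomorphism `SL₂(F) → ⟨X_a, X_{-a}⟩`. -/
noncomputable def phiA (F : Type*) [Field F] : SpecialLinearGroup (Fin 2) F →* GL chevG2.Idx F :=
  SL2.phiHom (relA_all (F := F)).2.2

/-- The homomorphism `SL₂(F) → ⟨X_b, X_{-b}⟩`. -/
noncomputable def phiB (F : Type*) [Field F] : SpecialLinearGroup (Fin 2) F →* GL chevG2.Idx F :=
  SL2.phiHom (relB_all (F := F)).2.2

/-- The diagonal matrix `diag(a, a⁻¹)`. -/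
def dM (a : F) (ha : a ≠ 0) : SpecialLinearGroup (Fin 2) F :=
  ⟨!![a, 0; 0, a⁻¹], by simp [Matrix.det_fin_two, ha]⟩

theorem phiA_uM (t : F) : phiA F (SL2.uM t) = xg 7 t := SL2.phi_uM (relA_all (F := F)).2.2 t
theorem phiA_lM (t : F) : phiA F (SL2.lM t) = xg 4 t := SL2.phi_lM (relA_all (F := F)).2.2 t
theorem phiB_uM (t : F) : phiB F (SL2.uM t) = xg 6 t := SL2.phi_uM (relB_all (F := F)).2.2 t
theorem phiB_lM (t : F) : phiB F (SL2.lM t) = xg 5 t := SL2.phi_lM (relB_all (F := F)).2.2 t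

theorem phiA_dM (a : F) (ha : a ≠ 0) : phiA F (dM a ha) = hg 7 a := by
  show SL2.phi (xg 7) (xg 4) (dM a ha) = hg 7 a
  unfold SL2.phi
  rw [if_pos (by simp [dM])]
  have e1 : (dM a ha).1 0 1 = 0 := by simp [dM]
  have e2 : (dM a ha).1 0 0 = a := by simp [dM]
  rw [e1, e2, mul_zero, xg_zero, one_mul]
  exact (relA_all (F := F)).2.1 a

theorem phiB_dM (a : F) (ha : a ≠ 0) : phiB F (dM a ha) = hg 6 a := by
  show SL2.phi (xg 6) (xg 5) (dM a ha) = hg 6 a
  unfold SL2.phi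
  rw [if_pos (by simp [dM])]
  have e1 : (dM a ha).1 0 1 = 0 := by simp [dM]
  have e2 : (dM a ha).1 0 0 = a := by simp [dM]
  rw [e1, e2, mul_zero, xg_zero, one_mul]
  exact (relB_all (F := F)).2.1 a

theorem phiA_mem (K : Subgroup (GL chevG2.Idx F)) (h7 : ∀ t : F, xg 7 t ∈ K) (h4 : ∀ t : F, xg 4 t ∈ K)
    (A : SpecialLinearGroup (Fin 2) F) : phiA F A ∈ K :=
  SL2.phi_mem K h7 h4 A

theorem phiB_mem (K : Subgroup (GL chevG2.Idx F)) (h6 : ∀ t : F, xg 6 t ∈ K) (h5 : ∀ t : F, xg 5 t ∈ K)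
    (A : SpecialLinearGroup (Fin 2) F) : phiB F A ∈ K :=
  SL2.phi_mem K h6 h5 A


/-- The value of the character of a trivial torus element. -/
theorem act_val_of_eq_one {k : GL chevG2.Idx F} {ψ : ℕ → F} (h : Act k ψ) (hk : k = 1) (s : ℕ)
    (hs : s < 12) : ψ s = 1 := by
  have h1 := h.2 s hs 1
  rw [hk, one_mul, inv_one, mul_one, mul_one] at h1
  exact (xg_inj s hs _ _ h1).symm

/-- Two characters of the same torus element agree. -/
theorem act_unique {k : GL chevG2.Idx F} {ψ ψ' : ℕ → F} (h : Act k ψ) (h' : Act k ψ') (s : ℕ)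
    (hs : s < 12) : ψ s = ψ' s := by
  have h1 := h.2 s hs 1
  rw [h'.2 s hs 1, mul_one, mul_one] at h1
  exact (xg_inj s hs _ _ h1).symm

theorem hg7_eq_one (a : F) (ha : a ≠ 0) (h : hg 7 a = 1) : a = 1 := by
  have h2 := act_val_of_eq_one (act_hg 7 (by decide) a ha) h 7 (by decide)
  have h3 := act_val_of_eq_one (act_hg 7 (by decide) a ha) h 6 (by decide)
  simp only [zG_7_7, zG_7_6] at h2 h3
  have e2 : a ^ 2 = 1 := by
    have : a ^ (2 : ℤ) = a ^ 2 := by norm_cast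
    rw [← this]; exact h2
  have e3 : a ^ 3 = 1 := by
    rw [zpow_neg, inv_eq_one] at h3
    have : a ^ (3 : ℤ) = a ^ 3 := by norm_cast
    rw [← this]; exact h3
  have : a ^ 3 = a ^ 2 * a := by ring
  rw [e2, one_mul] at this
  rw [← this]; exact e3

theorem hg6_eq_one (a : F) (ha : a ≠ 0) (h : hg 6 a = 1) : a = 1 := by
  have h2 := act_val_of_eq_one (act_hg 6 (by decide) a ha) h 7 (by decide)
  simp only [zG_6_7] at h2
  rw [zpow_neg, zpow_one, inv_eq_one] at h2
  exact h2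

/-- Injectivity criterion for the homomorphisms from `SL₂`. -/
theorem phi_inj_aux {r r' : ℕ} (hr : r < 12) (hpos : chevG2.IsPosRoot r) {n : GL chevG2.Idx F}
    (hw : ∀ t : F, SL2.wE (xg (F := F) r) (xg r') t = hg r t * n)
    (hh : ∀ t : F, SL2.hE (xg (F := F) r) (xg r') t = hg r t)
    (hnB : n ∉ chevG2.borelSubgroup F)
    (hone : ∀ a : F, a ≠ 0 → hg r a = 1 → a = 1)
    (A : SpecialLinearGroup (Fin 2) F) (hA : SL2.phi (xg (F := F) r) (xg r') A = 1) : A = 1 := by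
  have hS := (pkB F).sem
  have hUB : chevG2.posUnipotent F ≤ chevG2.borelSubgroup F := le_sup_left
  have hHB : chevG2.diagonalSubgroup F ≤ chevG2.borelSubgroup F := le_sup_right
  have hHN : chevG2.diagonalSubgroup F ≤ chevG2.monomialSubgroup F := le_sup_left
  have hxU : ∀ t : F, xg r t ∈ chevG2.posUnipotent F := fun t => by
    rw [posUnipotent_eq]; exact xU_mem_rootGen hS _ r hpos t
  have hd := SL2.det_eq A
  unfold SL2.phi at hA
  by_cases hc : A.1 1 0 = 0
  · rw [if_pos hc, hh] at hA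
    have ha0 : A.1 0 0 ≠ 0 := by
      intro h0
      rw [h0, hc] at hd
      simp at hd
    have h1 : hg r (A.1 0 0) = (xg r (A.1 0 0 * A.1 0 1))⁻¹ := eq_inv_of_mul_eq_one_right hA
    have h2 : hg r (A.1 0 0) ∈ chevG2.posUnipotent F ⊓ chevG2.monomialSubgroup F :=
      ⟨by rw [h1]; exact Subgroup.inv_mem _ (hxU _), hHN (hU_mem_diag hS r hr _ ha0)⟩
    rw [posUnipotent_inf_monomial hS, Subgroup.mem_bot] at h2
    have ha1 := hone _ ha0 h2
    rw [h2, mul_one] at hA
    have hb : A.1 0 0 * A.1 0 1 = 0 := xg_inj r hr _ _ (hA.trans (xg_zero r).symm)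
    rw [ha1, one_mul] at hb
    rw [ha1, hb, hc] at hd
    have hd1 : A.1 1 1 = 1 := by linear_combination hd
    have e : ((1 : SpecialLinearGroup (Fin 2) F) : Matrix (Fin 2) (Fin 2) F) = 1 := rfl
    apply SL2.sl_ext
    · rw [ha1]; show (1 : F) = ((1 : SpecialLinearGroup (Fin 2) F) : Matrix (Fin 2) (Fin 2) F) 0 0
      rw [e]; simp
    · rw [hb]; show (0 : F) = ((1 : SpecialLinearGroup (Fin 2) F) : Matrix (Fin 2) (Fin 2) F) 0 1
      rw [e]; simp
    · rw [hc]; show (0 : F) = ((1 : SpecialLinearGroup (Fin 2) F) : Matrix (Fin 2) (Fin 2) F) 1 0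
      rw [e]; simp
    · rw [hd1]; show (1 : F) = ((1 : SpecialLinearGroup (Fin 2) F) : Matrix (Fin 2) (Fin 2) F) 1 1
      rw [e]; simp
  · rw [if_neg hc, hw] at hA
    exfalso
    apply hnB
    obtain ⟨α, hα⟩ : ∃ α : F, α = A.1 0 0 / A.1 1 0 := ⟨_, rfl⟩
    obtain ⟨β, hβ⟩ : ∃ β : F, β = A.1 1 1 / A.1 1 0 := ⟨_, rfl⟩
    obtain ⟨σ, hσ⟩ : ∃ σ : F, σ = -(A.1 1 0)⁻¹ := ⟨_, rfl⟩
    rw [← hα, ← hβ, ← hσ] at hA
    have hσ0 : σ ≠ 0 := by rw [hσ]; exact neg_ne_zero.mpr (inv_ne_zero hc)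
    have e1 : hg r σ * n = (xg r α)⁻¹ * (xg r β)⁻¹ := by
      calc hg r σ * n = (xg r α)⁻¹ * (xg r α * (hg r σ * n) * xg r β) * (xg r β)⁻¹ := by group
        _ = _ := by rw [hA]; group
    have e2 : n = (hg r σ)⁻¹ * ((xg r α)⁻¹ * (xg r β)⁻¹) := by rw [← e1]; group
    rw [e2]
    exact Subgroup.mul_mem _ (Subgroup.inv_mem _ (hHB (hU_mem_diag hS r hr _ hσ0)))
      (Subgroup.mul_mem _ (Subgroup.inv_mem _ (hUB (hxU _))) (Subgroup.inv_mem _ (hUB (hxU _))))

theorem phiA_inj : Function.Injective (phiA F) := by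
  rw [injective_iff_map_eq_one]
  intro A hA
  exact phi_inj_aux (r := 7) (r' := 4) (by decide) pos7 (relA_all (F := F)).1 (relA_all (F := F)).2.1
    (nU_simple_not_mem_borel (pkB F) 0 (by decide)) hg7_eq_one A hA

theorem phiB_inj : Function.Injective (phiB F) := by
  rw [injective_iff_map_eq_one]
  intro A hA
  exact phi_inj_aux (r := 6) (r' := 5) (by decide) pos6 (relB_all (F := F)).1 (relB_all (F := F)).2.1
    (nU_simple_not_mem_borel (pkB F) 1 (by decide)) hg6_eq_one A hA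

/-- The centre of `SL₂(F)`. -/
theorem sl2_center (A : SpecialLinearGroup (Fin 2) F) (h : ∀ B, A * B = B * A) :
    A = 1 ∨ A = dM (-1 : F) (by simp) := by
  have h1 := h (SL2.uM 1)
  have h2 := h (SL2.lM 1)
  have hd := SL2.det_eq A
  have a1 := congrArg (fun M : SpecialLinearGroup (Fin 2) F => M.1 0 0) h1
  have a2 := congrArg (fun M : SpecialLinearGroup (Fin 2) F => M.1 0 1) h1
  have a3 := congrArg (fun M : SpecialLinearGroup (Fin 2) F => M.1 0 1) h2
  simp only [SL2.uM_mul_00, SL2.uM_mul_01, SL2.lM_mul_01] at a1 a2 a3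
  have b1 : (A * SL2.uM 1).1 0 0 = A.1 0 0 := by
    show (A.1 * (SL2.uM (1 : F)).1) 0 0 = _
    simp [SL2.uM, Matrix.mul_apply, Fin.sum_univ_two]
  have b2 : (A * SL2.uM 1).1 0 1 = A.1 0 0 + A.1 0 1 := by
    show (A.1 * (SL2.uM (1 : F)).1) 0 1 = _
    simp [SL2.uM, Matrix.mul_apply, Fin.sum_univ_two]
  have b3 : (A * SL2.lM 1).1 0 1 = A.1 0 1 := by
    show (A.1 * (SL2.lM (1 : F)).1) 0 1 = _
    simp [SL2.lM, Matrix.mul_apply, Fin.sum_univ_two]
  rw [b1] at a1
  rw [b2] at a2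
  have hc : A.1 1 0 = 0 := by linear_combination -a1
  have had : A.1 0 0 = A.1 1 1 := by linear_combination a2
  have hb : A.1 0 1 = 0 := by
    have a4 := congrArg (fun M : SpecialLinearGroup (Fin 2) F => M.1 0 0) h2
    have b4 : (A * SL2.lM 1).1 0 0 = A.1 0 0 + A.1 0 1 := by
      show (A.1 * (SL2.lM (1 : F)).1) 0 0 = _
      simp [SL2.lM, Matrix.mul_apply, Fin.sum_univ_two]
    simp only [SL2.lM_mul_00] at a4
    rw [b4] at a4
    linear_combination a4
  rw [hb, hc, ← had, mul_zero, sub_zero] at hd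
  have e : ((1 : SpecialLinearGroup (Fin 2) F) : Matrix (Fin 2) (Fin 2) F) = 1 := rfl
  rcases mul_self_eq_one_iff.mp hd with h0 | h0
  · left
    apply SL2.sl_ext
    · rw [h0]; show (1 : F) = ((1 : SpecialLinearGroup (Fin 2) F) : Matrix (Fin 2) (Fin 2) F) 0 0
      rw [e]; simp
    · rw [hb]; show (0 : F) = ((1 : SpecialLinearGroup (Fin 2) F) : Matrix (Fin 2) (Fin 2) F) 0 1
      rw [e]; simp
    · rw [hc]; show (0 : F) = ((1 : SpecialLinearGroup (Fin 2) F) : Matrix (Fin 2) (Fin 2) F) 1 0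
      rw [e]; simp
    · rw [← had, h0]; show (1 : F) = ((1 : SpecialLinearGroup (Fin 2) F) : Matrix (Fin 2) (Fin 2) F) 1 1
      rw [e]; simp
  · right
    apply SL2.sl_ext
    · rw [h0]; simp [dM]
    · rw [hb]; simp [dM]
    · rw [hc]; simp [dM]
    · rw [← had, h0]; simp [dM]

/-! ### The long root subgroup `SL₂` -/

/-- The element `n_b n_a`, which conjugates `X_b` to `X_{3a+2b}`. -/
noncomputable def nuG (F : Type*) [Field F] : GL chevG2.Idx F := nw F [1, 0]

/-- The homomorphism `SL₂(F) → ⟨X_{3a+2b}, X_{-3a-2b}⟩`. -/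
noncomputable def phiL (F : Type*) [Field F] : SpecialLinearGroup (Fin 2) F →* GL chevG2.Idx F :=
  (MulAut.conj (nuG F)).toMonoidHom.comp (phiB F)

theorem phiL_apply (A : SpecialLinearGroup (Fin 2) F) : phiL F A = nuG F * phiB F A * (nuG F)⁻¹ := rfl

theorem phiL_inj : Function.Injective (phiL F) := by
  intro A B h
  rw [phiL_apply, phiL_apply] at h
  apply phiB_inj
  calc phiB F A = (nuG F)⁻¹ * (nuG F * phiB F A * (nuG F)⁻¹) * nuG F := by group
    _ = _ := by rw [h]; group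

theorem refl10_6 : reflW chevG2 [1, 0] 6 = 11 := by decide +kernel
theorem refl10_5 : reflW chevG2 [1, 0] 5 = 0 := by decide +kernel

theorem nu_conj_6 : ∃ c : F, (c = 1 ∨ c = -1) ∧ ∀ t : F, nuG F * xg 6 t * (nuG F)⁻¹ = xg 11 (c * t) := by
  obtain ⟨c, hc, h⟩ := nWU_conj (pkB F).sem (pkB F).semN (pkB F).tab [1, 0] (by decide) 6 (by decide)
  rw [refl10_6] at h
  exact ⟨c, hc, h⟩

theorem nu_conj_5 : ∃ c : F, (c = 1 ∨ c = -1) ∧ ∀ t : F, nuG F * xg 5 t * (nuG F)⁻¹ = xg 0 (c * t) := by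
  obtain ⟨c, hc, h⟩ := nWU_conj (pkB F).sem (pkB F).semN (pkB F).tab [1, 0] (by decide) 5 (by decide)
  rw [refl10_5] at h
  exact ⟨c, hc, h⟩

/-- The roots on which `t₀` acts trivially. -/
def P0 (s : ℕ) : Prop := s = 0 ∨ s = 4 ∨ s = 7 ∨ s = 11

/-- The subgroup generated by the root subgroups centralized by `t₀`. -/
noncomputable def MG (F : Type*) [Field F] : Subgroup (GL chevG2.Idx F) := rootGen chevG2 F P0

theorem xg_mem_MG (s : ℕ) (hs : P0 s) (t : F) : xg s t ∈ MG F := xU_mem_rootGen (pkB F).sem P0 s hs t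

theorem phiA_mem_MG (A : SpecialLinearGroup (Fin 2) F) : phiA F A ∈ MG F :=
  phiA_mem _ (fun t => xg_mem_MG 7 (by simp [P0]) t) (fun t => xg_mem_MG 4 (by simp [P0]) t) A

theorem phiL_mem_MG (A : SpecialLinearGroup (Fin 2) F) : phiL F A ∈ MG F := by
  have : phiB F A ∈ (MG F).comap (MulAut.conj (nuG F)).toMonoidHom := by
    apply phiB_mem
    · intro t
      rw [Subgroup.mem_comap]
      show nuG F * xg 6 t * (nuG F)⁻¹ ∈ MG F
      obtain ⟨c, -, h⟩ := nu_conj_6 (F := F)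
      rw [h]
      exact xg_mem_MG 11 (by simp [P0]) _
    · intro t
      rw [Subgroup.mem_comap]
      show nuG F * xg 5 t * (nuG F)⁻¹ ∈ MG F
      obtain ⟨c, -, h⟩ := nu_conj_5 (F := F)
      rw [h]
      exact xg_mem_MG 0 (by simp [P0]) _
  exact this

theorem MG_eq : MG F = (phiL F).range ⊔ (phiA F).range := by
  apply le_antisymm
  · apply rootGen_le (pkB F).sem
    intro r hr t
    rcases hr with rfl | rfl | rfl | rfl
    · apply Subgroup.mem_sup_left
      obtain ⟨c, hc, h⟩ := nu_conj_5 (F := F)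
      refine ⟨SL2.lM (c * t), ?_⟩
      rw [phiL_apply, phiB_lM, h]
      have : c * (c * t) = t := by rcases hc with rfl | rfl <;> ring
      rw [this]
    · exact Subgroup.mem_sup_right ⟨SL2.lM t, phiA_lM t⟩
    · exact Subgroup.mem_sup_right ⟨SL2.uM t, phiA_uM t⟩
    · apply Subgroup.mem_sup_left
      obtain ⟨c, hc, h⟩ := nu_conj_6 (F := F)
      refine ⟨SL2.uM (c * t), ?_⟩
      rw [phiL_apply, phiB_uM, h]
      have : c * (c * t) = t := by rcases hc with rfl | rfl <;> ring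
      rw [this]
  · rw [sup_le_iff]
    constructor
    · rintro _ ⟨A, rfl⟩
      exact phiL_mem_MG A
    · rintro _ ⟨A, rfl⟩
      exact phiA_mem_MG A

/-! ### The two subgroups commute -/

theorem comm_pair (r s : ℕ) (hr : r < 12) (hs : s < 12) (hne : s ≠ r) (hne' : s ≠ chevG2.neg r)
    (hterms : chevG2.commTerms r s = []) (t u : F) : xg s u * xg r t = xg r t * xg s u := by
  have h := (Pc_iff (pkB F).sem r s).mp (commAll_G2 r s hr hs hne hne') t u
  have e : chevG2.commWord F r s t u = [] := by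
    unfold ChevalleyDatum.commWord
    rw [hterms]; rfl
  rw [e, wordU_nil, mul_one] at h
  exact h

theorem neg11_eq : chevG2.neg 11 = 0 := by decide +kernel
theorem neg0_eq : chevG2.neg 0 = 11 := by decide +kernel
theorem ct_11_7 : chevG2.commTerms 11 7 = [] := by decide +kernel
theorem ct_11_4 : chevG2.commTerms 11 4 = [] := by decide +kernel
theorem ct_0_7 : chevG2.commTerms 0 7 = [] := by decide +kernel
theorem ct_0_4 : chevG2.commTerms 0 4 = [] := by decide +kernel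

theorem comm_7_11 (t u : F) : xg 7 u * xg 11 t = xg 11 t * xg 7 u :=
  comm_pair 11 7 (by decide) (by decide) (by decide) (by rw [neg11_eq]; decide) ct_11_7 t u
theorem comm_4_11 (t u : F) : xg 4 u * xg 11 t = xg 11 t * xg 4 u :=
  comm_pair 11 4 (by decide) (by decide) (by decide) (by rw [neg11_eq]; decide) ct_11_4 t u
theorem comm_7_0 (t u : F) : xg 7 u * xg 0 t = xg 0 t * xg 7 u :=
  comm_pair 0 7 (by decide) (by decide) (by decide) (by rw [neg0_eq]; decide) ct_0_7 t u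
theorem comm_4_0 (t u : F) : xg 4 u * xg 0 t = xg 0 t * xg 4 u :=
  comm_pair 0 4 (by decide) (by decide) (by decide) (by rw [neg0_eq]; decide) ct_0_4 t u

theorem phiA_comm_gen (z : GL chevG2.Idx F) (h7 : ∀ u : F, xg 7 u * z = z * xg 7 u)
    (h4 : ∀ u : F, xg 4 u * z = z * xg 4 u) (A : SpecialLinearGroup (Fin 2) F) :
    phiA F A * z = z * phiA F A := by
  have : phiA F A ∈ Subgroup.centralizer {z} := by
    apply phiA_mem
    · intro u
      rw [Subgroup.mem_centralizer_iff]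
      intro y hy
      rw [Set.mem_singleton_iff] at hy
      subst hy
      exact (h7 u).symm
    · intro u
      rw [Subgroup.mem_centralizer_iff]
      intro y hy
      rw [Set.mem_singleton_iff] at hy
      subst hy
      exact (h4 u).symm
  exact ((Subgroup.mem_centralizer_iff.mp this) z rfl).symm

theorem phiL_phiA_comm (A B : SpecialLinearGroup (Fin 2) F) :
    phiL F A * phiA F B = phiA F B * phiL F A := by
  have key : phiB F A ∈ (Subgroup.centralizer {phiA F B}).comap (MulAut.conj (nuG F)).toMonoidHom := by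
    apply phiB_mem
    · intro t
      rw [Subgroup.mem_comap, Subgroup.mem_centralizer_iff]
      intro y hy
      rw [Set.mem_singleton_iff] at hy
      subst hy
      show phiA F B * (nuG F * xg 6 t * (nuG F)⁻¹) = nuG F * xg 6 t * (nuG F)⁻¹ * phiA F B
      obtain ⟨c, -, h⟩ := nu_conj_6 (F := F)
      rw [h]
      exact phiA_comm_gen _ (fun u => comm_7_11 _ u) (fun u => comm_4_11 _ u) B
    · intro t
      rw [Subgroup.mem_comap, Subgroup.mem_centralizer_iff]
      intro y hy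
      rw [Set.mem_singleton_iff] at hy
      subst hy
      show phiA F B * (nuG F * xg 5 t * (nuG F)⁻¹) = nuG F * xg 5 t * (nuG F)⁻¹ * phiA F B
      obtain ⟨c, -, h⟩ := nu_conj_5 (F := F)
      rw [h]
      exact phiA_comm_gen _ (fun u => comm_7_0 _ u) (fun u => comm_4_0 _ u) B
  have h1 := (Subgroup.mem_centralizer_iff.mp (Subgroup.mem_comap.mp key)) _ rfl
  exact h1.symm

/-! ### The involution `t₀` in both subgroups -/

theorem phiA_neg : phiA F (dM (-1 : F) (by simp)) = t0 F := phiA_dM _ _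

theorem act_nu (e : F) (he : e ≠ 0) : Act (nuG F * hg 6 e * (nuG F)⁻¹)
    (fun s => e ^ zG 6 (chevG2.reflectRoot 0 (chevG2.reflectRoot 1 s))) := by
  have h1 := ((act_hg 6 (by decide) e he).conj 0 (by decide)).conj 1 (by decide)
  have e1 : nuG F * hg 6 e * (nuG F)⁻¹ = ng F 1 * (ng F 0 * hg 6 e * (ng F 0)⁻¹) * (ng F 1)⁻¹ := by
    unfold nuG
    rw [nw_cons, nw_single]; group
  rw [e1]
  exact h1

theorem phiL_dM (e : F) (he : e ≠ 0) : phiL F (dM e he) = nuG F * hg 6 e * (nuG F)⁻¹ := by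
  rw [phiL_apply, phiB_dM]

theorem zG6_rr7 : zG 6 (chevG2.reflectRoot 0 (chevG2.reflectRoot 1 7)) = 0 := by decide +kernel
theorem zG6_rr6 : zG 6 (chevG2.reflectRoot 0 (chevG2.reflectRoot 1 6)) = 1 := by decide +kernel

theorem phiL_neg : phiL F (dM (-1 : F) (by simp)) = t0 F := by
  rw [phiL_dM]
  apply act_eq_t0 (act_nu (-1 : F) (by simp))
  · show (-1 : F) ^ zG 6 (chevG2.reflectRoot 0 (chevG2.reflectRoot 1 7)) = 1
    rw [zG6_rr7, zpow_zero]
  · show (-1 : F) ^ zG 6 (chevG2.reflectRoot 0 (chevG2.reflectRoot 1 6)) = -1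
    rw [zG6_rr6, zpow_one]

end

end Cfsg.Agent.H7.G2I
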