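import Cfsg.Agent.H7.G2Cen1

set_option autoImplicit false

/-!
# The centralizer of an involution of `G₂(q)`, `q` odd: the centralizer is `⟨L₁, L₂, H⟩`
-/

namespace Cfsg.Agent.H7.G2I

open Cfsg.Lie Cfsg.Agent.H23 Cfsg.Agent.H22
open Matrix (SpecialLinearGroup)

section

variable {F : Type*} [Field F]

/-- Splitting off a fundamental root subgroup from an element of `U` centralized by a torus element. -/
theorem peel {r r' s₀ : ℕ} {n : GL chevG2.Idx F} {ρ : ℕ → ℕ} {η : ℕ → F}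
    {Ui : Subgroup (GL chevG2.Idx F)} (R : R1 F r r' s₀ n ρ η Ui)
    {T : GL chevG2.Idx F} {ψ : ℕ → F} (hT : Act T ψ) (g : GL chevG2.Idx F)
    (hg : g ∈ chevG2.posUnipotent F) (hc : T * g * T⁻¹ = g) :
    ∃ v ∈ Ui, ∃ τ : F, g = v * xg r τ ∧ T * v * T⁻¹ = v ∧ (ψ r = 1 ∨ τ = 0) := by
  have hS := (pkB F).sem
  have hUB : chevG2.posUnipotent F ≤ chevG2.borelSubgroup F := le_sup_left
  have hHN : chevG2.diagonalSubgroup F ≤ chevG2.monomialSubgroup F := le_sup_left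
  obtain ⟨v, hv, τ, h, hh, e⟩ := R.dec g (hUB hg)
  have hxU : xg r τ ∈ chevG2.posUnipotent F := by
    rw [posUnipotent_eq]; exact xU_mem_rootGen hS _ r R.pos τ
  have h1 : h = 1 := by
    have e' : h = (v * xg r τ)⁻¹ * g := by rw [e]; group
    have h2 : h ∈ chevG2.posUnipotent F ⊓ chevG2.monomialSubgroup F :=
      ⟨by rw [e']; exact Subgroup.mul_mem _ (Subgroup.inv_mem _ (Subgroup.mul_mem _ (R.UiU hv) hxU)) hg,
        hHN hh⟩
    rw [posUnipotent_inf_monomial hS, Subgroup.mem_bot] at h2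
    exact h2
  rw [h1, mul_one] at e
  have hTv : T * v * T⁻¹ ∈ Ui := (Subgroup.mem_normalizer_iff.mp (R.hN hT.1) v).mp hv
  have e2 : T * g * T⁻¹ = (T * v * T⁻¹) * xg r (ψ r * τ) := by
    rw [← hT.2 r R.hr τ, e]; group
  rw [hc] at e2
  have e3 : (T * v * T⁻¹)⁻¹ * v = xg r (ψ r * τ + -τ) := by
    rw [← xg_mul, ← xg_inv]
    have e4 : v * xg r τ = T * v * T⁻¹ * xg r (ψ r * τ) := by rw [← e, ← e2]
    calc (T * v * T⁻¹)⁻¹ * v = (T * v * T⁻¹)⁻¹ * (v * xg r τ) * (xg r τ)⁻¹ := by group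
      _ = xg r (ψ r * τ) * (xg r τ)⁻¹ := by rw [e4]; group
  have h5 : n * ((T * v * T⁻¹)⁻¹ * v) * n⁻¹ ∈ chevG2.posUnipotent F :=
    R.UiU ((Subgroup.mem_normalizer_iff.mp R.nN _).mp (Subgroup.mul_mem _ (Subgroup.inv_mem _ hTv) hv))
  rw [e3, R.conj r R.hr, R.ρr] at h5
  have h6 : xg r' (η r * (ψ r * τ + -τ)) ∈ chevG2.posUnipotent F ⊓ chevG2.negUnipotent F :=
    ⟨h5, by rw [negUnipotent_eq]; exact xU_mem_rootGen hS _ r' R.neg _⟩
  rw [pos_inf_neg hS (sV F), Subgroup.mem_bot] at h6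
  have h7 : η r * (ψ r * τ + -τ) = 0 := xg_inj r' R.hr' _ _ (h6.trans (xg_zero r').symm)
  have h8 : ψ r * τ + -τ = 0 := by
    rcases mul_eq_zero.mp h7 with h | h
    · exact absurd h (R.η0 r)
    · exact h
  refine ⟨v, hv, τ, e, ?_, ?_⟩
  · rw [h8, xg_zero] at e3
    exact inv_mul_eq_one.mp e3
  · by_cases hτ : τ = 0
    · right; exact hτ
    · left
      have h9 : (ψ r - 1) * τ = 0 := by linear_combination h8
      rcases mul_eq_zero.mp h9 with h | h
      · linear_combination h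
      · exact absurd h hτ

/-- The subgroup generated by the root subgroups on which the character `ψ` is trivial. -/
noncomputable def KG (F : Type*) [Field F] (ψ : ℕ → F) : Subgroup (GL chevG2.Idx F) :=
  rootGen chevG2 F (fun s => s < 12 ∧ ψ s = 1)

/-- The words along which the centralizer in `U` is peeled. -/
def RedOK : List ℕ → Prop
  | [] => True
  | i :: L => i < 2 ∧ chevG2.IsNegRoot (reflW chevG2 (i :: L).reverse (chevG2.simple i)) ∧ RedOK L

theorem RedOK.lt : ∀ (L : List ℕ), RedOK L → ∀ j ∈ L, j < chevG2.rank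
  | [], _, j, hj => by simp at hj
  | i :: L, h, j, hj => by
    rcases List.mem_cons.mp hj with rfl | hj'
    · exact h.1
    · exact RedOK.lt L h.2.2 j hj'

theorem cu_step (i : ℕ) (hi : i < 2) {r r' s₀ : ℕ} {η : ℕ → F} {Ui : Subgroup (GL chevG2.Idx F)}
    (R : R1 F r r' s₀ (ng F i) (chevG2.reflectRoot i) η Ui) (L : List ℕ)
    (hneg : chevG2.IsNegRoot (reflW chevG2 (i :: L).reverse r))
    (hLw : ∀ j ∈ L, j < chevG2.rank)
    (IH : ∀ (T : GL chevG2.Idx F) (ψ : ℕ → F), Act T ψ → ∀ g ∈ chevG2.posUnipotent F,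
      T * g * T⁻¹ = g → nw F L.reverse * g * (nw F L.reverse)⁻¹ ∈ chevG2.negUnipotent F → g ∈ KG F ψ)
    (T : GL chevG2.Idx F) (ψ : ℕ → F) (hT : Act T ψ) (g : GL chevG2.Idx F)
    (hg : g ∈ chevG2.posUnipotent F) (hc : T * g * T⁻¹ = g)
    (hV : nw F (i :: L).reverse * g * (nw F (i :: L).reverse)⁻¹ ∈ chevG2.negUnipotent F) :
    g ∈ KG F ψ := by
  have hS := (pkB F).sem
  obtain ⟨v, hv, τ, e, hvc, hor⟩ := peel R hT g hg hc
  have hx : xg r τ ∈ KG F ψ := by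
    rcases hor with h | h
    · exact xU_mem_rootGen hS _ r ⟨R.hr, h⟩ τ
    · rw [h, xg_zero]; exact Subgroup.one_mem _
  have hg' : ng F i * v * (ng F i)⁻¹ ∈ chevG2.posUnipotent F :=
    R.UiU ((Subgroup.mem_normalizer_iff.mp R.nN v).mp hv)
  have hT' := hT.conj i hi
  have hc' : (ng F i * T * (ng F i)⁻¹) * (ng F i * v * (ng F i)⁻¹) * (ng F i * T * (ng F i)⁻¹)⁻¹ =
      ng F i * v * (ng F i)⁻¹ := by
    calc _ = ng F i * (T * v * T⁻¹) * (ng F i)⁻¹ := by group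
      _ = _ := by rw [hvc]
  have hnw : nw F (i :: L).reverse = nw F L.reverse * ng F i := by
    rw [List.reverse_cons, nw_append, nw_single]
  have hw' : ∀ j ∈ (i :: L).reverse, j < chevG2.rank := by
    intro j hj
    rw [List.mem_reverse] at hj
    rcases List.mem_cons.mp hj with rfl | hj'
    · exact hi
    · exact hLw j hj'
  have hV' : nw F L.reverse * (ng F i * v * (ng F i)⁻¹) * (nw F L.reverse)⁻¹ ∈ chevG2.negUnipotent F := by
    have hv_eq : v = g * xg r (-τ) := by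
      rw [e, mul_assoc, xg_mul, add_neg_cancel, xg_zero, mul_one]
    have e5 : nw F L.reverse * (ng F i * v * (ng F i)⁻¹) * (nw F L.reverse)⁻¹ =
        (nw F (i :: L).reverse * g * (nw F (i :: L).reverse)⁻¹) *
          (nw F (i :: L).reverse * xg r (-τ) * (nw F (i :: L).reverse)⁻¹) := by
      rw [hnw, hv_eq]; group
    rw [e5]
    apply Subgroup.mul_mem _ hV
    obtain ⟨c, -, hcj⟩ := nWU_conj hS (pkB F).semN (pkB F).tab (i :: L).reverse hw' r R.hr
    have e6 : nw F (i :: L).reverse * xg r (-τ) * (nw F (i :: L).reverse)⁻¹ =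
        xU hS (reflW chevG2 (i :: L).reverse r) (c * -τ) := hcj (-τ)
    rw [e6, negUnipotent_eq]
    exact xU_mem_rootGen hS _ _ hneg _
  have h9 := IH _ _ hT' _ hg' hc' hV'
  have hconj : KG F (fun s => ψ (chevG2.reflectRoot i s)) ≤
      (KG F ψ).comap (MulAut.conj (ng F i)⁻¹).toMonoidHom := by
    apply rootGen_le hS
    rintro s ⟨hs, hψ⟩ t
    rw [Subgroup.mem_comap]
    show (ng F i)⁻¹ * xU hS s t * (ng F i)⁻¹⁻¹ ∈ KG F ψ
    rw [inv_inv]
    have e7 : (ng F i)⁻¹ * xU hS s t * ng F i = xU hS (chevG2.reflectRoot i s) _ :=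
      nU_conj' hS (pkB F).semN (pkB F).tab i hi s hs t
    rw [e7]
    exact xU_mem_rootGen hS _ _ ⟨(pkB F).tab.refl_lt i hi s hs, hψ⟩ _
  have hv' : v ∈ KG F ψ := by
    have h10 := hconj h9
    rw [Subgroup.mem_comap] at h10
    have e' : (MulAut.conj (ng F i)⁻¹).toMonoidHom (ng F i * v * (ng F i)⁻¹) = v := by
      show (ng F i)⁻¹ * (ng F i * v * (ng F i)⁻¹) * (ng F i)⁻¹⁻¹ = v
      group
    rwa [e'] at h10
  rw [e]
  exact Subgroup.mul_mem _ hv' hx

theorem cu_claim : ∀ (L : List ℕ), RedOK L → ∀ (T : GL chevG2.Idx F) (ψ : ℕ → F), Act T ψ →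
    ∀ g ∈ chevG2.posUnipotent F, T * g * T⁻¹ = g →
      nw F L.reverse * g * (nw F L.reverse)⁻¹ ∈ chevG2.negUnipotent F → g ∈ KG F ψ := by
  intro L
  induction L with
  | nil =>
    intro _ T ψ hT g hg hc hV
    have hV' : g ∈ chevG2.negUnipotent F := by
      have e : nw F ([] : List ℕ).reverse * g * (nw F ([] : List ℕ).reverse)⁻¹ = g := by
        rw [List.reverse_nil, nw_nil]; group
      rwa [e] at hV
    have h1 : g ∈ chevG2.posUnipotent F ⊓ chevG2.negUnipotent F := ⟨hg, hV'⟩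
    rw [pos_inf_neg (pkB F).sem (sV F), Subgroup.mem_bot] at h1
    rw [h1]; exact Subgroup.one_mem _
  | cons i L ih =>
    intro hL
    obtain ⟨hi, hneg, hL'⟩ := hL
    have hLw := RedOK.lt L hL'
    interval_cases i
    · rw [simple0_eq] at hneg
      exact cu_step 0 (by decide) r1_a L hneg hLw (ih hL')
    · rw [simple1_eq] at hneg
      exact cu_step 1 (by decide) r1_b L hneg hLw (ih hL')

theorem redOK_w0 : RedOK [1, 0, 1, 0, 1, 0] :=
  ⟨by decide, by decide +kernel, by decide, by decide +kernel, by decide, by decide +kernel,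
    by decide, by decide +kernel, by decide, by decide +kernel, by decide, by decide +kernel, trivial⟩

theorem w0_rev : w0G2.reverse = [1, 0, 1, 0, 1, 0] := by decide +kernel

/-- The centralizer in `U` of a torus element is generated by root subgroups. -/
theorem cU_le (T : GL chevG2.Idx F) (ψ : ℕ → F) (hT : Act T ψ) (g : GL chevG2.Idx F)
    (hg : g ∈ chevG2.posUnipotent F) (hc : T * g * T⁻¹ = g) : g ∈ KG F ψ := by
  apply cu_claim [1, 0, 1, 0, 1, 0] redOK_w0 T ψ hT g hg hc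
  have e : ([1, 0, 1, 0, 1, 0] : List ℕ).reverse = w0G2 := by decide +kernel
  rw [e]
  exact w0_conj_pos g hg


/-! ### The centralizer of `t₀` -/

theorem zG7_par : ∀ s < 12, (s = 0 ∨ s = 4 ∨ s = 7 ∨ s = 11) ∨ zG 7 s % 2 = 1 := by decide +kernel

theorem KG0_le (h2 : (2 : F) ≠ 0) : KG F (fun s => (-1 : F) ^ zG 7 s) ≤ MG F := by
  apply rootGen_mono (pkB F).sem
  rintro s ⟨hs, hψ⟩
  rcases zG7_par s hs with h | h
  · exact h
  · exfalso
    have hodd : Odd (zG 7 s) := Int.odd_iff.mpr h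
    have hψ' : (-1 : F) ^ zG 7 s = 1 := hψ
    rw [hodd.neg_one_zpow] at hψ'
    apply h2
    linear_combination -hψ'

theorem UmG_conj_diag (n k : GL chevG2.Idx F) {ψ : ℕ → F} (hk : Act k ψ) (u : GL chevG2.Idx F)
    (hu : u ∈ UmG chevG2 F n) : k * u * k⁻¹ ∈ UmG chevG2 F n := by
  have hS := (pkB F).sem
  have key : UmG chevG2 F n ≤ (UmG chevG2 F n).comap (MulAut.conj k).toMonoidHom := by
    unfold UmG
    rw [Subgroup.closure_le]
    rintro x ⟨r, t, hr, hmap, hx⟩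
    rw [SetLike.mem_coe, Subgroup.mem_comap]
    show k * x * k⁻¹ ∈ _
    rw [eq_xU hS x r t hx]
    have e : k * xU hS r t * k⁻¹ = xU hS r (ψ r * t) := hk.2 r hr.1 t
    rw [e]
    exact Subgroup.subset_closure ⟨r, ψ r * t, hr, hmap, rfl⟩
  exact key hu

theorem Act.conjW {k : GL chevG2.Idx F} {ψ : ℕ → F} (h : Act k ψ) : ∀ (w : List ℕ), (∀ i ∈ w, i < 2) →
    Act (nw F w * k * (nw F w)⁻¹) (fun s => ψ (reflW chevG2 w.reverse s))
  | [], _ => by
    have e : nw F [] * k * (nw F [])⁻¹ = k := by rw [nw_nil]; group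
    rw [e]
    exact h
  | i :: w, hw => by
    have ih := Act.conjW h w (fun j hj => hw j (List.mem_cons_of_mem _ hj))
    have h2 := ih.conj i (hw i (List.mem_cons_self ..))
    have e : nw F (i :: w) * k * (nw F (i :: w))⁻¹ = ng F i * (nw F w * k * (nw F w)⁻¹) * (ng F i)⁻¹ := by
      rw [nw_cons]; group
    rw [e]
    have e2 : (fun s => ψ (reflW chevG2 (i :: w).reverse s)) =
        (fun s => ψ (reflW chevG2 w.reverse (chevG2.reflectRoot i s))) := by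
      funext s
      rw [List.reverse_cons, reflW_append]
      rfl
    rw [e2]
    exact h2

theorem canon_good : ∀ w ∈ canonW, w ∈ ([[], [0], [1, 0, 1, 0, 1], [0, 1, 0, 1, 0, 1]] : List (List ℕ)) ∨
    ∃ s < 12, (zG 7 s - zG 7 (reflW chevG2 w.reverse s)) % 2 = 1 := by decide +kernel

theorem ng0_mem_MG : ng F 0 ∈ MG F := by
  rw [ng0_eq, nU_eq, neg7_eq]
  exact Subgroup.mul_mem _ (Subgroup.mul_mem _ (xg_mem_MG 7 (by simp [P0]) _) (xg_mem_MG 4 (by simp [P0]) _))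
    (xg_mem_MG 7 (by simp [P0]) _)

theorem nu6_mem (t : F) : nuG F * xg 6 t * (nuG F)⁻¹ ∈ MG F := by
  obtain ⟨c, -, h⟩ := nu_conj_6 (F := F)
  rw [h]
  exact xg_mem_MG 11 (by simp [P0]) _

theorem nu5_mem (t : F) : nuG F * xg 5 t * (nuG F)⁻¹ ∈ MG F := by
  obtain ⟨c, -, h⟩ := nu_conj_5 (F := F)
  rw [h]
  exact xg_mem_MG 0 (by simp [P0]) _

theorem nu_ng1_mem : nuG F * ng F 1 * (nuG F)⁻¹ ∈ MG F := by
  have e : nuG F * ng F 1 * (nuG F)⁻¹ = (nuG F * xg 6 1 * (nuG F)⁻¹) * (nuG F * xg 5 (-1⁻¹) * (nuG F)⁻¹) *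
      (nuG F * xg 6 1 * (nuG F)⁻¹) := by
    rw [ng1_eq, nU_eq, neg6_eq]
    group
  rw [e]
  exact Subgroup.mul_mem _ (Subgroup.mul_mem _ (nu6_mem _) (nu5_mem _)) (nu6_mem _)

theorem n5_mem : nw F [1, 0, 1, 0, 1] ∈ MG F ⊔ chevG2.diagonalSubgroup F := by
  have e : nw F [1, 0, 1, 0, 1] = (nuG F * ng F 1 * (nuG F)⁻¹) *
      ((ng F 1 * (ng F 0 * ng F 0) * (ng F 1)⁻¹) * (ng F 1 * ng F 1)) := by
    unfold nuG
    simp only [nw_cons, nw_nil]
    group
  rw [e]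
  exact Subgroup.mul_mem _ (Subgroup.mem_sup_left nu_ng1_mem)
    (Subgroup.mem_sup_right (Subgroup.mul_mem _ (r1_b.nH _ r1_a.nn) r1_b.nn))

theorem good_mem : ∀ w ∈ ([[], [0], [1, 0, 1, 0, 1], [0, 1, 0, 1, 0, 1]] : List (List ℕ)),
    nw F w ∈ MG F ⊔ chevG2.diagonalSubgroup F := by
  intro w hw
  simp only [List.mem_cons, List.not_mem_nil, or_false] at hw
  rcases hw with rfl | rfl | rfl | rfl
  · rw [nw_nil]; exact Subgroup.one_mem _
  · rw [nw_single]; exact Subgroup.mem_sup_left ng0_mem_MG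
  · exact n5_mem
  · rw [nw_cons]; exact Subgroup.mul_mem _ (Subgroup.mem_sup_left ng0_mem_MG) n5_mem

/-- Monomial elements centralizing `t₀`. -/
theorem mono_cent (h2 : (2 : F) ≠ 0) (n : GL chevG2.Idx F) (hn : n ∈ chevG2.monomialSubgroup F)
    (hc : t0 F * n = n * t0 F) : n ∈ MG F ⊔ chevG2.diagonalSubgroup F := by
  have hS := (pkB F).sem
  have hT := (pkB F).tab
  obtain ⟨h, hh, w, hw, rfl⟩ := exists_word_of_mem_monomial (pkB F) n hn
  obtain ⟨w', hw', hrefl⟩ := exists_canon w hw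
  have hw'lt := canon_lt w' hw'
  have hdc := dcB_word_eq_of_refl_eq (pkB F) w w' hw hw'lt hrefl
  have h1 : nw F w ∈ dcB chevG2 F (nw F w') := by rw [← hdc]; exact mem_dcB_self _
  have h3 := inv_mul_mem_of_mem_dcB (pkB F) (nWU_mem hS hT w' hw'lt) (nWU_mem hS hT w hw) h1
  have hk : (nw F w')⁻¹ * nw F w ∈ chevG2.diagonalSubgroup F := by
    have h4 : (nw F w')⁻¹ * nw F w ∈ chevG2.borelSubgroup F ⊓ chevG2.monomialSubgroup F :=
      ⟨h3, Subgroup.mul_mem _ (Subgroup.inv_mem _ (nWU_mem hS hT w' hw'lt)) (nWU_mem hS hT w hw)⟩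
    rwa [borel_inf_monomial hS] at h4
  obtain ⟨k, hkdef⟩ : ∃ k, k = (nw F w')⁻¹ * nw F w := ⟨_, rfl⟩
  rw [← hkdef] at hk
  have e : nw F w = nw F w' * k := by rw [hkdef]; group
  have hc' : t0 F * (h * (nw F w' * k)) = h * (nw F w' * k) * t0 F := by rw [← e]; exact hc
  have c1 := diag_comm (t0 F) h t0_mem_diag hh
  have c2 := diag_comm (t0 F) k t0_mem_diag hk
  have hcomm : nw F w' * t0 F * (nw F w')⁻¹ = t0 F := by
    have h5 : t0 F * nw F w' = nw F w' * t0 F := by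
      have h4 : h * (t0 F * nw F w') * k = h * (nw F w' * t0 F) * k := by
        calc h * (t0 F * nw F w') * k = (h * t0 F) * nw F w' * k := by group
          _ = (t0 F * h) * nw F w' * k := by rw [c1]
          _ = t0 F * (h * (nw F w' * k)) := by group
          _ = h * (nw F w' * k) * t0 F := hc'
          _ = h * nw F w' * (k * t0 F) := by group
          _ = h * nw F w' * (t0 F * k) := by rw [c2]
          _ = h * (nw F w' * t0 F) * k := by group
      exact mul_left_cancel (mul_right_cancel h4)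
    rw [← h5]; group
  have hA1 := (act_t0 (F := F)).conjW w' hw'lt
  rw [hcomm] at hA1
  have hψ : ∀ s < 12, (-1 : F) ^ zG 7 (reflW chevG2 w'.reverse s) = (-1 : F) ^ zG 7 s :=
    fun s hs => act_unique hA1 act_t0 s hs
  have e' : h * nw F w = h * nw F w' * k := by rw [e]; group
  rcases canon_good w' hw' with hgood | ⟨s, hs, hodd⟩
  · show h * nw F w ∈ _
    rw [e']
    exact Subgroup.mul_mem _ (Subgroup.mul_mem _ (Subgroup.mem_sup_right hh) (good_mem w' hgood))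
      (Subgroup.mem_sup_right hk)
  · exfalso
    have h6 := hψ s hs
    have hodd' : Odd (zG 7 s - zG 7 (reflW chevG2 w'.reverse s)) := Int.odd_iff.mpr hodd
    have h7 : (-1 : F) ^ (zG 7 s - zG 7 (reflW chevG2 w'.reverse s)) = 1 := by
      rw [zpow_sub₀ (by simp : (-1 : F) ≠ 0), h6]
      exact div_self (zpow_ne_zero _ (by simp))
    rw [hodd'.neg_one_zpow] at h7
    exact h2 (by linear_combination -h7)

/-- The centralizer of `t₀` is contained in `⟨L₁, L₂, H⟩`. -/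
theorem cent_le (h2 : (2 : F) ≠ 0) (g : GL chevG2.Idx F) (hg : g ∈ chevG2.group F)
    (hc : t0 F * g = g * t0 F) : g ∈ MG F ⊔ chevG2.diagonalSubgroup F := by
  have hP := pkB F
  have hS := hP.sem
  have hT := hP.tab
  have hHB : chevG2.diagonalSubgroup F ≤ chevG2.borelSubgroup F := le_sup_right
  have hHN : chevG2.diagonalSubgroup F ≤ chevG2.monomialSubgroup F := le_sup_left
  have ht := t0_mem_diag (F := F)
  have hnormU := diagonal_le_normalizer_rootGen hS chevG2.IsPosRoot (fun _ hr => hr.1)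
  obtain ⟨b, hb, n, hn, u, hu, rfl⟩ := canon_exists hP (sV F) tabT_G2 tabLG g hg
  have hnorm := monomial_le_normalizer_diag hS hP.semN hT hP.etaNeg
  have h3 : n * (t0 F)⁻¹ * n⁻¹ ∈ chevG2.diagonalSubgroup F :=
    (Subgroup.mem_normalizer_iff.mp (hnorm hn) _).mp (Subgroup.inv_mem _ ht)
  obtain ⟨X, hXdef⟩ : ∃ X, X = t0 F * (n * (t0 F)⁻¹ * n⁻¹) := ⟨_, rfl⟩
  have hXH : X ∈ chevG2.diagonalSubgroup F := by rw [hXdef]; exact Subgroup.mul_mem _ ht h3
  obtain ⟨u', hu'def⟩ : ∃ u', u' = t0 F * u * (t0 F)⁻¹ := ⟨_, rfl⟩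
  have hb' : t0 F * b * (t0 F)⁻¹ * X ∈ chevG2.borelSubgroup F :=
    Subgroup.mul_mem _ (Subgroup.mul_mem _ (Subgroup.mul_mem _ (hHB ht) hb) (Subgroup.inv_mem _ (hHB ht)))
      (hHB hXH)
  have hu' : u' ∈ UmG chevG2 F n := by rw [hu'def]; exact UmG_conj_diag n (t0 F) act_t0 u hu
  have e : b * n * u = t0 F * b * (t0 F)⁻¹ * X * n * u' := by
    have e1 : t0 F * b * (t0 F)⁻¹ * X * n * u' = t0 F * (b * n * u) * (t0 F)⁻¹ := by
      rw [hXdef, hu'def]; group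
    rw [e1, hc]; group
  obtain ⟨hbb, huu⟩ := (canon_unique hP (sV F) b _ n n u u' hb hb' hn hn hu hu' e).2 rfl
  have hu_c : t0 F * u * (t0 F)⁻¹ = u := by rw [← hu'def]; exact huu.symm
  have hu_mem : u ∈ MG F := KG0_le h2 (cU_le (t0 F) _ act_t0 u (UmG_le_pos n hu) hu_c)
  obtain ⟨u₁, hu₁, h₁, hh₁, rfl⟩ := exists_mul_of_mem_sup _ _ hnormU b hb
  have c1 := diag_comm (t0 F) h₁ ht hh₁
  have c1' : t0 F * h₁ * (t0 F)⁻¹ = h₁ := by rw [c1]; group
  have hbb' : u₁ * h₁ = (t0 F * u₁ * (t0 F)⁻¹) * h₁ * X := by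
    calc u₁ * h₁ = t0 F * (u₁ * h₁) * (t0 F)⁻¹ * X := hbb
      _ = (t0 F * u₁ * (t0 F)⁻¹) * (t0 F * h₁ * (t0 F)⁻¹) * X := by group
      _ = _ := by rw [c1']
  have key : (t0 F * u₁ * (t0 F)⁻¹)⁻¹ * u₁ = h₁ * X * h₁⁻¹ := by
    calc (t0 F * u₁ * (t0 F)⁻¹)⁻¹ * u₁ = (t0 F * u₁ * (t0 F)⁻¹)⁻¹ * (u₁ * h₁) * h₁⁻¹ := by group
      _ = (t0 F * u₁ * (t0 F)⁻¹)⁻¹ * ((t0 F * u₁ * (t0 F)⁻¹) * h₁ * X) * h₁⁻¹ := by rw [← hbb']
      _ = h₁ * X * h₁⁻¹ := by group
  have htu : t0 F * u₁ * (t0 F)⁻¹ ∈ chevG2.posUnipotent F :=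
    (Subgroup.mem_normalizer_iff.mp (hnormU ht) u₁).mp hu₁
  have hmem : (t0 F * u₁ * (t0 F)⁻¹)⁻¹ * u₁ ∈ chevG2.posUnipotent F ⊓ chevG2.monomialSubgroup F :=
    ⟨Subgroup.mul_mem _ (Subgroup.inv_mem _ htu) hu₁, by
      rw [key]
      exact hHN (Subgroup.mul_mem _ (Subgroup.mul_mem _ hh₁ hXH) (Subgroup.inv_mem _ hh₁))⟩
  rw [posUnipotent_inf_monomial hS, Subgroup.mem_bot] at hmem
  have hu₁_c : t0 F * u₁ * (t0 F)⁻¹ = u₁ := inv_mul_eq_one.mp hmem
  have hu₁_mem : u₁ ∈ MG F := KG0_le h2 (cU_le (t0 F) _ act_t0 u₁ hu₁ hu₁_c)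
  have hn_c : t0 F * n = n * t0 F := by
    rw [hmem] at key
    have hX1 : X = 1 := by
      have e2 : h₁⁻¹ * (h₁ * X * h₁⁻¹) * h₁ = X := by group
      rw [← e2, ← key]; group
    rw [hXdef] at hX1
    calc t0 F * n = (t0 F * (n * (t0 F)⁻¹ * n⁻¹)) * n * t0 F := by group
      _ = n * t0 F := by rw [hX1, one_mul]
  have hn_mem := mono_cent h2 n hn hn_c
  exact Subgroup.mul_mem _ (Subgroup.mul_mem _ (Subgroup.mul_mem _ (Subgroup.mem_sup_left hu₁_mem)
    (Subgroup.mem_sup_right hh₁)) hn_mem) (Subgroup.mem_sup_left hu_mem)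

end

end Cfsg.Agent.H7.G2I
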