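import Cfsg.Agent.H7.G2Cen2
import Cfsg.Agent.H44.SL2Card

set_option autoImplicit false

/-!
# The centralizer of an involution of `G₂(q)`, `q` odd: index and order
-/

namespace Cfsg.Agent.H7.G2I

open Cfsg.Lie Cfsg.Agent.H23 Cfsg.Agent.H22
open Matrix (SpecialLinearGroup)

section

variable {F : Type*} [Field F]

/-- A torus element whose character is a square on `a` lies in `⟨L₁, L₂⟩`. -/
theorem diag_sq_mem (h : GL chevG2.Idx F) {χ : ℕ → F} (hact : Act h χ) (h6 : χ 6 ≠ 0) (d : F)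
    (hd0 : d ≠ 0) (hd : χ 7 = d ^ 2) : h ∈ MG F := by
  obtain ⟨e, he⟩ : ∃ e : F, e = χ 6 * d ^ 3 := ⟨_, rfl⟩
  have he0 : e ≠ 0 := by rw [he]; exact mul_ne_zero h6 (pow_ne_zero 3 hd0)
  have A1 := act_hg 7 (by decide) d hd0
  have A2 := act_nu e he0
  have A3 := (hact.mul (A1.inv (fun s _ => zpow_ne_zero _ hd0))).mul
    (A2.inv (fun s _ => zpow_ne_zero _ he0))
  have h1 := act_eq_one A3 (by
      show χ 7 * (d ^ zG 7 7)⁻¹ * (e ^ zG 6 (chevG2.reflectRoot 0 (chevG2.reflectRoot 1 7)))⁻¹ = 1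
      rw [zG_7_7, zG6_rr7, zpow_zero, inv_one, mul_one, hd]
      have : d ^ (2 : ℤ) = d ^ 2 := by norm_cast
      rw [this]
      exact mul_inv_cancel₀ (pow_ne_zero 2 hd0)) (by
      show χ 6 * (d ^ zG 7 6)⁻¹ * (e ^ zG 6 (chevG2.reflectRoot 0 (chevG2.reflectRoot 1 6)))⁻¹ = 1
      rw [zG_7_6, zG6_rr6, zpow_one, zpow_neg, inv_inv, he]
      have : d ^ (3 : ℤ) = d ^ 3 := by norm_cast
      rw [this]
      exact mul_inv_cancel₀ (mul_ne_zero h6 (pow_ne_zero 3 hd0)))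
  have e1 : h = (nuG F * hg 6 e * (nuG F)⁻¹) * hg 7 d := by
    calc h = (h * (hg 7 d)⁻¹ * (nuG F * hg 6 e * (nuG F)⁻¹)⁻¹) * (nuG F * hg 6 e * (nuG F)⁻¹) * hg 7 d := by
          group
      _ = _ := by rw [h1, one_mul]
  rw [e1]
  apply Subgroup.mul_mem
  · rw [← phiL_dM e he0]; exact phiL_mem_MG _
  · rw [← phiA_dM d hd0]; exact phiA_mem_MG _

/-- The product map `SL₂ × SL₂ → G`. -/
noncomputable def psiH (F : Type*) [Field F] :
    SpecialLinearGroup (Fin 2) F × SpecialLinearGroup (Fin 2) F →* GL chevG2.Idx F :=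
  (phiL F).noncommCoprod (phiA F) (fun A B => phiL_phiA_comm A B)

theorem psiH_apply (A B : SpecialLinearGroup (Fin 2) F) : psiH F (A, B) = phiL F A * phiA F B := rfl

theorem MG_eq_range : MG F = (psiH F).range := by
  rw [MG_eq]
  exact (MonoidHom.noncommCoprod_range _ _ _).symm

theorem exists_of_mem_MG (x : GL chevG2.Idx F) (hx : x ∈ MG F) :
    ∃ A B, x = phiL F A * phiA F B := by
  rw [MG_eq_range] at hx
  obtain ⟨⟨A, B⟩, rfl⟩ := hx
  exact ⟨A, B, rfl⟩

theorem mul_uM1_00 (A : SpecialLinearGroup (Fin 2) F) : (A * SL2.uM 1).1 0 0 = A.1 0 0 := by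
  show (A.1 * (SL2.uM (1 : F)).1) 0 0 = _
  simp [SL2.uM, Matrix.mul_apply, Fin.sum_univ_two]

theorem mul_uM1_01 (A : SpecialLinearGroup (Fin 2) F) : (A * SL2.uM 1).1 0 1 = A.1 0 0 + A.1 0 1 := by
  show (A.1 * (SL2.uM (1 : F)).1) 0 1 = _
  simp [SL2.uM, Matrix.mul_apply, Fin.sum_univ_two]

/-- A torus element in `⟨L₁, L₂⟩` has a character which is a square on `a`. -/
theorem sq_of_diag_mem (h : GL chevG2.Idx F) {χ : ℕ → F} (hact : Act h χ) (h7 : χ 7 ≠ 0)
    (hM : h ∈ MG F) : IsSquare (χ 7) := by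
  obtain ⟨A, B, rfl⟩ := exists_of_mem_MG h hM
  have e1 := hact.2 7 (by decide) 1
  rw [mul_one] at e1
  have e2 : phiL F A * phiA F B * xg 7 1 * (phiL F A * phiA F B)⁻¹ = phiA F (B * SL2.uM 1 * B⁻¹) := by
    have c := phiL_phiA_comm A (B * SL2.uM 1 * B⁻¹)
    rw [map_mul, map_mul, map_inv, phiA_uM] at c ⊢
    calc phiL F A * phiA F B * xg 7 1 * (phiL F A * phiA F B)⁻¹ =
        (phiL F A * (phiA F B * xg 7 1 * (phiA F B)⁻¹)) * (phiL F A)⁻¹ := by group
      _ = _ := by rw [c]; group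
  rw [e2, ← phiA_uM] at e1
  have e3 := phiA_inj e1
  have e4 : B * SL2.uM 1 = SL2.uM (χ 7) * B := by rw [← e3]; group
  have a1 := congrArg (fun M : SpecialLinearGroup (Fin 2) F => M.1 0 0) e4
  have a2 := congrArg (fun M : SpecialLinearGroup (Fin 2) F => M.1 0 1) e4
  simp only [SL2.uM_mul_00, SL2.uM_mul_01] at a1 a2
  rw [mul_uM1_00] at a1
  rw [mul_uM1_01] at a2
  have hd := SL2.det_eq B
  have hc : B.1 1 0 = 0 := by
    have h0 : χ 7 * B.1 1 0 = 0 := by linear_combination -a1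
    rcases mul_eq_zero.mp h0 with h | h
    · exact absurd h h7
    · exact h
  have h00 : B.1 0 0 = χ 7 * B.1 1 1 := by linear_combination a2
  rw [hc, mul_zero, sub_zero] at hd
  refine ⟨B.1 0 0, ?_⟩
  linear_combination (-(B.1 0 0)) * h00 + (-(χ 7)) * hd

/-- The coset structure of the centralizer over `⟨L₁, L₂⟩`. -/
theorem xor_lemma [Fintype F] (hF : Odd (Fintype.card F)) :
    ∃ a ∈ chevG2.group F, t0 F * a = a * t0 F ∧
      ∀ b ∈ chevG2.group F, t0 F * b = b * t0 F → Xor (b * a ∈ MG F) (b ∈ MG F) := by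
  classical
  have hS := (pkB F).sem
  have hchar : ringChar F ≠ 2 := by
    intro h
    have h1 := FiniteField.even_card_iff_char_two.mp h
    rcases hF with ⟨k, hk⟩
    omega
  have h2 : (2 : F) ≠ 0 := Ring.two_ne_zero hchar
  obtain ⟨ν, hν⟩ := FiniteField.exists_nonsquare hchar
  have hν0 : ν ≠ 0 := by
    rintro rfl
    exact hν ⟨0, by simp⟩
  have hνH : hg 6 ν ∈ chevG2.diagonalSubgroup F := hU_mem_diag hS 6 (by decide) ν hν0
  refine ⟨hg 6 ν, diagonal_le_group hS hνH, diag_comm _ _ t0_mem_diag hνH, ?_⟩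
  intro b hb hbc
  have hbK := cent_le h2 b hb hbc
  obtain ⟨m, hm, h, hh, rfl⟩ := exists_mul_of_mem_sup _ _
    (diagonal_le_normalizer_rootGen hS P0 (by
      intro r hr
      rcases hr with rfl | rfl | rfl | rfl <;> decide)) b hbK
  obtain ⟨χ, hχ, hact⟩ := act_of_mem h hh
  have A6 := act_hg 6 (by decide) ν hν0
  have hprod := hact.mul A6
  have r1 : m * h ∈ MG F ↔ h ∈ MG F := by
    constructor
    · intro hx
      have h3 := Subgroup.mul_mem _ (Subgroup.inv_mem _ hm) hx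
      rwa [inv_mul_cancel_left] at h3
    · intro hx
      exact Subgroup.mul_mem _ hm hx
  have r2 : m * h * hg 6 ν ∈ MG F ↔ h * hg 6 ν ∈ MG F := by
    rw [mul_assoc]
    constructor
    · intro hx
      have h3 := Subgroup.mul_mem _ (Subgroup.inv_mem _ hm) hx
      rwa [inv_mul_cancel_left] at h3
    · intro hx
      exact Subgroup.mul_mem _ hm hx
  rw [r1, r2]
  have hχ7 : χ 7 ≠ 0 := hχ.1 7
  have hχ6 : χ 6 ≠ 0 := hχ.1 6
  by_cases hsq : IsSquare (χ 7)
  · right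
    obtain ⟨d, hd⟩ := hsq
    have hd0 : d ≠ 0 := by
      rintro rfl
      exact hχ7 (by rw [hd]; simp)
    refine ⟨diag_sq_mem h hact hχ6 d hd0 (by rw [hd]; ring), fun hx => ?_⟩
    have h3 := sq_of_diag_mem _ hprod (by
      show χ 7 * ν ^ zG 6 7 ≠ 0
      exact mul_ne_zero hχ7 (zpow_ne_zero _ hν0)) hx
    have h4 : IsSquare (χ 7 * ν⁻¹) := by
      have t : IsSquare (χ 7 * ν ^ zG 6 7) := h3
      rw [zG_6_7, zpow_neg, zpow_one] at t
      exact t
    apply hν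
    rw [← isSquare_inv]
    obtain ⟨c, hc⟩ := h4
    refine ⟨c * d⁻¹, ?_⟩
    have e5 : ν⁻¹ = (χ 7 * ν⁻¹) * (χ 7)⁻¹ := by
      rw [mul_comm (χ 7), mul_assoc, mul_inv_cancel₀ hχ7, mul_one]
    rw [e5, hc, hd]
    field_simp
  · left
    constructor
    · have hq : IsSquare (χ 7 * ν⁻¹) := by
        have q1 : quadraticChar F (χ 7) = -1 := quadraticChar_neg_one_iff_not_isSquare.mpr hsq
        have q2 : quadraticChar F ν⁻¹ = -1 :=
          quadraticChar_neg_one_iff_not_isSquare.mpr (fun h => hν (isSquare_inv.mp h))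
        have q3 : quadraticChar F (χ 7 * ν⁻¹) = 1 := by
          rw [map_mul, q1, q2]; norm_num
        exact (quadraticChar_one_iff_isSquare (mul_ne_zero hχ7 (inv_ne_zero hν0))).mp q3
      obtain ⟨d, hd⟩ := hq
      have hd0 : d ≠ 0 := by
        rintro rfl
        exact (mul_ne_zero hχ7 (inv_ne_zero hν0)) (by rw [hd]; simp)
      exact diag_sq_mem _ hprod (by
        show χ 6 * ν ^ zG 6 6 ≠ 0
        exact mul_ne_zero hχ6 (zpow_ne_zero _ hν0)) d hd0 (by
        show χ 7 * ν ^ zG 6 7 = d ^ 2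
        rw [zG_6_7, zpow_neg, zpow_one, hd]; ring)
    · intro hx
      exact hsq (sq_of_diag_mem h hact hχ7 hx)

end

end Cfsg.Agent.H7.G2I
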