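import Cfsg.Agent.H7.G2Cen3

set_option autoImplicit false

/-!
# The centralizer of an involution of `G₂(q)`, `q` odd: the statement
-/

namespace Cfsg.Agent.H7.G2I

open Cfsg.Lie Cfsg.Agent.H23 Cfsg.Agent.H22
open Matrix (SpecialLinearGroup)

/-- Transport of the structure of a centralizer along a conjugation. -/
theorem transport_conj {G : Type*} [Group G] {S : Type*} [Group S] (y t : G) (N : ℕ)
    (h : Nat.card (Subgroup.centralizer ({t} : Set G)) = N ∧ ∃ L₁ L₂ : Subgroup G,
      Nonempty (L₁ ≃* S) ∧ Nonempty (L₂ ≃* S) ∧ (∀ x ∈ L₁, ∀ y ∈ L₂, x * y = y * x) ∧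
      L₁ ⊓ L₂ = Subgroup.zpowers t ∧ L₁ ⊔ L₂ ≤ Subgroup.centralizer ({t} : Set G) ∧
      (L₁ ⊔ L₂).relIndex (Subgroup.centralizer ({t} : Set G)) = 2) :
    Nat.card (Subgroup.centralizer ({y * t * y⁻¹} : Set G)) = N ∧ ∃ L₁ L₂ : Subgroup G,
      Nonempty (L₁ ≃* S) ∧ Nonempty (L₂ ≃* S) ∧ (∀ x ∈ L₁, ∀ y ∈ L₂, x * y = y * x) ∧
      L₁ ⊓ L₂ = Subgroup.zpowers (y * t * y⁻¹) ∧
      L₁ ⊔ L₂ ≤ Subgroup.centralizer ({y * t * y⁻¹} : Set G) ∧
      (L₁ ⊔ L₂).relIndex (Subgroup.centralizer ({y * t * y⁻¹} : Set G)) = 2 := by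
  obtain ⟨hN, L₁, L₂, ⟨e₁⟩, ⟨e₂⟩, hcomm, hinf, hsup, hrel⟩ := h
  obtain ⟨f, hf⟩ : ∃ f : G →* G, f = (MulAut.conj y).toMonoidHom := ⟨_, rfl⟩
  have hfa : ∀ x, f x = y * x * y⁻¹ := by intro x; rw [hf]; rfl
  have hinj : Function.Injective f := by rw [hf]; exact (MulAut.conj y).injective
  have hC : Subgroup.centralizer ({y * t * y⁻¹} : Set G) = (Subgroup.centralizer ({t} : Set G)).map f := by
    ext x
    constructor
    · intro hx
      refine ⟨y⁻¹ * x * y, ?_, ?_⟩
      · rw [SetLike.mem_coe, Subgroup.mem_centralizer_iff]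
        intro k hk
        rw [Set.mem_singleton_iff] at hk
        subst hk
        have h1 := (Subgroup.mem_centralizer_iff.mp hx) _ rfl
        calc k * (y⁻¹ * x * y) = y⁻¹ * (y * k * y⁻¹ * x) * y := by group
          _ = y⁻¹ * (x * (y * k * y⁻¹)) * y := by rw [h1]
          _ = _ := by group
      · rw [hfa]; group
    · rintro ⟨z, hz, rfl⟩
      rw [Subgroup.mem_centralizer_iff]
      intro k hk
      rw [Set.mem_singleton_iff] at hk
      subst hk
      have h1 := (Subgroup.mem_centralizer_iff.mp hz) _ rfl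
      rw [hfa]
      calc y * t * y⁻¹ * (y * z * y⁻¹) = y * (t * z) * y⁻¹ := by group
        _ = y * (z * t) * y⁻¹ := by rw [h1]
        _ = _ := by group
  rw [hC]
  refine ⟨?_, L₁.map f, L₂.map f, ⟨(L₁.equivMapOfInjective f hinj).symm.trans e₁⟩,
    ⟨(L₂.equivMapOfInjective f hinj).symm.trans e₂⟩, ?_, ?_, ?_, ?_⟩
  · rw [← hN]
    exact Nat.card_congr ((Subgroup.centralizer ({t} : Set G)).equivMapOfInjective f hinj).toEquiv.symm
  · rintro _ ⟨a, ha, rfl⟩ _ ⟨b, hb, rfl⟩
    rw [← map_mul, ← map_mul, hcomm a ha b hb]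
  · rw [← Subgroup.map_inf _ _ f hinj, hinf, MonoidHom.map_zpowers, hfa]
  · rw [← Subgroup.map_sup]
    exact Subgroup.map_mono hsup
  · rw [← Subgroup.map_sup, Subgroup.relIndex_map_map_of_injective _ _ hinj]
    exact hrel

section

variable {F : Type*} [Field F]

theorem MG_le_group : MG F ≤ chevG2.group F :=
  rootGen_le (pkB F).sem P0 _ (fun r _ t => xg_mem r t)

/-- The homomorphism onto the long root `SL₂`, into the group. -/
noncomputable def phiL' (F : Type*) [Field F] : SpecialLinearGroup (Fin 2) F →* ↥(chevG2.group F) :=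
  (phiL F).codRestrict (chevG2.group F) (fun A => MG_le_group (phiL_mem_MG A))

/-- The homomorphism onto the short root `SL₂`, into the group. -/
noncomputable def phiA' (F : Type*) [Field F] : SpecialLinearGroup (Fin 2) F →* ↥(chevG2.group F) :=
  (phiA F).codRestrict (chevG2.group F) (fun A => MG_le_group (phiA_mem_MG A))

theorem phiL'_inj : Function.Injective (phiL' F) := fun _ _ h => phiL_inj (congrArg Subtype.val h)
theorem phiA'_inj : Function.Injective (phiA' F) := fun _ _ h => phiA_inj (congrArg Subtype.val h)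

theorem phi'_comm (A B : SpecialLinearGroup (Fin 2) F) : phiL' F A * phiA' F B = phiA' F B * phiL' F A :=
  Subtype.ext (phiL_phiA_comm A B)

/-- The involution `t₀` as an element of the group. -/
noncomputable def t0' (F : Type*) [Field F] : ↥(chevG2.group F) :=
  ⟨t0 F, diagonal_le_group (pkB F).sem t0_mem_diag⟩

/-- The central involution of `SL₂`. -/
def zM (F : Type*) [Field F] : SpecialLinearGroup (Fin 2) F := dM (-1 : F) (by simp)

theorem phiA'_z : phiA' F (zM F) = t0' F := Subtype.ext phiA_neg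
theorem phiL'_z : phiL' F (zM F) = t0' F := Subtype.ext phiL_neg

theorem zM_ne_one (h2 : (2 : F) ≠ 0) : zM F ≠ 1 := by
  intro h
  have h1 := congrArg (fun M : SpecialLinearGroup (Fin 2) F => M.1 0 0) h
  have e : ((1 : SpecialLinearGroup (Fin 2) F) : Matrix (Fin 2) (Fin 2) F) = 1 := rfl
  have h3 : (-1 : F) = 1 := by
    have h4 : (zM F).1 0 0 = ((1 : SpecialLinearGroup (Fin 2) F) : Matrix (Fin 2) (Fin 2) F) 0 0 := h1
    rw [e] at h4
    simpa [zM, dM] using h4
  apply h2
  linear_combination -h3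

theorem sl2_center' (B : SpecialLinearGroup (Fin 2) F) (h : ∀ B', B * B' = B' * B) :
    B = 1 ∨ B = zM F := sl2_center B h

/-- The structure of the centralizer of `t₀`. -/
theorem cent_t0 [Fintype F] (hF : Odd (Fintype.card F)) :
    Nat.card (Subgroup.centralizer ({t0' F} : Set ↥(chevG2.group F))) =
      Fintype.card F ^ 2 * (Fintype.card F ^ 2 - 1) ^ 2 ∧
    ∃ L₁ L₂ : Subgroup ↥(chevG2.group F),
      Nonempty (L₁ ≃* SpecialLinearGroup (Fin 2) F) ∧ Nonempty (L₂ ≃* SpecialLinearGroup (Fin 2) F) ∧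
      (∀ x ∈ L₁, ∀ y ∈ L₂, x * y = y * x) ∧ L₁ ⊓ L₂ = Subgroup.zpowers (t0' F) ∧
      L₁ ⊔ L₂ ≤ Subgroup.centralizer ({t0' F} : Set ↥(chevG2.group F)) ∧
      (L₁ ⊔ L₂).relIndex (Subgroup.centralizer ({t0' F} : Set ↥(chevG2.group F))) = 2 := by
  classical
  have hchar : ringChar F ≠ 2 := by
    intro h
    have h1 := FiniteField.even_card_iff_char_two.mp h
    rcases hF with ⟨k, hk⟩
    omega
  have h2 : (2 : F) ≠ 0 := Ring.two_ne_zero hchar
  -- the join centralizes `t₀`
  have hsup_le : (phiL' F).range ⊔ (phiA' F).range ≤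
      Subgroup.centralizer ({t0' F} : Set ↥(chevG2.group F)) := by
    rw [sup_le_iff]
    constructor
    · rintro _ ⟨A, rfl⟩
      rw [Subgroup.mem_centralizer_iff]
      intro y hy
      rw [Set.mem_singleton_iff] at hy
      subst hy
      rw [← phiA'_z]
      exact (phi'_comm A (zM F)).symm
    · rintro _ ⟨B, rfl⟩
      rw [Subgroup.mem_centralizer_iff]
      intro y hy
      rw [Set.mem_singleton_iff] at hy
      subst hy
      rw [← phiL'_z]
      exact phi'_comm (zM F) B
  -- the intersection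
  have hinf : (phiL' F).range ⊓ (phiA' F).range = Subgroup.zpowers (t0' F) := by
    apply le_antisymm
    · rintro x ⟨⟨A, hA⟩, ⟨B, hB⟩⟩
      have hcen : ∀ B' : SpecialLinearGroup (Fin 2) F, B * B' = B' * B := by
        intro B'
        apply phiA'_inj
        rw [map_mul, map_mul, hB, ← hA]
        exact phi'_comm A B'
      rcases sl2_center' B hcen with h | h
      · rw [← hB, h, map_one]; exact Subgroup.one_mem _
      · rw [← hB, h, phiA'_z]; exact Subgroup.mem_zpowers _
    · rw [Subgroup.zpowers_le]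
      exact ⟨⟨zM F, phiL'_z⟩, ⟨zM F, phiA'_z⟩⟩
  -- membership in the join
  have hmem : ∀ y : ↥(chevG2.group F), y ∈ (phiL' F).range ⊔ (phiA' F).range ↔
      (y : GL chevG2.Idx F) ∈ MG F := by
    intro y
    constructor
    · intro hy
      have hle : (phiL' F).range ⊔ (phiA' F).range ≤ (MG F).comap (chevG2.group F).subtype := by
        rw [sup_le_iff]
        constructor
        · rintro _ ⟨A, rfl⟩
          exact phiL_mem_MG A
        · rintro _ ⟨A, rfl⟩
          exact phiA_mem_MG A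
      exact hle hy
    · intro hy
      obtain ⟨A, B, e⟩ := exists_of_mem_MG _ hy
      have e' : y = phiL' F A * phiA' F B := Subtype.ext e
      rw [e']
      exact Subgroup.mul_mem _ (Subgroup.mem_sup_left ⟨A, rfl⟩) (Subgroup.mem_sup_right ⟨B, rfl⟩)
  -- the index
  have hrel : ((phiL' F).range ⊔ (phiA' F).range).relIndex
      (Subgroup.centralizer ({t0' F} : Set ↥(chevG2.group F))) = 2 := by
    rw [Subgroup.relIndex_eq_two_iff]
    obtain ⟨a, haG, hac, hx⟩ := xor_lemma hF
    refine ⟨⟨a, haG⟩, ?_, ?_⟩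
    · rw [Subgroup.mem_centralizer_iff]
      intro y hy
      rw [Set.mem_singleton_iff] at hy
      subst hy
      exact Subtype.ext hac
    · intro b hb
      have hbc : t0 F * b.1 = b.1 * t0 F :=
        congrArg Subtype.val ((Subgroup.mem_centralizer_iff.mp hb) (t0' F) rfl)
      have h3 := hx b.1 b.2 hbc
      rw [hmem, hmem]
      exact h3
  -- the order
  have hcard : Nat.card (Subgroup.centralizer ({t0' F} : Set ↥(chevG2.group F))) =
      Fintype.card F ^ 2 * (Fintype.card F ^ 2 - 1) ^ 2 := by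
    obtain ⟨Ψ, hΨ⟩ : ∃ Ψ : SpecialLinearGroup (Fin 2) F × SpecialLinearGroup (Fin 2) F →* ↥(chevG2.group F),
        Ψ = (phiL' F).noncommCoprod (phiA' F) (fun A B => phi'_comm A B) := ⟨_, rfl⟩
    have hΨa : ∀ A B, Ψ (A, B) = phiL' F A * phiA' F B := by
      intro A B; rw [hΨ]; rfl
    have hrange : Ψ.range = (phiL' F).range ⊔ (phiA' F).range := by
      rw [hΨ]; exact MonoidHom.noncommCoprod_range _ _ _
    have hker : ∀ p : SpecialLinearGroup (Fin 2) F × SpecialLinearGroup (Fin 2) F, p ∈ Ψ.ker →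
        p = 1 ∨ p = ((zM F)⁻¹, zM F) := by
      rintro ⟨A, B⟩ hp
      rw [MonoidHom.mem_ker, hΨa] at hp
      have hAB : phiA' F B = phiL' F A⁻¹ := by
        rw [map_inv]
        exact eq_inv_of_mul_eq_one_right hp
      have hcen : ∀ B' : SpecialLinearGroup (Fin 2) F, B * B' = B' * B := by
        intro B'
        apply phiA'_inj
        rw [map_mul, map_mul, hAB]
        exact phi'_comm A⁻¹ B'
      rcases sl2_center' B hcen with h | h
      · left
        subst h
        rw [map_one, mul_one] at hp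
        have hA : A = 1 := phiL'_inj (by rw [hp, map_one])
        rw [hA]; rfl
      · right
        subst h
        rw [phiA'_z, ← phiL'_z, ← map_mul] at hp
        have hA : A * zM F = 1 := phiL'_inj (by rw [hp, map_one])
        have hA' : A = (zM F)⁻¹ := eq_inv_of_mul_eq_one_left hA
        rw [hA']
    have hz : ((zM F)⁻¹, zM F) ∈ Ψ.ker := by
      rw [MonoidHom.mem_ker, hΨa, map_inv, phiL'_z, phiA'_z, inv_mul_cancel]
    have hkcard : Nat.card Ψ.ker = 2 := by
      rw [Nat.card_eq_two_iff]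
      refine ⟨1, ⟨((zM F)⁻¹, zM F), hz⟩, ?_, ?_⟩
      · intro h
        have h3 := congrArg (fun p : Ψ.ker => (p : SpecialLinearGroup (Fin 2) F × SpecialLinearGroup (Fin 2) F).2) h
        exact zM_ne_one h2 h3.symm
      · ext p
        simp only [Set.mem_insert_iff, Set.mem_singleton_iff, Set.mem_univ, iff_true]
        rcases hker p.1 p.2 with h | h
        · left; exact Subtype.ext h
        · right; exact Subtype.ext h
    have h4 := Subgroup.card_mul_index Ψ.ker
    rw [Subgroup.index_ker, hkcard, hrange, Nat.card_prod, Cfsg.Agent.H44.card_SL2] at h4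
    have h5 := Subgroup.card_mul_index
      (((phiL' F).range ⊔ (phiA' F).range).subgroupOf
        (Subgroup.centralizer ({t0' F} : Set ↥(chevG2.group F))))
    have h6 : (((phiL' F).range ⊔ (phiA' F).range).subgroupOf
        (Subgroup.centralizer ({t0' F} : Set ↥(chevG2.group F)))).index = 2 := hrel
    have h7 : Nat.card (((phiL' F).range ⊔ (phiA' F).range).subgroupOf
        (Subgroup.centralizer ({t0' F} : Set ↥(chevG2.group F)))) =
        Nat.card ((phiL' F).range ⊔ (phiA' F).range : Subgroup ↥(chevG2.group F)) :=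
      Nat.card_congr (Subgroup.subgroupOfEquivOfLe hsup_le).toEquiv
    rw [h6, h7] at h5
    rw [← h5, mul_comm, h4]
    ring
  exact ⟨hcard, (phiL' F).range, (phiA' F).range, ⟨(MonoidHom.ofInjective phiL'_inj).symm⟩,
    ⟨(MonoidHom.ofInjective phiA'_inj).symm⟩,
    (by rintro _ ⟨A, rfl⟩ _ ⟨B, rfl⟩; exact phi'_comm A B), hinf, hsup_le, hrel⟩

/-- The centralizer of an involution of `G₂(q)`, `q` odd. -/
theorem invol_cent [Fintype F] (hF : Odd (Fintype.card F)) (t : ↥(chevG2.group F)) (ht : orderOf t = 2) :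
    Nat.card (Subgroup.centralizer ({t} : Set ↥(chevG2.group F))) =
      Fintype.card F ^ 2 * (Fintype.card F ^ 2 - 1) ^ 2 ∧
    ∃ L₁ L₂ : Subgroup ↥(chevG2.group F),
      Nonempty (L₁ ≃* SpecialLinearGroup (Fin 2) F) ∧ Nonempty (L₂ ≃* SpecialLinearGroup (Fin 2) F) ∧
      (∀ x ∈ L₁, ∀ y ∈ L₂, x * y = y * x) ∧ L₁ ⊓ L₂ = Subgroup.zpowers t ∧
      L₁ ⊔ L₂ ≤ Subgroup.centralizer ({t} : Set ↥(chevG2.group F)) ∧
      (L₁ ⊔ L₂).relIndex (Subgroup.centralizer ({t} : Set ↥(chevG2.group F))) = 2 := by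
  have h2 : t ^ 2 = 1 := by rw [← ht]; exact pow_orderOf_eq_one t
  have h1 : t ≠ 1 := by
    intro h
    rw [h, orderOf_one] at ht
    exact absurd ht (by decide)
  have h2' : t.1 * t.1 = 1 := by
    have := congrArg Subtype.val h2
    rw [sq] at this
    exact this
  obtain ⟨x, hx, e⟩ := all_good hF t.1 t.2 h2' (fun h => h1 (Subtype.ext h))
  have ht' : t = (⟨x, hx⟩ : ↥(chevG2.group F))⁻¹ * t0' F * ((⟨x, hx⟩ : ↥(chevG2.group F))⁻¹)⁻¹ := by
    apply Subtype.ext
    show t.1 = x⁻¹ * t0 F * x⁻¹⁻¹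
    rw [← e]; group
  rw [ht']
  exact transport_conj _ _ _ (cent_t0 hF)

end

end Cfsg.Agent.H7.G2I
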