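import Cfsg.Agent.H7.G2Cen4

set_option autoImplicit false

/-!
# Root elements of `G₂(q)`: commutation, coordinates in `X_{2a+b} X_{3a+b} X_{3a+2b}` and the
action of the Weyl group on them
-/

namespace Cfsg.Agent.H7.G2I

open Cfsg.Lie Cfsg.Agent.H23 Cfsg.Agent.H22

section

variable {F : Type*} [Field F]

/-- Conjugation form of the commutator relations. -/
theorem conj_comm (q s : ℕ) (hq : q < 12) (hs : s < 12) (hne : s ≠ q) (hne' : s ≠ chevG2.neg q)
    (t u : F) :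
    (xg q t)⁻¹ * xg s u * xg q t = xg s u * wordU (pkB F).sem (chevG2.commWord F q s t u) := by
  have h := (Pc_iff (pkB F).sem q s).mp (commAll_G2 q s hq hs hne hne') t u
  have h' : xg s u * xg q t = xg q t * xg s u * wordU (pkB F).sem (chevG2.commWord F q s t u) := h
  calc (xg q t)⁻¹ * xg s u * xg q t = (xg q t)⁻¹ * (xg s u * xg q t) := by group
    _ = (xg q t)⁻¹ * (xg q t * xg s u * wordU (pkB F).sem (chevG2.commWord F q s t u)) := by rw [h']
    _ = _ := by group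

theorem ct_self : ∀ q < 12, chevG2.commTerms q q = [] := by decide +kernel

/-- Two root elements with no commutator terms commute. -/
theorem comm_gen (r s : ℕ) (hr : r < 12) (hs : s < 12) (hne' : s ≠ chevG2.neg r)
    (hterms : chevG2.commTerms r s = []) (t u : F) : xg s u * xg r t = xg r t * xg s u := by
  by_cases h : s = r
  · subst h
    rw [xg_mul, xg_mul, add_comm]
  · exact comm_pair r s hr hs h hne' hterms t u

/-- `U` normalizes a subgroup generated by a closed set of root subgroups. -/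
theorem pos_le_normalizer (P : ℕ → Prop)
    (hterms : ∀ q < 12, chevG2.IsPosRoot q → ∀ s, P s → s < 12 ∧ s ≠ chevG2.neg q ∧
      ∀ c ∈ chevG2.commTerms q s, P c.1) :
    chevG2.posUnipotent F ≤ Subgroup.normalizer (rootGen chevG2 F P : Set (GL chevG2.Idx F)) := by
  have hS := (pkB F).sem
  rw [posUnipotent_eq]
  apply rootGen_le hS
  intro q hq t
  have hq12 : q < 12 := hq.1
  apply xU_mem_normalizer_of_comm hS P q
  · intro s hs t u
    obtain ⟨hs12, hneg, -⟩ := hterms q hq12 hq s hs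
    by_cases hsq : s = q
    · subst hsq
      have e : chevG2.commWord F s s t u = [] := by
        unfold ChevalleyDatum.commWord
        rw [ct_self s hs12]; rfl
      rw [e, wordU_nil, mul_one]
      show (xg s t)⁻¹ * xg s u * xg s t = xg s u
      rw [xg_inv, xg_mul, xg_mul]
      congr 1; ring
    · exact conj_comm q s hq12 hs12 hsq hneg t u
  · intro s hs c hc
    exact (hterms q hq12 hq s hs).2.2 c hc

/-- `B` normalizes a subgroup generated by a closed set of root subgroups. -/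
theorem borel_le_normalizer (P : ℕ → Prop) (hP : ∀ s, P s → s < 12)
    (htab : ∀ q < 12, chevG2.IsPosRoot q → ∀ s < 12, P s → s ≠ chevG2.neg q ∧
      ∀ c ∈ chevG2.commTerms q s, P c.1) :
    chevG2.borelSubgroup F ≤ Subgroup.normalizer (rootGen chevG2 F P : Set (GL chevG2.Idx F)) := by
  have hS := (pkB F).sem
  show chevG2.posUnipotent F ⊔ chevG2.diagonalSubgroup F ≤ _
  apply sup_le
  · exact pos_le_normalizer P (fun q hq hp s hs => ⟨hP s hs, htab q hq hp s (hP s hs) hs⟩)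
  · exact diagonal_le_normalizer_rootGen hS P hP

/-! ### The subgroup `A = X_{2a+b} X_{3a+b} X_{3a+2b}` -/

/-- The roots `2a+b`, `3a+b`, `3a+2b`. -/
def PA (s : ℕ) : Prop := s = 9 ∨ s = 10 ∨ s = 11

/-- The roots `3a+b`, `3a+2b`. -/
def PA0 (s : ℕ) : Prop := s = 10 ∨ s = 11

instance (s : ℕ) : Decidable (PA s) := by unfold PA; infer_instance
instance (s : ℕ) : Decidable (PA0 s) := by unfold PA0; infer_instance

theorem PA_lt (s : ℕ) (h : PA s) : s < 12 := by rcases h with rfl | rfl | rfl <;> decide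
theorem PA0_lt (s : ℕ) (h : PA0 s) : s < 12 := by rcases h with rfl | rfl <;> decide

theorem tabA1 : ∀ q < 12, chevG2.IsPosRoot q → ∀ s < 12, PA s → s ≠ chevG2.neg q := by
  decide +kernel

theorem tabA2 : ∀ q < 12, chevG2.IsPosRoot q → ∀ s < 12, PA s →
    ∀ c ∈ chevG2.commTerms q s, PA c.1 := by decide +kernel

theorem tabA : ∀ q < 12, chevG2.IsPosRoot q → ∀ s < 12, PA s → s ≠ chevG2.neg q ∧
    ∀ c ∈ chevG2.commTerms q s, PA c.1 :=
  fun q hq hp s hs h => ⟨tabA1 q hq hp s hs h, tabA2 q hq hp s hs h⟩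

theorem tabA01 : ∀ q < 12, chevG2.IsPosRoot q → ∀ s < 12, PA0 s → s ≠ chevG2.neg q := by
  decide +kernel

theorem tabA02 : ∀ q < 12, chevG2.IsPosRoot q → ∀ s < 12, PA0 s →
    ∀ c ∈ chevG2.commTerms q s, PA0 c.1 := by decide +kernel

theorem tabA0 : ∀ q < 12, chevG2.IsPosRoot q → ∀ s < 12, PA0 s → s ≠ chevG2.neg q ∧
    ∀ c ∈ chevG2.commTerms q s, PA0 c.1 :=
  fun q hq hp s hs h => ⟨tabA01 q hq hp s hs h, tabA02 q hq hp s hs h⟩

theorem borel_norm_A :
    chevG2.borelSubgroup F ≤ Subgroup.normalizer (rootGen chevG2 F PA : Set (GL chevG2.Idx F)) :=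
  borel_le_normalizer PA PA_lt tabA

theorem borel_norm_A0 :
    chevG2.borelSubgroup F ≤ Subgroup.normalizer (rootGen chevG2 F PA0 : Set (GL chevG2.Idx F)) :=
  borel_le_normalizer PA0 PA0_lt tabA0

theorem c_9_10 (t u : F) : xg 10 u * xg 9 t = xg 9 t * xg 10 u :=
  comm_gen 9 10 (by decide) (by decide) (by decide +kernel) (by decide +kernel) t u
theorem c_9_11 (t u : F) : xg 11 u * xg 9 t = xg 9 t * xg 11 u :=
  comm_gen 9 11 (by decide) (by decide) (by decide +kernel) (by decide +kernel) t u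
theorem c_10_11 (t u : F) : xg 11 u * xg 10 t = xg 10 t * xg 11 u :=
  comm_gen 10 11 (by decide) (by decide) (by decide +kernel) (by decide +kernel) t u

theorem A_mul (c s r c' s' r' : F) : xg 9 c * xg 10 s * xg 11 r * (xg 9 c' * xg 10 s' * xg 11 r') =
    xg 9 (c + c') * xg 10 (s + s') * xg 11 (r + r') := by
  have h1 : xg 11 r * xg 9 c' = xg 9 c' * xg 11 r := c_9_11 c' r
  have h2 : xg 10 s * xg 9 c' = xg 9 c' * xg 10 s := c_9_10 c' s
  have h3 : xg 11 r * xg 10 s' = xg 10 s' * xg 11 r := c_10_11 s' r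
  calc xg 9 c * xg 10 s * xg 11 r * (xg 9 c' * xg 10 s' * xg 11 r')
      = xg 9 c * xg 10 s * (xg 11 r * xg 9 c') * xg 10 s' * xg 11 r' := by group
    _ = xg 9 c * (xg 10 s * xg 9 c') * (xg 11 r * xg 10 s') * xg 11 r' := by rw [h1]; group
    _ = (xg 9 c * xg 9 c') * (xg 10 s * xg 10 s') * (xg 11 r * xg 11 r') := by rw [h2, h3]; group
    _ = _ := by rw [xg_mul, xg_mul, xg_mul]

theorem A_one : xg 9 (0 : F) * xg 10 0 * xg 11 0 = 1 := by
  rw [xg_zero, xg_zero, xg_zero, mul_one, mul_one]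

/-- Elements of `A`. -/
theorem form_A (y : GL chevG2.Idx F) (hy : y ∈ rootGen chevG2 F PA) :
    ∃ c s r : F, y = xg 9 c * xg 10 s * xg 11 r := by
  let K : Subgroup (GL chevG2.Idx F) :=
    { carrier := {y | ∃ c s r : F, y = xg 9 c * xg 10 s * xg 11 r}
      one_mem' := ⟨0, 0, 0, A_one.symm⟩
      mul_mem' := by
        rintro _ _ ⟨c, s, r, rfl⟩ ⟨c', s', r', rfl⟩
        exact ⟨_, _, _, A_mul c s r c' s' r'⟩
      inv_mem' := by
        rintro _ ⟨c, s, r, rfl⟩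
        refine ⟨-c, -s, -r, ?_⟩
        apply inv_eq_of_mul_eq_one_right
        rw [A_mul, add_neg_cancel, add_neg_cancel, add_neg_cancel, A_one] }
  have hle : rootGen chevG2 F PA ≤ K := by
    apply rootGen_le (pkB F).sem
    rintro q (rfl | rfl | rfl) t
    · exact ⟨t, 0, 0, by rw [xg_zero, xg_zero, mul_one, mul_one]⟩
    · exact ⟨0, t, 0, by rw [xg_zero, xg_zero, mul_one, one_mul]⟩
    · exact ⟨0, 0, t, by rw [xg_zero, xg_zero, one_mul, one_mul]⟩
  exact hle hy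

theorem A0_mul (s r s' r' : F) : xg 10 s * xg 11 r * (xg 10 s' * xg 11 r') =
    xg 10 (s + s') * xg 11 (r + r') := by
  have h := A_mul 0 s r 0 s' r'
  rw [add_zero, xg_zero, one_mul, one_mul, one_mul] at h
  exact h

/-- Elements of `A₀ = X_{3a+b} X_{3a+2b}`. -/
theorem form_A0 (y : GL chevG2.Idx F) (hy : y ∈ rootGen chevG2 F PA0) :
    ∃ s r : F, y = xg 10 s * xg 11 r := by
  let K : Subgroup (GL chevG2.Idx F) :=
    { carrier := {y | ∃ s r : F, y = xg 10 s * xg 11 r}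
      one_mem' := ⟨0, 0, by rw [xg_zero, xg_zero, mul_one]⟩
      mul_mem' := by
        rintro _ _ ⟨s, r, rfl⟩ ⟨s', r', rfl⟩
        exact ⟨_, _, A0_mul s r s' r'⟩
      inv_mem' := by
        rintro _ ⟨s, r, rfl⟩
        refine ⟨-s, -r, ?_⟩
        apply inv_eq_of_mul_eq_one_right
        rw [A0_mul, add_neg_cancel, add_neg_cancel, xg_zero, xg_zero, mul_one] }
  have hle : rootGen chevG2 F PA0 ≤ K := by
    apply rootGen_le (pkB F).sem
    rintro q (rfl | rfl) t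
    · exact ⟨t, 0, by rw [xg_zero, mul_one]⟩
    · exact ⟨0, t, by rw [xg_zero, one_mul]⟩
  exact hle hy

/-! ### Conjugation by Weyl group elements and coordinates -/

theorem conj_w (w : List ℕ) (hw : ∀ i ∈ w, i < 2) (s : ℕ) (hs : s < 12) :
    ∃ c : F, c ≠ 0 ∧ ∀ t : F, nw F w * xg s t * (nw F w)⁻¹ = xg (reflW chevG2 w s) (c * t) := by
  obtain ⟨c, hc, h⟩ := nWU_conj (pkB F).sem (pkB F).semN (pkB F).tab w hw s hs
  refine ⟨c, ?_, h⟩
  rcases hc with rfl | rfl
  · exact one_ne_zero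
  · exact neg_ne_zero.mpr one_ne_zero

theorem conj3 (w : List ℕ) (hw : ∀ i ∈ w, i < 2) (s₁ s₂ s₃ : ℕ) (h₁ : s₁ < 12) (h₂ : s₂ < 12)
    (h₃ : s₃ < 12) :
    ∃ d₁ d₂ d₃ : F, d₁ ≠ 0 ∧ d₂ ≠ 0 ∧ d₃ ≠ 0 ∧ ∀ t₁ t₂ t₃ : F,
      nw F w * (xg s₁ t₁ * xg s₂ t₂ * xg s₃ t₃) * (nw F w)⁻¹ =
        xg (reflW chevG2 w s₁) (d₁ * t₁) * xg (reflW chevG2 w s₂) (d₂ * t₂) *
          xg (reflW chevG2 w s₃) (d₃ * t₃) := by
  obtain ⟨d₁, hd₁, e₁⟩ := conj_w (F := F) w hw s₁ h₁
  obtain ⟨d₂, hd₂, e₂⟩ := conj_w (F := F) w hw s₂ h₂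
  obtain ⟨d₃, hd₃, e₃⟩ := conj_w (F := F) w hw s₃ h₃
  refine ⟨d₁, d₂, d₃, hd₁, hd₂, hd₃, fun t₁ t₂ t₃ => ?_⟩
  rw [← e₁, ← e₂, ← e₃]
  group

/-- A product `x_a x_b x_p` with `a ≠ b` negative and `p` positive lying in `U` has trivial
`a`-component. -/
theorem sep_neg (a b p : ℕ) (ha : a < 12) (hb : b < 12) (hna : chevG2.IsNegRoot a)
    (hnb : chevG2.IsNegRoot b) (hab : a ≠ b) (hp : chevG2.IsPosRoot p) (α β γ : F)
    (h : xg a α * xg b β * xg p γ ∈ chevG2.posUnipotent F) : α = 0 := by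
  have hS := (pkB F).sem
  have hpU : xg p γ ∈ chevG2.posUnipotent F := by
    rw [posUnipotent_eq]; exact xU_mem_rootGen hS _ p hp γ
  have h1 : xg a α * xg b β ∈ chevG2.posUnipotent F ⊓ chevG2.negUnipotent F := by
    refine ⟨?_, ?_⟩
    · have h2 := Subgroup.mul_mem _ h (Subgroup.inv_mem _ hpU)
      have e : xg a α * xg b β * xg p γ * (xg p γ)⁻¹ = xg a α * xg b β := by group
      rwa [e] at h2
    · rw [negUnipotent_eq]
      exact Subgroup.mul_mem _ (xU_mem_rootGen hS _ a hna α) (xU_mem_rootGen hS _ b hnb β)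
  rw [pos_inf_neg hS (sV F), Subgroup.mem_bot] at h1
  have h2 : xg a α = xg b (-β) := by
    rw [← xg_inv]; exact eq_inv_of_mul_eq_one_left h1
  by_contra hα
  exact hab (xU_eq_imp (pkB F) a b ha hb α (-β) h2 hα)

/-- Uniqueness of the coordinates of a product `x_a x_b x_p` with `a ≠ b` negative, `p` positive. -/
theorem coordG (a b p : ℕ) (ha : a < 12) (hb : b < 12) (hp12 : p < 12) (hna : chevG2.IsNegRoot a)
    (hnb : chevG2.IsNegRoot b) (hab : a ≠ b) (hp : chevG2.IsPosRoot p) (α β γ α' β' γ' : F)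
    (h : xg a α * xg b β * xg p γ = xg a α' * xg b β' * xg p γ') : α = α' ∧ β = β' ∧ γ = γ' := by
  have hS := (pkB F).sem
  have e1 : (xg a α' * xg b β')⁻¹ * (xg a α * xg b β) = xg p (γ' + -γ) := by
    rw [← xg_mul, ← xg_inv]
    calc (xg a α' * xg b β')⁻¹ * (xg a α * xg b β)
        = (xg a α' * xg b β')⁻¹ * (xg a α * xg b β * xg p γ) * (xg p γ)⁻¹ := by group
      _ = xg p γ' * (xg p γ)⁻¹ := by rw [h]; group
  have h1 : xg p (γ' + -γ) ∈ chevG2.posUnipotent F ⊓ chevG2.negUnipotent F := by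
    refine ⟨?_, ?_⟩
    · rw [posUnipotent_eq]; exact xU_mem_rootGen hS _ p hp _
    · rw [← e1, negUnipotent_eq]
      exact Subgroup.mul_mem _ (Subgroup.inv_mem _ (Subgroup.mul_mem _ (xU_mem_rootGen hS _ a hna _)
        (xU_mem_rootGen hS _ b hnb _))) (Subgroup.mul_mem _ (xU_mem_rootGen hS _ a hna _)
        (xU_mem_rootGen hS _ b hnb _))
  rw [pos_inf_neg hS (sV F), Subgroup.mem_bot] at h1
  have hγ : γ' + -γ = 0 := xg_inj p hp12 _ _ (h1.trans (xg_zero p).symm)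
  rw [hγ, xg_zero] at e1
  have e3 : xg a α * xg b β = xg a α' * xg b β' := (inv_mul_eq_one.mp e1).symm
  have e2 : xg a (-α' + α) = xg b (β' + -β) := by
    rw [← xg_mul, ← xg_mul, ← xg_inv, ← xg_inv]
    calc (xg a α')⁻¹ * xg a α = (xg a α')⁻¹ * (xg a α * xg b β) * (xg b β)⁻¹ := by group
      _ = xg b β' * (xg b β)⁻¹ := by rw [e3]; group
  have hα : -α' + α = 0 := by
    by_contra hne
    exact hab (xU_eq_imp (pkB F) a b ha hb _ _ e2 hne)
  rw [hα, xg_zero] at e2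
  have hβ : β' + -β = 0 := xg_inj b hb _ _ (e2.symm.trans (xg_zero b).symm)
  exact ⟨by linear_combination hα, by linear_combination -hβ, by linear_combination -hγ⟩

theorem r010_9 : reflW chevG2 [0, 1, 0] 9 = 4 := by decide +kernel
theorem r010_10 : reflW chevG2 [0, 1, 0] 10 = 1 := by decide +kernel
theorem r010_11 : reflW chevG2 [0, 1, 0] 11 = 6 := by decide +kernel

/-- Uniqueness of the coordinates in `A`. -/
theorem coord9 (c s r c' s' r' : F) (h : xg 9 c * xg 10 s * xg 11 r = xg 9 c' * xg 10 s' * xg 11 r') :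
    c = c' ∧ s = s' ∧ r = r' := by
  obtain ⟨d₁, d₂, d₃, hd₁, hd₂, hd₃, e⟩ := conj3 (F := F) [0, 1, 0] (by decide) 9 10 11 (by decide)
    (by decide) (by decide)
  have e1 := e c s r
  rw [h, e c' s' r', r010_9, r010_10, r010_11] at e1
  obtain ⟨h1, h2, h3⟩ := coordG 4 1 6 (by decide) (by decide) (by decide) (by decide +kernel)
    (by decide +kernel) (by decide) (by decide +kernel) _ _ _ _ _ _ e1
  exact ⟨(mul_left_cancel₀ hd₁ h1).symm, (mul_left_cancel₀ hd₂ h2).symm, (mul_left_cancel₀ hd₃ h3).symm⟩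

/-- The action of the twelve Weyl group elements on the roots `2a+b`, `3a+b`, `3a+2b`. -/
theorem wtab : ∀ w ∈ canonW, w = [] ∨ w = [1] ∨
    (chevG2.IsNegRoot (reflW chevG2 w 9) ∧ chevG2.IsNegRoot (reflW chevG2 w 10) ∧
      chevG2.IsNegRoot (reflW chevG2 w 11)) ∨
    (chevG2.IsPosRoot (reflW chevG2 ([0, 1, 0] ++ w) 9) ∧
      chevG2.IsPosRoot (reflW chevG2 ([0, 1, 0] ++ w) 10) ∧
      chevG2.IsPosRoot (reflW chevG2 ([0, 1, 0] ++ w) 11)) ∨
    (chevG2.IsPosRoot (reflW chevG2 ([0, 1, 0, 1] ++ w) 9) ∧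
      chevG2.IsPosRoot (reflW chevG2 ([0, 1, 0, 1] ++ w) 10) ∧
      chevG2.IsPosRoot (reflW chevG2 ([0, 1, 0, 1] ++ w) 11)) := by decide +kernel

theorem wstep_pos (v w : List ℕ) (hv : ∀ i ∈ v, i < 2) (hw : ∀ i ∈ w, i < 2) (i j : ℕ) (hi : i < 12)
    (hj : j < 12) (hneg9 : chevG2.IsNegRoot (reflW chevG2 v 9))
    (hnegi : chevG2.IsNegRoot (reflW chevG2 v i)) (hne : reflW chevG2 v 9 ≠ reflW chevG2 v i)
    (hposj : chevG2.IsPosRoot (reflW chevG2 v j))
    (hpos : chevG2.IsPosRoot (reflW chevG2 (v ++ w) 9) ∧ chevG2.IsPosRoot (reflW chevG2 (v ++ w) 10) ∧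
      chevG2.IsPosRoot (reflW chevG2 (v ++ w) 11))
    (c s r c' a b : F)
    (h : nw F w * (xg 9 c * xg 10 s * xg 11 r) * (nw F w)⁻¹ = xg 9 c' * xg i a * xg j b) : c' = 0 := by
  have hS := (pkB F).sem
  have hvw : ∀ k ∈ v ++ w, k < 2 := by
    intro k hk
    rcases List.mem_append.mp hk with h' | h'
    · exact hv k h'
    · exact hw k h'
  obtain ⟨d₁, d₂, d₃, -, -, -, e⟩ := conj3 (F := F) (v ++ w) hvw 9 10 11 (by decide) (by decide)
    (by decide)
  obtain ⟨f₁, f₂, f₃, hf₁, -, -, e'⟩ := conj3 (F := F) v hv 9 i j (by decide) hi hj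
  have E1 : nw F v * (xg 9 c' * xg i a * xg j b) * (nw F v)⁻¹ =
      nw F (v ++ w) * (xg 9 c * xg 10 s * xg 11 r) * (nw F (v ++ w))⁻¹ := by
    rw [← h, nw_append]; group
  rw [e, e'] at E1
  have hU : xg (reflW chevG2 v 9) (f₁ * c') * xg (reflW chevG2 v i) (f₂ * a) *
      xg (reflW chevG2 v j) (f₃ * b) ∈ chevG2.posUnipotent F := by
    rw [E1, posUnipotent_eq]
    exact Subgroup.mul_mem _ (Subgroup.mul_mem _ (xU_mem_rootGen hS _ _ hpos.1 _)
      (xU_mem_rootGen hS _ _ hpos.2.1 _)) (xU_mem_rootGen hS _ _ hpos.2.2 _)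
  have h0 := sep_neg _ _ _ hneg9.1 hnegi.1 hneg9 hnegi hne hposj _ _ _ hU
  exact (mul_eq_zero.mp h0).resolve_left hf₁

/-- A Weyl group element carrying an element of `A ∖ A₀` to an element of `A ∖ A₀` is `1` or `n_b`. -/
theorem wstep (w : List ℕ) (hw : w ∈ canonW) (c s r c' s' r' : F) (hc' : c' ≠ 0)
    (h : nw F w * (xg 9 c * xg 10 s * xg 11 r) * (nw F w)⁻¹ = xg 9 c' * xg 10 s' * xg 11 r') :
    w = [] ∨ w = [1] := by
  have hS := (pkB F).sem
  have hwlt := canon_lt w hw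
  rcases wtab w hw with h1 | h1 | hneg | hp | hp
  · exact Or.inl h1
  · exact Or.inr h1
  · exfalso
    obtain ⟨d₁, d₂, d₃, -, -, -, e⟩ := conj3 (F := F) w hwlt 9 10 11 (by decide) (by decide) (by decide)
    have hV : xg 9 c' * xg 10 s' * xg 11 r' ∈ chevG2.posUnipotent F ⊓ chevG2.negUnipotent F := by
      refine ⟨?_, ?_⟩
      · rw [posUnipotent_eq]
        exact Subgroup.mul_mem _ (Subgroup.mul_mem _ (xU_mem_rootGen hS _ 9 (by decide +kernel) _)
          (xU_mem_rootGen hS _ 10 (by decide +kernel) _)) (xU_mem_rootGen hS _ 11 (by decide +kernel) _)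
      · rw [← h, e, negUnipotent_eq]
        exact Subgroup.mul_mem _ (Subgroup.mul_mem _ (xU_mem_rootGen hS _ _ hneg.1 _)
          (xU_mem_rootGen hS _ _ hneg.2.1 _)) (xU_mem_rootGen hS _ _ hneg.2.2 _)
    rw [pos_inf_neg hS (sV F), Subgroup.mem_bot] at hV
    have h0 := coord9 c' s' r' 0 0 0 (by rw [hV, A_one])
    exact hc' h0.1
  · exfalso
    exact hc' (wstep_pos [0, 1, 0] w (by decide) hwlt 10 11 (by decide) (by decide) (by decide +kernel)
      (by decide +kernel) (by decide +kernel) (by decide +kernel) hp c s r c' s' r' h)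
  · exfalso
    have h' : nw F w * (xg 9 c * xg 10 s * xg 11 r) * (nw F w)⁻¹ = xg 9 c' * xg 11 r' * xg 10 s' := by
      rw [h, mul_assoc, mul_assoc, c_10_11]
    exact hc' (wstep_pos [0, 1, 0, 1] w (by decide) hwlt 11 10 (by decide) (by decide)
      (by decide +kernel) (by decide +kernel) (by decide +kernel) (by decide +kernel) hp c s r c' r' s' h')

end

end Cfsg.Agent.H7.G2I
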