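import Cfsg.Agent.H7.G2Ev1

set_option autoImplicit false

/-!
# The centralizers of the root elements `x_{3a+2b}(1)` and `x_{2a+b}(1)` of `G₂(q)`
-/

namespace Cfsg.Agent.H7.G2I

open Cfsg.Lie Cfsg.Agent.H23 Cfsg.Agent.H22

section

variable {F : Type*} [Field F]

/-- Splitting off a fundamental root subgroup from an element of `U`. -/
theorem dec_U {r r' s₀ : ℕ} {n : GL chevG2.Idx F} {ρ : ℕ → ℕ} {η : ℕ → F}
    {Ui : Subgroup (GL chevG2.Idx F)} (R : R1 F r r' s₀ n ρ η Ui) (g : GL chevG2.Idx F)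
    (hg : g ∈ chevG2.posUnipotent F) : ∃ v ∈ Ui, ∃ τ : F, g = v * xg r τ := by
  have hS := (pkB F).sem
  have hUB : chevG2.posUnipotent F ≤ chevG2.borelSubgroup F := le_sup_left
  have hHN : chevG2.diagonalSubgroup F ≤ chevG2.monomialSubgroup F := le_sup_left
  obtain ⟨v, hv, τ, h, hh, e⟩ := R.dec g (hUB hg)
  have hxU : xg r τ ∈ chevG2.posUnipotent F := by
    rw [posUnipotent_eq]; exact xU_mem_rootGen hS _ r R.pos τ
  have h1 : h = 1 := by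
    have e' : h = (v * xg r τ)⁻¹ * g := by rw [e]; group
    have h2 : h ∈ chevG2.posUnipotent F ⊓ chevG2.monomialSubgroup F :=
      ⟨by rw [e']; exact Subgroup.mul_mem _ (Subgroup.inv_mem _ (Subgroup.mul_mem _ (R.UiU hv) hxU)) hg,
        hHN hh⟩
    rw [posUnipotent_inf_monomial hS, Subgroup.mem_bot] at h2
    exact h2
  rw [h1, mul_one] at e
  exact ⟨v, hv, τ, e⟩

/-- A torus element is determined by its action on the fundamental root subgroups. -/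
theorem diag_eq_hg (r : ℕ) (hr : r < 12) (e : F) (he : e ≠ 0) {k : GL chevG2.Idx F} {ψ : ℕ → F}
    (hact : Act k ψ) (h7 : ψ 7 = e ^ zG r 7) (h6 : ψ 6 = e ^ zG r 6) : k = hg r e := by
  have h1 := hact.mul ((act_hg r hr e he).inv (fun s _ => zpow_ne_zero _ he))
  have h2 := act_eq_one h1
    (by show ψ 7 * (e ^ zG r 7)⁻¹ = 1; rw [h7]; exact mul_inv_cancel₀ (zpow_ne_zero _ he))
    (by show ψ 6 * (e ^ zG r 6)⁻¹ = 1; rw [h6]; exact mul_inv_cancel₀ (zpow_ne_zero _ he))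
  exact mul_inv_eq_one.mp h2

theorem hg6_mem_of (K : Subgroup (GL chevG2.Idx F)) (h6 : ∀ t : F, xg 6 t ∈ K)
    (h5 : ∀ t : F, xg 5 t ∈ K) (e : F) : hg 6 e ∈ K := by
  rw [← (relB_all (F := F)).2.1 e]
  unfold SL2.hE SL2.wE
  exact Subgroup.mul_mem _ (Subgroup.mul_mem _ (Subgroup.mul_mem _ (h6 _) (h5 _)) (h6 _))
    (Subgroup.mul_mem _ (Subgroup.mul_mem _ (h6 _) (h5 _)) (h6 _))

theorem hg7_mem_of (K : Subgroup (GL chevG2.Idx F)) (h7 : ∀ t : F, xg 7 t ∈ K)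
    (h4 : ∀ t : F, xg 4 t ∈ K) (e : F) : hg 7 e ∈ K := by
  rw [← (relA_all (F := F)).2.1 e]
  unfold SL2.hE SL2.wE
  exact Subgroup.mul_mem _ (Subgroup.mul_mem _ (Subgroup.mul_mem _ (h7 _) (h4 _)) (h7 _))
    (Subgroup.mul_mem _ (Subgroup.mul_mem _ (h7 _) (h4 _)) (h7 _))

theorem ng1_mem_of (K : Subgroup (GL chevG2.Idx F)) (h6 : ∀ t : F, xg 6 t ∈ K)
    (h5 : ∀ t : F, xg 5 t ∈ K) : ng F 1 ∈ K := by
  rw [ng1_eq, nU_eq, neg6_eq]
  exact Subgroup.mul_mem _ (Subgroup.mul_mem _ (h6 _) (h5 _)) (h6 _)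

theorem ng0_mem_of (K : Subgroup (GL chevG2.Idx F)) (h7 : ∀ t : F, xg 7 t ∈ K)
    (h4 : ∀ t : F, xg 4 t ∈ K) : ng F 0 ∈ K := by
  rw [ng0_eq, nU_eq, neg7_eq]
  exact Subgroup.mul_mem _ (Subgroup.mul_mem _ (h7 _) (h4 _)) (h7 _)

/-! ### The centralizer of `x_{3a+2b}(1)` -/

/-- The positive roots and `-a`. -/
def PZ (s : ℕ) : Prop := chevG2.IsPosRoot s ∨ s = 4

/-- The subgroup `⟨U, X_{-a}⟩`. -/
noncomputable def KZ (F : Type*) [Field F] : Subgroup (GL chevG2.Idx F) := rootGen chevG2 F PZ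

theorem xg_mem_KZ (s : ℕ) (hs : PZ s) (t : F) : xg s t ∈ KZ F := xU_mem_rootGen (pkB F).sem PZ s hs t

theorem ct11 : ∀ s < 12, chevG2.IsPosRoot s ∨ s = 4 →
    s ≠ chevG2.neg 11 ∧ chevG2.commTerms 11 s = [] := by decide +kernel

theorem PZ_lt (s : ℕ) (h : PZ s) : s < 12 := by
  rcases h with h | rfl
  · exact h.1
  · decide

/-- `⟨U, X_{-a}⟩` centralizes `X_{3a+2b}`. -/
theorem KZ_comm (c : F) (m : GL chevG2.Idx F) (hm : m ∈ KZ F) : m * xg 11 c = xg 11 c * m := by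
  have key : KZ F ≤ Subgroup.centralizer {xg 11 c} := by
    unfold KZ
    apply rootGen_le (pkB F).sem
    intro s hs t
    obtain ⟨h2, h3⟩ := ct11 s (PZ_lt s hs) hs
    rw [Subgroup.mem_centralizer_iff]
    intro h hh
    rw [Set.mem_singleton_iff] at hh
    rw [hh]
    exact (comm_gen 11 s (by decide) (PZ_lt s hs) h2 h3 c t).symm
  exact (Subgroup.mem_centralizer_iff.mp (key hm) (xg 11 c) rfl).symm

theorem pos_le_KZ : chevG2.posUnipotent F ≤ KZ F := by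
  rw [posUnipotent_eq]
  exact rootGen_mono (pkB F).sem _ _ (fun s hs => Or.inl hs)

theorem torus11 (k : GL chevG2.Idx F) (χ : ℕ → F) (hχ : IsTorus chevG2 χ k) (hact : Act k χ)
    (h11 : χ 11 = 1) : k ∈ KZ F := by
  obtain ⟨-, -, -, e11, -⟩ := torus_vals χ k hχ
  have h7 : χ 7 ≠ 0 := hχ.1 7
  have h6 : χ 6 ≠ 0 := hχ.1 6
  rw [e11] at h11
  have hk : k = hg 7 (χ 7 * χ 6)⁻¹ := by
    apply diag_eq_hg 7 (by decide) _ (inv_ne_zero (mul_ne_zero h7 h6)) hact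
    · rw [zG_7_7, zpow_two]
      field_simp
      linear_combination h11
    · rw [zG_7_6, zpow_neg, zpow_ofNat]
      field_simp
      linear_combination (-1 : F) * h11
  rw [hk]
  exact hg7_mem_of _ (fun t => xg_mem_KZ 7 (Or.inl pos7) t) (fun t => xg_mem_KZ 4 (Or.inr rfl) t) _

theorem conj_B11 (b : GL chevG2.Idx F) (hb : b ∈ chevG2.borelSubgroup F) :
    ∃ c : F, c ≠ 0 ∧ b * xg 11 1 * b⁻¹ = xg 11 c := by
  have hS := (pkB F).sem
  have hnormU := diagonal_le_normalizer_rootGen hS chevG2.IsPosRoot (fun _ hr => hr.1)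
  obtain ⟨u₁, hu₁, h₁, hh₁, rfl⟩ := exists_mul_of_mem_sup _ _ hnormU b hb
  obtain ⟨χ, hχ, hact⟩ := act_of_mem h₁ hh₁
  refine ⟨χ 11, hχ.1 11, ?_⟩
  have e0 : h₁ * xg 11 1 * h₁⁻¹ = xg 11 (χ 11) := by
    have := hact.2 11 (by decide) 1
    rwa [mul_one] at this
  have hcomm := KZ_comm (χ 11) u₁ (pos_le_KZ hu₁)
  calc u₁ * h₁ * xg 11 1 * (u₁ * h₁)⁻¹ = u₁ * (h₁ * xg 11 1 * h₁⁻¹) * u₁⁻¹ := by group
    _ = u₁ * xg 11 (χ 11) * u₁⁻¹ := by rw [e0]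
    _ = xg 11 (χ 11) := by rw [hcomm]; group

theorem borel_cent11 (b : GL chevG2.Idx F) (hb : b ∈ chevG2.borelSubgroup F)
    (hc : b * xg 11 1 * b⁻¹ = xg 11 1) : b ∈ KZ F := by
  have hS := (pkB F).sem
  have hnormU := diagonal_le_normalizer_rootGen hS chevG2.IsPosRoot (fun _ hr => hr.1)
  obtain ⟨u₁, hu₁, h₁, hh₁, rfl⟩ := exists_mul_of_mem_sup _ _ hnormU b hb
  obtain ⟨χ, hχ, hact⟩ := act_of_mem h₁ hh₁
  have e0 : h₁ * xg 11 1 * h₁⁻¹ = xg 11 (χ 11) := by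
    have := hact.2 11 (by decide) 1
    rwa [mul_one] at this
  have hu₁K := pos_le_KZ hu₁
  have e1 : xg 11 (χ 11) = xg 11 1 := by
    have hcomm := KZ_comm (χ 11) u₁ hu₁K
    calc xg 11 (χ 11) = u₁ * xg 11 (χ 11) * u₁⁻¹ := by rw [hcomm]; group
      _ = u₁ * (h₁ * xg 11 1 * h₁⁻¹) * u₁⁻¹ := by rw [e0]
      _ = u₁ * h₁ * xg 11 1 * (u₁ * h₁)⁻¹ := by group
      _ = xg 11 1 := hc
  have h11 : χ 11 = 1 := xg_inj 11 (by decide) _ _ e1
  exact Subgroup.mul_mem _ hu₁K (torus11 h₁ χ hχ hact h11)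

theorem wtab11 : ∀ w ∈ canonW, reflW chevG2 w 11 = 11 → w = [] ∨ w = [0] := by decide +kernel

/-- The centralizer of `x_{3a+2b}(1)` lies in `⟨U, X_{-a}⟩`. -/
theorem cent11_le (g : GL chevG2.Idx F) (hg : g ∈ chevG2.group F)
    (hc : g * xg 11 1 * g⁻¹ = xg 11 1) : g ∈ KZ F := by
  have hS := (pkB F).sem
  have hHB : chevG2.diagonalSubgroup F ≤ chevG2.borelSubgroup F := le_sup_right
  have hnormU := diagonal_le_normalizer_rootGen hS chevG2.IsPosRoot (fun _ hr => hr.1)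
  obtain ⟨w, hw, b₁, hb₁, b₂, hb₂, rfl⟩ := exists_cell g hg
  have hwlt := canon_lt w hw
  obtain ⟨c, hc0, e1⟩ := conj_B11 b₂ hb₂
  obtain ⟨c', hc0', e2⟩ := conj_B11 b₁⁻¹ (Subgroup.inv_mem _ hb₁)
  rw [inv_inv] at e2
  obtain ⟨d, hd, e⟩ := conj_w (F := F) w hwlt 11 (by decide)
  have e3 : xg 11 c' = xg (reflW chevG2 w 11) (d * c) := by
    rw [← e, ← e1, ← e2]
    calc b₁⁻¹ * xg 11 1 * b₁
        = b₁⁻¹ * (b₁ * nw F w * b₂ * xg 11 1 * (b₁ * nw F w * b₂)⁻¹) * b₁ := by rw [hc]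
      _ = _ := by group
  have h11 := xU_eq_imp (pkB F) 11 (reflW chevG2 w 11) (by decide)
    (reflW_lt (pkB F).tab w hwlt 11 (by decide)) c' (d * c) e3 hc0'
  rcases wtab11 w hw h11.symm with rfl | rfl
  · rw [nw_nil, mul_one] at hc ⊢
    exact borel_cent11 _ (Subgroup.mul_mem _ hb₁ hb₂) hc
  · rw [nw_single] at hc ⊢
    obtain ⟨u, hu, h, hh, e⟩ := exists_mul_of_mem_sup _ _ hnormU b₂⁻¹ (Subgroup.inv_mem _ hb₂)
    have eb₂ : b₂ = h⁻¹ * u⁻¹ := by rw [← inv_inv b₂, e]; group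
    obtain ⟨b₃, hb₃def⟩ : ∃ b₃, b₃ = b₁ * (ng F 0 * h⁻¹ * (ng F 0)⁻¹) := ⟨_, rfl⟩
    obtain ⟨m, hmdef⟩ : ∃ m, m = ng F 0 * u⁻¹ := ⟨_, rfl⟩
    have eg : b₁ * ng F 0 * b₂ = b₃ * m := by rw [eb₂, hb₃def, hmdef]; group
    have hb₃ : b₃ ∈ chevG2.borelSubgroup F := by
      rw [hb₃def]; exact Subgroup.mul_mem _ hb₁ (hHB (r1_a.nH _ (Subgroup.inv_mem _ hh)))
    have hm : m ∈ KZ F := by
      rw [hmdef]
      exact Subgroup.mul_mem _ (ng0_mem_of _ (fun t => xg_mem_KZ 7 (Or.inl pos7) t)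
        (fun t => xg_mem_KZ 4 (Or.inr rfl) t)) (Subgroup.inv_mem _ (pos_le_KZ hu))
    have hmc := KZ_comm (1 : F) m hm
    have hb₃c : b₃ * xg 11 1 * b₃⁻¹ = xg 11 1 := by
      rw [eg] at hc
      calc b₃ * xg 11 1 * b₃⁻¹ = b₃ * (m * xg 11 1) * m⁻¹ * b₃⁻¹ := by rw [hmc]; group
        _ = b₃ * m * xg 11 1 * (b₃ * m)⁻¹ := by group
        _ = xg 11 1 := hc
    rw [eg]
    exact Subgroup.mul_mem _ (borel_cent11 b₃ hb₃ hb₃c) hm

theorem KZ_eq : KZ F = chevG2.posUnipotent F ⊔ chevG2.rootSubgroup F 4 := by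
  have hS := (pkB F).sem
  apply le_antisymm
  · unfold KZ
    apply rootGen_le hS
    rintro s (hs | rfl) t
    · exact Subgroup.mem_sup_left (by rw [posUnipotent_eq]; exact xU_mem_rootGen hS _ s hs t)
    · exact Subgroup.mem_sup_right (xU_mem_rootSubgroup hS 4 t)
  · exact sup_le pos_le_KZ (rootSubgroup_le hS 4 _ (fun t => xg_mem_KZ 4 (Or.inr rfl) t))

theorem KZ_le_cent : KZ F ≤ chevG2.group F ⊓ Subgroup.centralizer {xg 11 (1 : F)} := by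
  intro m hm
  rw [Subgroup.mem_inf]
  refine ⟨?_, ?_⟩
  · have key : KZ F ≤ chevG2.group F := by
      unfold KZ
      exact rootGen_le (pkB F).sem _ _ (fun s _ t => xg_mem s t)
    exact key hm
  · rw [Subgroup.mem_centralizer_iff]
    intro h hh
    rw [Set.mem_singleton_iff] at hh
    rw [hh]
    exact (KZ_comm 1 m hm).symm

/-- The centralizer of `x_{3a+2b}(1)` is `⟨U, X_{-a}⟩`. -/
theorem main_z : chevG2.group F ⊓ Subgroup.centralizer {xg 11 (1 : F)} =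
    chevG2.posUnipotent F ⊔ chevG2.rootSubgroup F 4 := by
  rw [← KZ_eq]
  apply le_antisymm
  · rintro g ⟨hg, hc⟩
    have h1 := Subgroup.mem_centralizer_iff.mp hc (xg 11 1) rfl
    exact cent11_le g hg (by rw [← h1]; group)
  · exact KZ_le_cent

end

end Cfsg.Agent.H7.G2I
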