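import Cfsg.Agent.H7.G2Ev2

set_option autoImplicit false

/-!
# The centralizer of the root element `x_{2a+b}(1)` of `G₂(q)`, `3 ≠ 0` in the field
-/

namespace Cfsg.Agent.H7.G2I

open Cfsg.Lie Cfsg.Agent.H23 Cfsg.Agent.H22

section

variable {F : Type*} [Field F]

/-- The roots `b`, `2a+b`, `3a+b`, `3a+2b`. -/
def PW0 (s : ℕ) : Prop := s = 6 ∨ s = 9 ∨ s = 10 ∨ s = 11

/-- The roots `2a+b`, `3a+b`, `3a+2b`, `b`, `-b`. -/
def PT (s : ℕ) : Prop := s = 9 ∨ s = 10 ∨ s = 11 ∨ s = 6 ∨ s = 5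

instance (s : ℕ) : Decidable (PW0 s) := by unfold PW0; infer_instance
instance (s : ℕ) : Decidable (PT s) := by unfold PT; infer_instance

/-- The subgroup `⟨X_{2a+b}, X_{3a+b}, X_{3a+2b}, X_b, X_{-b}⟩`. -/
noncomputable def KT (F : Type*) [Field F] : Subgroup (GL chevG2.Idx F) := rootGen chevG2 F PT

theorem xg_mem_KT (s : ℕ) (hs : PT s) (t : F) : xg s t ∈ KT F := xU_mem_rootGen (pkB F).sem PT s hs t

theorem ct9 : ∀ s, PT s → s < 12 ∧ s ≠ chevG2.neg 9 ∧ chevG2.commTerms 9 s = [] := by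
  rintro s (rfl | rfl | rfl | rfl | rfl) <;> decide +kernel

/-- `KT` centralizes `X_{2a+b}`. -/
theorem KT_comm (c : F) (m : GL chevG2.Idx F) (hm : m ∈ KT F) : m * xg 9 c = xg 9 c * m := by
  have key : KT F ≤ Subgroup.centralizer {xg 9 c} := by
    unfold KT
    apply rootGen_le (pkB F).sem
    intro s hs t
    obtain ⟨h1, h2, h3⟩ := ct9 s hs
    rw [Subgroup.mem_centralizer_iff]
    intro h hh
    rw [Set.mem_singleton_iff] at hh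
    rw [hh]
    exact (comm_gen 9 s (by decide) h1 h2 h3 c t).symm
  exact (Subgroup.mem_centralizer_iff.mp (key hm) (xg 9 c) rfl).symm

theorem tabUa : ∀ q < 12, chevG2.IsPosRoot q → q ≠ chevG2.simple 0 → PW0 q ∨ q = 8 := by
  decide +kernel

theorem tabW0 : ∀ s, PW0 s → s < 12 ∧ s ≠ 8 ∧ s ≠ chevG2.neg 8 ∧
    ∀ c ∈ chevG2.commTerms 8 s, PW0 c.1 := by
  rintro s (rfl | rfl | rfl | rfl) <;> decide +kernel

theorem x8_norm_W0 (t : F) :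
    xg 8 t ∈ Subgroup.normalizer (rootGen chevG2 F PW0 : Set (GL chevG2.Idx F)) := by
  apply xU_mem_normalizer_of_comm (pkB F).sem PW0 8
  · intro s hs t u
    obtain ⟨h1, h2, h3, -⟩ := tabW0 s hs
    exact conj_comm 8 s (by decide) h1 h2 h3 t u
  · intro s hs c hc
    exact (tabW0 s hs).2.2.2 c hc

/-- `U_a = W₀ X_{a+b}`. -/
theorem Ua_dec (v : GL chevG2.Idx F) (hv : v ∈ rootGen chevG2 F (PosNe chevG2 0)) :
    ∃ w₀ ∈ rootGen chevG2 F PW0, ∃ ρ : F, v = w₀ * xg 8 ρ := by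
  have hS := (pkB F).sem
  have hle : rootGen chevG2 F (PosNe chevG2 0) ≤ rootGen chevG2 F PW0 ⊔ chevG2.rootSubgroup F 8 := by
    apply rootGen_le hS
    intro q hq t
    rcases tabUa q hq.1.1 hq.1 hq.2 with h | rfl
    · exact Subgroup.mem_sup_left (xU_mem_rootGen hS PW0 q h t)
    · exact Subgroup.mem_sup_right (xU_mem_rootSubgroup hS 8 t)
  have hN : chevG2.rootSubgroup F 8 ≤
      Subgroup.normalizer (rootGen chevG2 F PW0 : Set (GL chevG2.Idx F)) :=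
    rootSubgroup_le hS 8 _ (fun t => x8_norm_W0 t)
  obtain ⟨w₀, hw₀, x, hx, e⟩ := exists_mul_of_mem_sup _ _ hN v (hle hv)
  obtain ⟨ρ, rfl⟩ := exists_of_mem_rootSubgroup hS 8 x hx
  exact ⟨w₀, hw₀, ρ, e⟩

theorem ct_7_9 : chevG2.commTerms 7 9 = [(10, 3, 1, 1)] := by decide +kernel
theorem ct_8_9 : chevG2.commTerms 8 9 = [(11, 3, 1, 1)] := by decide +kernel

theorem C79 (σ c : F) : xg 7 σ * xg 9 c * (xg 7 σ)⁻¹ = xg 9 c * xg 10 (3 * σ * c) := by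
  have h := conj_comm (F := F) 7 9 (by decide) (by decide) (by decide) (by decide +kernel) (-σ) c
  have e : chevG2.commWord F 7 9 (-σ) c = [(10, 3 * σ * c)] := by
    unfold ChevalleyDatum.commWord
    rw [ct_7_9]
    simp
  have e7 : xg 7 (-σ) = (xg 7 σ)⁻¹ := (xg_inv 7 σ).symm
  rw [e, wordU_cons, wordU_nil, mul_one, e7, inv_inv] at h
  exact h

theorem C89 (ρ c : F) : xg 8 ρ * xg 9 c * (xg 8 ρ)⁻¹ = xg 9 c * xg 11 (3 * ρ * c) := by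
  have h := conj_comm (F := F) 8 9 (by decide) (by decide) (by decide) (by decide +kernel) (-ρ) c
  have e : chevG2.commWord F 8 9 (-ρ) c = [(11, 3 * ρ * c)] := by
    unfold ChevalleyDatum.commWord
    rw [ct_8_9]
    simp
  have e8 : xg 8 (-ρ) = (xg 8 ρ)⁻¹ := (xg_inv 8 ρ).symm
  rw [e, wordU_cons, wordU_nil, mul_one, e8, inv_inv] at h
  exact h

theorem torus9 (k : GL chevG2.Idx F) (χ : ℕ → F) (hχ : IsTorus chevG2 χ k) (hact : Act k χ)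
    (h9 : χ 9 = 1) : k ∈ KT F := by
  obtain ⟨-, e9, -, -, -⟩ := torus_vals χ k hχ
  have h7 : χ 7 ≠ 0 := hχ.1 7
  rw [e9] at h9
  have hk : k = hg 6 (χ 7)⁻¹ := by
    apply diag_eq_hg 6 (by decide) _ (inv_ne_zero h7) hact
    · rw [zG_6_7, zpow_neg, zpow_one, inv_inv]
    · rw [zG_6_6, zpow_two]
      field_simp
      linear_combination h9
  rw [hk]
  exact hg6_mem_of _ (fun t => xg_mem_KT 6 (by simp [PT]) t) (fun t => xg_mem_KT 5 (by simp [PT]) t) _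

/-- The centralizer of `x_{2a+b}(1)` in `B`. -/
theorem borel_cent9 (h3 : (3 : F) ≠ 0) (b : GL chevG2.Idx F) (hb : b ∈ chevG2.borelSubgroup F)
    (hc : b * xg 9 1 * b⁻¹ = xg 9 1) : b ∈ KT F := by
  have hS := (pkB F).sem
  have hnormU := diagonal_le_normalizer_rootGen hS chevG2.IsPosRoot (fun _ hr => hr.1)
  obtain ⟨u₁, hu₁, h₁, hh₁, rfl⟩ := exists_mul_of_mem_sup _ _ hnormU b hb
  obtain ⟨χ, hχ, hact⟩ := act_of_mem h₁ hh₁
  have e0 : h₁ * xg 9 1 * h₁⁻¹ = xg 9 (χ 9) := by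
    have := hact.2 9 (by decide) 1
    rwa [mul_one] at this
  obtain ⟨c, hcdef⟩ : ∃ c, c = χ 9 := ⟨_, rfl⟩
  rw [← hcdef] at e0
  have e1 : u₁ * xg 9 c * u₁⁻¹ = xg 9 1 := by
    calc u₁ * xg 9 c * u₁⁻¹ = u₁ * (h₁ * xg 9 1 * h₁⁻¹) * u₁⁻¹ := by rw [e0]
      _ = u₁ * h₁ * xg 9 1 * (u₁ * h₁)⁻¹ := by group
      _ = xg 9 1 := hc
  obtain ⟨v, hv, σ, rfl⟩ := dec_U r1_a u₁ hu₁
  obtain ⟨w₀, hw₀, ρ, rfl⟩ := Ua_dec v hv
  have e2 : w₀ * xg 8 ρ * xg 7 σ * xg 9 c * (w₀ * xg 8 ρ * xg 7 σ)⁻¹ =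
      w₀ * (xg 8 ρ * (xg 7 σ * xg 9 c * (xg 7 σ)⁻¹) * (xg 8 ρ)⁻¹) * w₀⁻¹ := by group
  have e3 : xg 8 ρ * (xg 9 c * xg 10 (3 * σ * c)) * (xg 8 ρ)⁻¹ =
      xg 9 c * xg 10 (3 * σ * c) * xg 11 (3 * ρ * c) := by
    have hc8 : xg 8 ρ * xg 10 (3 * σ * c) = xg 10 (3 * σ * c) * xg 8 ρ :=
      comm_gen 10 8 (by decide) (by decide) (by decide +kernel) (by decide +kernel) _ _
    have hc11 : xg 11 (3 * ρ * c) * xg 10 (3 * σ * c) = xg 10 (3 * σ * c) * xg 11 (3 * ρ * c) :=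
      c_10_11 _ _
    calc xg 8 ρ * (xg 9 c * xg 10 (3 * σ * c)) * (xg 8 ρ)⁻¹
        = (xg 8 ρ * xg 9 c * (xg 8 ρ)⁻¹) * (xg 8 ρ * xg 10 (3 * σ * c)) * (xg 8 ρ)⁻¹ := by group
      _ = xg 9 c * xg 11 (3 * ρ * c) * (xg 10 (3 * σ * c) * xg 8 ρ) * (xg 8 ρ)⁻¹ := by rw [C89, hc8]
      _ = xg 9 c * (xg 11 (3 * ρ * c) * xg 10 (3 * σ * c)) := by group
      _ = xg 9 c * (xg 10 (3 * σ * c) * xg 11 (3 * ρ * c)) := by rw [hc11]
      _ = _ := by group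
  rw [e2, C79, e3] at e1
  have hw₀KT : w₀ ∈ KT F :=
    rootGen_mono hS PW0 PT (by rintro s (rfl | rfl | rfl | rfl) <;> simp [PT]) hw₀
  have e4 : xg 9 c * xg 10 (3 * σ * c) * xg 11 (3 * ρ * c) = xg 9 1 * xg 10 0 * xg 11 0 := by
    rw [xg_zero 10, xg_zero 11, mul_one, mul_one]
    have hcomm := KT_comm (1 : F) w₀ hw₀KT
    calc xg 9 c * xg 10 (3 * σ * c) * xg 11 (3 * ρ * c)
        = w₀⁻¹ * (w₀ * (xg 9 c * xg 10 (3 * σ * c) * xg 11 (3 * ρ * c)) * w₀⁻¹) * w₀ := by group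
      _ = w₀⁻¹ * xg 9 1 * w₀ := by rw [e1]
      _ = w₀⁻¹ * (xg 9 1 * w₀) := by group
      _ = w₀⁻¹ * (w₀ * xg 9 1) := by rw [hcomm]
      _ = xg 9 1 := by group
  obtain ⟨hc1, hσ, hρ⟩ := coord9 _ _ _ _ _ _ e4
  rw [hc1, mul_one] at hσ hρ
  have hσ0 : σ = 0 := (mul_eq_zero.mp hσ).resolve_left h3
  have hρ0 : ρ = 0 := (mul_eq_zero.mp hρ).resolve_left h3
  rw [hσ0, hρ0, xg_zero, xg_zero, mul_one, mul_one]
  exact Subgroup.mul_mem _ hw₀KT (torus9 h₁ χ hχ hact (hcdef.symm.trans hc1))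

theorem t_mem_A (c : F) : xg 9 c ∈ rootGen chevG2 F PA :=
  xU_mem_rootGen (pkB F).sem PA 9 (Or.inl rfl) c

theorem t_not_mem_A0 : xg 9 (1 : F) ∉ rootGen chevG2 F PA0 := by
  intro h
  obtain ⟨s, r, e⟩ := form_A0 _ h
  have e' : xg 9 (1 : F) * xg 10 0 * xg 11 0 = xg 9 0 * xg 10 s * xg 11 r := by
    rw [xg_zero 10, xg_zero 11, xg_zero 9, mul_one, mul_one, one_mul]; exact e
  exact one_ne_zero (coord9 _ _ _ _ _ _ e').1

/-- `B`-conjugates of `x_{2a+b}(1)` lie in `A ∖ A₀`. -/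
theorem conj_A (b : GL chevG2.Idx F) (hb : b ∈ chevG2.borelSubgroup F) :
    ∃ c s r : F, c ≠ 0 ∧ b * xg 9 1 * b⁻¹ = xg 9 c * xg 10 s * xg 11 r := by
  have h1 : b * xg 9 1 * b⁻¹ ∈ rootGen chevG2 F PA :=
    (Subgroup.mem_normalizer_iff.mp (borel_norm_A hb) _).mp (t_mem_A 1)
  obtain ⟨c, s, r, e⟩ := form_A _ h1
  refine ⟨c, s, r, ?_, e⟩
  rintro rfl
  apply t_not_mem_A0 (F := F)
  apply (Subgroup.mem_normalizer_iff.mp (borel_norm_A0 hb) _).mpr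
  rw [e, xg_zero, one_mul]
  exact Subgroup.mul_mem _ (xU_mem_rootGen (pkB F).sem PA0 10 (Or.inl rfl) s)
    (xU_mem_rootGen (pkB F).sem PA0 11 (Or.inr rfl) r)

/-- The centralizer of `x_{2a+b}(1)` lies in `⟨X_{2a+b}, X_{3a+b}, X_{3a+2b}, X_b, X_{-b}⟩`. -/
theorem cent9_le (h3 : (3 : F) ≠ 0) (g : GL chevG2.Idx F) (hg : g ∈ chevG2.group F)
    (hc : g * xg 9 1 * g⁻¹ = xg 9 1) : g ∈ KT F := by
  have hS := (pkB F).sem
  have hHB : chevG2.diagonalSubgroup F ≤ chevG2.borelSubgroup F := le_sup_right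
  have hnormU := diagonal_le_normalizer_rootGen hS chevG2.IsPosRoot (fun _ hr => hr.1)
  obtain ⟨w, hw, b₁, hb₁, b₂, hb₂, rfl⟩ := exists_cell g hg
  obtain ⟨c, s, r, hc0, e1⟩ := conj_A b₂ hb₂
  obtain ⟨c', s', r', hc0', e2⟩ := conj_A b₁⁻¹ (Subgroup.inv_mem _ hb₁)
  rw [inv_inv] at e2
  have e3 : nw F w * (xg 9 c * xg 10 s * xg 11 r) * (nw F w)⁻¹ = xg 9 c' * xg 10 s' * xg 11 r' := by
    rw [← e1, ← e2]
    calc nw F w * (b₂ * xg 9 1 * b₂⁻¹) * (nw F w)⁻¹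
        = b₁⁻¹ * (b₁ * nw F w * b₂ * xg 9 1 * (b₁ * nw F w * b₂)⁻¹) * b₁ := by group
      _ = b₁⁻¹ * xg 9 1 * b₁ := by rw [hc]
  have h6 : ∀ t : F, xg 6 t ∈ KT F := fun t => xg_mem_KT 6 (by simp [PT]) t
  have h5 : ∀ t : F, xg 5 t ∈ KT F := fun t => xg_mem_KT 5 (by simp [PT]) t
  rcases wstep w hw c s r c' s' r' hc0' e3 with rfl | rfl
  · rw [nw_nil, mul_one] at hc ⊢
    exact borel_cent9 h3 _ (Subgroup.mul_mem _ hb₁ hb₂) hc
  · rw [nw_single] at hc ⊢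
    obtain ⟨u, hu, h, hh, e⟩ := exists_mul_of_mem_sup _ _ hnormU b₂⁻¹ (Subgroup.inv_mem _ hb₂)
    have eb₂ : b₂ = h⁻¹ * u⁻¹ := by rw [← inv_inv b₂, e]; group
    obtain ⟨v, hv, τ, ev⟩ := dec_U r1_b u⁻¹ (Subgroup.inv_mem _ hu)
    obtain ⟨b₃, hb₃def⟩ : ∃ b₃, b₃ = b₁ * (ng F 1 * h⁻¹ * (ng F 1)⁻¹) * (ng F 1 * v * (ng F 1)⁻¹) :=
      ⟨_, rfl⟩
    obtain ⟨m, hmdef⟩ : ∃ m, m = ng F 1 * xg 6 τ := ⟨_, rfl⟩
    have eg : b₁ * ng F 1 * b₂ = b₃ * m := by rw [eb₂, ev, hb₃def, hmdef]; group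
    have hb₃ : b₃ ∈ chevG2.borelSubgroup F := by
      rw [hb₃def]
      exact Subgroup.mul_mem _ (Subgroup.mul_mem _ hb₁ (hHB (r1_b.nH _ (Subgroup.inv_mem _ hh))))
        (r1_b.UiB ((Subgroup.mem_normalizer_iff.mp r1_b.nN v).mp hv))
    have hm : m ∈ KT F := by
      rw [hmdef]
      exact Subgroup.mul_mem _ (ng1_mem_of _ h6 h5) (h6 τ)
    have hmc := KT_comm (1 : F) m hm
    have hb₃c : b₃ * xg 9 1 * b₃⁻¹ = xg 9 1 := by
      rw [eg] at hc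
      calc b₃ * xg 9 1 * b₃⁻¹ = b₃ * (m * xg 9 1) * m⁻¹ * b₃⁻¹ := by rw [hmc]; group
        _ = b₃ * m * xg 9 1 * (b₃ * m)⁻¹ := by group
        _ = xg 9 1 := hc
    rw [eg]
    exact Subgroup.mul_mem _ (borel_cent9 h3 b₃ hb₃ hb₃c) hm

theorem KT_eq : KT F = chevG2.rootSubgroup F 9 ⊔ chevG2.rootSubgroup F 10 ⊔ chevG2.rootSubgroup F 11 ⊔
    chevG2.rootSubgroup F 6 ⊔ chevG2.rootSubgroup F 5 := by
  have hS := (pkB F).sem
  apply le_antisymm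
  · unfold KT
    apply rootGen_le hS
    rintro s (rfl | rfl | rfl | rfl | rfl) t
    · exact Subgroup.mem_sup_left (Subgroup.mem_sup_left (Subgroup.mem_sup_left
        (Subgroup.mem_sup_left (xU_mem_rootSubgroup hS 9 t))))
    · exact Subgroup.mem_sup_left (Subgroup.mem_sup_left (Subgroup.mem_sup_left
        (Subgroup.mem_sup_right (xU_mem_rootSubgroup hS 10 t))))
    · exact Subgroup.mem_sup_left (Subgroup.mem_sup_left (Subgroup.mem_sup_right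
        (xU_mem_rootSubgroup hS 11 t)))
    · exact Subgroup.mem_sup_left (Subgroup.mem_sup_right (xU_mem_rootSubgroup hS 6 t))
    · exact Subgroup.mem_sup_right (xU_mem_rootSubgroup hS 5 t)
  · refine sup_le (sup_le (sup_le (sup_le ?_ ?_) ?_) ?_) ?_
    · exact rootSubgroup_le hS 9 _ (fun t => xg_mem_KT 9 (by simp [PT]) t)
    · exact rootSubgroup_le hS 10 _ (fun t => xg_mem_KT 10 (by simp [PT]) t)
    · exact rootSubgroup_le hS 11 _ (fun t => xg_mem_KT 11 (by simp [PT]) t)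
    · exact rootSubgroup_le hS 6 _ (fun t => xg_mem_KT 6 (by simp [PT]) t)
    · exact rootSubgroup_le hS 5 _ (fun t => xg_mem_KT 5 (by simp [PT]) t)

theorem KT_le_cent : KT F ≤ chevG2.group F ⊓ Subgroup.centralizer {xg 9 (1 : F)} := by
  intro m hm
  rw [Subgroup.mem_inf]
  refine ⟨?_, ?_⟩
  · have key : KT F ≤ chevG2.group F := by
      unfold KT
      exact rootGen_le (pkB F).sem _ _ (fun s _ t => xg_mem s t)
    exact key hm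
  · rw [Subgroup.mem_centralizer_iff]
    intro h hh
    rw [Set.mem_singleton_iff] at hh
    rw [hh]
    exact (KT_comm 1 m hm).symm

/-- The centralizer of `x_{2a+b}(1)` is `⟨X_{2a+b}, X_{3a+b}, X_{3a+2b}, X_b, X_{-b}⟩`. -/
theorem main_t (h3 : (3 : F) ≠ 0) : chevG2.group F ⊓ Subgroup.centralizer {xg 9 (1 : F)} =
    chevG2.rootSubgroup F 9 ⊔ chevG2.rootSubgroup F 10 ⊔ chevG2.rootSubgroup F 11 ⊔
      chevG2.rootSubgroup F 6 ⊔ chevG2.rootSubgroup F 5 := by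
  rw [← KT_eq]
  apply le_antisymm
  · rintro g ⟨hg, hc⟩
    have h1 := Subgroup.mem_centralizer_iff.mp hc (xg 9 1) rfl
    exact cent9_le h3 g hg (by rw [← h1]; group)
  · exact KT_le_cent

end

end Cfsg.Agent.H7.G2I
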