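import Cfsg.Agent.H7.G2Ev3
import Cfsg.Agent.H23.OrdG2

set_option autoImplicit false

/-!
# `G₂(q)`, `q` even: every involution is conjugate into `U`
-/

namespace Cfsg.Agent.H7.G2I

open Cfsg.Lie Cfsg.Agent.H23

open scoped Pointwise

/-- Sylow subgroups are conjugate, in membership form. -/
theorem sylow_conj_mem {G : Type*} [Group G] [Finite G] {p : ℕ} [Fact p.Prime]
    (P Q : Sylow p G) : ∃ g : G, ∀ x, x ∈ P ↔ g⁻¹ * x * g ∈ Q := by
  obtain ⟨g, hg⟩ := MulAction.exists_smul_eq G Q P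
  refine ⟨g, fun x => ?_⟩
  rw [← hg]
  change x ∈ MulAut.conj g • (Q : Subgroup G) ↔ g⁻¹ * x * g ∈ (Q : Subgroup G)
  rw [Subgroup.mem_pointwise_smul_iff_inv_smul_mem]
  simp [MulAut.smul_def]

section

variable {F : Type*} [Field F]

/-- `|U| = q⁶`. -/
theorem card_posU [Finite F] : Nat.card ↥(chevG2.posUnipotent F) = Nat.card F ^ 6 := by
  have hP := pkB F
  have hV := sV F
  have hW := tabW_G2
  have hS := hP.sem
  have hT := hP.tab
  have hnorm := diagonal_le_normalizer_rootGen hS chevG2.IsPosRoot (fun _ hr => hr.1)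
  obtain ⟨n₀, hn₀⟩ : ∃ n₀, n₀ = nWU hS w0G2 := ⟨_, rfl⟩
  have hn₀N : n₀ ∈ chevG2.monomialSubgroup F := by rw [hn₀]; exact nWU_mem hS hT w0G2 hW.lt
  have hUB : chevG2.posUnipotent F ≤ chevG2.borelSubgroup F := le_sup_left
  let f : ↥(chevG2.posUnipotent F) × ↥(chevG2.borelSubgroup F) → ↥(dcB chevG2 F n₀) :=
    fun p => ⟨(p.1 : GL chevG2.Idx F) * n₀ * (p.2 : GL chevG2.Idx F), ⟨p.1, hUB p.1.2, p.2, p.2.2, rfl⟩⟩
  have hinj : Function.Injective f := by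
    rintro ⟨⟨u, hu⟩, ⟨b, hb⟩⟩ ⟨⟨u', hu'⟩, ⟨b', hb'⟩⟩ e
    have e1 : u * n₀ * b = u' * n₀ * b' := congrArg Subtype.val e
    have e2 : u'⁻¹ * u = n₀ * (b' * b⁻¹) * n₀⁻¹ := by
      have : u = u' * n₀ * b' * b⁻¹ * n₀⁻¹ := by rw [← e1]; group
      rw [this]; group
    have h1 : u'⁻¹ * u ∈ uniGroup (lvl chevG2) 1 ⊓ triGroup (F := F) (lvlM chevG2) := by
      refine ⟨posUnipotent_le_uni hS (Subgroup.mul_mem _ (Subgroup.inv_mem _ hu') hu), ?_⟩
      rw [e2, hn₀]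
      exact nWU_conj_borel_le hP hV w0G2 hW _ (Subgroup.mul_mem _ hb' (Subgroup.inv_mem _ hb))
    rw [uni_inf_triM, Subgroup.mem_bot] at h1
    have huu : u = u' := by
      have : u = u' * (u'⁻¹ * u) := by group
      rw [this, h1, mul_one]
    subst huu
    have hbb : b = b' := mul_left_cancel e1
    subst hbb
    rfl
  have hsurj : Function.Surjective f := by
    rintro ⟨x, b₁, hb₁, b₂, hb₂, rfl⟩
    obtain ⟨u, hu, h, hh, rfl⟩ := exists_mul_of_mem_sup _ _ hnorm b₁ hb₁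
    have h1 : n₀⁻¹ * h * n₀ ∈ chevG2.diagonalSubgroup F := by
      have := (Subgroup.mem_normalizer_iff.mp
        (monomial_le_normalizer_diag hS hP.semN hT hP.etaNeg (Subgroup.inv_mem _ hn₀N)) h).mp hh
      rwa [inv_inv] at this
    refine ⟨(⟨u, hu⟩, ⟨(n₀⁻¹ * h * n₀) * b₂,
      Subgroup.mul_mem _ ((le_sup_right : chevG2.diagonalSubgroup F ≤ _) h1) hb₂⟩), ?_⟩
    apply Subtype.ext
    show u * n₀ * ((n₀⁻¹ * h * n₀) * b₂) = u * h * n₀ * b₂
    group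
  have hc1 : Nat.card ↥(chevG2.posUnipotent F) * Nat.card ↥(chevG2.borelSubgroup F) =
      Nat.card ↥(chevG2.borelSubgroup F) * Nat.card F ^ numPos chevG2 := by
    rw [← Nat.card_prod, Nat.card_congr (Equiv.ofBijective f ⟨hinj, hsurj⟩), hn₀,
      card_dcB_word hP w0G2 hW.lt, invN_w0 hT w0G2 hW]
  have hBpos : 0 < Nat.card ↥(chevG2.borelSubgroup F) := Nat.card_pos
  rw [mul_comm, numPos_G2] at hc1
  exact Nat.eq_of_mul_eq_mul_left hBpos hc1

/-- In even characteristic every involution of `G₂(q)` is conjugate into `U`. -/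
theorem exists_conj_mem_posU [Fintype F] [CharP F 2] (g : GL chevG2.Idx F)
    (hg : g ∈ chevG2.group F) (h2 : g * g = 1) :
    ∃ x ∈ chevG2.group F, x * g * x⁻¹ ∈ chevG2.posUnipotent F := by
  classical
  have hS := (pkB F).sem
  obtain ⟨n, -, hn⟩ := FiniteField.card F 2
  obtain ⟨q, hq⟩ : ∃ q, q = Fintype.card F := ⟨_, rfl⟩
  rw [← hq] at hn
  have hG := order_G2 (F := F) (q := q) hq.symm
  have hU : Nat.card ↥(chevG2.posUnipotent F) = q ^ 6 := by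
    rw [card_posU, Nat.card_eq_fintype_card, hq]
  have hUG : chevG2.posUnipotent F ≤ chevG2.group F := posUnipotent_le_group hS
  obtain ⟨U', hU'def⟩ : ∃ U' : Subgroup ↥(chevG2.group F),
      U' = (chevG2.posUnipotent F).subgroupOf (chevG2.group F) := ⟨_, rfl⟩
  have hU' : Nat.card ↥U' = q ^ 6 := by
    rw [hU'def, Nat.card_congr (Subgroup.subgroupOfEquivOfLe hUG).toEquiv, hU]
  have hpg : IsPGroup 2 ↥U' := IsPGroup.of_card (n := (n : ℕ) * 6) (by rw [hU', hn, ← pow_mul])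
  have hqe : Even q := by rw [hn]; exact Nat.even_pow.mpr ⟨even_two, n.ne_zero⟩
  have hq0 : 0 < q := by rw [hn]; positivity
  have hidx : ¬ 2 ∣ U'.index := by
    have h1 := Subgroup.index_mul_card U'
    rw [hU', hG] at h1
    have hq6 : 0 < q ^ 6 := pow_pos hq0 6
    have h3 : U'.index = (q ^ 2 - 1) * (q ^ 6 - 1) := by
      apply Nat.eq_of_mul_eq_mul_left hq6
      rw [mul_comm, h1]; ring
    rw [h3, ← even_iff_two_dvd, Nat.not_even_iff_odd]
    have o1 : Odd (q ^ 2 - 1) :=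
      Nat.Even.sub_odd (Nat.one_le_pow _ _ hq0) (Nat.even_pow.mpr ⟨hqe, by norm_num⟩) odd_one
    have o2 : Odd (q ^ 6 - 1) :=
      Nat.Even.sub_odd (Nat.one_le_pow _ _ hq0) (Nat.even_pow.mpr ⟨hqe, by norm_num⟩) odd_one
    exact o1.mul o2
  haveI : Fact (Nat.Prime 2) := ⟨Nat.prime_two⟩
  obtain ⟨g', hg'def⟩ : ∃ g' : ↥(chevG2.group F), g' = ⟨g, hg⟩ := ⟨_, rfl⟩
  have hg' : g' * g' = 1 := by rw [hg'def]; exact Subtype.ext h2
  have hz : IsPGroup 2 ↥(Subgroup.zpowers g') := by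
    rintro ⟨y, hy⟩
    obtain ⟨i, rfl⟩ := Subgroup.mem_zpowers_iff.mp hy
    refine ⟨1, ?_⟩
    apply Subtype.ext
    show (g' ^ i) ^ 2 ^ 1 = 1
    rw [pow_one, ← zpow_natCast, ← zpow_mul, mul_comm, zpow_mul, zpow_natCast, pow_two, hg', one_zpow]
  obtain ⟨Q, hQ⟩ := hz.exists_le_sylow
  obtain ⟨x, hx⟩ := sylow_conj_mem Q (hpg.toSylow hidx)
  have h5 := (hx g').mp (hQ (Subgroup.mem_zpowers g'))
  rw [IsPGroup.mem_toSylow, hU'def, Subgroup.mem_subgroupOf, hg'def] at h5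
  refine ⟨(x⁻¹ : ↥(chevG2.group F)), (x⁻¹).2, ?_⟩
  simpa using h5

end

end Cfsg.Agent.H7.G2I
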