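import Cfsg.Agent.H7.G2Ev4

set_option autoImplicit false

/-!
# `G₂(q)`: conjugation formulas for root elements, congruences modulo `A = X_{2a+b} X_{3a+b} X_{3a+2b}`
and the decomposition of `U`
-/

namespace Cfsg.Agent.H7.G2I

open Cfsg.Lie Cfsg.Agent.H23 Cfsg.Agent.H22

section

variable {F : Type*} [Field F]

/-! ### Conjugation formulas -/

theorem conj_comm' (q s : ℕ) (hq : q < 12) (hs : s < 12) (hne : s ≠ q) (hne' : s ≠ chevG2.neg q)
    (σ u : F) :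
    xg q σ * xg s u * (xg q σ)⁻¹ = xg s u * wordU (pkB F).sem (chevG2.commWord F q s (-σ) u) := by
  have h := conj_comm (F := F) q s hq hs hne hne' (-σ) u
  have e : xg q (-σ) = (xg q σ)⁻¹ := (xg_inv q σ).symm
  rw [e, inv_inv] at h
  exact h

theorem commWord_eq (q s : ℕ) (t u : F) : chevG2.commWord F q s t u =
    (chevG2.commTerms q s).map (fun c => (c.1, (c.2.1 : F) * (-t) ^ c.2.2.1 * u ^ c.2.2.2)) := rfl

theorem commWord_tail_mem (t u : F) (P : ℕ → Prop) (l : List (ℕ × ℤ × ℕ × ℕ))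
    (hl : ∀ c ∈ l, P c.1) :
    wordU (pkB F).sem (l.map (fun c => (c.1, (c.2.1 : F) * (-t) ^ c.2.2.1 * u ^ c.2.2.2))) ∈
      rootGen chevG2 F P := by
  apply wordU_mem
  intro p hp
  obtain ⟨c, hc, rfl⟩ := List.mem_map.mp hp
  exact xU_mem_rootGen (pkB F).sem P c.1 (hl c hc) _

/-- Conjugation when there is a single commutator term. -/
theorem conj_one (q s r : ℕ) (k : ℤ) (i j : ℕ) (hq : q < 12) (hs : s < 12) (hne : s ≠ q)
    (hne' : s ≠ chevG2.neg q) (hct : chevG2.commTerms q s = [(r, k, i, j)]) (σ u : F) :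
    xg q σ * xg s u * (xg q σ)⁻¹ = xg s u * xg r ((k : F) * σ ^ i * u ^ j) := by
  have h := conj_comm' (F := F) q s hq hs hne hne' σ u
  rw [commWord_eq, hct] at h
  simp only [List.map_cons, List.map_nil, wordU_cons, wordU_nil, mul_one, neg_neg] at h
  exact h

/-- Conjugation modulo the later commutator terms. -/
theorem conj_weak (q s r : ℕ) (k : ℤ) (i j : ℕ) (l : List (ℕ × ℤ × ℕ × ℕ)) (hq : q < 12)
    (hs : s < 12) (hne : s ≠ q) (hne' : s ≠ chevG2.neg q)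
    (hct : chevG2.commTerms q s = (r, k, i, j) :: l) (P : ℕ → Prop) (hl : ∀ c ∈ l, P c.1) (σ u : F) :
    ∃ a ∈ rootGen chevG2 F P,
      xg q σ * xg s u * (xg q σ)⁻¹ = xg s u * xg r ((k : F) * σ ^ i * u ^ j) * a := by
  have h := conj_comm' (F := F) q s hq hs hne hne' σ u
  rw [commWord_eq, hct, List.map_cons, wordU_cons] at h
  refine ⟨_, commWord_tail_mem (-σ) u P l hl, ?_⟩
  rw [h]
  simp only [neg_neg, mul_assoc]

/-- Conjugation modulo all the commutator terms. -/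
theorem conj_weak0 (q s : ℕ) (hq : q < 12) (hs : s < 12) (hne : s ≠ q) (hne' : s ≠ chevG2.neg q)
    (P : ℕ → Prop) (hl : ∀ c ∈ chevG2.commTerms q s, P c.1) (σ u : F) :
    ∃ a ∈ rootGen chevG2 F P, xg q σ * xg s u * (xg q σ)⁻¹ = xg s u * a := by
  have h := conj_comm' (F := F) q s hq hs hne hne' σ u
  rw [commWord_eq] at h
  exact ⟨_, commWord_tail_mem (-σ) u P _ hl, h⟩

theorem conj_of_comm {G : Type*} [Group G] {X Y : G} (h : X * Y = Y * X) : X * Y * X⁻¹ = Y := by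
  rw [h]; group

theorem ct_6_10 : chevG2.commTerms 6 10 = [(11, 1, 1, 1)] := by decide +kernel
theorem ct_10_6 : chevG2.commTerms 10 6 = [(11, -1, 1, 1)] := by decide +kernel
theorem ct_7_6 : chevG2.commTerms 7 6 = [(8, -1, 1, 1), (9, 1, 2, 1), (10, 1, 3, 1), (11, 1, 3, 2)] := by
  decide +kernel
theorem ct_6_7 : chevG2.commTerms 6 7 = [(8, 1, 1, 1), (9, 1, 1, 2), (10, -1, 1, 3), (11, -2, 2, 3)] := by
  decide +kernel
theorem ct_4_9 : chevG2.commTerms 4 9 = [(8, -2, 1, 1), (6, 3, 2, 1), (11, -3, 1, 2)] := by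
  decide +kernel

theorem K610 (σ u : F) : xg 6 σ * xg 10 u * (xg 6 σ)⁻¹ = xg 10 u * xg 11 (σ * u) := by
  have h := conj_one (F := F) 6 10 11 1 1 1 (by decide) (by decide) (by decide) (by decide +kernel)
    ct_6_10 σ u
  rw [h]; congr 2; push_cast; ring

theorem K106 (σ u : F) : xg 10 σ * xg 6 u * (xg 10 σ)⁻¹ = xg 6 u * xg 11 (-(σ * u)) := by
  have h := conj_one (F := F) 10 6 11 (-1) 1 1 (by decide) (by decide) (by decide) (by decide +kernel)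
    ct_10_6 σ u
  rw [h]; congr 2; push_cast; ring

theorem K76w (σ u : F) : ∃ a ∈ rootGen chevG2 F PA,
    xg 7 σ * xg 6 u * (xg 7 σ)⁻¹ = xg 6 u * xg 8 (-(σ * u)) * a := by
  obtain ⟨a, ha, h⟩ := conj_weak (F := F) 7 6 8 (-1) 1 1 _ (by decide) (by decide) (by decide)
    (by decide +kernel) ct_7_6 PA (by decide) σ u
  refine ⟨a, ha, ?_⟩
  rw [h]; congr 3; push_cast; ring

theorem K67w (σ u : F) : ∃ a ∈ rootGen chevG2 F PA,
    xg 6 σ * xg 7 u * (xg 6 σ)⁻¹ = xg 7 u * xg 8 (σ * u) * a := by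
  obtain ⟨a, ha, h⟩ := conj_weak (F := F) 6 7 8 1 1 1 _ (by decide) (by decide) (by decide)
    (by decide +kernel) ct_6_7 PA (by decide) σ u
  refine ⟨a, ha, ?_⟩
  rw [h]; congr 3; push_cast; ring

theorem K78w (σ u : F) : ∃ a ∈ rootGen chevG2 F PA, xg 7 σ * xg 8 u * (xg 7 σ)⁻¹ = xg 8 u * a :=
  conj_weak0 7 8 (by decide) (by decide) (by decide) (by decide +kernel) PA (by decide +kernel) σ u

theorem K87w (σ u : F) : ∃ a ∈ rootGen chevG2 F PA, xg 8 σ * xg 7 u * (xg 8 σ)⁻¹ = xg 7 u * a :=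
  conj_weak0 8 7 (by decide) (by decide) (by decide) (by decide +kernel) PA (by decide +kernel) σ u

/-- The action of `x_{-a}(σ)` on `X_{2a+b}`. -/
theorem K49 (σ u : F) : xg 4 σ * xg 9 u * (xg 4 σ)⁻¹ =
    xg 9 u * (xg 8 (-2 * σ * u) * (xg 6 (3 * σ ^ 2 * u) * xg 11 (-3 * σ * u ^ 2))) := by
  have h := conj_comm' (F := F) 4 9 (by decide) (by decide) (by decide) (by decide +kernel) σ u
  rw [commWord_eq, ct_4_9] at h
  simp only [List.map_cons, List.map_nil, wordU_cons, wordU_nil, mul_one, neg_neg] at h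
  rw [h]
  congr 2
  · congr 1; push_cast; ring
  · congr 1
    · congr 1; push_cast; ring
    · congr 1; push_cast; ring

/-! ### The action of `X_b`, `X_a`, `X_{a+b}` on `A` -/

theorem c_6_9 (t u : F) : xg 6 u * xg 9 t = xg 9 t * xg 6 u :=
  comm_gen 9 6 (by decide) (by decide) (by decide +kernel) (by decide +kernel) t u
theorem c_6_11 (t u : F) : xg 6 u * xg 11 t = xg 11 t * xg 6 u :=
  comm_gen 11 6 (by decide) (by decide) (by decide +kernel) (by decide +kernel) t u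
theorem c_7_10 (t u : F) : xg 7 u * xg 10 t = xg 10 t * xg 7 u :=
  comm_gen 10 7 (by decide) (by decide) (by decide +kernel) (by decide +kernel) t u
theorem c_7_11 (t u : F) : xg 7 u * xg 11 t = xg 11 t * xg 7 u :=
  comm_gen 11 7 (by decide) (by decide) (by decide +kernel) (by decide +kernel) t u
theorem c_8_10 (t u : F) : xg 8 u * xg 10 t = xg 10 t * xg 8 u :=
  comm_gen 10 8 (by decide) (by decide) (by decide +kernel) (by decide +kernel) t u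
theorem c_8_11 (t u : F) : xg 8 u * xg 11 t = xg 11 t * xg 8 u :=
  comm_gen 11 8 (by decide) (by decide) (by decide +kernel) (by decide +kernel) t u
theorem c_6_8 (t u : F) : xg 6 u * xg 8 t = xg 8 t * xg 6 u :=
  comm_gen 8 6 (by decide) (by decide) (by decide +kernel) (by decide +kernel) t u
theorem c_10_9 (t u : F) : xg 10 u * xg 9 t = xg 9 t * xg 10 u := c_9_10 t u

theorem conj6_A (σ δ ε ζ : F) : xg 6 σ * (xg 9 δ * xg 10 ε * xg 11 ζ) * (xg 6 σ)⁻¹ =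
    xg 9 δ * xg 10 ε * xg 11 (ζ + σ * ε) := by
  have h9 : xg 6 σ * xg 9 δ * (xg 6 σ)⁻¹ = xg 9 δ := conj_of_comm (c_6_9 δ σ)
  have h11 : xg 6 σ * xg 11 ζ * (xg 6 σ)⁻¹ = xg 11 ζ := conj_of_comm (c_6_11 ζ σ)
  calc xg 6 σ * (xg 9 δ * xg 10 ε * xg 11 ζ) * (xg 6 σ)⁻¹
      = (xg 6 σ * xg 9 δ * (xg 6 σ)⁻¹) * (xg 6 σ * xg 10 ε * (xg 6 σ)⁻¹) *
        (xg 6 σ * xg 11 ζ * (xg 6 σ)⁻¹) := by group
    _ = xg 9 δ * (xg 10 ε * xg 11 (σ * ε)) * xg 11 ζ := by rw [h9, h11, K610]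
    _ = xg 9 δ * xg 10 ε * (xg 11 (σ * ε) * xg 11 ζ) := by group
    _ = _ := by rw [xg_mul, add_comm]

theorem conj7_A (σ δ ε ζ : F) : xg 7 σ * (xg 9 δ * xg 10 ε * xg 11 ζ) * (xg 7 σ)⁻¹ =
    xg 9 δ * xg 10 (ε + 3 * σ * δ) * xg 11 ζ := by
  have h10 : xg 7 σ * xg 10 ε * (xg 7 σ)⁻¹ = xg 10 ε := conj_of_comm (c_7_10 ε σ)
  have h11 : xg 7 σ * xg 11 ζ * (xg 7 σ)⁻¹ = xg 11 ζ := conj_of_comm (c_7_11 ζ σ)
  calc xg 7 σ * (xg 9 δ * xg 10 ε * xg 11 ζ) * (xg 7 σ)⁻¹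
      = (xg 7 σ * xg 9 δ * (xg 7 σ)⁻¹) * (xg 7 σ * xg 10 ε * (xg 7 σ)⁻¹) *
        (xg 7 σ * xg 11 ζ * (xg 7 σ)⁻¹) := by group
    _ = xg 9 δ * xg 10 (3 * σ * δ) * xg 10 ε * xg 11 ζ := by rw [h10, h11, C79]
    _ = xg 9 δ * (xg 10 (3 * σ * δ) * xg 10 ε) * xg 11 ζ := by group
    _ = _ := by rw [xg_mul, add_comm]

theorem conj8_A (ρ δ ε ζ : F) : xg 8 ρ * (xg 9 δ * xg 10 ε * xg 11 ζ) * (xg 8 ρ)⁻¹ =
    xg 9 δ * xg 10 ε * xg 11 (ζ + 3 * ρ * δ) := by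
  have h10 : xg 8 ρ * xg 10 ε * (xg 8 ρ)⁻¹ = xg 10 ε := conj_of_comm (c_8_10 ε ρ)
  have h11 : xg 8 ρ * xg 11 ζ * (xg 8 ρ)⁻¹ = xg 11 ζ := conj_of_comm (c_8_11 ζ ρ)
  have hc : xg 11 (3 * ρ * δ) * xg 10 ε = xg 10 ε * xg 11 (3 * ρ * δ) := c_10_11 _ _
  calc xg 8 ρ * (xg 9 δ * xg 10 ε * xg 11 ζ) * (xg 8 ρ)⁻¹
      = (xg 8 ρ * xg 9 δ * (xg 8 ρ)⁻¹) * (xg 8 ρ * xg 10 ε * (xg 8 ρ)⁻¹) *
        (xg 8 ρ * xg 11 ζ * (xg 8 ρ)⁻¹) := by group
    _ = xg 9 δ * xg 11 (3 * ρ * δ) * xg 10 ε * xg 11 ζ := by rw [h10, h11, C89]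
    _ = xg 9 δ * (xg 11 (3 * ρ * δ) * xg 10 ε) * xg 11 ζ := by group
    _ = xg 9 δ * xg 10 ε * (xg 11 (3 * ρ * δ) * xg 11 ζ) := by rw [hc]; group
    _ = _ := by rw [xg_mul, add_comm]

/-! ### Congruence modulo `A` -/

/-- `x ≡ y` modulo `A`. -/
def EqA (x y : GL chevG2.Idx F) : Prop := x * y⁻¹ ∈ rootGen chevG2 F PA

theorem EqA.refl (x : GL chevG2.Idx F) : EqA x x := by
  unfold EqA; rw [mul_inv_cancel]; exact Subgroup.one_mem _

theorem EqA.symm {x y : GL chevG2.Idx F} (h : EqA x y) : EqA y x := by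
  unfold EqA at h ⊢
  have e : y * x⁻¹ = (x * y⁻¹)⁻¹ := by group
  rw [e]; exact Subgroup.inv_mem _ h

theorem EqA.trans {x y z : GL chevG2.Idx F} (h : EqA x y) (h' : EqA y z) : EqA x z := by
  unfold EqA at h h' ⊢
  have e : x * z⁻¹ = (x * y⁻¹) * (y * z⁻¹) := by group
  rw [e]; exact Subgroup.mul_mem _ h h'

theorem EqA.mul_right {x y : GL chevG2.Idx F} (h : EqA x y) (c : GL chevG2.Idx F) :
    EqA (x * c) (y * c) := by
  unfold EqA at h ⊢
  have e : x * c * (y * c)⁻¹ = x * y⁻¹ := by group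
  rw [e]; exact h

theorem EqA.mul_left {x y : GL chevG2.Idx F} (h : EqA x y) {c : GL chevG2.Idx F}
    (hc : c ∈ chevG2.borelSubgroup F) : EqA (c * x) (c * y) := by
  unfold EqA at h ⊢
  have e : c * x * (c * y)⁻¹ = c * (x * y⁻¹) * c⁻¹ := by group
  rw [e]
  exact (Subgroup.mem_normalizer_iff.mp (borel_norm_A hc) _).mp h

theorem EqA.of_mul_mem {y a : GL chevG2.Idx F} (hy : y ∈ chevG2.borelSubgroup F)
    (ha : a ∈ rootGen chevG2 F PA) : EqA (y * a) y := by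
  unfold EqA
  exact (Subgroup.mem_normalizer_iff.mp (borel_norm_A hy) _).mp ha

theorem EqA.of_mem_mul {y a : GL chevG2.Idx F} (ha : a ∈ rootGen chevG2 F PA) : EqA (a * y) y := by
  unfold EqA
  have e : a * y * y⁻¹ = a := by group
  rw [e]; exact ha

theorem EqA.exists {x y : GL chevG2.Idx F} (h : EqA x y) : ∃ a ∈ rootGen chevG2 F PA, x = a * y :=
  ⟨x * y⁻¹, h, by group⟩

theorem EqA.of_eq {x y : GL chevG2.Idx F} (h : x = y) : EqA x y := by rw [h]; exact EqA.refl y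

theorem xgB (s : ℕ) (hs : chevG2.IsPosRoot s) (t : F) : xg s t ∈ chevG2.borelSubgroup F :=
  xU_mem_borel (pkB F).sem s hs t

theorem pos8 : chevG2.IsPosRoot 8 := by decide +kernel
theorem pos9 : chevG2.IsPosRoot 9 := by decide +kernel
theorem pos10 : chevG2.IsPosRoot 10 := by decide +kernel
theorem pos11 : chevG2.IsPosRoot 11 := by decide +kernel

theorem r01_8 : reflW chevG2 [0, 1] 8 = 4 := by decide +kernel
theorem r01_pos : chevG2.IsPosRoot (reflW chevG2 [0, 1] 9) ∧ chevG2.IsPosRoot (reflW chevG2 [0, 1] 10) ∧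
    chevG2.IsPosRoot (reflW chevG2 [0, 1] 11) := by decide +kernel

/-- `X_{a+b} ∩ A = 1`. -/
theorem x8_not_mem_A (c : F) (h : xg 8 c ∈ rootGen chevG2 F PA) : c = 0 := by
  have hS := (pkB F).sem
  obtain ⟨δ, ε, ζ, e⟩ := form_A _ h
  obtain ⟨d, hd, e8⟩ := conj_w (F := F) [0, 1] (by decide) 8 (by decide)
  obtain ⟨d₁, d₂, d₃, -, -, -, e3⟩ := conj3 (F := F) [0, 1] (by decide) 9 10 11 (by decide) (by decide)
    (by decide)
  have h1 := e8 c
  rw [e, e3, r01_8] at h1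
  have h2 : xg 4 (d * c) ∈ chevG2.posUnipotent F ⊓ chevG2.negUnipotent F := by
    refine ⟨?_, ?_⟩
    · rw [← h1, posUnipotent_eq]
      exact Subgroup.mul_mem _ (Subgroup.mul_mem _ (xU_mem_rootGen hS _ _ r01_pos.1 _)
        (xU_mem_rootGen hS _ _ r01_pos.2.1 _)) (xU_mem_rootGen hS _ _ r01_pos.2.2 _)
    · rw [negUnipotent_eq]; exact xU_mem_rootGen hS _ 4 (by decide +kernel) _
  rw [pos_inf_neg hS (sV F), Subgroup.mem_bot] at h2
  have h3 : d * c = 0 := xg_inj 4 (by decide) _ _ (h2.trans (xg_zero 4).symm)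
  exact (mul_eq_zero.mp h3).resolve_left hd

/-! ### The decomposition of `U` -/

theorem W0_dec (w₀ : GL chevG2.Idx F) (hw₀ : w₀ ∈ rootGen chevG2 F PW0) :
    ∃ a ∈ rootGen chevG2 F PA, ∃ β : F, w₀ = a * xg 6 β := by
  have hS := (pkB F).sem
  have hle : rootGen chevG2 F PW0 ≤ rootGen chevG2 F PA ⊔ chevG2.rootSubgroup F 6 := by
    apply rootGen_le hS
    rintro q (rfl | rfl | rfl | rfl) t
    · exact Subgroup.mem_sup_right (xU_mem_rootSubgroup hS 6 t)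
    · exact Subgroup.mem_sup_left (xU_mem_rootGen hS PA 9 (by simp [PA]) t)
    · exact Subgroup.mem_sup_left (xU_mem_rootGen hS PA 10 (by simp [PA]) t)
    · exact Subgroup.mem_sup_left (xU_mem_rootGen hS PA 11 (by simp [PA]) t)
  have hN : chevG2.rootSubgroup F 6 ≤
      Subgroup.normalizer (rootGen chevG2 F PA : Set (GL chevG2.Idx F)) :=
    rootSubgroup_le hS 6 _ (fun t => borel_norm_A (xgB 6 pos6 t))
  obtain ⟨a, ha, x, hx, e⟩ := exists_mul_of_mem_sup _ _ hN w₀ (hle hw₀)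
  obtain ⟨β, rfl⟩ := exists_of_mem_rootSubgroup hS 6 x hx
  exact ⟨a, ha, β, e⟩

/-- `U = A X_b X_{a+b} X_a`. -/
theorem U_dec (g : GL chevG2.Idx F) (hg : g ∈ chevG2.posUnipotent F) :
    ∃ a ∈ rootGen chevG2 F PA, ∃ β γ α : F, g = a * xg 6 β * xg 8 γ * xg 7 α := by
  obtain ⟨v, hv, α, rfl⟩ := dec_U r1_a g hg
  obtain ⟨w₀, hw₀, γ, rfl⟩ := Ua_dec v hv
  obtain ⟨a, ha, β, rfl⟩ := W0_dec w₀ hw₀
  exact ⟨a, ha, β, γ, α, rfl⟩

end

end Cfsg.Agent.H7.G2I
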