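import Cfsg.Agent.H7.G2Ev5

set_option autoImplicit false

/-!
# `G₂(q)`, `q` even: the involutions of `U`
-/

namespace Cfsg.Agent.H7.G2I

open Cfsg.Lie Cfsg.Agent.H23 Cfsg.Agent.H22

section

variable {F : Type*} [Field F]

theorem add_self2 (h2 : (2 : F) = 0) (t : F) : t + t = 0 := by linear_combination t * h2
theorem neg_self2 (h2 : (2 : F) = 0) (t : F) : -t = t := by linear_combination (-t) * h2
theorem three2 (h2 : (2 : F) = 0) : (3 : F) = 1 := by linear_combination h2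

theorem xg_sq (h2 : (2 : F) = 0) (r : ℕ) (t : F) : xg r t * xg r t = 1 := by
  rw [xg_mul, add_self2 h2, xg_zero]

theorem xg_inv2 (h2 : (2 : F) = 0) (r : ℕ) (t : F) : (xg r t)⁻¹ = xg r t := by
  rw [xg_inv, neg_self2 h2]

/-- Conjugate to `x_{3a+2b}(1)` or to `x_{2a+b}(1)`. -/
def Good (g : GL chevG2.Idx F) : Prop := CJ g (xg 11 1) ∨ CJ g (xg 9 1)

theorem Good.of_cj {g g' : GL chevG2.Idx F} (h : CJ g g') (hg' : Good g') : Good g := by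
  rcases hg' with h' | h'
  · exact Or.inl (h.trans h')
  · exact Or.inr (h.trans h')

theorem zG_7_9 : zG 7 9 = 1 := by decide +kernel
theorem zG_6_11 : zG 6 11 = 1 := by decide +kernel

theorem scale9 (γ : F) (hγ : γ ≠ 0) : CJ (xg 9 γ) (xg 9 1) := by
  have hact := act_hg (F := F) 7 (by decide) γ⁻¹ (inv_ne_zero hγ)
  refine ⟨hg 7 γ⁻¹, diagonal_le_group (pkB F).sem hact.1, ?_⟩
  rw [hact.2 9 (by decide) γ]
  congr 1
  show γ⁻¹ ^ zG 7 9 * γ = 1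
  rw [zG_7_9, zpow_one, inv_mul_cancel₀ hγ]

theorem scale11 (ζ : F) (hζ : ζ ≠ 0) : CJ (xg 11 ζ) (xg 11 1) := by
  have hact := act_hg (F := F) 6 (by decide) ζ⁻¹ (inv_ne_zero hζ)
  refine ⟨hg 6 ζ⁻¹, diagonal_le_group (pkB F).sem hact.1, ?_⟩
  rw [hact.2 11 (by decide) ζ]
  congr 1
  show ζ⁻¹ ^ zG 6 11 * ζ = 1
  rw [zG_6_11, zpow_one, inv_mul_cancel₀ hζ]

/-- Conjugation of a root element by a Weyl group element. -/
theorem cj_weyl (w : List ℕ) (hw : ∀ i ∈ w, i < 2) (s s' : ℕ) (hs : s < 12)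
    (hs' : reflW chevG2 w s = s') (t : F) : ∃ c : F, c ≠ 0 ∧ CJ (xg s t) (xg s' (c * t)) := by
  obtain ⟨c, hc, h⟩ := conj_w (F := F) w hw s hs
  exact ⟨c, hc, nw F w, monomial_le_group (pkB F).sem (nw_mem_mono w hw), by rw [h, hs']⟩

theorem r1_10 : reflW chevG2 [1] 10 = 11 := by decide +kernel
theorem r10_6 : reflW chevG2 [1, 0] 6 = 11 := by decide +kernel
theorem r1_7 : reflW chevG2 [1] 7 = 8 := by decide +kernel
theorem r1_9 : reflW chevG2 [1] 9 = 9 := by decide +kernel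
theorem r1_11 : reflW chevG2 [1] 11 = 10 := by decide +kernel
theorem r0_10 : reflW chevG2 [0] 10 = 6 := by decide +kernel
theorem r0_11 : reflW chevG2 [0] 11 = 11 := by decide +kernel
theorem r0_8 : reflW chevG2 [0] 8 = 9 := by decide +kernel

/-- Non-trivial elements of `A` are conjugate to a root element. -/
theorem good_A (h3 : (3 : F) ≠ 0) (δ ε ζ : F) (hne : xg 9 δ * xg 10 ε * xg 11 ζ ≠ 1) :
    Good (xg 9 δ * xg 10 ε * xg 11 ζ) := by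
  by_cases hδ : δ = 0
  · subst hδ
    left
    by_cases hε : ε = 0
    · subst hε
      have hζ : ζ ≠ 0 := by
        rintro rfl
        exact hne A_one
      rw [xg_zero 9, xg_zero 10, one_mul, one_mul]
      exact scale11 ζ hζ
    · have e1 := conj6_A (ζ / ε) 0 ε 0
      rw [zero_add, div_mul_cancel₀ ζ hε] at e1
      have c1 : CJ (xg 10 ε) (xg 9 0 * xg 10 ε * xg 11 ζ) := by
        refine ⟨xg 6 (ζ / ε), xg_mem _ _, ?_⟩
        rw [← e1, xg_zero 9, xg_zero 11, one_mul, mul_one]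
      obtain ⟨c, hc, c2⟩ := cj_weyl (F := F) [1] (by decide) 10 11 (by decide) r1_10 ε
      exact c1.symm.trans (c2.trans (scale11 _ (mul_ne_zero hc hε)))
  · right
    have hd : (3 : F) * δ ≠ 0 := mul_ne_zero h3 hδ
    have e1 := conj7_A (ε / (3 * δ)) δ 0 0
    have k1 : (0 : F) + 3 * (ε / (3 * δ)) * δ = ε := by rw [zero_add]; field_simp
    rw [k1] at e1
    have e2 := conj8_A (ζ / (3 * δ)) δ ε 0
    have k2 : (0 : F) + 3 * (ζ / (3 * δ)) * δ = ζ := by rw [zero_add]; field_simp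
    rw [k2] at e2
    have c1 : CJ (xg 9 δ) (xg 9 δ * xg 10 ε * xg 11 ζ) := by
      refine ⟨xg 8 (ζ / (3 * δ)) * xg 7 (ε / (3 * δ)), Subgroup.mul_mem _ (xg_mem _ _) (xg_mem _ _), ?_⟩
      rw [← e2, ← e1, xg_zero 10, xg_zero 11, mul_one, mul_one]
      group
    exact c1.symm.trans (scale9 δ hδ)

theorem K49_2 (h2 : (2 : F) = 0) (u γ : F) :
    xg 4 u * xg 9 γ * (xg 4 u)⁻¹ = xg 9 γ * xg 6 (u * u * γ) * xg 11 (u * γ * γ) := by
  rw [K49]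
  have e1 : (-2 * u * γ : F) = 0 := by linear_combination (-u * γ) * h2
  have e2 : (3 * u ^ 2 * γ : F) = u * u * γ := by linear_combination (u ^ 2 * γ) * h2
  have e3 : (-3 * u * γ ^ 2 : F) = u * γ * γ := by linear_combination (-2 * u * γ ^ 2) * h2
  rw [e1, e2, e3, xg_zero, one_mul]
  exact (mul_assoc _ _ _).symm

theorem conj10_96 (s γ ε ζ : F) : xg 10 s * (xg 9 γ * xg 6 ε * xg 11 ζ) * (xg 10 s)⁻¹ =
    xg 9 γ * xg 6 ε * xg 11 (ζ + -(s * ε)) := by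
  have h9 : xg 10 s * xg 9 γ * (xg 10 s)⁻¹ = xg 9 γ := conj_of_comm (c_10_9 γ s)
  have h11 : xg 10 s * xg 11 ζ * (xg 10 s)⁻¹ = xg 11 ζ := conj_of_comm (c_10_11 s ζ).symm
  calc xg 10 s * (xg 9 γ * xg 6 ε * xg 11 ζ) * (xg 10 s)⁻¹
      = (xg 10 s * xg 9 γ * (xg 10 s)⁻¹) * (xg 10 s * xg 6 ε * (xg 10 s)⁻¹) *
        (xg 10 s * xg 11 ζ * (xg 10 s)⁻¹) := by group
    _ = xg 9 γ * (xg 6 ε * xg 11 (-(s * ε))) * xg 11 ζ := by rw [h9, h11, K106]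
    _ = xg 9 γ * xg 6 ε * (xg 11 (-(s * ε)) * xg 11 ζ) := by group
    _ = _ := by rw [xg_mul, add_comm]

/-- `x_{2a+b}(γ) x_b(ε) x_{3a+2b}(ζ)` is conjugate to `x_{2a+b}(γ)` in characteristic two. -/
theorem good_96 (h2 : (2 : F) = 0) (hsq : ∀ c : F, ∃ u : F, u * u = c) (γ ε ζ : F) (hγ : γ ≠ 0) :
    CJ (xg 9 γ * xg 6 ε * xg 11 ζ) (xg 9 γ) := by
  apply CJ.symm
  by_cases hε : ε = 0
  · subst hε
    refine ⟨xg 8 (ζ / γ), xg_mem _ _, ?_⟩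
    have e := conj8_A (ζ / γ) γ 0 0
    rw [three2 h2, zero_add, one_mul, div_mul_cancel₀ ζ hγ, xg_zero 10, xg_zero 11, mul_one,
      mul_one] at e
    rw [e, xg_zero 6, mul_one]
  · obtain ⟨u, hu⟩ := hsq (ε / γ)
    obtain ⟨ζ₀, hζ₀⟩ : ∃ ζ₀, ζ₀ = u * γ * γ := ⟨_, rfl⟩
    have e1 : xg 4 u * xg 9 γ * (xg 4 u)⁻¹ = xg 9 γ * xg 6 ε * xg 11 ζ₀ := by
      rw [K49_2 h2, hζ₀, hu, div_mul_cancel₀ ε hγ]
    have e2 := conj10_96 ((ζ₀ + -ζ) / ε) γ ε ζ₀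
    have e3 : ζ₀ + -((ζ₀ + -ζ) / ε * ε) = ζ := by rw [div_mul_cancel₀ _ hε]; ring
    rw [e3] at e2
    refine ⟨xg 10 ((ζ₀ + -ζ) / ε) * xg 4 u, Subgroup.mul_mem _ (xg_mem _ _) (xg_mem _ _), ?_⟩
    rw [← e2, ← e1]; group

theorem A_sq (h2 : (2 : F) = 0) (δ ε ζ δ' ε' ζ' : F) (hδ : δ' = δ) (hε : ε' = ε) :
    xg 9 δ * xg 10 ε * xg 11 ζ * (xg 9 δ' * xg 10 ε' * xg 11 ζ') = xg 11 (ζ + ζ') := by
  rw [A_mul, hδ, hε, add_self2 h2, add_self2 h2, xg_zero 9, xg_zero 10, one_mul, one_mul]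

/-- Involutions `a x_{a+b}(γ)`, `a ∈ A`, `γ ≠ 0`. -/
theorem good_A8 (h2 : (2 : F) = 0) (hsq : ∀ c : F, ∃ u : F, u * u = c) (a : GL chevG2.Idx F)
    (ha : a ∈ rootGen chevG2 F PA) (γ : F) (hγ : γ ≠ 0)
    (hinv : (a * xg 8 γ) * (a * xg 8 γ) = 1) : Good (a * xg 8 γ) := by
  obtain ⟨δ, ε, ζ, rfl⟩ := form_A a ha
  have h3 : (3 : F) ≠ 0 := by rw [three2 h2]; exact one_ne_zero
  have hδ : δ = 0 := by
    have e : xg 9 δ * xg 10 ε * xg 11 ζ * xg 8 γ * (xg 9 δ * xg 10 ε * xg 11 ζ * xg 8 γ) =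
        xg 9 δ * xg 10 ε * xg 11 ζ * (xg 8 γ * (xg 9 δ * xg 10 ε * xg 11 ζ) * (xg 8 γ)⁻¹) *
          (xg 8 γ * xg 8 γ) := by group
    rw [e, conj8_A, xg_sq h2, mul_one, A_sq h2 _ _ _ _ _ _ rfl rfl] at hinv
    have h0 := xg_inj 11 (by decide) _ _ (hinv.trans (xg_zero 11).symm)
    have h1 : 3 * γ * δ = 0 := by linear_combination h0 - ζ * h2
    rcases mul_eq_zero.mp h1 with h | h
    · exact absurd h (mul_ne_zero h3 hγ)
    · exact h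
  subst hδ
  right
  obtain ⟨d₁, d₂, d₃, -, -, hd₃, e⟩ := conj3 (F := F) [0] (by decide) 10 11 8 (by decide) (by decide)
    (by decide)
  have e' := e ε ζ γ
  rw [r0_10, r0_11, r0_8] at e'
  have c1 : CJ (xg 9 0 * xg 10 ε * xg 11 ζ * xg 8 γ) (xg 9 (d₃ * γ) * xg 6 (d₁ * ε) * xg 11 (d₂ * ζ)) := by
    refine ⟨nw F [0], monomial_le_group (pkB F).sem (nw_mem_mono [0] (by decide)), ?_⟩
    rw [xg_zero 9, one_mul, e']
    have k1 : xg 11 (d₂ * ζ) * xg 9 (d₃ * γ) = xg 9 (d₃ * γ) * xg 11 (d₂ * ζ) := c_9_11 _ _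
    have k2 : xg 6 (d₁ * ε) * xg 9 (d₃ * γ) = xg 9 (d₃ * γ) * xg 6 (d₁ * ε) := c_6_9 _ _
    calc xg 6 (d₁ * ε) * xg 11 (d₂ * ζ) * xg 9 (d₃ * γ)
        = xg 6 (d₁ * ε) * (xg 11 (d₂ * ζ) * xg 9 (d₃ * γ)) := by group
      _ = (xg 6 (d₁ * ε) * xg 9 (d₃ * γ)) * xg 11 (d₂ * ζ) := by rw [k1]; group
      _ = _ := by rw [k2]
  exact c1.trans ((good_96 h2 hsq _ _ _ (mul_ne_zero hd₃ hγ)).trans (scale9 _ (mul_ne_zero hd₃ hγ)))

theorem A_le_borel : rootGen chevG2 F PA ≤ chevG2.borelSubgroup F := by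
  apply rootGen_le (pkB F).sem
  rintro s (rfl | rfl | rfl) t
  · exact xgB 9 pos9 t
  · exact xgB 10 pos10 t
  · exact xgB 11 pos11 t

/-- Involutions of `Q_b = A X_{a+b} X_a`. -/
theorem good_Qb (h2 : (2 : F) = 0) (hsq : ∀ c : F, ∃ u : F, u * u = c) (a : GL chevG2.Idx F)
    (ha : a ∈ rootGen chevG2 F PA) (γ α : F)
    (hinv : (a * xg 8 γ * xg 7 α) * (a * xg 8 γ * xg 7 α) = 1) (hne : a * xg 8 γ * xg 7 α ≠ 1) :
    Good (a * xg 8 γ * xg 7 α) := by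
  have hS := (pkB F).sem
  have h3 : (3 : F) ≠ 0 := by rw [three2 h2]; exact one_ne_zero
  by_cases hα : α = 0
  · subst hα
    rw [xg_zero 7, mul_one] at hinv hne ⊢
    by_cases hγ : γ = 0
    · subst hγ
      rw [xg_zero 8, mul_one] at hinv hne ⊢
      obtain ⟨δ, ε, ζ, rfl⟩ := form_A a ha
      exact good_A h3 δ ε ζ hne
    · exact good_A8 h2 hsq a ha γ hγ hinv
  · -- kill the `x_{a+b}` component by conjugating with `x_b(s)`
    obtain ⟨s, hs⟩ : ∃ s : F, γ + s * α = 0 := ⟨-γ / α, by field_simp; ring⟩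
    obtain ⟨c, hcdef⟩ : ∃ c, c = xg 6 s := ⟨_, rfl⟩
    have hcB : c ∈ chevG2.borelSubgroup F := by rw [hcdef]; exact xgB 6 pos6 s
    have hB8 := xgB (F := F) 8 pos8
    have hB7 := xgB (F := F) 7 pos7
    have E0 : EqA (a * xg 8 γ * xg 7 α) (xg 8 γ * xg 7 α) := by
      rw [mul_assoc]; exact EqA.of_mem_mul ha
    have E1 : EqA (c * (a * xg 8 γ * xg 7 α) * c⁻¹) (c * (xg 8 γ * xg 7 α) * c⁻¹) :=
      (E0.mul_left hcB).mul_right _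
    obtain ⟨a₂, ha₂, k67⟩ := K67w (F := F) s α
    obtain ⟨a₃, ha₃, k87⟩ := K87w (F := F) (s * α) α
    have e2 : c * (xg 8 γ * xg 7 α) * c⁻¹ = xg 8 γ * (xg 7 α * xg 8 (s * α) * a₂) := by
      have h8 : c * xg 8 γ * c⁻¹ = xg 8 γ := by rw [hcdef]; exact conj_of_comm (c_6_8 γ s)
      calc c * (xg 8 γ * xg 7 α) * c⁻¹ = (c * xg 8 γ * c⁻¹) * (c * xg 7 α * c⁻¹) := by group
        _ = _ := by rw [h8, hcdef, k67]
    have E3 : EqA (xg 8 γ * (xg 7 α * xg 8 (s * α) * a₂)) (xg 8 γ * (xg 7 α * xg 8 (s * α))) :=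
      (EqA.of_mul_mem (Subgroup.mul_mem _ (hB7 α) (hB8 _)) ha₂).mul_left (hB8 γ)
    have E4 : EqA (xg 8 (s * α) * xg 7 α) (xg 7 α * xg 8 (s * α)) := by
      have e : xg 8 (s * α) * xg 7 α = xg 7 α * a₃ * xg 8 (s * α) := by
        rw [← k87]; group
      rw [e]
      exact (EqA.of_mul_mem (hB7 α) ha₃).mul_right _
    have E5 : EqA (xg 8 γ * (xg 7 α * xg 8 (s * α))) (xg 8 γ * (xg 8 (s * α) * xg 7 α)) :=
      E4.symm.mul_left (hB8 γ)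
    have e6 : xg 8 γ * (xg 8 (s * α) * xg 7 α) = xg 7 α := by
      rw [← mul_assoc, xg_mul, hs, xg_zero, one_mul]
    rw [e2] at E1
    have E7 := E1.trans (E3.trans E5)
    rw [e6] at E7
    obtain ⟨a', ha', e7⟩ := E7.exists
    -- conjugate by `n_b`
    obtain ⟨δ, ε, ζ, rfl⟩ := form_A a' ha'
    obtain ⟨d₁, d₂, d₃, -, -, -, e3⟩ := conj3 (F := F) [1] (by decide) 9 10 11 (by decide) (by decide)
      (by decide)
    obtain ⟨d, hd, e8⟩ := conj_w (F := F) [1] (by decide) 7 (by decide)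
    have e9 : nw F [1] * (xg 9 δ * xg 10 ε * xg 11 ζ * xg 7 α) * (nw F [1])⁻¹ =
        (xg 9 (d₁ * δ) * xg 11 (d₂ * ε) * xg 10 (d₃ * ζ)) * xg 8 (d * α) := by
      have e3' := e3 δ ε ζ
      have e8' := e8 α
      rw [r1_9, r1_10, r1_11] at e3'
      rw [r1_7] at e8'
      rw [← e3', ← e8']; group
    have ha'' : xg 9 (d₁ * δ) * xg 11 (d₂ * ε) * xg 10 (d₃ * ζ) ∈ rootGen chevG2 F PA :=
      Subgroup.mul_mem _ (Subgroup.mul_mem _ (xU_mem_rootGen hS PA 9 (by simp [PA]) _)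
        (xU_mem_rootGen hS PA 11 (by simp [PA]) _)) (xU_mem_rootGen hS PA 10 (by simp [PA]) _)
    have c1 : CJ (a * xg 8 γ * xg 7 α)
        ((xg 9 (d₁ * δ) * xg 11 (d₂ * ε) * xg 10 (d₃ * ζ)) * xg 8 (d * α)) := by
      refine ⟨nw F [1] * c, Subgroup.mul_mem _
        (monomial_le_group hS (nw_mem_mono [1] (by decide))) (by rw [hcdef]; exact xg_mem _ _), ?_⟩
      rw [← e9, ← e7]; group
    exact Good.of_cj c1 (good_A8 h2 hsq _ ha'' _ (mul_ne_zero hd hα) (c1.sq hinv))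

/-- Involutions `a x_b(β) x_{a+b}(γ)` with `β ≠ 0`. -/
theorem good_Qa (h2 : (2 : F) = 0) (hsq : ∀ c : F, ∃ u : F, u * u = c) (a : GL chevG2.Idx F)
    (ha : a ∈ rootGen chevG2 F PA) (β γ : F) (hβ : β ≠ 0)
    (hinv : (a * xg 6 β * xg 8 γ) * (a * xg 6 β * xg 8 γ) = 1) :
    Good (a * xg 6 β * xg 8 γ) := by
  have hS := (pkB F).sem
  obtain ⟨s, hs⟩ : ∃ s : F, -(s * β) + γ = 0 := ⟨γ / β, by field_simp; ring⟩
  obtain ⟨c, hcdef⟩ : ∃ c, c = xg 7 s := ⟨_, rfl⟩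
  have hcB : c ∈ chevG2.borelSubgroup F := by rw [hcdef]; exact xgB 7 pos7 s
  have hB8 := xgB (F := F) 8 pos8
  have hB6 := xgB (F := F) 6 pos6
  have E0 : EqA (a * xg 6 β * xg 8 γ) (xg 6 β * xg 8 γ) := by
    rw [mul_assoc]; exact EqA.of_mem_mul ha
  have E1 : EqA (c * (a * xg 6 β * xg 8 γ) * c⁻¹) (c * (xg 6 β * xg 8 γ) * c⁻¹) :=
    (E0.mul_left hcB).mul_right _
  obtain ⟨a₂, ha₂, k76⟩ := K76w (F := F) s β
  obtain ⟨a₃, ha₃, k78⟩ := K78w (F := F) s γ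
  have e2 : c * (xg 6 β * xg 8 γ) * c⁻¹ = (xg 6 β * xg 8 (-(s * β)) * a₂) * (xg 8 γ * a₃) := by
    calc c * (xg 6 β * xg 8 γ) * c⁻¹ = (c * xg 6 β * c⁻¹) * (c * xg 8 γ * c⁻¹) := by group
      _ = _ := by rw [hcdef, k76, k78]
  have hY : xg 6 β * xg 8 (-(s * β)) ∈ chevG2.borelSubgroup F := Subgroup.mul_mem _ (hB6 β) (hB8 _)
  have E3 : EqA ((xg 6 β * xg 8 (-(s * β)) * a₂) * (xg 8 γ * a₃))
      ((xg 6 β * xg 8 (-(s * β)) * a₂) * xg 8 γ) :=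
    (EqA.of_mul_mem (hB8 γ) ha₃).mul_left (Subgroup.mul_mem _ hY (A_le_borel ha₂))
  have E4 : EqA ((xg 6 β * xg 8 (-(s * β)) * a₂) * xg 8 γ) (xg 6 β * xg 8 (-(s * β)) * xg 8 γ) :=
    (EqA.of_mul_mem hY ha₂).mul_right _
  have e5 : xg 6 β * xg 8 (-(s * β)) * xg 8 γ = xg 6 β := by
    rw [mul_assoc, xg_mul, hs, xg_zero, mul_one]
  rw [e2] at E1
  have E6 := E1.trans (E3.trans E4)
  rw [e5] at E6
  obtain ⟨a', ha', e6⟩ := E6.exists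
  have c1 : CJ (a * xg 6 β * xg 8 γ) (a' * xg 6 β) :=
    ⟨c, by rw [hcdef]; exact xg_mem _ _, e6⟩
  apply Good.of_cj c1
  have hinv' := c1.sq hinv
  obtain ⟨δ, ε, ζ, rfl⟩ := form_A a' ha'
  have hε : ε = 0 := by
    have e : xg 9 δ * xg 10 ε * xg 11 ζ * xg 6 β * (xg 9 δ * xg 10 ε * xg 11 ζ * xg 6 β) =
        xg 9 δ * xg 10 ε * xg 11 ζ * (xg 6 β * (xg 9 δ * xg 10 ε * xg 11 ζ) * (xg 6 β)⁻¹) *
          (xg 6 β * xg 6 β) := by group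
    rw [e, conj6_A, xg_sq h2, mul_one, A_sq h2 _ _ _ _ _ _ rfl rfl] at hinv'
    have h0 := xg_inj 11 (by decide) _ _ (hinv'.trans (xg_zero 11).symm)
    have h1 : β * ε = 0 := by linear_combination h0 - ζ * h2
    rcases mul_eq_zero.mp h1 with h | h
    · exact absurd h hβ
    · exact h
  subst hε
  have e7 : xg 9 δ * xg 10 0 * xg 11 ζ * xg 6 β = xg 9 δ * xg 6 β * xg 11 ζ := by
    rw [xg_zero 10, mul_one, mul_assoc, ← c_6_11 ζ β, mul_assoc]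
  rw [e7]
  by_cases hδ : δ = 0
  · subst hδ
    left
    rw [xg_zero 9, one_mul]
    -- `x_b(β) x_{3a+2b}(ζ)` is conjugate to `x_b(β)`
    have e8 := K106 (-(ζ / β)) β
    have k : -(-(ζ / β) * β) = ζ := by rw [neg_mul, neg_neg, div_mul_cancel₀ ζ hβ]
    rw [k] at e8
    have c2 : CJ (xg 6 β) (xg 6 β * xg 11 ζ) := ⟨xg 10 (-(ζ / β)), xg_mem _ _, e8⟩
    obtain ⟨d, hd, c3⟩ := cj_weyl (F := F) [1, 0] (by decide) 6 11 (by decide) r10_6 β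
    exact c2.symm.trans (c3.trans (scale11 _ (mul_ne_zero hd hβ)))
  · right
    exact (good_96 h2 hsq δ β ζ hδ).trans (scale9 δ hδ)

/-- In an involution of `U` the components at `a` and `b` are not both non-trivial. -/
theorem sq_alpha_beta (h2 : (2 : F) = 0) (a : GL chevG2.Idx F) (ha : a ∈ rootGen chevG2 F PA)
    (β γ α : F)
    (hinv : (a * xg 6 β * xg 8 γ * xg 7 α) * (a * xg 6 β * xg 8 γ * xg 7 α) = 1) : α * β = 0 := by
  have hS := (pkB F).sem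
  have hB6 := xgB (F := F) 6 pos6 β
  have hB8 := xgB (F := F) 8 pos8 γ
  have hB7 := xgB (F := F) 7 pos7 α
  obtain ⟨y, hy⟩ : ∃ y, y = xg 6 β * xg 8 γ * xg 7 α := ⟨_, rfl⟩
  have hyB : y ∈ chevG2.borelSubgroup F := by
    rw [hy]; exact Subgroup.mul_mem _ (Subgroup.mul_mem _ hB6 hB8) hB7
  have hg : a * xg 6 β * xg 8 γ * xg 7 α = a * y := by rw [hy]; group
  rw [hg] at hinv
  have hyy : y * y ∈ rootGen chevG2 F PA := by
    have e : y * y = (y * a⁻¹ * y⁻¹) * a⁻¹ * (a * y * (a * y)) := by group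
    rw [e, hinv, mul_one]
    exact Subgroup.mul_mem _ ((Subgroup.mem_normalizer_iff.mp (borel_norm_A hyB) _).mp
      (Subgroup.inv_mem _ ha)) (Subgroup.inv_mem _ ha)
  obtain ⟨a₁, ha₁, k1⟩ := K76w (F := F) α β
  obtain ⟨a₂, ha₂, k2⟩ := K78w (F := F) α γ
  rw [xg_inv2 h2 7 α] at k1 k2
  have k1' : xg 7 α * xg 6 β = xg 6 β * xg 8 (-(α * β)) * a₁ * xg 7 α := by
    calc xg 7 α * xg 6 β = (xg 7 α * xg 6 β * xg 7 α) * xg 7 α := by
          rw [mul_assoc _ (xg 7 α) (xg 7 α), xg_sq h2, mul_one]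
      _ = _ := by rw [k1]
  have f1 : EqA (xg 7 α * xg 6 β) (xg 6 β * xg 8 (-(α * β)) * xg 7 α) := by
    rw [k1']
    exact (EqA.of_mul_mem (Subgroup.mul_mem _ hB6 (xgB 8 pos8 _)) ha₁).mul_right _
  have e1 : y * y = (xg 6 β * xg 8 γ) * (xg 7 α * xg 6 β) * (xg 8 γ * xg 7 α) := by rw [hy]; group
  have c1 : EqA (y * y)
      ((xg 6 β * xg 8 γ) * (xg 6 β * xg 8 (-(α * β)) * xg 7 α) * (xg 8 γ * xg 7 α)) := by
    rw [e1]; exact (f1.mul_left (Subgroup.mul_mem _ hB6 hB8)).mul_right _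
  have e2 : (xg 6 β * xg 8 γ) * (xg 6 β * xg 8 (-(α * β)) * xg 7 α) * (xg 8 γ * xg 7 α) =
      xg 8 (γ + -(α * β)) * (xg 8 γ * a₂) := by
    have hc : xg 8 γ * xg 6 β = xg 6 β * xg 8 γ := (c_6_8 γ β).symm
    calc (xg 6 β * xg 8 γ) * (xg 6 β * xg 8 (-(α * β)) * xg 7 α) * (xg 8 γ * xg 7 α)
        = xg 6 β * (xg 8 γ * xg 6 β) * xg 8 (-(α * β)) * (xg 7 α * xg 8 γ * xg 7 α) := by group
      _ = xg 6 β * (xg 6 β * xg 8 γ) * xg 8 (-(α * β)) * (xg 8 γ * a₂) := by rw [hc, k2]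
      _ = (xg 6 β * xg 6 β) * (xg 8 γ * xg 8 (-(α * β))) * (xg 8 γ * a₂) := by group
      _ = _ := by rw [xg_sq h2, xg_mul, one_mul]
  have c2 : EqA (xg 8 (γ + -(α * β)) * (xg 8 γ * a₂)) (xg 8 (γ + -(α * β)) * xg 8 γ) :=
    (EqA.of_mul_mem hB8 ha₂).mul_left (xgB 8 pos8 _)
  have e3 : xg 8 (γ + -(α * β)) * xg 8 γ = xg 8 (α * β) := by
    rw [xg_mul]; congr 1; linear_combination (γ - α * β) * h2
  rw [e2] at c1
  have c3 := c1.trans c2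
  rw [e3] at c3
  have h8 : xg 8 (α * β) ∈ rootGen chevG2 F PA := by
    have h9 := c3.symm
    unfold EqA at h9
    have e : xg 8 (α * β) = xg 8 (α * β) * (y * y)⁻¹ * (y * y) := by group
    rw [e]; exact Subgroup.mul_mem _ h9 hyy
  exact x8_not_mem_A _ h8

/-- Every involution of `U` is conjugate to `x_{3a+2b}(1)` or to `x_{2a+b}(1)`. -/
theorem good_of_mem_posU (h2 : (2 : F) = 0) (hsq : ∀ c : F, ∃ u : F, u * u = c) (g : GL chevG2.Idx F)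
    (hg : g ∈ chevG2.posUnipotent F) (hinv : g * g = 1) (hne : g ≠ 1) : Good g := by
  obtain ⟨a, ha, β, γ, α, rfl⟩ := U_dec g hg
  have hαβ := sq_alpha_beta h2 a ha β γ α hinv
  rcases mul_eq_zero.mp hαβ with rfl | rfl
  · rw [xg_zero 7, mul_one] at hinv hne ⊢
    by_cases hβ : β = 0
    · subst hβ
      have e : a * xg 6 0 * xg 8 γ = a * xg 8 γ * xg 7 0 := by rw [xg_zero 6, xg_zero 7, mul_one, mul_one]
      rw [e] at hinv hne ⊢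
      exact good_Qb h2 hsq a ha γ 0 hinv hne
    · exact good_Qa h2 hsq a ha β γ hβ hinv
  · have e : a * xg 6 0 * xg 8 γ * xg 7 α = a * xg 8 γ * xg 7 α := by rw [xg_zero 6, mul_one]
    rw [e] at hinv hne ⊢
    exact good_Qb h2 hsq a ha γ α hinv hne

end

end Cfsg.Agent.H7.G2I
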