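import Cfsg.Agent.H7.G2Ev6

set_option autoImplicit false

/-!
# `G₂(q)`, `q` even: the two classes of involutions
-/

namespace Cfsg.Agent.H7.G2I

open Cfsg.Lie Cfsg.Agent.H23 Cfsg.Agent.H22

section

variable {F : Type*} [Field F]

theorem wtab_z : ∀ w ∈ canonW, chevG2.IsNegRoot (reflW chevG2 w 11) ∨ reflW chevG2 w 11 = 11 ∨
    reflW chevG2 w 11 = 10 ∨ reflW chevG2 w 11 = 6 := by decide +kernel

theorem r1_6 : reflW chevG2 [1] 6 = 5 := by decide +kernel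

/-- The long root element `x_{3a+2b}(1)` is not conjugate to the short root element `x_{2a+b}(1)`. -/
theorem not_cj_z_t : ¬ CJ (xg 11 (1 : F)) (xg 9 1) := by
  have hS := (pkB F).sem
  rintro ⟨x, hx, hc⟩
  obtain ⟨w, hw, b₁, hb₁, b₂, hb₂, rfl⟩ := exists_cell x hx
  have hwlt := canon_lt w hw
  obtain ⟨c, hc0, e1⟩ := conj_B11 b₂ hb₂
  obtain ⟨c', s', r', hc0', e2⟩ := conj_A b₁⁻¹ (Subgroup.inv_mem _ hb₁)
  rw [inv_inv] at e2
  obtain ⟨d, hd, e⟩ := conj_w (F := F) w hwlt 11 (by decide)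
  have hdc : d * c ≠ 0 := mul_ne_zero hd hc0
  have e3 : xg (reflW chevG2 w 11) (d * c) = xg 9 c' * xg 10 s' * xg 11 r' := by
    rw [← e, ← e1, ← e2, ← hc]; group
  have hU : xg 9 c' * xg 10 s' * xg 11 r' ∈ chevG2.posUnipotent F := by
    rw [posUnipotent_eq]
    exact Subgroup.mul_mem _ (Subgroup.mul_mem _ (xU_mem_rootGen hS _ 9 pos9 _)
      (xU_mem_rootGen hS _ 10 pos10 _)) (xU_mem_rootGen hS _ 11 pos11 _)
  rcases wtab_z w hw with hneg | h11 | h10 | h6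
  · have h1 : xg (reflW chevG2 w 11) (d * c) ∈ chevG2.posUnipotent F ⊓ chevG2.negUnipotent F := by
      refine ⟨by rw [e3]; exact hU, ?_⟩
      rw [negUnipotent_eq]; exact xU_mem_rootGen hS _ _ hneg _
    rw [pos_inf_neg hS (sV F), Subgroup.mem_bot] at h1
    exact hdc (xg_inj _ hneg.1 _ _ (h1.trans (xg_zero _).symm))
  · rw [h11] at e3
    have e4 : xg 9 (0 : F) * xg 10 0 * xg 11 (d * c) = xg 9 c' * xg 10 s' * xg 11 r' := by
      rw [xg_zero 9, xg_zero 10, one_mul, one_mul]; exact e3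
    exact hc0' (coord9 _ _ _ _ _ _ e4).1.symm
  · rw [h10] at e3
    have e4 : xg 9 (0 : F) * xg 10 (d * c) * xg 11 0 = xg 9 c' * xg 10 s' * xg 11 r' := by
      rw [xg_zero 9, xg_zero 11, one_mul, mul_one]; exact e3
    exact hc0' (coord9 _ _ _ _ _ _ e4).1.symm
  · rw [h6] at e3
    obtain ⟨d', hd', e6⟩ := conj_w (F := F) [1] (by decide) 6 (by decide)
    obtain ⟨d₁, d₂, d₃, -, -, -, e7⟩ := conj3 (F := F) [1] (by decide) 9 10 11 (by decide) (by decide)
      (by decide)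
    have e8 := e6 (d * c)
    rw [e3, e7, r1_6, r1_9, r1_10, r1_11] at e8
    have h1 : xg 5 (d' * (d * c)) ∈ chevG2.posUnipotent F ⊓ chevG2.negUnipotent F := by
      refine ⟨?_, ?_⟩
      · rw [← e8, posUnipotent_eq]
        exact Subgroup.mul_mem _ (Subgroup.mul_mem _ (xU_mem_rootGen hS _ 9 pos9 _)
          (xU_mem_rootGen hS _ 11 pos11 _)) (xU_mem_rootGen hS _ 10 pos10 _)
      · rw [negUnipotent_eq]; exact xU_mem_rootGen hS _ 5 (by decide +kernel) _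
    rw [pos_inf_neg hS (sV F), Subgroup.mem_bot] at h1
    exact (mul_ne_zero hd' hdc) (xg_inj 5 (by decide) _ _ (h1.trans (xg_zero 5).symm))

theorem xg_one_ne (r : ℕ) (hr : r < 12) : xg r (1 : F) ≠ 1 := by
  intro h
  exact one_ne_zero (xg_inj r hr _ _ (h.trans (xg_zero r).symm))

/-- The two classes of involutions of `G₂(q)`, `q` even. -/
theorem invol_classes [Fintype F] [CharP F 2] :
    (∀ y : GL chevG2.Idx F, (y = xg 11 1 ∨ y = xg 9 1) → y ∈ chevG2.group F ∧ orderOf y = 2) ∧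
    (∀ g ∈ chevG2.group F, orderOf g = 2 → CJ g (xg 11 1) ∨ CJ g (xg 9 1)) ∧
    ¬ CJ (xg 11 (1 : F)) (xg 9 1) := by
  have h2 : (2 : F) = 0 := by exact_mod_cast CharP.cast_eq_zero F 2
  have hsq : ∀ c : F, ∃ u : F, u * u = c := by
    intro c
    obtain ⟨u, hu⟩ := FiniteField.isSquare_of_char_two (ringChar.eq F 2) c
    exact ⟨u, hu.symm⟩
  haveI : Fact (Nat.Prime 2) := ⟨Nat.prime_two⟩
  refine ⟨?_, ?_, not_cj_z_t⟩
  · rintro y (rfl | rfl)
    · exact ⟨xg_mem _ _, orderOf_eq_prime (by rw [pow_two, xg_sq h2]) (xg_one_ne 11 (by decide))⟩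
    · exact ⟨xg_mem _ _, orderOf_eq_prime (by rw [pow_two, xg_sq h2]) (xg_one_ne 9 (by decide))⟩
  · intro g hg ho
    have hgg : g * g = 1 := by
      have := pow_orderOf_eq_one g
      rwa [ho, pow_two] at this
    have hg1 : g ≠ 1 := by
      rintro rfl
      rw [orderOf_one] at ho
      exact absurd ho (by norm_num)
    obtain ⟨x, hx, hxU⟩ := exists_conj_mem_posU g hg hgg
    have c0 : CJ g (x * g * x⁻¹) := ⟨x, hx, rfl⟩
    exact Good.of_cj c0 (good_of_mem_posU h2 hsq _ hxU (c0.sq hgg) (c0.ne_one hg1))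

end

end Cfsg.Agent.H7.G2I
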