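import Mathlib
import Cfsg.Agent.H23.TriSolvable

set_option autoImplicit false

/-!
# Generic lemmas for the involutions of `G₂(q)`, `q` odd
-/

namespace Cfsg.Agent.H7.G2I

open Matrix

/-- In a group, an element killed by an odd power has a square root among its powers. -/
theorem exists_sq_of_pow_eq_one {G : Type*} [Group G] (u : G) (n : ℕ) (hn : Odd n) (h : u ^ n = 1) :
    ∃ k : ℕ, u ^ k * u ^ k = u := by
  obtain ⟨m, rfl⟩ := hn
  refine ⟨m + 1, ?_⟩
  rw [← pow_add]
  have e : m + 1 + (m + 1) = (2 * m + 1) + 1 := by ring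
  rw [e, pow_succ, h, one_mul]

/-- If `y` inverts `v` and `w = v ^ k` is a square root of `v`, then `w⁻¹ (v y) w = y`. -/
theorem conj_of_inv {G : Type*} [Group G] (v y : G) (k : ℕ) (hy : y * v * y⁻¹ = v⁻¹)
    (hk : v ^ k * v ^ k = v) : (v ^ k)⁻¹ * (v * y) * v ^ k = y := by
  have h1 : y * v ^ k * y⁻¹ = (v ^ k)⁻¹ := by
    rw [← conj_pow, hy, inv_pow]
  have h2 : y * v ^ k = (v ^ k)⁻¹ * y := by
    rw [← h1]; group
  calc (v ^ k)⁻¹ * (v * y) * v ^ k = (v ^ k)⁻¹ * v * (y * v ^ k) := by group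
    _ = (v ^ k)⁻¹ * v * ((v ^ k)⁻¹ * y) := by rw [h2]
    _ = (v ^ k)⁻¹ * (v ^ k * v ^ k) * (v ^ k)⁻¹ * y := by rw [hk]; group
    _ = y := by group

theorem nilK_pow {ι : Type*} [Fintype ι] [DecidableEq ι] {F : Type*} [Field F] {ht : ι → ℕ}
    {M : Matrix ι ι F} (h : H23.NilK ht 1 M) : ∀ k : ℕ, 1 ≤ k → H23.NilK ht k (M ^ k)
  | 0, h0 => absurd h0 (by omega)
  | 1, _ => by simpa using h
  | k + 2, _ => by
    rw [pow_succ]
    exact (nilK_pow h (k + 1) (by omega)).mul h

/-- A unitriangular matrix over a field of characteristic `p` has `p`-power order. -/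
theorem uni_pow_eq_one {ι : Type*} [Fintype ι] [DecidableEq ι] [Nonempty ι] {F : Type*} [Field F]
    (p : ℕ) [Fact p.Prime] [CharP F p] (ht : ι → ℕ) (g : GL ι F) (hg : g ∈ H23.uniGroup ht 1) :
    ∃ m : ℕ, g ^ (p ^ m) = 1 := by
  classical
  obtain ⟨K, hK⟩ : ∃ K, ∀ i, ht i < K :=
    ⟨(Finset.univ.sup ht) + 1, fun i => Nat.lt_succ_of_le (Finset.le_sup (Finset.mem_univ i))⟩
  refine ⟨K, ?_⟩
  have hp : p.Prime := Fact.out
  have hpK : K ≤ p ^ K := (Nat.lt_pow_self hp.one_lt).le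
  set M : Matrix ι ι F := (g : Matrix ι ι F) - 1 with hM
  have hN : H23.NilK ht 1 M := hg.1
  have hz : M ^ (p ^ K) = 0 := by
    have h1 := nilK_pow hN (p ^ K) (Nat.one_le_pow _ _ hp.pos)
    ext i j
    by_contra hne
    have h2 := h1 i j hne
    have h3 := hK i
    omega
  apply Units.ext
  rw [Units.val_pow_eq_pow_val, Units.val_one]
  have e : (g : Matrix ι ι F) = M + 1 := by rw [hM]; abel
  rw [e, add_pow_char_pow_of_commute p K (Commute.one_right M), hz, one_pow, zero_add]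

/-- Over a finite field of odd order, `1 + α v² + β w² = 0` has a solution. -/
theorem exists_sq_sum {F : Type*} [Field F] [Fintype F] (hF : Odd (Fintype.card F)) (α β : F)
    (hα : α ≠ 0) (hβ : β ≠ 0) : ∃ v w : F, 1 + α * v ^ 2 + β * w ^ 2 = 0 := by
  classical
  have hf : (Polynomial.C α * Polynomial.X ^ 2 + Polynomial.C 1 : Polynomial F).degree = 2 := by
    compute_degree!
  have hg : (Polynomial.C β * Polynomial.X ^ 2 : Polynomial F).degree = 2 := by
    compute_degree!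
  obtain ⟨a, b, hab⟩ := FiniteField.exists_root_sum_quadratic hf hg (Nat.odd_iff.mp hF)
  refine ⟨a, b, ?_⟩
  simp only [Polynomial.eval_add, Polynomial.eval_mul, Polynomial.eval_C, Polynomial.eval_pow,
    Polynomial.eval_X] at hab
  linear_combination hab

end Cfsg.Agent.H7.G2I
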