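import Mathlib
import Cfsg.Agent.H7.G2Inv1
import Cfsg.Agent.H23.Canon
import Cfsg.Agent.H23.ChkG2
import Cfsg.Agent.H23.NconjG2
import Cfsg.Agent.H23.TabG2
import Cfsg.Agent.H23.CommG2
import Cfsg.Agent.H23.Tab2G2
import Cfsg.Agent.H23.PerfG2

set_option autoImplicit false

/-!
# Involutions of `G₂(q)`, `q` odd: the torus and the Borel subgroup
-/

namespace Cfsg.Agent.H7.G2I

open Cfsg.Lie Cfsg.Agent.H23

/-- The Cartan integers of type `G₂`. -/
abbrev zG : ℕ → ℕ → ℤ := zR chevG2 ctblG2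

/-- The signs of the fundamental reflections of type `G₂`. -/
abbrev etaG : ℕ → ℕ → ℤ := fun i s => etaBit (etaG2.getD i 0) s

theorem pkB (F : Type*) [Field F] : PackB chevG2 F zG etaG :=
  ⟨chk_G2.sem F, nconj_G2.semN chk_G2.tblOK F, comm_G2.semC chk_G2.tblOK F, tab_G2, tabC_G2,
    etaNeg_G2, tab2_G2⟩

theorem sV (F : Type*) [Field F] : SemV chevG2 F := trin_G2.semV chk_G2.tblOK F

theorem tabLG : TabL chevG2 rTG2 where
  one := by decide +kernel
  lin := by decide +kernel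
  pos := by decide +kernel
  neg := by decide +kernel

instance : Nonempty chevG2.Idx := ⟨Sum.inl ⟨0, by decide⟩⟩

/-- The root element `x_r(t)`. -/
noncomputable abbrev xg {F : Type*} [Field F] (r : ℕ) (t : F) : GL chevG2.Idx F := xU (pkB F).sem r t

/-- The element `n_i` of the fundamental root `p_i`. -/
noncomputable abbrev ng (F : Type*) [Field F] (i : ℕ) : GL chevG2.Idx F :=
  nU (pkB F).sem (chevG2.simple i) 1

/-- The product of the `n_i` along a word. -/
noncomputable abbrev nw (F : Type*) [Field F] (w : List ℕ) : GL chevG2.Idx F := nWU (pkB F).sem w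

/-- The torus element `h_r(t)`. -/
noncomputable abbrev hg {F : Type*} [Field F] (r : ℕ) (t : F) : GL chevG2.Idx F := hU (pkB F).sem r t

section

variable {F : Type*} [Field F]

theorem xg_inj (r : ℕ) (hr : r < 12) (a b : F) (h : xg r a = xg r b) : a = b := by
  have h1 : xg r (a - b) = 1 := by
    have e : xg r (a - b) = xg r a * (xg r b)⁻¹ := by
      rw [xU_inv, xU_mul, sub_eq_add_neg]
    rw [e, h, mul_inv_cancel]
  have := xU_eq_one_imp (pkB F).sem (pkB F).tab (pkB F).tab2 r hr _ h1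
  exact sub_eq_zero.mp this

theorem xg_mem (r : ℕ) (t : F) : xg r t ∈ chevG2.group F := xU_mem_group (pkB F).sem r t

theorem xg_zero (r : ℕ) : xg r (0 : F) = 1 := xU_zero (pkB F).sem r

theorem xg_mul (r : ℕ) (t u : F) : xg r t * xg r u = xg r (t + u) := xU_mul (pkB F).sem r t u

theorem xg_inv (r : ℕ) (t : F) : (xg r t)⁻¹ = xg r (-t) := xU_inv (pkB F).sem r t

theorem ng_mem_mono (i : ℕ) (hi : i < 2) : ng F i ∈ chevG2.monomialSubgroup F :=
  nU_mem_mono (pkB F).sem _ ((pkB F).tab.simple_lt i hi)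

theorem ng_mem (i : ℕ) (hi : i < 2) : ng F i ∈ chevG2.group F :=
  monomial_le_group (pkB F).sem (ng_mem_mono i hi)

/-- Conjugacy inside the Chevalley group. -/
def CJ (g g' : GL chevG2.Idx F) : Prop := ∃ x ∈ chevG2.group F, x * g * x⁻¹ = g'

theorem CJ.refl (g : GL chevG2.Idx F) : CJ g g := ⟨1, Subgroup.one_mem _, by simp⟩

theorem CJ.trans {a b c : GL chevG2.Idx F} (h1 : CJ a b) (h2 : CJ b c) : CJ a c := by
  obtain ⟨x, hx, rfl⟩ := h1
  obtain ⟨y, hy, rfl⟩ := h2
  exact ⟨y * x, Subgroup.mul_mem _ hy hx, by group⟩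

theorem CJ.symm {a b : GL chevG2.Idx F} (h1 : CJ a b) : CJ b a := by
  obtain ⟨x, hx, rfl⟩ := h1
  exact ⟨x⁻¹, Subgroup.inv_mem _ hx, by group⟩

theorem CJ.mem {a b : GL chevG2.Idx F} (h1 : CJ a b) (ha : a ∈ chevG2.group F) : b ∈ chevG2.group F := by
  obtain ⟨x, hx, rfl⟩ := h1
  exact Subgroup.mul_mem _ (Subgroup.mul_mem _ hx ha) (Subgroup.inv_mem _ hx)

theorem CJ.sq {a b : GL chevG2.Idx F} (h1 : CJ a b) (ha : a * a = 1) : b * b = 1 := by
  obtain ⟨x, hx, rfl⟩ := h1
  calc x * a * x⁻¹ * (x * a * x⁻¹) = x * (a * a) * x⁻¹ := by group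
    _ = 1 := by rw [ha]; group

theorem CJ.ne_one {a b : GL chevG2.Idx F} (h1 : CJ a b) (ha : a ≠ 1) : b ≠ 1 := by
  obtain ⟨x, hx, rfl⟩ := h1
  intro h
  apply ha
  calc a = x⁻¹ * (x * a * x⁻¹) * x := by group
    _ = 1 := by rw [h]; group

/-- Elements of `U` have square roots among their powers (odd characteristic). -/
theorem exists_sqrt_of_mem_pos [Fintype F] (hF : Odd (Fintype.card F)) (u : GL chevG2.Idx F)
    (hu : u ∈ chevG2.posUnipotent F) : ∃ k : ℕ, u ^ k * u ^ k = u := by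
  obtain ⟨p, hp⟩ := CharP.exists F
  have : Fact p.Prime := ⟨CharP.char_is_prime F p⟩
  obtain ⟨m, hm⟩ := uni_pow_eq_one p (lvl chevG2) u (posUnipotent_le_uni (pkB F).sem hu)
  obtain ⟨n, -, hn⟩ := FiniteField.card F p
  have hodd : Odd p := by
    rcases (Fact.out : p.Prime).eq_two_or_odd' with h | h
    · exfalso
      rw [hn, h] at hF
      exact (Nat.not_even_iff_odd.mpr hF) (Nat.even_pow.mpr ⟨even_two, n.ne_zero⟩)
    · exact h
  exact exists_sq_of_pow_eq_one u (p ^ m) hodd.pow hm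

/-- An involution of `B` is conjugate to an involution of `H`. -/
theorem borel_invol [Fintype F] (hF : Odd (Fintype.card F)) (g : GL chevG2.Idx F)
    (hg : g ∈ chevG2.borelSubgroup F) (h2 : g * g = 1) :
    ∃ h ∈ chevG2.diagonalSubgroup F, h * h = 1 ∧ CJ g h := by
  have hS := (pkB F).sem
  have hnorm := diagonal_le_normalizer_rootGen hS chevG2.IsPosRoot (fun _ hr => hr.1)
  obtain ⟨u, hu, h, hh, rfl⟩ := exists_mul_of_mem_sup _ _ hnorm g hg
  have huh : h * u * h⁻¹ ∈ chevG2.posUnipotent F := (Subgroup.mem_normalizer_iff.mp (hnorm hh) u).mp hu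
  have e : (u * (h * u * h⁻¹)) * (h * h) = 1 := by rw [← h2]; group
  have hhh : h * h = 1 := by
    have h1 : h * h ∈ chevG2.posUnipotent F ⊓ chevG2.monomialSubgroup F := by
      refine ⟨?_, diagonal_le_monomial (Subgroup.mul_mem _ hh hh)⟩
      have : h * h = (u * (h * u * h⁻¹))⁻¹ := by
        rw [eq_inv_iff_mul_eq_one, mul_eq_one_iff_eq_inv.mp e]; group
      rw [this]
      exact Subgroup.inv_mem _ (Subgroup.mul_mem _ hu huh)
    rwa [posUnipotent_inf_monomial hS, Subgroup.mem_bot] at h1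
  have hinv : h * u * h⁻¹ = u⁻¹ := by
    rw [hhh, mul_one] at e
    exact eq_inv_of_mul_eq_one_right e
  obtain ⟨k, hk⟩ := exists_sqrt_of_mem_pos hF u hu
  refine ⟨h, hh, hhh, (u ^ k)⁻¹, ?_, ?_⟩
  · exact Subgroup.inv_mem _ (Subgroup.pow_mem _ (posUnipotent_le_group hS hu) k)
  · rw [inv_inv]; exact conj_of_inv u h k hinv hk

/-! ### Torus elements and their action on the root subgroups -/

/-- `k ∈ H` acts on the root subgroup `X_s` through `ψ s`. -/
def Act (k : GL chevG2.Idx F) (ψ : ℕ → F) : Prop :=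
  k ∈ chevG2.diagonalSubgroup F ∧ ∀ s < 12, ∀ t : F, k * xg s t * k⁻¹ = xg s (ψ s * t)

theorem act_of_mem (k : GL chevG2.Idx F) (hk : k ∈ chevG2.diagonalSubgroup F) :
    ∃ χ : ℕ → F, IsTorus chevG2 χ k ∧ Act k χ := by
  obtain ⟨χ, hχ⟩ := diagonal_le_torus (pkB F).sem (pkB F).tab hk
  exact ⟨χ, hχ, hk, fun s hs t => isTorus_conj (pkB F).sem χ k hχ s hs t⟩

theorem Act.mul {k k' : GL chevG2.Idx F} {ψ ψ' : ℕ → F} (h : Act k ψ) (h' : Act k' ψ') :
    Act (k * k') (fun s => ψ s * ψ' s) := by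
  refine ⟨Subgroup.mul_mem _ h.1 h'.1, fun s hs t => ?_⟩
  have e : k * k' * xg s t * (k * k')⁻¹ = k * (k' * xg s t * k'⁻¹) * k⁻¹ := by group
  rw [e, h'.2 s hs, h.2 s hs, mul_assoc]

theorem Act.inv {k : GL chevG2.Idx F} {ψ : ℕ → F} (h : Act k ψ) (h0 : ∀ s < 12, ψ s ≠ 0) :
    Act k⁻¹ (fun s => (ψ s)⁻¹) := by
  refine ⟨Subgroup.inv_mem _ h.1, fun s hs t => ?_⟩
  have e := h.2 s hs ((ψ s)⁻¹ * t)
  rw [← mul_assoc, mul_inv_cancel₀ (h0 s hs), one_mul] at e
  rw [← e]; group

theorem Act.conj {k : GL chevG2.Idx F} {ψ : ℕ → F} (h : Act k ψ) (i : ℕ) (hi : i < 2) :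
    Act (ng F i * k * (ng F i)⁻¹) (fun s => ψ (chevG2.reflectRoot i s)) := by
  have hS := (pkB F).sem
  have hN := (pkB F).semN
  have hT := (pkB F).tab
  refine ⟨?_, fun s hs t => ?_⟩
  · exact (Subgroup.mem_normalizer_iff.mp (nU_mem_normalizer_diag hS hN hT (pkB F).etaNeg i hi) k).mp h.1
  · have hs' : chevG2.reflectRoot i s < 12 := hT.refl_lt i hi s hs
    have e : ng F i * k * (ng F i)⁻¹ * xg s t * (ng F i * k * (ng F i)⁻¹)⁻¹ =
        ng F i * (k * ((ng F i)⁻¹ * xg s t * ng F i) * k⁻¹) * (ng F i)⁻¹ := by group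
    rw [e, nU_conj' hS hN hT i hi s hs, h.2 _ hs', nU_conj hS hN i hi _ hs', hT.refl_invol i hi s hs]
    congr 1
    have := eta_mul_self hN i (chevG2.reflectRoot i s)
    linear_combination (ψ (chevG2.reflectRoot i s) * t) * this

theorem mem_x76 : (8, (1 : ℤ), 1) ∈ xEntries chevG2 6 7 := by decide +kernel
theorem mem_x78a : (9, (-2 : ℤ), 1) ∈ xEntries chevG2 7 8 := by decide +kernel
theorem mem_x78b : (10, (-3 : ℤ), 2) ∈ xEntries chevG2 7 8 := by decide +kernel
theorem mem_x610 : (11, (1 : ℤ), 1) ∈ xEntries chevG2 6 10 := by decide +kernel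
theorem mem_xneg : ∀ r < 12, (r, (-1 : ℤ), 2) ∈ xEntries chevG2 r (11 - r) := by decide +kernel

/-- The values of a character of the torus in terms of those at the fundamental roots. -/
theorem torus_vals (χ : ℕ → F) (k : GL chevG2.Idx F) (hχ : IsTorus chevG2 χ k) :
    χ 8 = χ 7 * χ 6 ∧ χ 9 = χ 7 ^ 2 * χ 6 ∧ χ 10 = χ 7 ^ 3 * χ 6 ∧ χ 11 = χ 7 ^ 3 * χ 6 ^ 2 ∧
      ∀ r < 12, χ (11 - r) * χ r = 1 := by
  have hm := hχ.2.1
  have h8 : χ 8 = χ 7 * χ 6 := by
    have := hm 6 (by decide) 7 _ mem_x76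
    simpa using this
  have h9 : χ 9 = χ 8 * χ 7 := by
    have := hm 7 (by decide) 8 _ mem_x78a
    simpa using this
  have h10 : χ 10 = χ 8 * χ 7 ^ 2 := by
    have := hm 7 (by decide) 8 _ mem_x78b
    simpa using this
  have h11 : χ 11 = χ 10 * χ 6 := by
    have := hm 6 (by decide) 10 _ mem_x610
    simpa using this
  refine ⟨h8, ?_, ?_, ?_, ?_⟩
  · rw [h9, h8]; ring
  · rw [h10, h8]; ring
  · rw [h11, h10, h8]; ring
  · intro r hr
    have h1 := hm r hr (11 - r) _ (mem_xneg r hr)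
    have h0 := hχ.1 r
    have h2 : χ r * (χ (11 - r) * χ r - 1) = 0 := by
      simp only at h1
      linear_combination -h1
    rcases mul_eq_zero.mp h2 with h | h
    · exact absurd h h0
    · exact sub_eq_zero.mp h

/-- A torus element acting trivially on the two fundamental root subgroups is trivial. -/
theorem act_eq_one {k : GL chevG2.Idx F} {ψ : ℕ → F} (h : Act k ψ) (h7 : ψ 7 = 1) (h6 : ψ 6 = 1) :
    k = 1 := by
  obtain ⟨χ, hχ, hact⟩ := act_of_mem k h.1
  have hψ : ∀ s < 12, χ s = ψ s := by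
    intro s hs
    have h1 := hact.2 s hs 1
    rw [h.2 s hs 1] at h1
    have := xg_inj s hs _ _ h1
    simpa using this.symm
  obtain ⟨h8, h9, h10, h11, hneg⟩ := torus_vals χ k hχ
  have c7 : χ 7 = 1 := by rw [hψ 7 (by decide), h7]
  have c6 : χ 6 = 1 := by rw [hψ 6 (by decide), h6]
  have c8 : χ 8 = 1 := by rw [h8, c7, c6, one_mul]
  have c9 : χ 9 = 1 := by rw [h9, c7, c6]; simp
  have c10 : χ 10 = 1 := by rw [h10, c7, c6]; simp
  have c11 : χ 11 = 1 := by rw [h11, c7, c6]; simp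
  have c5 : χ 5 = 1 := by have := hneg 6 (by decide); rw [c6] at this; simpa using this
  have c4 : χ 4 = 1 := by have := hneg 7 (by decide); rw [c7] at this; simpa using this
  have c3 : χ 3 = 1 := by have := hneg 8 (by decide); rw [c8] at this; simpa using this
  have c2 : χ 2 = 1 := by have := hneg 9 (by decide); rw [c9] at this; simpa using this
  have c1 : χ 1 = 1 := by have := hneg 10 (by decide); rw [c10] at this; simpa using this
  have c0 : χ 0 = 1 := by have := hneg 11 (by decide); rw [c11] at this; simpa using this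
  apply isTorus_eq_one χ k hχ
  intro s hs
  have hs' : s < 12 := hs
  interval_cases s <;> assumption

/-- The involution `t₀ = h_a(-1)`. -/
noncomputable def t0 (F : Type*) [Field F] : GL chevG2.Idx F := hg 7 (-1 : F)

theorem t0_mem_diag : t0 F ∈ chevG2.diagonalSubgroup F :=
  hU_mem_diag (pkB F).sem 7 (by decide) (-1) (by simp)

theorem zG_7_7 : zG 7 7 = 2 := by decide +kernel
theorem zG_7_6 : zG 7 6 = -3 := by decide +kernel
theorem zG_6_6 : zG 6 6 = 2 := by decide +kernel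
theorem zG_6_4 : zG 6 4 = 1 := by decide +kernel

theorem act_t0 : Act (t0 F) (fun s => (-1 : F) ^ zG 7 s) :=
  ⟨t0_mem_diag, fun s hs t => hU_conj (pkB F).sem 7 (by decide) (-1) (by simp) s hs t⟩

/-- A torus element acting on `X_a`, `X_b` like `t₀` is `t₀`. -/
theorem act_eq_t0 {k : GL chevG2.Idx F} {ψ : ℕ → F} (h : Act k ψ) (h7 : ψ 7 = 1) (h6 : ψ 6 = -1) :
    k = t0 F := by
  have h0 : ∀ s < 12, (-1 : F) ^ zG 7 s ≠ 0 := fun s _ => zpow_ne_zero _ (by simp)
  have h1 := h.mul (act_t0.inv h0)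
  have h2 := act_eq_one h1 (by simp only [h7, zG_7_7]; norm_num)
    (by simp only [h6, zG_7_6]; norm_num)
  exact mul_inv_eq_one.mp h2

/-- Any involution of `H` is conjugate to `t₀`. -/
theorem diag_invol (h : GL chevG2.Idx F) (hh : h ∈ chevG2.diagonalSubgroup F) (h2 : h * h = 1)
    (h1 : h ≠ 1) : CJ h (t0 F) := by
  obtain ⟨χ, hχ, hact⟩ := act_of_mem h hh
  have hsq : ∀ s < 12, χ s * χ s = 1 := by
    intro s hs
    have e1 : h * h * xg s 1 * (h * h)⁻¹ = h * (h * xg s 1 * h⁻¹) * h⁻¹ := by group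
    rw [hact.2 s hs, hact.2 s hs, h2] at e1
    simp only [one_mul, inv_one, mul_one] at e1
    exact (xg_inj s hs _ _ e1).symm
  obtain ⟨h8, h9, h10, h11, hneg⟩ := torus_vals χ h hχ
  have c7 := mul_self_eq_one_iff.mp (hsq 7 (by decide))
  have c6 := mul_self_eq_one_iff.mp (hsq 6 (by decide))
  have n5 := hneg 6 (by decide)
  have n4 := hneg 7 (by decide)
  have n1 := hneg 10 (by decide)
  simp only [show 11 - 6 = 5 from rfl, show 11 - 7 = 4 from rfl, show 11 - 10 = 1 from rfl] at n5 n4 n1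
  have r07 : chevG2.reflectRoot 0 7 = 4 := by decide +kernel
  have r06 : chevG2.reflectRoot 0 6 = 10 := by decide +kernel
  have r17 : chevG2.reflectRoot 1 7 = 8 := by decide +kernel
  have r16 : chevG2.reflectRoot 1 6 = 5 := by decide +kernel
  have r08 : chevG2.reflectRoot 0 8 = 9 := by decide +kernel
  have r05 : chevG2.reflectRoot 0 5 = 1 := by decide +kernel
  rcases c7 with c7 | c7 <;> rcases c6 with c6 | c6
  · exact absurd (act_eq_one hact c7 c6) h1
  · rw [act_eq_t0 hact c7 c6]; exact CJ.refl _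
  · -- (-1, 1): conjugate by `n_b n_a`
    have a1 := (hact.conj 0 (by decide)).conj 1 (by decide)
    have e := act_eq_t0 a1 (by
        show χ (chevG2.reflectRoot 0 (chevG2.reflectRoot 1 7)) = 1
        rw [r17, r08, h9, c7, c6]; norm_num) (by
        show χ (chevG2.reflectRoot 0 (chevG2.reflectRoot 1 6)) = -1
        rw [r16, r05]
        rw [h10, c7, c6] at n1
        linear_combination -n1)
    refine ⟨ng F 1 * ng F 0, Subgroup.mul_mem _ (ng_mem 1 (by decide)) (ng_mem 0 (by decide)), ?_⟩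
    rw [← e]; group
  · -- (-1, -1): conjugate by `n_b`
    have a1 := hact.conj 1 (by decide)
    have e := act_eq_t0 a1 (by
        show χ (chevG2.reflectRoot 1 7) = 1
        rw [r17, h8, c7, c6]; norm_num) (by
        show χ (chevG2.reflectRoot 1 6) = -1
        rw [r16]
        rw [c6] at n5
        linear_combination -n5)
    exact ⟨ng F 1, ng_mem 1 (by decide), e⟩

/-- An involution of `B` is conjugate to `t₀`. -/
theorem good_of_borel [Fintype F] (hF : Odd (Fintype.card F)) (g : GL chevG2.Idx F)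
    (hg : g ∈ chevG2.borelSubgroup F) (h2 : g * g = 1) (h1 : g ≠ 1) : CJ g (t0 F) := by
  obtain ⟨h, hh, hh2, hc⟩ := borel_invol hF g hg h2
  exact hc.trans (diag_invol h hh hh2 (hc.ne_one h1))

end

end Cfsg.Agent.H7.G2I
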