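import Mathlib
import Cfsg.Agent.H7.G2Inv2

set_option autoImplicit false

/-!
# Involutions of `G₂(q)`, `q` odd: the rank one parabolic subgroups
-/

namespace Cfsg.Agent.H7.G2I

open Cfsg.Lie Cfsg.Agent.H23

section

variable {F : Type*} [Field F]

theorem act_hg (r : ℕ) (hr : r < 12) (a : F) (ha : a ≠ 0) : Act (hg r a) (fun s => a ^ zG r s) :=
  ⟨hU_mem_diag (pkB F).sem r hr a ha, fun s hs t => hU_conj (pkB F).sem r hr a ha s hs t⟩

/-- The data of a fundamental root `r`, its negative `r'`, the element `n = n_r` and the subgroup `U_r`. -/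
structure R1 (F : Type*) [Field F] (r r' s₀ : ℕ) (n : GL chevG2.Idx F) (ρ : ℕ → ℕ) (η : ℕ → F)
    (Ui : Subgroup (GL chevG2.Idx F)) : Prop where
  hr : r < 12
  hr' : r' < 12
  hs₀ : s₀ < 12
  pos : chevG2.IsPosRoot r
  neg : chevG2.IsNegRoot r'
  nG : n ∈ chevG2.group F
  nH : ∀ k ∈ chevG2.diagonalSubgroup F, n * k * n⁻¹ ∈ chevG2.diagonalSubgroup F
  conj : ∀ s < 12, ∀ t : F, n * xg s t * n⁻¹ = xg (ρ s) (η s * t)
  ρlt : ∀ s < 12, ρ s < 12
  ρρ : ρ (ρ s₀) = s₀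
  ρr : ρ r = r'
  ρr' : ρ r' = r
  η0 : ∀ s, η s ≠ 0
  ηη : η (ρ s₀) * η s₀ = -1
  rel : ∀ (χ : ℕ → F) (k : GL chevG2.Idx F), IsTorus chevG2 χ k → χ (ρ s₀) = χ s₀ * χ r
  zz : zG r r = 2
  negeq : ∀ c : F, xg r' c = xg r c⁻¹ * hg r (-c⁻¹) * n * xg r c⁻¹
  nn : n * n ∈ chevG2.diagonalSubgroup F
  UiB : Ui ≤ chevG2.borelSubgroup F
  UiU : Ui ≤ chevG2.posUnipotent F
  xN : ∀ τ : F, xg r τ ∈ Subgroup.normalizer (Ui : Set (GL chevG2.Idx F))
  hN : chevG2.diagonalSubgroup F ≤ Subgroup.normalizer (Ui : Set (GL chevG2.Idx F))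
  nN : n ∈ Subgroup.normalizer (Ui : Set (GL chevG2.Idx F))
  dec : ∀ b ∈ chevG2.borelSubgroup F, ∃ v ∈ Ui, ∃ τ : F, ∃ h ∈ chevG2.diagonalSubgroup F,
    b = v * xg r τ * h

/-- An involution `h n_r` is conjugate into `B`. -/
theorem torus_n_invol {r r' s₀ : ℕ} {n : GL chevG2.Idx F} {ρ : ℕ → ℕ} {η : ℕ → F}
    {Ui : Subgroup (GL chevG2.Idx F)} (R : R1 F r r' s₀ n ρ η Ui)
    (h : GL chevG2.Idx F) (hh : h ∈ chevG2.diagonalSubgroup F)
    (h2 : (h * n) * (h * n) = 1) :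
    ∃ g' ∈ chevG2.borelSubgroup F, CJ (h * n) g' := by
  have hr := R.hr
  have hs₀ := R.hs₀
  have hs₁ : ρ s₀ < 12 := R.ρlt s₀ hs₀
  obtain ⟨χ, hχ, hact⟩ := act_of_mem h hh
  -- the action of `y = h n` on root subgroups
  have hy : ∀ s < 12, ∀ t : F, (h * n) * xg s t * (h * n)⁻¹ = xg (ρ s) (χ (ρ s) * (η s * t)) := by
    intro s hs t
    have e : (h * n) * xg s t * (h * n)⁻¹ = h * (n * xg s t * n⁻¹) * h⁻¹ := by group
    rw [e, R.conj s hs, hact.2 _ (R.ρlt s hs)]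
  -- the relation `χ(s₀)² χ(r) = -1`
  have key : χ s₀ * χ s₀ * χ r = -1 := by
    have e1 : (h * n) * (h * n) * xg s₀ 1 * ((h * n) * (h * n))⁻¹ =
        (h * n) * ((h * n) * xg s₀ 1 * (h * n)⁻¹) * (h * n)⁻¹ := by group
    rw [hy s₀ hs₀, hy _ hs₁, h2, R.ρρ] at e1
    simp only [one_mul, inv_one, mul_one] at e1
    have e2 := xg_inj s₀ hs₀ _ _ e1
    have e3 := R.ηη
    rw [R.rel χ h hχ] at e2
    linear_combination (χ s₀ * χ s₀ * χ r) * e3 + e2
  have hχs : χ s₀ ≠ 0 := hχ.1 s₀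
  obtain ⟨a, ha0, haa⟩ : ∃ a : F, a ≠ 0 ∧ a * a = -χ r := by
    refine ⟨(χ s₀)⁻¹, inv_ne_zero hχs, ?_⟩
    have h1 : (χ s₀)⁻¹ * χ s₀ = 1 := inv_mul_cancel₀ hχs
    linear_combination ((χ s₀)⁻¹ * (χ s₀)⁻¹) * key - (χ r * ((χ s₀)⁻¹ * χ s₀ + 1)) * h1
  -- `x_{-r}(a⁻¹) = x_r(a) h_r(-a) n x_r(a)`
  have hneg := R.negeq a⁻¹
  rw [inv_inv] at hneg
  have hn_eq : n = (hg r (-a))⁻¹ * (xg r a)⁻¹ * xg r' a⁻¹ * (xg r a)⁻¹ := by
    rw [hneg]; group
  -- the torus element `k = h h_r(-a)⁻¹`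
  have hna : (-a) ≠ 0 := neg_ne_zero.mpr ha0
  have hk := hact.mul ((act_hg r hr (-a) hna).inv (fun s _ => zpow_ne_zero _ hna))
  obtain ⟨k, hkdef⟩ : ∃ k, k = h * (hg r (-a))⁻¹ := ⟨_, rfl⟩
  rw [← hkdef] at hk
  have hkr : ∀ t : F, k⁻¹ * xg r t * k = xg r (-t) := by
    intro t
    have h0 : ∀ s < 12, (fun s => χ s * ((-a) ^ zG r s)⁻¹) s ≠ 0 :=
      fun s _ => mul_ne_zero (hχ.1 s) (inv_ne_zero (zpow_ne_zero _ hna))
    have h1 := (hk.inv h0).2 r hr t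
    rw [inv_inv] at h1
    rw [h1]
    congr 1
    simp only [R.zz]
    have e : ((-a) ^ (2 : ℤ)) = -χ r := by
      rw [zpow_ofNat, neg_sq, sq, haa]
    rw [e]
    have hχr : χ r ≠ 0 := hχ.1 r
    field_simp
  -- conjugate `y` by `x_r(a)⁻¹`
  have hc1 : (xg r a)⁻¹ * (h * n) * ((xg r a)⁻¹)⁻¹ = k * xg r' a⁻¹ := by
    have e1 : (xg r a)⁻¹ * (h * n) * ((xg r a)⁻¹)⁻¹ =
        k * (k⁻¹ * (xg r a)⁻¹ * k) * (xg r a)⁻¹ * xg r' a⁻¹ := by
      rw [hkdef]
      conv_lhs => rw [hn_eq]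
      group
    rw [e1, xg_inv, hkr, neg_neg, mul_assoc k, xg_mul, add_neg_cancel, xg_zero, mul_one]
  -- conjugate by `n`
  have hc2 : n * (k * xg r' a⁻¹) * n⁻¹ = (n * k * n⁻¹) * xg r (η r' * a⁻¹) := by
    have e1 : n * (k * xg r' a⁻¹) * n⁻¹ = (n * k * n⁻¹) * (n * xg r' a⁻¹ * n⁻¹) := by
      group
    rw [e1, R.conj _ R.hr', R.ρr']
  refine ⟨(n * k * n⁻¹) * xg r (η r' * a⁻¹), ?_, n * (xg r a)⁻¹, ?_, ?_⟩
  · apply Subgroup.mul_mem
    · exact (le_sup_right : chevG2.diagonalSubgroup F ≤ _) (R.nH k hk.1)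
    · exact xU_mem_borel (pkB F).sem r R.pos _
  · exact Subgroup.mul_mem _ R.nG (Subgroup.inv_mem _ (xg_mem _ _))
  · rw [← hc2, ← hc1]; group

/-- An involution in the double coset `B n_r B` is conjugate into `B`. -/
theorem parab_invol [Fintype F] (hF : Odd (Fintype.card F)) {r r' s₀ : ℕ} {n : GL chevG2.Idx F}
    {ρ : ℕ → ℕ} {η : ℕ → F} {Ui : Subgroup (GL chevG2.Idx F)} (R : R1 F r r' s₀ n ρ η Ui)
    (g : GL chevG2.Idx F) (hg : g ∈ dcB chevG2 F n) (h2 : g * g = 1) :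
    ∃ g' ∈ chevG2.borelSubgroup F, CJ g g' := by
  have hS := (pkB F).sem
  have hT := (pkB F).tab
  have hr := R.hr
  obtain ⟨b₁, hb₁, b₂, hb₂, rfl⟩ := hg
  obtain ⟨v, hv, τ, h, hh, hb⟩ := R.dec (b₂ * b₁) (Subgroup.mul_mem _ hb₂ hb₁)
  obtain ⟨y, hy⟩ : ∃ y, y = xg r τ * h * n := ⟨_, rfl⟩
  have hg1 : CJ (b₁ * n * b₂) (v * y) := by
    refine ⟨b₂, borel_le_group hS hb₂, ?_⟩
    have e : b₂ * (b₁ * n * b₂) * b₂⁻¹ = (b₂ * b₁) * n := by group
    rw [e, hb, hy]; group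
  have h2' : (v * y) * (v * y) = 1 := hg1.sq h2
  -- `y` normalizes `U_i`
  have hyN : y ∈ Subgroup.normalizer (Ui : Set (GL chevG2.Idx F)) := by
    rw [hy]
    exact Subgroup.mul_mem _ (Subgroup.mul_mem _ (R.xN τ) (R.hN hh)) R.nN
  have hyv : y * v * y⁻¹ ∈ Ui := (Subgroup.mem_normalizer_iff.mp hyN v).mp hv
  have e3 : (v * (y * v * y⁻¹)) * (y * y) = 1 := by rw [← h2']; group
  have hy2 : y * y ∈ Ui := by
    have : y * y = (v * (y * v * y⁻¹))⁻¹ := by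
      rw [eq_inv_iff_mul_eq_one, mul_eq_one_iff_eq_inv.mp e3]; group
    rw [this]
    exact Subgroup.inv_mem _ (Subgroup.mul_mem _ hv hyv)
  -- `(h n)² ∈ H`
  have hk : (h * n) * (h * n) ∈ chevG2.diagonalSubgroup F := by
    have e : (h * n) * (h * n) = h * (n * h * n⁻¹) * (n * n) := by group
    rw [e]
    exact Subgroup.mul_mem _ (Subgroup.mul_mem _ hh (R.nH h hh)) R.nn
  obtain ⟨χ, hχ, hact⟩ := act_of_mem h hh
  have hconj : (h * n) * xg r τ * (h * n)⁻¹ = xg r' (χ r' * (η r * τ)) := by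
    have e : (h * n) * xg r τ * (h * n)⁻¹ = h * (n * xg r τ * n⁻¹) * h⁻¹ := by group
    rw [e, R.conj r hr, R.ρr, hact.2 _ R.hr']
  obtain ⟨τ', hτ'⟩ : ∃ τ' : F, τ' = χ r' * (η r * τ) := ⟨_, rfl⟩
  rw [← hτ'] at hconj
  have e4 : y * y = xg r τ * xg r' τ' * ((h * n) * (h * n)) := by
    rw [← hconj, hy]; group
  have hHB : chevG2.diagonalSubgroup F ≤ chevG2.borelSubgroup F := le_sup_right
  have h5 : xg r' τ' ∈ chevG2.borelSubgroup F ⊓ chevG2.negUnipotent F := by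
    constructor
    · have : xg r' τ' = (xg r τ)⁻¹ * (y * y) * ((h * n) * (h * n))⁻¹ := by rw [e4]; group
      rw [this]
      exact Subgroup.mul_mem _ (Subgroup.mul_mem _
        (Subgroup.inv_mem _ (xU_mem_borel hS r R.pos τ)) (R.UiB hy2))
        (Subgroup.inv_mem _ (hHB hk))
    · exact xU_mem_rootGen hS chevG2.IsNegRoot _ R.neg _
  rw [borel_inf_neg hS (sV F), Subgroup.mem_bot] at h5
  have hτ'0 : τ' = 0 := xU_eq_one_imp hS hT (pkB F).tab2 _ R.hr' _ h5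
  have hτ0 : τ = 0 := by
    rw [hτ'] at hτ'0
    rcases mul_eq_zero.mp hτ'0 with h1 | h1
    · exact absurd h1 (hχ.1 _)
    · rcases mul_eq_zero.mp h1 with h1 | h1
      · exact absurd h1 (R.η0 r)
      · exact h1
  have hy' : y = h * n := by rw [hy, hτ0, xg_zero, one_mul]
  have hyy : y * y = 1 := by
    have h6 : y * y ∈ chevG2.posUnipotent F ⊓ chevG2.monomialSubgroup F := by
      refine ⟨R.UiU hy2, ?_⟩
      rw [hy']; exact diagonal_le_monomial hk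
    rwa [posUnipotent_inf_monomial hS, Subgroup.mem_bot] at h6
  have hinv : y * v * y⁻¹ = v⁻¹ := by
    rw [hyy, mul_one] at e3
    exact eq_inv_of_mul_eq_one_right e3
  obtain ⟨m, hm⟩ := exists_sqrt_of_mem_pos hF v (R.UiU hv)
  have hc2 : CJ (v * y) y := by
    refine ⟨(v ^ m)⁻¹, Subgroup.inv_mem _ (Subgroup.pow_mem _
      (posUnipotent_le_group hS (R.UiU hv)) m), ?_⟩
    rw [inv_inv]; exact conj_of_inv v y m hinv hm
  rw [hy'] at hyy hc2 hg1
  obtain ⟨g', hg', hc3⟩ := torus_n_invol R h hh hyy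
  exact ⟨g', hg', (hg1.trans hc2).trans hc3⟩

theorem eta_0 : etaG 0 (chevG2.reflectRoot 0 8) * etaG 0 8 = -1 := by decide +kernel
theorem eta_1 : etaG 1 (chevG2.reflectRoot 1 7) * etaG 1 7 = -1 := by decide +kernel
theorem zG_s0 : zG (chevG2.simple 0) (chevG2.simple 0) = 2 := by decide +kernel
theorem zG_s1 : zG (chevG2.simple 1) (chevG2.simple 1) = 2 := by decide +kernel
theorem refl_refl_0 : chevG2.reflectRoot 0 (chevG2.reflectRoot 0 8) = 8 := by decide +kernel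
theorem refl_refl_1 : chevG2.reflectRoot 1 (chevG2.reflectRoot 1 7) = 7 := by decide +kernel

/-- The rank one data of a fundamental root. -/
theorem r1_simple (i : ℕ) (hi : i < 2) (s₀ : ℕ) (hs₀ : s₀ < 12)
    (hρρ : chevG2.reflectRoot i (chevG2.reflectRoot i s₀) = s₀)
    (hη : etaG i (chevG2.reflectRoot i s₀) * etaG i s₀ = -1)
    (hrel : ∀ (χ : ℕ → F) (k : GL chevG2.Idx F), IsTorus chevG2 χ k →
      χ (chevG2.reflectRoot i s₀) = χ s₀ * χ (chevG2.simple i))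
    (hz : zG (chevG2.simple i) (chevG2.simple i) = 2) :
    R1 F (chevG2.simple i) (chevG2.neg (chevG2.simple i)) s₀ (ng F i) (chevG2.reflectRoot i)
      (fun s => ((etaG i s : ℤ) : F)) (rootGen chevG2 F (PosNe chevG2 i)) := by
  have hS := (pkB F).sem
  have hN := (pkB F).semN
  have hC := (pkB F).semC
  have hT := (pkB F).tab
  have hTC := (pkB F).tabC
  have hr : chevG2.simple i < 12 := hT.simple_lt i hi
  refine
    { hr := hr
      hr' := hT.neg_lt _ hr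
      hs₀ := hs₀
      pos := hT.simple_pos i hi
      neg := (hT.pos_neg _ hr).1 (hT.simple_pos i hi)
      nG := ng_mem i hi
      nH := fun k hk => (Subgroup.mem_normalizer_iff.mp
        (nU_mem_normalizer_diag hS hN hT (pkB F).etaNeg i hi) k).mp hk
      conj := fun s hs t => nU_conj hS hN i hi s hs t
      ρlt := fun s hs => hT.refl_lt i hi s hs
      ρρ := hρρ
      ρr := reflectRoot_simple chevG2 i
      ρr' := reflectRoot_neg_simple hT i hi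
      η0 := ?_
      ηη := ?_
      rel := hrel
      zz := hz
      negeq := fun c => xU_neg_eq hS _ c
      nn := ?_
      UiB := rootGen_posNe_le_borel hS i
      UiU := rootGen_mono hS _ _ (fun _ hr => hr.1)
      xN := fun τ => rootSubgroup_sup_le_normalizer hS hC hTC i hi
        (Subgroup.mem_sup_left (xU_mem_rootSubgroup hS _ τ))
      hN := diagonal_le_normalizer_rootGen hS (PosNe chevG2 i) (fun _ hr => hr.1.1)
      nN := nU_mem_normalizer_posNe hS hN hT i hi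
      dec := fun b hb => exists_of_mem_borel hS hC hT hTC i hi b hb }
  · intro s
    rcases hN.eta i s with h1 | h1 <;> rw [h1] <;> simp
  · rw [← Int.cast_mul, hη]; simp
  · rw [nU_mul_self]
    exact Subgroup.inv_mem _ (hU_mem_diag hS _ hr (-1) (by simp))

/-- An involution in the double coset `B n_i B` is conjugate to `t₀`. -/
theorem good_of_cell1 [Fintype F] (hF : Odd (Fintype.card F)) (i : ℕ) (hi : i < 2)
    (g : GL chevG2.Idx F) (hg : g ∈ dcB chevG2 F (ng F i)) (h2 : g * g = 1) (h1 : g ≠ 1) :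
    CJ g (t0 F) := by
  have key : ∃ g' ∈ chevG2.borelSubgroup F, CJ g g' := by
    interval_cases i
    · refine parab_invol hF (r1_simple 0 (by decide) 8 (by decide) refl_refl_0 eta_0 ?_ zG_s0) g hg h2
      intro χ k hχ
      obtain ⟨h8, h9, -, -, -⟩ := torus_vals χ k hχ
      show χ (chevG2.reflectRoot 0 8) = χ 8 * χ (chevG2.simple 0)
      rw [show chevG2.reflectRoot 0 8 = 9 by decide +kernel, show chevG2.simple 0 = 7 by decide +kernel,
        h9, h8]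
      ring
    · refine parab_invol hF (r1_simple 1 (by decide) 7 (by decide) refl_refl_1 eta_1 ?_ zG_s1) g hg h2
      intro χ k hχ
      obtain ⟨h8, -, -, -, -⟩ := torus_vals χ k hχ
      show χ (chevG2.reflectRoot 1 7) = χ 7 * χ (chevG2.simple 1)
      rw [show chevG2.reflectRoot 1 7 = 8 by decide +kernel, show chevG2.simple 1 = 6 by decide +kernel, h8]
  obtain ⟨g', hg', hc⟩ := key
  exact hc.trans (good_of_borel hF g' hg' (hc.sq h2) (hc.ne_one h1))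

end

end Cfsg.Agent.H7.G2I
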