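import Mathlib
import Cfsg.Agent.H7.G2Inv4

set_option autoImplicit false

/-!
# Involutions of `G₂(q)`, `q` odd: the big cell and the main theorem
-/

namespace Cfsg.Agent.H7.G2I

open Cfsg.Lie Cfsg.Agent.H23

/-- The group identity behind the conjugation of `n₀ h` by `x_{-a}(v) x_{-b}(w)`. -/
theorem two_root_identity {G : Type*} [Group G] (s A4 A5 B6 B7 X6a K X6b X5c X4d P N0 : G)
    (e1a : s * A5⁻¹ * s⁻¹ = B6) (e1b : s * A4⁻¹ * s⁻¹ = B7)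
    (e2 : A5 * B6 = X6a * K * X6b * X5c)
    (e3 : A4 * X6a = X6a * A4) (e4 : A4 * K = K * X4d) (e5 : X4d * X6b = X6b * X4d)
    (e6 : X5c * B7 = B7 * X5c) (e7 : X4d * B7 = P * N0) :
    (A4 * A5) * s * (A4 * A5)⁻¹ = (X6a * K * X6b * P) * (N0 * s) * (s⁻¹ * X5c * s) := by
  have e0 : (A4 * A5) * s * (A4 * A5)⁻¹ =
      A4 * ((A5 * (s * A5⁻¹ * s⁻¹)) * ((s * A4⁻¹ * s⁻¹) * s)) := by group
  rw [e0, e1a, e1b, e2]
  have r3 : ∀ z, A4 * (X6a * z) = X6a * (A4 * z) := fun z => by rw [← mul_assoc, e3, mul_assoc]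
  have r4 : ∀ z, A4 * (K * z) = K * (X4d * z) := fun z => by rw [← mul_assoc, e4, mul_assoc]
  have r5 : ∀ z, X4d * (X6b * z) = X6b * (X4d * z) := fun z => by rw [← mul_assoc, e5, mul_assoc]
  have r6 : ∀ z, X5c * (B7 * z) = B7 * (X5c * z) := fun z => by rw [← mul_assoc, e6, mul_assoc]
  have r7 : ∀ z, X4d * (B7 * z) = P * (N0 * z) := fun z => by rw [← mul_assoc, e7, mul_assoc]
  simp only [mul_assoc]
  rw [r3, r4, r5, r6, r7]
  simp

section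

variable {F : Type*} [Field F]

/-- Conjugation of `s` by a single negative root element, when the obstruction vanishes. -/
theorem single_root {r r' s₀ : ℕ} {n : GL chevG2.Idx F} {ρ : ℕ → ℕ} {η : ℕ → F}
    {Ui : Subgroup (GL chevG2.Idx F)} (R : R1 F r r' s₀ n ρ η Ui)
    (s : GL chevG2.Idx F) (κ : F) (hc : ∀ t : F, s * xg r' t * s⁻¹ = xg r (κ * t)) (v : F)
    (hv : 1 - κ * v ^ 2 = 0) :
    ∃ g', CJ s g' ∧ g' ∈ dcB chevG2 F (n * s) := by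
  have hv0 : v ≠ 0 := by
    rintro rfl
    simp at hv
  refine ⟨xg r' v * s * (xg r' v)⁻¹, ⟨xg r' v, xg_mem _ _, rfl⟩, ?_⟩
  have e1 : xg r' v * s * (xg r' v)⁻¹ = xg r' v * (s * (xg r' v)⁻¹ * s⁻¹) * s := by group
  have e2 : xg r v⁻¹ * xg r (κ * -v) = 1 := by
    rw [xg_mul]
    have : v⁻¹ + κ * -v = 0 := by
      field_simp
      linear_combination hv
    rw [this, xg_zero]
  rw [e1, xg_inv, hc, R.negeq v]
  refine ⟨xg r v⁻¹ * hg r (-v⁻¹), ?_, 1, Subgroup.one_mem _, ?_⟩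
  · exact Subgroup.mul_mem _ (xU_mem_borel (pkB F).sem r R.pos _)
      ((le_sup_right : chevG2.diagonalSubgroup F ≤ _)
        (hU_mem_diag (pkB F).sem r R.hr _ (neg_ne_zero.mpr (inv_ne_zero hv0))))
  · have e3 : xg r v⁻¹ * hg r (-v⁻¹) * n * xg r v⁻¹ * xg r (κ * -v) * s =
        xg r v⁻¹ * hg r (-v⁻¹) * n * (xg r v⁻¹ * xg r (κ * -v)) * s := by group
    rw [e3, e2]; group

theorem simple0_eq : chevG2.simple 0 = 7 := by decide +kernel
theorem simple1_eq : chevG2.simple 1 = 6 := by decide +kernel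
theorem neg7_eq : chevG2.neg 7 = 4 := by decide +kernel
theorem neg6_eq : chevG2.neg 6 = 5 := by decide +kernel

/-- The rank one data of the short fundamental root `a`. -/
theorem r1_a : R1 F 7 4 8 (ng F 0) (chevG2.reflectRoot 0) (fun s => ((etaG 0 s : ℤ) : F))
    (rootGen chevG2 F (PosNe chevG2 0)) := by
  have h := r1_simple (F := F) 0 (by decide) 8 (by decide) refl_refl_0 eta_0 (by
    intro χ k hχ
    obtain ⟨h8, h9, -, -, -⟩ := torus_vals χ k hχ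
    show χ (chevG2.reflectRoot 0 8) = χ 8 * χ (chevG2.simple 0)
    rw [show chevG2.reflectRoot 0 8 = 9 by decide +kernel, simple0_eq, h9, h8]
    ring) zG_s0
  rw [simple0_eq, neg7_eq] at h
  exact h

/-- The rank one data of the long fundamental root `b`. -/
theorem r1_b : R1 F 6 5 7 (ng F 1) (chevG2.reflectRoot 1) (fun s => ((etaG 1 s : ℤ) : F))
    (rootGen chevG2 F (PosNe chevG2 1)) := by
  have h := r1_simple (F := F) 1 (by decide) 7 (by decide) refl_refl_1 eta_1 (by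
    intro χ k hχ
    obtain ⟨h8, -, -, -, -⟩ := torus_vals χ k hχ
    show χ (chevG2.reflectRoot 1 7) = χ 7 * χ (chevG2.simple 1)
    rw [show chevG2.reflectRoot 1 7 = 8 by decide +kernel, simple1_eq, h8]) zG_s1
  rw [simple1_eq, neg6_eq] at h
  exact h

theorem comm_4_6_terms : chevG2.commTerms (chevG2.neg (chevG2.simple 0)) 6 = [] := by decide +kernel
theorem comm_5_7_terms : chevG2.commTerms (chevG2.neg (chevG2.simple 1)) 7 = [] := by decide +kernel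
theorem pos6 : chevG2.IsPosRoot 6 := by decide +kernel
theorem pos7 : chevG2.IsPosRoot 7 := by decide +kernel

/-- `X_{-a}` and `X_b` commute. -/
theorem comm_4_6 (t u : F) : xg 4 t * xg 6 u = xg 6 u * xg 4 t := by
  have hS := (pkB F).sem
  have h := xU_commN hS (pkB F).semC 0 (by decide) 6 pos6 (by rw [simple0_eq]; decide) t u
  have e : chevG2.commWord F (chevG2.neg (chevG2.simple 0)) 6 t u = [] := by
    unfold ChevalleyDatum.commWord
    rw [comm_4_6_terms]; rfl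
  rw [e, wordU_nil, mul_one, simple0_eq, neg7_eq] at h
  have h' : (xg 4 t)⁻¹ * xg 6 u * xg 4 t = xg 6 u := h
  calc xg 4 t * xg 6 u = xg 4 t * ((xg 4 t)⁻¹ * xg 6 u * xg 4 t) := by rw [h']
    _ = xg 6 u * xg 4 t := by group

/-- `X_{-b}` and `X_a` commute. -/
theorem comm_5_7 (t u : F) : xg 5 t * xg 7 u = xg 7 u * xg 5 t := by
  have hS := (pkB F).sem
  have h := xU_commN hS (pkB F).semC 1 (by decide) 7 pos7 (by rw [simple1_eq]; decide) t u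
  have e : chevG2.commWord F (chevG2.neg (chevG2.simple 1)) 7 t u = [] := by
    unfold ChevalleyDatum.commWord
    rw [comm_5_7_terms]; rfl
  rw [e, wordU_nil, mul_one, simple1_eq, neg6_eq] at h
  have h' : (xg 5 t)⁻¹ * xg 7 u * xg 5 t = xg 7 u := h
  calc xg 5 t * xg 7 u = xg 5 t * ((xg 5 t)⁻¹ * xg 7 u * xg 5 t) := by rw [h']
    _ = xg 7 u * xg 5 t := by group

/-- An element acting like `n₀ h` on `X_{-a}`, `X_{-b}` is conjugate into a smaller cell. -/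
theorem bigcell_conj [Fintype F] (hF : Odd (Fintype.card F)) (s : GL chevG2.Idx F)
    (κ₄ κ₅ : F) (h4 : κ₄ ≠ 0) (h5 : κ₅ ≠ 0)
    (hc4 : ∀ t : F, s * xg 4 t * s⁻¹ = xg 7 (κ₄ * t))
    (hc5 : ∀ t : F, s * xg 5 t * s⁻¹ = xg 6 (κ₅ * t))
    (hB : ∀ t : F, s⁻¹ * xg 5 t * s ∈ chevG2.borelSubgroup F) :
    ∃ g', CJ s g' ∧ (g' ∈ dcB chevG2 F (ng F 0 * s) ∨ g' ∈ dcB chevG2 F (ng F 1 * s)) := by
  have hS := (pkB F).sem
  have hHB : chevG2.diagonalSubgroup F ≤ chevG2.borelSubgroup F := le_sup_right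
  by_cases hA : ∃ v : F, 1 - κ₄ * v ^ 2 = 0
  · obtain ⟨v, hv⟩ := hA
    obtain ⟨g', hc, hg'⟩ := single_root r1_a s κ₄ hc4 v hv
    exact ⟨g', hc, Or.inl hg'⟩
  by_cases hA' : ∃ w : F, 1 - κ₅ * w ^ 2 = 0
  · obtain ⟨w, hw⟩ := hA'
    obtain ⟨g', hc, hg'⟩ := single_root r1_b s κ₅ hc5 w hw
    exact ⟨g', hc, Or.inr hg'⟩
  -- the two-root case
  obtain ⟨v', w, hvw⟩ := exists_sq_sum hF (-κ₄)⁻¹ (-κ₅) (inv_ne_zero (neg_ne_zero.mpr h4))
    (neg_ne_zero.mpr h5)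
  have hv'0 : v' ≠ 0 := by
    rintro rfl
    apply hA'
    refine ⟨w, ?_⟩
    linear_combination hvw
  have hw0 : w ≠ 0 := by
    rintro rfl
    apply hA
    refine ⟨v'⁻¹, ?_⟩
    field_simp
    field_simp at hvw
    linear_combination -hvw
  obtain ⟨v, hv⟩ : ∃ v : F, v = v'⁻¹ := ⟨_, rfl⟩
  have hv0 : v ≠ 0 := by rw [hv]; exact inv_ne_zero hv'0
  obtain ⟨d, hd⟩ : ∃ d : F, d = 1 - κ₅ * w ^ 2 := ⟨_, rfl⟩
  have hd0 : d ≠ 0 := by
    rw [hd]
    intro h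
    exact hA' ⟨w, h⟩
  -- `κ₄ d v² = 1`
  have hkey : κ₄ * d * v ^ 2 = 1 := by
    rw [hd, hv]
    have h1 : (-κ₄)⁻¹ = -κ₄⁻¹ := by rw [inv_neg]
    rw [h1] at hvw
    have h2 : κ₄ * (1 - κ₅ * w ^ 2) = v' ^ 2 := by
      have : κ₄ * (1 + -κ₄⁻¹ * v' ^ 2 + -κ₅ * w ^ 2) = 0 := by rw [hvw, mul_zero]
      have h3 : κ₄ * κ₄⁻¹ = 1 := mul_inv_cancel₀ h4
      linear_combination this + v' ^ 2 * h3
    rw [h2, inv_pow, mul_inv_cancel₀ (pow_ne_zero 2 hv'0)]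
  obtain ⟨τ, hτ⟩ : ∃ τ : F, τ = w⁻¹ + -κ₅ * w := ⟨_, rfl⟩
  have hτd : τ * w = d := by
    rw [hτ, hd]
    field_simp
    ring
  have hτ0 : τ ≠ 0 := by
    intro h
    rw [h, zero_mul] at hτd
    exact hd0 hτd.symm
  -- the torus element `k`
  have hk := (act_hg 6 (by decide) (-w⁻¹) (neg_ne_zero.mpr (inv_ne_zero hw0))).mul
    ((act_hg 6 (by decide) (-τ) (neg_ne_zero.mpr hτ0)).inv
      (fun s _ => zpow_ne_zero _ (neg_ne_zero.mpr hτ0)))
  obtain ⟨k, hkdef⟩ : ∃ k, k = hg 6 (-w⁻¹) * (hg 6 (-τ))⁻¹ := ⟨_, rfl⟩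
  rw [← hkdef] at hk
  have R0 := r1_a (F := F)
  have R1' := r1_b (F := F)
  -- the seven relations
  have e1a : s * (xg 5 w)⁻¹ * s⁻¹ = xg 6 (-κ₅ * w) := by
    rw [xg_inv, hc5]; congr 1; ring
  have e1b : s * (xg 4 v)⁻¹ * s⁻¹ = xg 7 (-κ₄ * v) := by
    rw [xg_inv, hc4]; congr 1; ring
  have e2 : xg 5 w * xg 6 (-κ₅ * w) = xg 6 w⁻¹ * k * (xg 6 τ)⁻¹ * xg 5 τ⁻¹ := by
    have n1 := R1'.negeq w
    have n2 := R1'.negeq τ⁻¹
    rw [inv_inv] at n2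
    have e : xg 6 (-κ₅ * w) = (xg 6 w⁻¹)⁻¹ * xg 6 τ := by
      rw [xg_inv, xg_mul, hτ]; congr 1; ring
    rw [n1, n2, e, hkdef]; group
  have e3 : xg 4 v * xg 6 w⁻¹ = xg 6 w⁻¹ * xg 4 v := comm_4_6 _ _
  have e4 : xg 4 v * k = k * xg 4 (d * v) := by
    have h0 : ∀ s < 12, (fun s => (-w⁻¹) ^ zG 6 s * ((-τ) ^ zG 6 s)⁻¹) s ≠ 0 :=
      fun s _ => mul_ne_zero (zpow_ne_zero _ (neg_ne_zero.mpr (inv_ne_zero hw0)))
        (inv_ne_zero (zpow_ne_zero _ (neg_ne_zero.mpr hτ0)))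
    have h1 := (hk.inv h0).2 4 (by decide) v
    rw [inv_inv] at h1
    have h2 : ((-w⁻¹) ^ zG 6 4 * ((-τ) ^ zG 6 4)⁻¹)⁻¹ * v = d * v := by
      rw [zG_6_4, zpow_one, zpow_one, ← hτd]
      field_simp
    simp only at h1
    rw [h2] at h1
    rw [← h1]; group
  have e5 : xg 4 (d * v) * (xg 6 τ)⁻¹ = (xg 6 τ)⁻¹ * xg 4 (d * v) := by
    rw [xg_inv]; exact comm_4_6 _ _
  have e6 : xg 5 τ⁻¹ * xg 7 (-κ₄ * v) = xg 7 (-κ₄ * v) * xg 5 τ⁻¹ := comm_5_7 _ _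
  have hdv : d * v ≠ 0 := mul_ne_zero hd0 hv0
  have e7 : xg 4 (d * v) * xg 7 (-κ₄ * v) = (xg 7 (d * v)⁻¹ * hg 7 (-(d * v)⁻¹)) * ng F 0 := by
    rw [R0.negeq (d * v), mul_assoc, xg_mul]
    have : (d * v)⁻¹ + -κ₄ * v = 0 := by
      field_simp
      linear_combination -hkey
    rw [this, xg_zero, mul_one]
  have main := two_root_identity s (xg 4 v) (xg 5 w) (xg 6 (-κ₅ * w)) (xg 7 (-κ₄ * v)) (xg 6 w⁻¹) k
    (xg 6 τ)⁻¹ (xg 5 τ⁻¹) (xg 4 (d * v)) (xg 7 (d * v)⁻¹ * hg 7 (-(d * v)⁻¹)) (ng F 0)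
    e1a e1b e2 e3 e4 e5 e6 e7
  refine ⟨(xg 4 v * xg 5 w) * s * (xg 4 v * xg 5 w)⁻¹,
    ⟨xg 4 v * xg 5 w, Subgroup.mul_mem _ (xg_mem _ _) (xg_mem _ _), rfl⟩, Or.inl ?_⟩
  refine ⟨xg 6 w⁻¹ * k * (xg 6 τ)⁻¹ * (xg 7 (d * v)⁻¹ * hg 7 (-(d * v)⁻¹)), ?_,
    s⁻¹ * xg 5 τ⁻¹ * s, hB _, main⟩
  have hx6 : ∀ t : F, xg 6 t ∈ chevG2.borelSubgroup F := fun t => xU_mem_borel hS 6 pos6 t
  have hx7 : ∀ t : F, xg 7 t ∈ chevG2.borelSubgroup F := fun t => xU_mem_borel hS 7 pos7 t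
  exact Subgroup.mul_mem _ (Subgroup.mul_mem _ (Subgroup.mul_mem _ (hx6 _) (hHB hk.1))
    (Subgroup.inv_mem _ (hx6 _)))
    (Subgroup.mul_mem _ (hx7 _) (hHB (hU_mem_diag hS 7 (by decide) _
      (neg_ne_zero.mpr (inv_ne_zero hdv)))))

theorem w0_refl_4 : reflW chevG2 w0G2 4 = 7 := by decide +kernel
theorem w0_refl_5 : reflW chevG2 w0G2 5 = 6 := by decide +kernel
theorem w0_refl_5' : reflW chevG2 w0G2.reverse 5 = 6 := by decide +kernel
theorem w0_word_0 : ∀ s < chevG2.nroots, reflW chevG2 (0 :: w0G2) s = reflW chevG2 [1, 0, 1, 0, 1] s := by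
  decide +kernel
theorem w0_word_1 : ∀ s < chevG2.nroots, reflW chevG2 (1 :: w0G2) s = reflW chevG2 [0, 1, 0, 1, 0] s := by
  decide +kernel

/-- Involutions in the big cell. -/
theorem good_of_bigcell [Fintype F] (hF : Odd (Fintype.card F)) (g : GL chevG2.Idx F)
    (hgG : g ∈ chevG2.group F) (hg : g ∈ dcB chevG2 F (nw F w0G2)) (h2 : g * g = 1) (h1 : g ≠ 1) :
    CJ g (t0 F) := by
  have hP := pkB F
  have hS := hP.sem
  have hT := hP.tab
  have hHB : chevG2.diagonalSubgroup F ≤ chevG2.borelSubgroup F := le_sup_right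
  obtain ⟨h, hh, hc⟩ := bigcell_invol g hgG hg h2
  obtain ⟨χ, hχ, hact⟩ := act_of_mem h hh
  obtain ⟨c4, hc4', e4⟩ := nWU_conj hS hP.semN hT w0G2 tabW_G2.lt 4 (by decide)
  obtain ⟨c5, hc5', e5⟩ := nWU_conj hS hP.semN hT w0G2 tabW_G2.lt 5 (by decide)
  obtain ⟨c5', -, e5'⟩ := nWU_conj' hS hP.semN hT w0G2 tabW_G2.lt 5 (by decide)
  rw [w0_refl_4] at e4
  rw [w0_refl_5] at e5
  rw [w0_refl_5'] at e5'
  have hc40 : c4 ≠ 0 := by rcases hc4' with rfl | rfl <;> simp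
  have hc50 : c5 ≠ 0 := by rcases hc5' with rfl | rfl <;> simp
  obtain ⟨g', hc', hg'⟩ := bigcell_conj hF (nw F w0G2 * h) (c4 * χ 4) (c5 * χ 5)
    (mul_ne_zero hc40 (hχ.1 4)) (mul_ne_zero hc50 (hχ.1 5))
    (fun t => by
      have e : nw F w0G2 * h * xg 4 t * (nw F w0G2 * h)⁻¹ =
          nw F w0G2 * (h * xg 4 t * h⁻¹) * (nw F w0G2)⁻¹ := by group
      rw [e, hact.2 4 (by decide)]
      have := e4 (χ 4 * t)
      rw [show c4 * χ 4 * t = c4 * (χ 4 * t) by ring]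
      exact this)
    (fun t => by
      have e : nw F w0G2 * h * xg 5 t * (nw F w0G2 * h)⁻¹ =
          nw F w0G2 * (h * xg 5 t * h⁻¹) * (nw F w0G2)⁻¹ := by group
      rw [e, hact.2 5 (by decide)]
      have := e5 (χ 5 * t)
      rw [show c5 * χ 5 * t = c5 * (χ 5 * t) by ring]
      exact this)
    (fun t => by
      have e : (nw F w0G2 * h)⁻¹ * xg 5 t * (nw F w0G2 * h) =
          h⁻¹ * ((nw F w0G2)⁻¹ * xg 5 t * nw F w0G2) * h := by group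
      rw [e]
      have := e5' t
      have h6 : (nw F w0G2)⁻¹ * xg 5 t * nw F w0G2 ∈ chevG2.borelSubgroup F := by
        rw [show (nw F w0G2)⁻¹ * xg 5 t * nw F w0G2 = xU hS 6 (c5' * t) from this]
        exact xU_mem_borel hS 6 pos6 _
      exact Subgroup.mul_mem _ (Subgroup.mul_mem _ (Subgroup.inv_mem _ (hHB hh)) h6) (hHB hh))
  have hcc := hc.trans hc'
  rcases hg' with h' | h'
  · have e : dcB chevG2 F (ng F 0 * (nw F w0G2 * h)) = dcB chevG2 F (nw F [1, 0, 1, 0, 1]) := by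
      rw [← mul_assoc, dcB_mul_right (hHB hh), ← nw_cons]
      exact dcB_word_eq_of_refl_eq hP (0 :: w0G2) [1, 0, 1, 0, 1] (by decide) (by decide) w0_word_0
    rw [e] at h'
    exact hcc.trans (good_of_cell5 hF 1 0 (Or.inr ⟨rfl, rfl⟩) g' h' (hcc.sq h2) (hcc.ne_one h1))
  · have e : dcB chevG2 F (ng F 1 * (nw F w0G2 * h)) = dcB chevG2 F (nw F [0, 1, 0, 1, 0]) := by
      rw [← mul_assoc, dcB_mul_right (hHB hh), ← nw_cons]
      exact dcB_word_eq_of_refl_eq hP (1 :: w0G2) [0, 1, 0, 1, 0] (by decide) (by decide) w0_word_1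
    rw [e] at h'
    exact hcc.trans (good_of_cell5 hF 0 1 (Or.inl ⟨rfl, rfl⟩) g' h' (hcc.sq h2) (hcc.ne_one h1))

/-- Every involution of `G₂(q)`, `q` odd, is conjugate to `t₀`. -/
theorem all_good [Fintype F] (hF : Odd (Fintype.card F)) (g : GL chevG2.Idx F)
    (hgG : g ∈ chevG2.group F) (h2 : g * g = 1) (h1 : g ≠ 1) : CJ g (t0 F) := by
  obtain ⟨w, hw, hg⟩ := exists_cell g hgG
  have hsym := cell_symm w (canon_lt w hw) g hg h2
  have hmem := canon_invol w hw hsym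
  simp only [List.mem_cons, List.not_mem_nil, or_false] at hmem
  rcases hmem with rfl | rfl | rfl | rfl | rfl | rfl | rfl | rfl
  · rw [nw_nil, dcB_one] at hg
    exact good_of_borel hF g hg h2 h1
  · rw [nw_single] at hg
    exact good_of_cell1 hF 0 (by decide) g hg h2 h1
  · rw [nw_single] at hg
    exact good_of_cell1 hF 1 (by decide) g hg h2 h1
  · exact good_of_cell3 hF 0 1 (Or.inl ⟨rfl, rfl⟩) g hg h2 h1
  · exact good_of_cell3 hF 1 0 (Or.inr ⟨rfl, rfl⟩) g hg h2 h1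
  · exact good_of_cell5 hF 0 1 (Or.inl ⟨rfl, rfl⟩) g hg h2 h1
  · exact good_of_cell5 hF 1 0 (Or.inr ⟨rfl, rfl⟩) g hg h2 h1
  · exact good_of_bigcell hF g hgG hg h2 h1

/-- Any two involutions of `G₂(q)`, `q` odd, are conjugate. -/
theorem invol_conj [Fintype F] (hF : Odd (Fintype.card F)) (s t : ↥(chevG2.group F))
    (hs : orderOf s = 2) (ht : orderOf t = 2) : IsConj s t := by
  have key : ∀ x : ↥(chevG2.group F), orderOf x = 2 → CJ (x : GL chevG2.Idx F) (t0 F) := by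
    intro x hx
    have h2 : x ^ 2 = 1 := by rw [← hx]; exact pow_orderOf_eq_one x
    have h1 : x ≠ 1 := by
      intro h
      rw [h, orderOf_one] at hx
      exact absurd hx (by decide)
    apply all_good hF x.1 x.2
    · have := congrArg Subtype.val h2
      rw [sq] at this
      exact this
    · intro h
      exact h1 (Subtype.ext h)
  obtain ⟨x, hx, e⟩ := (key s hs).trans (key t ht).symm
  rw [isConj_iff]
  exact ⟨⟨x, hx⟩, Subtype.ext e⟩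

end

end Cfsg.Agent.H7.G2I
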