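import Mathlib
import Cfsg.Prelude.Def_Classical
import Cfsg.Agent.H7.LawUnitary

set_option autoImplicit false

namespace Cfsg.Agent.H7

open Matrix
open scoped MatrixGroups

section Card

theorem card_le_of_quot {K : Type*} [Group K] {ι : Type} [Fintype ι] [DecidableEq ι]
    {F : Type*} [Field F] [Fintype F] (j : K → Matrix ι ι F) (hj : Function.Injective j)
    {G : Type*} [Group G] (e : G ≃* K ⧸ Subgroup.center K) :
    Nat.card G ≤ Fintype.card F ^ (Fintype.card ι ^ 2) := by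
  haveI : Finite K := Finite.of_injective j hj
  calc Nat.card G = Nat.card (K ⧸ Subgroup.center K) := Nat.card_congr e.toEquiv
    _ ≤ Nat.card K := Nat.card_le_card_of_surjective _ (QuotientGroup.mk_surjective)
    _ ≤ Nat.card (Matrix ι ι F) := Nat.card_le_card_of_injective j hj
    _ = Fintype.card F ^ (Fintype.card ι ^ 2) := by
        rw [Nat.card_eq_fintype_card]
        show Fintype.card (ι → ι → F) = _
        rw [Fintype.card_fun, Fintype.card_fun, ← pow_mul, sq]

theorem pow_bound {a d B D : ℕ} (ha : a ≤ B) (hd : d ≤ D) (ha1 : 1 ≤ a) :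
    a ^ (d ^ 2) ≤ B ^ (D ^ 2) :=
  (Nat.pow_le_pow_left ha _).trans
    (Nat.pow_le_pow_right (by omega) (Nat.pow_le_pow_left hd 2))

end Card

section Orth

variable {F : Type*} [Field F]

/-- `O⁺_{2m}(F) → O_{2m+1}(F)`. -/
def oddBlock (m : ℕ) : Cfsg.isometryGroup F (Cfsg.quadFormPlus m F) →*
    Cfsg.isometryGroup F (Cfsg.quadFormOdd m F) :=
  blockPres (Equiv.sumComm Unit (Fin m ⊕ Fin m)) (fun u _ => Cfsg.quadFormPlus m F u)
    (fun u _ => u () ^ 2) (fun u _ => Cfsg.quadFormOdd m F u) (by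
      intro u v
      simp [Cfsg.quadFormOdd, Cfsg.quadFormPlus, add_comm])

theorem oddBlock_injective (m : ℕ) : Function.Injective (oddBlock (F := F) m) :=
  blockPres_injective _ _ _ _ _

/-- `GL_m(F) → O_{2m+1}(F)`. -/
def hypOdd (m : ℕ) : GL (Fin m) F →* Cfsg.isometryGroup F (Cfsg.quadFormOdd m F) :=
  (oddBlock m).comp (hypPlus m)

theorem hypOdd_injective (m : ℕ) : Function.Injective (hypOdd (F := F) m) := by
  intro g h hgh
  exact hypPlus_injective m (oddBlock_injective m hgh)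

/-- `O⁺_{2m}(F) → O⁻_{2m+2}(F)`. -/
def minusBlock (m : ℕ) (a b : F) : Cfsg.isometryGroup F (Cfsg.quadFormPlus m F) →*
    Cfsg.isometryGroup F (Cfsg.quadFormMinus m F a b) :=
  blockPres (Equiv.refl ((Fin m ⊕ Fin m) ⊕ Fin 2)) (fun u _ => Cfsg.quadFormPlus m F u)
    (fun u _ => u 0 ^ 2 + a * u 0 * u 1 + b * u 1 ^ 2)
    (fun u _ => Cfsg.quadFormMinus m F a b u) (by
      intro u v
      simp [Cfsg.quadFormMinus, Cfsg.quadFormPlus])

theorem minusBlock_injective (m : ℕ) (a b : F) :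
    Function.Injective (minusBlock (F := F) m a b) :=
  blockPres_injective _ _ _ _ _

/-- `GL_m(F) → O⁻_{2m+2}(F)`. -/
def hypMinus (m : ℕ) (a b : F) :
    GL (Fin m) F →* Cfsg.isometryGroup F (Cfsg.quadFormMinus m F a b) :=
  (minusBlock m a b).comp (hypPlus m)

theorem hypMinus_injective (m : ℕ) (a b : F) :
    Function.Injective (hypMinus (F := F) m a b) := by
  intro g h hgh
  exact hypPlus_injective m (minusBlock_injective m a b hgh)

/-- `SL_2(F) → GL_m(F)` for `m ≥ 2`. -/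
def sl2GL (m : ℕ) (hm : 2 ≤ m) : SL(2, F) →* GL (Fin m) F :=
  (blockGL (finTwoSum m hm)).comp Matrix.SpecialLinearGroup.toGL

theorem sl2GL_injective (m : ℕ) (hm : 2 ≤ m) : Function.Injective (sl2GL (F := F) m hm) :=
  (blockGL_injective _).comp Matrix.SpecialLinearGroup.toGL_injective

end Orth

section Families

variable {w : FreeGroup ℕ} {N₀ M : ℕ}

theorem alt_bound (hperm : ∀ k, M ≤ k → NLC w (Equiv.Perm (Fin k)))
    {G : Type*} [Group G] (hG : Cfsg.IsAlternating G)
    (hlaw : ∀ f : ℕ → G, FreeGroup.lift f w = 1) : Nat.card G ≤ M.factorial := by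
  obtain ⟨n, -, ⟨e⟩⟩ := hG
  have hn : n < M := by
    by_contra h
    exact (hperm n (by omega)).not_law_equiv (alternatingGroup (Fin n)).subtype (by
      rw [Subgroup.range_subtype]
      exact Abelianization.commutator_subset_ker Equiv.Perm.sign) e hlaw
  calc Nat.card G = Nat.card (alternatingGroup (Fin n)) := Nat.card_congr e.toEquiv
    _ ≤ Nat.card (Equiv.Perm (Fin n)) := Subgroup.card_le_card_group _
    _ = n.factorial := by rw [Nat.card_eq_fintype_card, Fintype.card_perm, Fintype.card_fin]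
    _ ≤ M.factorial := Nat.factorial_le hn.le

theorem psl_bound (hN₀ : ∀ (F : Type) [Field F] [Finite F], N₀ ≤ Nat.card F → NLC w SL(2, F))
    (hperm : ∀ k, M ≤ k → NLC w (Equiv.Perm (Fin k)))
    {G : Type*} [Group G] (hG : Cfsg.IsPSL G)
    (hlaw : ∀ f : ℕ → G, FreeGroup.lift f w = 1) :
    Nat.card G ≤ (N₀ ^ 2) ^ ((2 * M + 2) ^ 2) := by
  obtain ⟨F, _, _, n, hn2, -, ⟨e⟩⟩ := hG
  have hc : commutator (GL (Fin n) F) ≤
      (Matrix.SpecialLinearGroup.toGL (n := Fin n) (R := F)).range := by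
    intro x hx
    have h := Abelianization.commutator_subset_ker Matrix.GeneralLinearGroup.det hx
    rw [MonoidHom.mem_ker] at h
    have h2 : (x.1 : Matrix (Fin n) (Fin n) F).det = 1 := by
      simpa using congrArg Units.val h
    exact ⟨⟨x.1, h2⟩, Units.ext rfl⟩
  have hF : Fintype.card F < N₀ := by
    by_contra h
    have h1 : NLC w SL(2, F) := hN₀ F (by rw [Nat.card_eq_fintype_card]; omega)
    exact (h1.map (sl2GL n hn2) (sl2GL_injective n hn2)).not_law_quot
      Matrix.SpecialLinearGroup.toGL hc e hlaw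
  have hn : n < M := by
    by_contra h
    exact ((hperm n (by omega)).map (permGL F) (permGL_injective F)).not_law_quot
      Matrix.SpecialLinearGroup.toGL hc e hlaw
  refine (card_le_of_quot (fun g : Matrix.SpecialLinearGroup (Fin n) F => g.1)
    Subtype.val_injective e).trans ?_
  apply pow_bound (hF.le.trans (Nat.le_self_pow (by norm_num) _)) _ Fintype.card_pos
  rw [Fintype.card_fin]
  omega

theorem psp_bound (hN₀ : ∀ (F : Type) [Field F] [Finite F], N₀ ≤ Nat.card F → NLC w SL(2, F))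
    (hperm : ∀ k, M ≤ k → NLC w (Equiv.Perm (Fin k)))
    {G : Type*} [Group G] (hG : Cfsg.IsPSp G)
    (hlaw : ∀ f : ℕ → G, FreeGroup.lift f w = 1) :
    Nat.card G ≤ (N₀ ^ 2) ^ ((2 * M + 2) ^ 2) := by
  obtain ⟨F, _, _, m, hm2, -, ⟨e⟩⟩ := hG
  have hc : commutator (Matrix.symplecticGroup (Fin m) F) ≤
      (MonoidHom.id (Matrix.symplecticGroup (Fin m) F)).range := fun x _ => ⟨x, rfl⟩
  have hF : Fintype.card F < N₀ := by
    by_contra h
    have h1 : NLC w SL(2, F) := hN₀ F (by rw [Nat.card_eq_fintype_card]; omega)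
    exact ((h1.map (sl2GL m hm2) (sl2GL_injective m hm2)).map hypSp
      hypSp_injective).not_law_quot (MonoidHom.id _) hc e hlaw
  have hn : m < M := by
    by_contra h
    exact (((hperm m (by omega)).map (permGL F) (permGL_injective F)).map hypSp
      hypSp_injective).not_law_quot (MonoidHom.id _) hc e hlaw
  refine (card_le_of_quot (fun g : Matrix.symplecticGroup (Fin m) F => g.1)
    Subtype.val_injective e).trans ?_
  apply pow_bound (hF.le.trans (Nat.le_self_pow (by norm_num) _)) _ Fintype.card_pos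
  rw [Fintype.card_sum, Fintype.card_fin]
  omega

theorem psu_bound (hN₀ : ∀ (F : Type) [Field F] [Finite F], N₀ ≤ Nat.card F → NLC w SL(2, F))
    (hperm : ∀ k, M ≤ k → NLC w (Equiv.Perm (Fin k)))
    {G : Type*} [Group G] (hG : Cfsg.IsPSU G)
    (hlaw : ∀ f : ℕ → G, FreeGroup.lift f w = 1) :
    Nat.card G ≤ (N₀ ^ 2) ^ ((2 * M + 2) ^ 2) := by
  obtain ⟨F, _, _, n, q, hq, hn3, -, ⟨e⟩⟩ := hG
  have hF : q < N₀ := by
    by_contra h
    exact (nlc_unitary N₀ hN₀ hq (by omega) n (by omega)).not_law_quot (suToU n F q)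
      (commutator_le_range_suToU n q) e hlaw
  have hn : n < M := by
    by_contra h
    exact (nlc_unitary_perm n q (hperm n (by omega))).not_law_quot (suToU n F q)
      (commutator_le_range_suToU n q) e hlaw
  refine (card_le_of_quot (fun g : Cfsg.SU n F q => g.1.1)
    (Subtype.val_injective.comp Subtype.val_injective) e).trans ?_
  apply pow_bound _ _ Fintype.card_pos
  · rw [hq]
    exact Nat.pow_le_pow_left hF.le 2
  · rw [Fintype.card_fin]
    omega

theorem orth_bound (hN₀ : ∀ (F : Type) [Field F] [Finite F], N₀ ≤ Nat.card F → NLC w SL(2, F))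
    (hperm : ∀ k, M ≤ k → NLC w (Equiv.Perm (Fin k)))
    {ι : Type} [Fintype ι] [DecidableEq ι] {F : Type} [Field F] [Fintype F]
    (Q : (ι → F) → F) (m : ℕ) (hm2 : 2 ≤ m) (h : GL (Fin m) F →* Cfsg.isometryGroup F Q)
    (hinj : Function.Injective h) {G : Type*} [Group G] (e : G ≃* Cfsg.POmega F Q)
    (hlaw : ∀ f : ℕ → G, FreeGroup.lift f w = 1) :
    Fintype.card F < N₀ ∧ m < M ∧ Nat.card G ≤ Fintype.card F ^ (Fintype.card ι ^ 2) := by
  have hc : commutator (Cfsg.isometryGroup F Q) ≤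
      (Subgroup.subtype (commutator (Cfsg.isometryGroup F Q))).range := by
    rw [Subgroup.range_subtype]
  refine ⟨?_, ?_, ?_⟩
  · by_contra hF
    have h1 : NLC w SL(2, F) := hN₀ F (by rw [Nat.card_eq_fintype_card]; omega)
    exact ((h1.map (sl2GL m hm2) (sl2GL_injective m hm2)).map h hinj).not_law_quot
      (Subgroup.subtype _) hc e hlaw
  · by_contra hm
    exact (((hperm m (by omega)).map (permGL F) (permGL_injective F)).map h hinj).not_law_quot
      (Subgroup.subtype _) hc e hlaw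
  · exact card_le_of_quot (fun g : Cfsg.Omega F Q => g.1.1.1)
      (Units.val_injective.comp (Subtype.val_injective.comp Subtype.val_injective)) e

theorem odd_bound (hN₀ : ∀ (F : Type) [Field F] [Finite F], N₀ ≤ Nat.card F → NLC w SL(2, F))
    (hperm : ∀ k, M ≤ k → NLC w (Equiv.Perm (Fin k)))
    {G : Type*} [Group G] (hG : Cfsg.IsPOmegaOdd G)
    (hlaw : ∀ f : ℕ → G, FreeGroup.lift f w = 1) :
    Nat.card G ≤ (N₀ ^ 2) ^ ((2 * M + 2) ^ 2) := by
  obtain ⟨F, _, _, m, hm3, -, ⟨e⟩⟩ := hG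
  obtain ⟨hF, hm, hcard⟩ := orth_bound hN₀ hperm _ m (by omega) (hypOdd m) (hypOdd_injective m)
    e hlaw
  refine hcard.trans ?_
  apply pow_bound (hF.le.trans (Nat.le_self_pow (by norm_num) _)) _ Fintype.card_pos
  rw [Fintype.card_sum, Fintype.card_sum, Fintype.card_fin, Fintype.card_unit]
  omega

theorem plus_bound (hN₀ : ∀ (F : Type) [Field F] [Finite F], N₀ ≤ Nat.card F → NLC w SL(2, F))
    (hperm : ∀ k, M ≤ k → NLC w (Equiv.Perm (Fin k)))
    {G : Type*} [Group G] (hG : Cfsg.IsPOmegaPlus G)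
    (hlaw : ∀ f : ℕ → G, FreeGroup.lift f w = 1) :
    Nat.card G ≤ (N₀ ^ 2) ^ ((2 * M + 2) ^ 2) := by
  obtain ⟨F, _, _, m, hm4, ⟨e⟩⟩ := hG
  obtain ⟨hF, hm, hcard⟩ := orth_bound hN₀ hperm _ m (by omega) (hypPlus m)
    (hypPlus_injective m) e hlaw
  refine hcard.trans ?_
  apply pow_bound (hF.le.trans (Nat.le_self_pow (by norm_num) _)) _ Fintype.card_pos
  rw [Fintype.card_sum, Fintype.card_fin]
  omega

theorem minus_bound (hN₀ : ∀ (F : Type) [Field F] [Finite F], N₀ ≤ Nat.card F → NLC w SL(2, F))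
    (hperm : ∀ k, M ≤ k → NLC w (Equiv.Perm (Fin k)))
    {G : Type*} [Group G] (hG : Cfsg.IsPOmegaMinus G)
    (hlaw : ∀ f : ℕ → G, FreeGroup.lift f w = 1) :
    Nat.card G ≤ (N₀ ^ 2) ^ ((2 * M + 2) ^ 2) := by
  obtain ⟨F, _, _, m, a, b, hm4, -, ⟨e⟩⟩ := hG
  obtain ⟨hF, hm, hcard⟩ := orth_bound hN₀ hperm _ (m - 1) (by omega) (hypMinus (m - 1) a b)
    (hypMinus_injective (m - 1) a b) e hlaw
  refine hcard.trans ?_
  apply pow_bound (hF.le.trans (Nat.le_self_pow (by norm_num) _)) _ Fintype.card_pos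
  rw [Fintype.card_sum, Fintype.card_sum, Fintype.card_fin, Fintype.card_fin]
  omega

end Families

end Cfsg.Agent.H7
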