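import Mathlib
import Cfsg.Prelude.Def_Sz
import Cfsg.Agent.H7.Law

set_option autoImplicit false

namespace Cfsg.Agent.H7

open Matrix Polynomial
open scoped MatrixGroups

section SzMat

variable {R : Type*} [CommRing R]

/-- Lower Suzuki root element `S(a, 0)`, with `a'` standing for `a ^ θ`. -/
def szS (a a' : R) : Matrix (Fin 4) (Fin 4) R :=
  !![1, 0, 0, 0; a, 1, 0, 0; a * a', a', 1, 0; a ^ 2 * a', 0, a, 1]

/-- Its inverse. -/
def szSi (a a' : R) : Matrix (Fin 4) (Fin 4) R :=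
  !![1, 0, 0, 0; -a, 1, 0, 0; 0, -a', 1, 0; -(a ^ 2 * a'), a * a', -a, 1]

/-- Upper Suzuki root element. -/
def szU (a a' : R) : Matrix (Fin 4) (Fin 4) R :=
  !![1, a, 0, a ^ 2 * a'; 0, 1, a', a * a'; 0, 0, 1, a; 0, 0, 0, 1]

/-- Its inverse. -/
def szUi (a a' : R) : Matrix (Fin 4) (Fin 4) R :=
  !![1, -a, a * a', -(a ^ 2 * a'); 0, 1, -a', 0; 0, 0, 1, -a; 0, 0, 0, 1]

theorem szS_mul_szSi (a a' : R) : szS a a' * szSi a a' = 1 := by
  ext i j
  fin_cases i <;> fin_cases j <;>
    simp [szS, szSi, Matrix.mul_apply, Fin.sum_univ_four] <;> ring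

theorem szSi_mul_szS (a a' : R) : szSi a a' * szS a a' = 1 := by
  ext i j
  fin_cases i <;> fin_cases j <;>
    simp [szS, szSi, Matrix.mul_apply, Fin.sum_univ_four] <;> ring

theorem szU_mul_szUi (a a' : R) : szU a a' * szUi a a' = 1 := by
  ext i j
  fin_cases i <;> fin_cases j <;>
    simp [szU, szUi, Matrix.mul_apply, Fin.sum_univ_four] <;> ring

theorem szUi_mul_szU (a a' : R) : szUi a a' * szU a a' = 1 := by
  ext i j
  fin_cases i <;> fin_cases j <;>
    simp [szU, szUi, Matrix.mul_apply, Fin.sum_univ_four] <;> ring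

/-- `S(a,0)` as a unit. -/
def szSU (a a' : R) : (Matrix (Fin 4) (Fin 4) R)ˣ :=
  ⟨szS a a', szSi a a', szS_mul_szSi a a', szSi_mul_szS a a'⟩

/-- The upper element as a unit. -/
def szUU (a a' : R) : (Matrix (Fin 4) (Fin 4) R)ˣ :=
  ⟨szU a a', szUi a a', szU_mul_szUi a a', szUi_mul_szU a a'⟩

/-- The product `U(a) S(a)`. -/
def szX (a a' : R) : (Matrix (Fin 4) (Fin 4) R)ˣ := szUU a a' * szSU a a'

theorem szX_val (a a' : R) : (szX a a').val = szU a a' * szS a a' := rfl

theorem szX_inv_val (a a' : R) : ((szX a a')⁻¹).val = szSi a a' * szUi a a' := by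
  rw [szX, _root_.mul_inv_rev, Units.val_mul]
  rfl

/-- The map on units of matrices induced by a ring homomorphism. -/
def mapU {S : Type*} [CommRing S] (φ : R →+* S) :
    (Matrix (Fin 4) (Fin 4) R)ˣ →* (Matrix (Fin 4) (Fin 4) S)ˣ :=
  Units.map (RingHom.mapMatrix φ : Matrix (Fin 4) (Fin 4) R →+* Matrix (Fin 4) (Fin 4) S).toMonoidHom

theorem mapU_val {S : Type*} [CommRing S] (φ : R →+* S) (g : (Matrix (Fin 4) (Fin 4) R)ˣ)
    (i j : Fin 4) : (mapU φ g).val i j = φ (g.val i j) := rfl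

theorem mapU_szX {S : Type*} [CommRing S] (φ : R →+* S) (a a' : R) :
    mapU φ (szX a a') = szX (φ a) (φ a') := by
  apply Units.ext
  show φ.mapMatrix (szU a a' * szS a a') = szU (φ a) (φ a') * szS (φ a) (φ a')
  rw [map_mul]
  congr 1
  · ext i j
    fin_cases i <;> fin_cases j <;> simp [szU]
  · ext i j
    fin_cases i <;> fin_cases j <;> simp [szS]

/-- The doubling map `A ↦ diag(A, A)`. -/
def dblMat : Matrix (Fin 2) (Fin 2) R →* Matrix (Fin 4) (Fin 4) R where
  toFun A := !![A 0 0, A 0 1, 0, 0; A 1 0, A 1 1, 0, 0; 0, 0, A 0 0, A 0 1; 0, 0, A 1 0, A 1 1]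
  map_one' := by
    ext i j
    fin_cases i <;> fin_cases j <;> simp
  map_mul' A B := by
    ext i j
    fin_cases i <;> fin_cases j <;>
      simp [Matrix.mul_apply, Fin.sum_univ_four, Fin.sum_univ_two]

theorem szX_zero (a : R) :
    szX a 0 = Units.map dblMat (Matrix.SpecialLinearGroup.toGL (Cfsg.Agent.S2353.genA a)) := by
  apply Units.ext
  show szU a 0 * szS a 0 = dblMat (!![1 + a * a, a; a, 1])
  ext i j
  fin_cases i <;> fin_cases j <;>
    simp [szU, szS, dblMat, Matrix.mul_apply, Fin.sum_univ_four] <;> ring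

end SzMat

section Deg

variable {F : Type*} [Field F]

/-- All entries have degree at most `d`. -/
def DegLE (A : Matrix (Fin 4) (Fin 4) F[X]) (d : ℕ) : Prop := ∀ i j, (A i j).natDegree ≤ d

theorem DegLE.one : DegLE (1 : Matrix (Fin 4) (Fin 4) F[X]) 0 := by
  intro i j
  rw [Matrix.one_apply]
  split <;> simp

theorem DegLE.mul {A B : Matrix (Fin 4) (Fin 4) F[X]} {d e : ℕ} (hA : DegLE A d)
    (hB : DegLE B e) : DegLE (A * B) (d + e) := by
  intro i j
  rw [Matrix.mul_apply]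
  apply Polynomial.natDegree_sum_le_of_forall_le
  intro k _
  exact (natDegree_mul_le).trans (Nat.add_le_add (hA i k) (hB k j))

theorem DegLE.mono {A : Matrix (Fin 4) (Fin 4) F[X]} {d e : ℕ} (hA : DegLE A d) (h : d ≤ e) :
    DegLE A e := fun i j => (hA i j).trans h

theorem degLE_sz (a a' : F[X]) (n k : ℕ) (ha : a.natDegree ≤ n) (ha' : a'.natDegree ≤ k) :
    DegLE (szS a a') (2 * n + k) ∧ DegLE (szSi a a') (2 * n + k) ∧
    DegLE (szU a a') (2 * n + k) ∧ DegLE (szUi a a') (2 * n + k) := by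
  have h1 : a.natDegree ≤ 2 * n + k := by omega
  have h2 : a'.natDegree ≤ 2 * n + k := by omega
  have h3 : (a * a').natDegree ≤ 2 * n + k :=
    natDegree_mul_le.trans (by omega)
  have h4 : (a ^ 2 * a').natDegree ≤ 2 * n + k :=
    natDegree_mul_le.trans (by
      have := natDegree_pow_le (p := a) (n := 2)
      omega)
  refine ⟨?_, ?_, ?_, ?_⟩
  · intro i j
    fin_cases i <;> fin_cases j <;> simp [szS] <;> first | exact h1 | exact h2 | exact h3 | exact h4
  · intro i j
    fin_cases i <;> fin_cases j <;> simp [szSi] <;>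
      first | exact h1 | exact h2 | exact h3 | exact h4
  · intro i j
    fin_cases i <;> fin_cases j <;> simp [szU] <;> first | exact h1 | exact h2 | exact h3 | exact h4
  · intro i j
    fin_cases i <;> fin_cases j <;> simp [szUi] <;>
      first | exact h1 | exact h2 | exact h3 | exact h4

/-- The polynomial letters. -/
noncomputable def szPoly (F : Type*) [Field F] (θ : ℕ) (i : ℕ) : (Matrix (Fin 4) (Fin 4) F[X])ˣ :=
  szX (X ^ (i + 1)) (X ^ ((i + 1) * θ))

theorem degLE_szPoly (θ i : ℕ) :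
    DegLE (szPoly F θ i).val ((i + 1) * (4 + 2 * θ)) ∧
    DegLE ((szPoly F θ i)⁻¹).val ((i + 1) * (4 + 2 * θ)) := by
  obtain ⟨h1, h2, h3, h4⟩ := degLE_sz (X ^ (i + 1) : F[X]) (X ^ ((i + 1) * θ)) (i + 1)
    ((i + 1) * θ) (by rw [natDegree_X_pow]) (by rw [natDegree_X_pow])
  constructor
  · rw [szPoly, szX_val]
    exact (h3.mul h1).mono (by ring_nf; omega)
  · rw [szPoly, szX_inv_val]
    exact (h2.mul h4).mono (by ring_nf; omega)

/-- The degree weight of a word. -/
def szBound (L : List (ℕ × Bool)) : ℕ := (L.map fun p => p.1 + 1).sum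

theorem degLE_word (θ : ℕ) (L : List (ℕ × Bool)) :
    DegLE ((L.map fun x => cond x.2 (szPoly F θ x.1) (szPoly F θ x.1)⁻¹).prod).val
      (szBound L * (4 + 2 * θ)) := by
  induction L with
  | nil =>
    simp only [List.map_nil, List.prod_nil, Units.val_one, szBound, List.sum_nil, zero_mul]
    exact DegLE.one
  | cons p L ih =>
    rw [List.map_cons, List.prod_cons, Units.val_mul]
    have h1 : DegLE (cond p.2 (szPoly F θ p.1) (szPoly F θ p.1)⁻¹).val
        ((p.1 + 1) * (4 + 2 * θ)) := by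
      cases p.2
      · exact (degLE_szPoly θ p.1).2
      · exact (degLE_szPoly θ p.1).1
    refine (h1.mul ih).mono ?_
    simp only [szBound, List.map_cons, List.sum_cons]
    exact le_of_eq (by ring)

end Deg

section SzMem

variable {F : Type*} [Field F]

theorem szSU_mem (e : ℕ) (he : e ≠ 0) (h2 : (2 : F) = 0) (a a' : F) (h1 : a ^ e = a')
    (h1' : a' ^ e = a ^ 2) : szSU a a' ∈ Cfsg.Lie.Sz F e := by
  have h3 : (a ^ 2) ^ e = a' ^ 2 := by rw [← pow_mul, mul_comm, pow_mul, h1]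
  apply Subgroup.subset_closure
  constructor
  · intro u v
    show Cfsg.Lie.altForm4 (szS a a' *ᵥ u) (szS a a' *ᵥ v) = Cfsg.Lie.altForm4 u v
    simp only [Cfsg.Lie.altForm4, szS, Matrix.mulVec, dotProduct, Fin.sum_univ_four,
      Matrix.of_apply, Matrix.cons_val_zero, Matrix.cons_val_one, Matrix.cons_val]
    grind
  · show Cfsg.Lie.star4 (szS a a') = (szS a a').map (fun x => x ^ e)
    ext i j
    fin_cases i <;> fin_cases j <;>
      simp [Cfsg.Lie.star4, Cfsg.Lie.pairOf, szS, mul_pow, h1, h1', h3, he] <;> grind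

theorem szUU_mem (e : ℕ) (he : e ≠ 0) (h2 : (2 : F) = 0) (a a' : F) (h1 : a ^ e = a')
    (h1' : a' ^ e = a ^ 2) : szUU a a' ∈ Cfsg.Lie.Sz F e := by
  have h3 : (a ^ 2) ^ e = a' ^ 2 := by rw [← pow_mul, mul_comm, pow_mul, h1]
  apply Subgroup.subset_closure
  constructor
  · intro u v
    show Cfsg.Lie.altForm4 (szU a a' *ᵥ u) (szU a a' *ᵥ v) = Cfsg.Lie.altForm4 u v
    simp only [Cfsg.Lie.altForm4, szU, Matrix.mulVec, dotProduct, Fin.sum_univ_four,
      Matrix.of_apply, Matrix.cons_val_zero, Matrix.cons_val_one, Matrix.cons_val]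
    grind
  · show Cfsg.Lie.star4 (szU a a') = (szU a a').map (fun x => x ^ e)
    ext i j
    fin_cases i <;> fin_cases j <;>
      simp [Cfsg.Lie.star4, Cfsg.Lie.pairOf, szU, mul_pow, h1, h1', h3, he] <;> grind

end SzMem

end Cfsg.Agent.H7
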