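import Mathlib
import Cfsg.Prelude.Def_Classical
import Cfsg.Prelude.Def_ClassicalGeometry
import Cfsg.Agent.H7.OmegaPlus
import Cfsg.Agent.H7.OmegaTwo
import Cfsg.Agent.H7.OrthBase
import Cfsg.Agent.H49.NegOne

set_option autoImplicit false

namespace Cfsg.Agent.H7

open Matrix Cfsg Module

section MinusCenter

variable {F : Type*} [Field F] (k : ℕ) (a b : F)

theorem polar_qMinus (x y : (Fin k ⊕ Fin k) ⊕ Fin 2 → F) :
    QuadraticMap.polar ⇑(qMinus k a b) x y =
      ∑ i : Fin k, (x (Sum.inl (Sum.inl i)) * y (Sum.inl (Sum.inr i)) +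
        y (Sum.inl (Sum.inl i)) * x (Sum.inl (Sum.inr i))) +
      ((2 * x (Sum.inr 0) + a * x (Sum.inr 1)) * y (Sum.inr 0) +
        (a * x (Sum.inr 0) + 2 * b * x (Sum.inr 1)) * y (Sum.inr 1)) := by
  rw [qMinus_coe]
  simp only [QuadraticMap.polar, quadFormMinus, Pi.add_apply]
  have e : ∑ i : Fin k, (x (Sum.inl (Sum.inl i)) + y (Sum.inl (Sum.inl i))) *
        (x (Sum.inl (Sum.inr i)) + y (Sum.inl (Sum.inr i))) -
      ∑ i : Fin k, x (Sum.inl (Sum.inl i)) * x (Sum.inl (Sum.inr i)) -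
      ∑ i : Fin k, y (Sum.inl (Sum.inl i)) * y (Sum.inl (Sum.inr i)) =
      ∑ i : Fin k, (x (Sum.inl (Sum.inl i)) * y (Sum.inl (Sum.inr i)) +
        y (Sum.inl (Sum.inl i)) * x (Sum.inl (Sum.inr i))) := by
    rw [← Finset.sum_sub_distrib, ← Finset.sum_sub_distrib]
    exact Finset.sum_congr rfl (fun i _ => by ring)
  linear_combination e

theorem polar_qMinus_inl (i : Fin k) (y : (Fin k ⊕ Fin k) ⊕ Fin 2 → F) :
    QuadraticMap.polar ⇑(qMinus k a b) (Pi.single (Sum.inl (Sum.inl i)) 1) y =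
      y (Sum.inl (Sum.inr i)) := by
  rw [polar_qMinus]
  simp [Pi.single_apply]

theorem polar_qMinus_inr (i : Fin k) (y : (Fin k ⊕ Fin k) ⊕ Fin 2 → F) :
    QuadraticMap.polar ⇑(qMinus k a b) (Pi.single (Sum.inl (Sum.inr i)) 1) y =
      y (Sum.inl (Sum.inl i)) := by
  rw [polar_qMinus]
  simp [Pi.single_apply]

theorem polar_qMinus_bin (j : Fin 2) (y : (Fin k ⊕ Fin k) ⊕ Fin 2 → F) :
    QuadraticMap.polar ⇑(qMinus k a b) (Pi.single (Sum.inr j) 1) y =
      (2 * (Pi.single j 1 : Fin 2 → F) 0 + a * (Pi.single j 1 : Fin 2 → F) 1) * y (Sum.inr 0) +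
      (a * (Pi.single j 1 : Fin 2 → F) 0 + 2 * b * (Pi.single j 1 : Fin 2 → F) 1) *
        y (Sum.inr 1) := by
  rw [polar_qMinus]
  fin_cases j <;> simp [Pi.single_apply]

theorem qMinus_single_inl (j : Fin k ⊕ Fin k) :
    qMinus k a b (Pi.single (Sum.inl j) 1) = 0 := by
  rw [qMinus_coe]
  rcases j with i | i <;> simp [quadFormMinus, Pi.single_apply]

theorem qMinus_single_bin (j : Fin 2) :
    qMinus k a b (Pi.single (Sum.inr j) 1) = qBin a b (Pi.single j 1) := by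
  rw [qMinus_coe, qBin_apply]
  fin_cases j <;> simp [quadFormMinus, Pi.single_apply]

theorem qMinus_nondeg [Fintype F]
    (hab : ∀ z₁ z₂ : F, z₁ ^ 2 + a * z₁ * z₂ + b * z₂ ^ 2 = 0 → z₁ = 0 ∧ z₂ = 0) :
    (QuadraticMap.polarBilin (qMinus k a b)).Nondegenerate := by
  have key : ∀ x : (Fin k ⊕ Fin k) ⊕ Fin 2 → F,
      (∀ y, QuadraticMap.polar (⇑(qMinus k a b)) x y = 0) → x = 0 := by
    intro x hx
    have hbin : x ∘ Sum.inr = 0 := by
      by_contra hne
      obtain ⟨y, hy⟩ := qBin_nondeg a b hab (x ∘ Sum.inr) hne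
      apply hy
      have h1 := hx (Sum.elim 0 y)
      rw [polar_qMinus] at h1
      rw [polar_qBin]
      simpa using h1
    funext j
    rcases j with (i | i) | j
    · have := hx (Pi.single (Sum.inl (Sum.inr i)) 1)
      rw [QuadraticMap.polar_comm, polar_qMinus_inr] at this
      exact this
    · have := hx (Pi.single (Sum.inl (Sum.inl i)) 1)
      rw [QuadraticMap.polar_comm, polar_qMinus_inl] at this
      exact this
    · exact congrFun hbin j
  constructor
  · intro x hx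
    exact key x hx
  · intro y hy
    apply key y
    intro x
    rw [QuadraticMap.polar_comm]
    exact hy x

/-- The vector `e_i + t f_i` of norm `t`. -/
def hypM (t : F) (i : Fin k) : (Fin k ⊕ Fin k) ⊕ Fin 2 → F :=
  Pi.single (Sum.inl (Sum.inl i)) 1 + t • Pi.single (Sum.inl (Sum.inr i)) 1

theorem polar_qMinus_hypM (t : F) (i : Fin k) (y : (Fin k ⊕ Fin k) ⊕ Fin 2 → F) :
    QuadraticMap.polar ⇑(qMinus k a b) (hypM k t i) y =
      y (Sum.inl (Sum.inr i)) + t * y (Sum.inl (Sum.inl i)) := by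
  rw [hypM, QuadraticMap.polar_add_left, QuadraticMap.polar_smul_left, polar_qMinus_inl,
    polar_qMinus_inr, smul_eq_mul]

theorem qMinus_hypM (t : F) (i : Fin k) : qMinus k a b (hypM k t i) = t := by
  rw [hypM, qf_add, QuadraticMap.map_smul, qMinus_single_inl, qMinus_single_inl,
    polar_qMinus_inl]
  simp

/-- An isometry of the minus-type form centralising `Ω` is `± 1` (all characteristics), given
that `Ω` contains the products of two reflections of equal norm and the orthogonal group is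
transitive on vectors of each non-zero norm. -/
theorem cent_qMinus_scalar (hk : 3 ≤ k) (hb : b ≠ 0)
    (z : ↥(isometryGroup F ⇑(qMinus k a b))) (hz : CentOmega (qMinus k a b) z)
    (hrr : ∀ u w : (Fin k ⊕ Fin k) ⊕ Fin 2 → F, qMinus k a b u = qMinus k a b w →
      qMinus k a b u ≠ 0 →
      Cfsg.Agent.H49.reflG (qMinus k a b) u * Cfsg.Agent.H49.reflG (qMinus k a b) w ∈
        commutator ↥(isometryGroup F ⇑(qMinus k a b)))
    (htr : ∀ u u' : (Fin k ⊕ Fin k) ⊕ Fin 2 → F, qMinus k a b u = qMinus k a b u' →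
      qMinus k a b u ≠ 0 →
      ∃ g : ↥(isometryGroup F ⇑(qMinus k a b)),
        ((g : GL ((Fin k ⊕ Fin k) ⊕ Fin 2) F) :
          Matrix ((Fin k ⊕ Fin k) ⊕ Fin 2) ((Fin k ⊕ Fin k) ⊕ Fin 2) F) *ᵥ u = u') :
    ∃ c : F, ((z : GL ((Fin k ⊕ Fin k) ⊕ Fin 2) F) :
      Matrix ((Fin k ⊕ Fin k) ⊕ Fin 2) ((Fin k ⊕ Fin k) ⊕ Fin 2) F) = c • 1 ∧ c * c = 1 := by
  set k0 : Fin k := ⟨0, by omega⟩ with hk0
  set k1 : Fin k := ⟨1, by omega⟩ with hk1
  set k2 : Fin k := ⟨2, by omega⟩ with hk2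
  have h01 : k0 ≠ k1 := fun h => by simpa [hk0, hk1] using congrArg Fin.val h
  have h02 : k0 ≠ k2 := fun h => by simpa [hk0, hk2] using congrArg Fin.val h
  have h12 : k1 ≠ k2 := fun h => by simpa [hk1, hk2] using congrArg Fin.val h
  have hS : ∀ u : (Fin k ⊕ Fin k) ⊕ Fin 2 → F, qMinus k a b u ≠ 0 →
      ∃ α : F, ((z : GL ((Fin k ⊕ Fin k) ⊕ Fin 2) F) :
        Matrix ((Fin k ⊕ Fin k) ⊕ Fin 2) ((Fin k ⊕ Fin k) ⊕ Fin 2) F) *ᵥ u = α • u := by
    intro u hu
    set t := qMinus k a b u with ht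
    obtain ⟨g, hg⟩ := htr (hypM k t k0) u (qMinus_hypM k a b t k0) (by
      rw [qMinus_hypM]; exact hu)
    exact cent_eigen_orbit' (qMinus k a b) z hz (hypM k t k0) (hypM k t k1) (hypM k t k2)
      (Pi.single (Sum.inl (Sum.inl k0)) 1)
      (by rw [qMinus_hypM]; exact hu)
      (hrr _ _ (by rw [qMinus_hypM, qMinus_hypM]) (by rw [qMinus_hypM]; exact hu))
      (hrr _ _ (by rw [qMinus_hypM, qMinus_hypM]) (by rw [qMinus_hypM]; exact hu))
      (by rw [polar_qMinus_hypM]; simp [hypM, Pi.single_apply, h01])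
      (by rw [polar_qMinus_hypM]; simp [hypM, Pi.single_apply, h02])
      (by rw [polar_qMinus_hypM]; simp [Pi.single_apply, h01])
      (by rw [polar_qMinus_hypM]; simp [Pi.single_apply, h02])
      (by rw [polar_qMinus_hypM]; simpa using hu)
      (Sum.inl (Sum.inl k1)) (by simp [hypM, Pi.single_apply, h01])
      (by simp [hypM, Pi.single_apply, h12]) (by simp [hypM])
      u g hg
  have hQ1 : ∀ l : Fin k, qMinus k a b (hypM k 1 l) ≠ 0 := fun l => by
    rw [qMinus_hypM]; exact one_ne_zero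
  choose cf hcf using fun l : Fin k => hS (hypM k 1 l) (hQ1 l)
  have hbasis : ∀ (j l : Fin k), l ≠ j → ∀ s : (Fin k ⊕ Fin k) ⊕ Fin 2 → F,
      (s = Pi.single (Sum.inl (Sum.inl j)) 1 ∨ s = Pi.single (Sum.inl (Sum.inr j)) 1) →
      ((z : GL ((Fin k ⊕ Fin k) ⊕ Fin 2) F) :
        Matrix ((Fin k ⊕ Fin k) ⊕ Fin 2) ((Fin k ⊕ Fin k) ⊕ Fin 2) F) *ᵥ s = cf l • s := by
    intro j l hlj s hs
    obtain ⟨l', hl'j, hl'l⟩ := exists_third hk j l
    have hQs : qMinus k a b s = 0 := by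
      rcases hs with rfl | rfl <;> exact qMinus_single_inl k a b _
    have hps : ∀ n : Fin k, n ≠ j →
        QuadraticMap.polar ⇑(qMinus k a b) (hypM k 1 n) s = 0 := by
      intro n hn
      rw [polar_qMinus_hypM]
      rcases hs with rfl | rfl <;> simp [Pi.single_apply, hn]
    obtain ⟨μ, hμ⟩ := hS (hypM k 1 l + s) (by
      rw [qf_add, qMinus_hypM, hQs, hps l hlj]; simp)
    obtain ⟨μ', hμ'⟩ := hS (hypM k 1 l' + s) (by
      rw [qf_add, qMinus_hypM, hQs, hps l' hl'j]; simp)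
    exact eigen_of_four _ (hypM k 1 l) (hypM k 1 l') s (cf l) (cf l') μ μ'
      (Sum.inl (Sum.inl l))
      (by simp [hypM]) (by simp [hypM, Pi.single_apply, hl'l])
      (by rcases hs with rfl | rfl <;> simp [Pi.single_apply, hlj])
      (hcf l) hμ (hcf l') hμ'
  have hc1 : cf k1 = cf k0 := by
    have e1 := hcf k1
    rw [hypM, Matrix.mulVec_add, one_smul, hbasis k1 k0 h01 _ (Or.inl rfl),
      hbasis k1 k0 h01 _ (Or.inr rfl)] at e1
    have e2 := congrFun e1 (Sum.inl (Sum.inl k1))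
    simp [Pi.single_apply] at e2
    exact e2.symm
  have he0 : ((z : GL ((Fin k ⊕ Fin k) ⊕ Fin 2) F) :
      Matrix ((Fin k ⊕ Fin k) ⊕ Fin 2) ((Fin k ⊕ Fin k) ⊕ Fin 2) F) *ᵥ
        Pi.single (Sum.inl (Sum.inl k0)) 1 = cf k0 • Pi.single (Sum.inl (Sum.inl k0)) 1 := by
    rw [← hc1]
    exact hbasis k0 k1 h01.symm _ (Or.inl rfl)
  refine ⟨cf k0, eq_smul_one_of_single _ _ ?_, ?_⟩
  · rintro ((j | j) | j)
    · by_cases hj : k0 = j
      · rw [← hc1]
        exact hbasis j k1 (hj ▸ h01.symm) _ (Or.inl rfl)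
      · exact hbasis j k0 hj _ (Or.inl rfl)
    · by_cases hj : k0 = j
      · rw [← hc1]
        exact hbasis j k1 (hj ▸ h01.symm) _ (Or.inr rfl)
      · exact hbasis j k0 hj _ (Or.inr rfl)
    · -- binary coordinates
      have hQs : qMinus k a b (Pi.single (Sum.inr j) 1) ≠ 0 := by
        rw [qMinus_single_bin, qBin_apply]
        fin_cases j
        · simp
        · simpa using hb
      obtain ⟨γ, hγ⟩ := hS (Pi.single (Sum.inr j) 1) hQs
      have hpe : QuadraticMap.polar ⇑(qMinus k a b) (Pi.single (Sum.inl (Sum.inl k0)) 1)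
          (Pi.single (Sum.inr j) 1) = 0 := by
        rw [polar_qMinus_inl]
        simp
      obtain ⟨μ, hμ⟩ := hS (Pi.single (Sum.inl (Sum.inl k0)) 1 + Pi.single (Sum.inr j) 1) (by
        rw [qf_add, qMinus_single_inl, hpe, zero_add, add_zero]
        exact hQs)
      rw [Matrix.mulVec_add, he0, hγ] at hμ
      have e1 := congrFun hμ (Sum.inl (Sum.inl k0))
      have e2 := congrFun hμ (Sum.inr j)
      simp [Pi.single_apply] at e1 e2
      rw [hγ, e2, ← e1]
  · have h1 := Cfsg.Agent.H49.isometry_apply z (hypM k 1 k0)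
    rw [hcf k0, QuadraticMap.map_smul, qMinus_hypM] at h1
    simpa using h1

end MinusCenter

end Cfsg.Agent.H7
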