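import Mathlib
import Cfsg.Prelude.Def_Classical
import Cfsg.Prelude.Def_ClassicalGeometry
import Cfsg.Agent.H7.OrthBase
import Cfsg.Agent.H3.Dihedral

set_option autoImplicit false

namespace Cfsg.Agent.H7

open Matrix Cfsg

section ReindexIso

variable {F : Type*} [Field F] {ι ι' : Type} [Fintype ι] [DecidableEq ι] [Fintype ι']
  [DecidableEq ι']

theorem mem_isometry_reindex_iff (e : ι ≃ ι') (Q : (ι → F) → F) (Q' : (ι' → F) → F)
    (h : ∀ v : ι' → F, Q' v = Q (v ∘ e)) (g : GL ι F) :
    g ∈ isometryGroup F Q ↔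
      Units.mapEquiv (Matrix.reindexAlgEquiv F F e).toMulEquiv g ∈ isometryGroup F Q' := by
  set φ : GL ι F ≃* GL ι' F := Units.mapEquiv (Matrix.reindexAlgEquiv F F e).toMulEquiv with hφdef
  have hφ : ∀ g : GL ι F, (φ g).1 = g.1.submatrix e.symm e.symm := fun g => rfl
  rw [Cfsg.Agent.H49.mem_isometryGroup_iff, Cfsg.Agent.H49.mem_isometryGroup_iff]
  constructor
  · intro hg v
    show Q' ((φ g).1 *ᵥ v) = Q' v
    rw [hφ, Matrix.submatrix_mulVec_equiv, h, h]
    simp only [Equiv.symm_symm]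
    have e1 : ((g.1 *ᵥ (v ∘ e)) ∘ e.symm) ∘ e = g.1 *ᵥ (v ∘ e) := by
      funext i; simp
    rw [e1]
    exact hg (v ∘ e)
  · intro hg u
    have h1 := hg (u ∘ e.symm)
    change Q' ((φ g).1 *ᵥ (u ∘ e.symm)) = Q' (u ∘ e.symm) at h1
    rw [hφ, Matrix.submatrix_mulVec_equiv, h, h] at h1
    simp only [Equiv.symm_symm] at h1
    have e1 : (u ∘ e.symm) ∘ e = u := by funext i; simp
    have e2 : ((g.1 *ᵥ ((u ∘ e.symm) ∘ e)) ∘ e.symm) ∘ e = g.1 *ᵥ u := by
      rw [e1]; funext i; simp
    rw [e2, e1] at h1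
    exact h1

/-- Reindexing the coordinates gives an isomorphism of isometry groups. -/
noncomputable def isometryReindex (e : ι ≃ ι') (Q : (ι → F) → F) (Q' : (ι' → F) → F)
    (h : ∀ v : ι' → F, Q' v = Q (v ∘ e)) :
    ↥(isometryGroup F Q) ≃* ↥(isometryGroup F Q') :=
  { toEquiv := (Units.mapEquiv (Matrix.reindexAlgEquiv F F e).toMulEquiv).toEquiv.subtypeEquiv
      (mem_isometry_reindex_iff e Q Q' h)
    map_mul' := fun x y => Subtype.ext
      (map_mul (Units.mapEquiv (Matrix.reindexAlgEquiv F F e).toMulEquiv) x.1 y.1) }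

end ReindexIso

section Rot

variable {F : Type*} [Field F]

/-- Multiplication by `u₀ + u₁ θ` in the basis `1, θ`, where `θ² = a θ - b`. -/
def rotM (a b : F) (u : Fin 2 → F) : Matrix (Fin 2) (Fin 2) F :=
  !![u 0, -(b * u 1); u 1, u 0 + a * u 1]

theorem rotM_mulVec (a b : F) (u v : Fin 2 → F) :
    rotM a b u *ᵥ v = ![u 0 * v 0 - b * u 1 * v 1, u 1 * v 0 + (u 0 + a * u 1) * v 1] := by
  funext i
  fin_cases i
  · simp [rotM, Matrix.mulVec, dotProduct, Fin.sum_univ_two]
    ring
  · simp [rotM, Matrix.mulVec, dotProduct, Fin.sum_univ_two]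

theorem rotM_mul (a b : F) (u v : Fin 2 → F) :
    rotM a b u * rotM a b v = rotM a b (rotM a b u *ᵥ v) := by
  rw [rotM_mulVec]
  ext i j
  fin_cases i <;> fin_cases j <;>
    simp [rotM, Matrix.mul_apply, Fin.sum_univ_two] <;> ring

theorem qBin_rotM (a b : F) (u v : Fin 2 → F) :
    qBin a b (rotM a b u *ᵥ v) = qBin a b u * qBin a b v := by
  rw [rotM_mulVec, qBin_apply, qBin_apply, qBin_apply]
  simp only [Matrix.cons_val_zero, Matrix.cons_val_one]
  ring

/-- The conjugate of `u₀ + u₁ θ`. -/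
def conjV (a : F) (u : Fin 2 → F) : Fin 2 → F := ![u 0 + a * u 1, -u 1]

theorem qBin_conjV (a b : F) (u : Fin 2 → F) : qBin a b (conjV a u) = qBin a b u := by
  rw [qBin_apply, qBin_apply]
  simp only [conjV, Matrix.cons_val_zero, Matrix.cons_val_one]
  ring

theorem rotM_mul_conj (a b : F) (u : Fin 2 → F) :
    rotM a b u * rotM a b (conjV a u) = qBin a b u • (1 : Matrix (Fin 2) (Fin 2) F) := by
  ext i j
  fin_cases i <;> fin_cases j <;>
    simp [rotM, conjV, qBin_apply, Matrix.mul_apply, Fin.sum_univ_two] <;> ring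

theorem rotM_one (a b : F) : rotM a b ![1, 0] = 1 := by
  ext i j
  fin_cases i <;> fin_cases j <;> simp [rotM]

/-- The rotation attached to a vector of norm one. -/
def rotG (a b : F) (u : Fin 2 → F) (hu : qBin a b u = 1) : ↥(isometryGroup F ⇑(qBin a b)) :=
  ⟨⟨rotM a b u, rotM a b (conjV a u), by rw [rotM_mul_conj, hu, one_smul],
      mul_eq_one_comm.mp (by rw [rotM_mul_conj, hu, one_smul])⟩,
    Cfsg.Agent.H49.mem_isometryGroup_iff.mpr (fun v => by
      show qBin a b (rotM a b u *ᵥ v) = _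
      rw [qBin_rotM, hu, one_mul])⟩

theorem rotG_coe (a b : F) (u : Fin 2 → F) (hu : qBin a b u = 1) :
    ((rotG a b u hu : GL (Fin 2) F) : Matrix (Fin 2) (Fin 2) F) = rotM a b u := rfl

theorem rotG_mul (a b : F) (u v : Fin 2 → F) (hu : qBin a b u = 1) (hv : qBin a b v = 1) :
    rotG a b u hu * rotG a b v hv =
      rotG a b (rotM a b u *ᵥ v) (by rw [qBin_rotM, hu, hv, one_mul]) :=
  Subtype.ext (Units.ext (rotM_mul a b u v))

theorem rotG_inv (a b : F) (u : Fin 2 → F) (hu : qBin a b u = 1) :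
    (rotG a b u hu)⁻¹ = rotG a b (conjV a u) (by rw [qBin_conjV, hu]) := by
  apply inv_eq_of_mul_eq_one_right
  apply Subtype.ext
  apply Units.ext
  show rotM a b u * rotM a b (conjV a u) = 1
  rw [rotM_mul_conj, hu, one_smul]

theorem rotG_one (a b : F) :
    rotG a b ![1, 0] (by rw [qBin_apply]; simp) = 1 :=
  Subtype.ext (Units.ext (rotM_one a b))

theorem rotG_injective (a b : F) (u v : Fin 2 → F) (hu : qBin a b u = 1) (hv : qBin a b v = 1)
    (h : rotG a b u hu = rotG a b v hv) : u = v := by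
  have h1 : rotM a b u = rotM a b v := congrArg
    (fun g : ↥(isometryGroup F ⇑(qBin a b)) => ((g : GL (Fin 2) F) : Matrix (Fin 2) (Fin 2) F)) h
  funext i
  fin_cases i
  · simpa [rotM] using congrFun (congrFun h1 0) 0
  · simpa [rotM] using congrFun (congrFun h1 1) 0

/-- The subgroup of rotations. -/
def rotSub (a b : F) : Subgroup ↥(isometryGroup F ⇑(qBin a b)) where
  carrier := Set.range (fun u : {u : Fin 2 → F // qBin a b u = 1} => rotG a b u.1 u.2)
  mul_mem' := by
    rintro _ _ ⟨u, rfl⟩ ⟨v, rfl⟩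
    exact ⟨⟨rotM a b u.1 *ᵥ v.1, by rw [qBin_rotM, u.2, v.2, one_mul]⟩,
      (rotG_mul a b u.1 v.1 u.2 v.2).symm⟩
  one_mem' := ⟨⟨![1, 0], by rw [qBin_apply]; simp⟩, rotG_one a b⟩
  inv_mem' := by
    rintro _ ⟨u, rfl⟩
    exact ⟨⟨conjV a u.1, by rw [qBin_conjV, u.2]⟩, (rotG_inv a b u.1 u.2).symm⟩

theorem mem_rotSub (a b : F) (g : ↥(isometryGroup F ⇑(qBin a b))) :
    g ∈ rotSub a b ↔ ∃ (u : Fin 2 → F) (hu : qBin a b u = 1), rotG a b u hu = g := by
  constructor
  · rintro ⟨u, rfl⟩
    exact ⟨u.1, u.2, rfl⟩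
  · rintro ⟨u, hu, rfl⟩
    exact ⟨⟨u, hu⟩, rfl⟩

theorem card_rotSub [Fintype F] (a b : F)
    (hab : ∀ z₁ z₂ : F, z₁ ^ 2 + a * z₁ * z₂ + b * z₂ ^ 2 = 0 → z₁ = 0 ∧ z₂ = 0) :
    Nat.card ↥(rotSub a b) = Fintype.card F + 1 := by
  rw [← card_fiber_qBin a b hab 1 one_ne_zero]
  have hinj : Function.Injective
      (fun u : {u : Fin 2 → F // qBin a b u = 1} => rotG a b u.1 u.2) := by
    intro u v h
    exact Subtype.ext (rotG_injective a b u.1 v.1 u.2 v.2 h)
  exact (Nat.card_congr (Equiv.ofInjective _ hinj)).symm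

/-- The conjugation `u₀ + u₁ θ ↦ u₀ + u₁ θ̄`. -/
def conjM (a : F) : Matrix (Fin 2) (Fin 2) F := !![1, a; 0, -1]

theorem conjM_mul_self (a : F) : conjM a * conjM a = 1 := by
  ext i j
  fin_cases i <;> fin_cases j <;> simp [conjM, Matrix.mul_apply, Fin.sum_univ_two]

theorem conjM_mulVec (a : F) (v : Fin 2 → F) : conjM a *ᵥ v = conjV a v := by
  funext i
  fin_cases i <;> simp [conjM, conjV, Matrix.mulVec, dotProduct, Fin.sum_univ_two]

/-- The conjugation as an isometry. -/
def conjG (a b : F) : ↥(isometryGroup F ⇑(qBin a b)) :=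
  ⟨⟨conjM a, conjM a, conjM_mul_self a, conjM_mul_self a⟩,
    Cfsg.Agent.H49.mem_isometryGroup_iff.mpr (fun v => by
      show qBin a b (conjM a *ᵥ v) = _
      rw [conjM_mulVec, qBin_conjV])⟩

theorem conjG_mul_self (a b : F) : conjG a b * conjG a b = 1 :=
  Subtype.ext (Units.ext (conjM_mul_self a))

theorem conj_rotM (a b : F) (u : Fin 2 → F) :
    conjM a * rotM a b u * conjM a = rotM a b (conjV a u) := by
  ext i j
  fin_cases i <;> fin_cases j <;>
    simp [conjM, rotM, conjV, Matrix.mul_apply, Fin.sum_univ_two] <;> ring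

end Rot

section Cyc

variable {F : Type*} [Field F] [Fintype F]

open Polynomial in
/-- The rotation group of an anisotropic binary form is cyclic. -/
theorem rotSub_isCyclic (a b : F)
    (hab : ∀ z₁ z₂ : F, z₁ ^ 2 + a * z₁ * z₂ + b * z₂ ^ 2 = 0 → z₁ = 0 ∧ z₂ = 0) :
    IsCyclic ↥(rotSub a b) := by
  classical
  have hdeg : degree (C (1 : AlgebraicClosure F) * X ^ 2 +
      C (-(algebraMap F (AlgebraicClosure F) a)) * X +
      C (algebraMap F (AlgebraicClosure F) b) : (AlgebraicClosure F)[X]) = 2 :=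
    degree_quadratic one_ne_zero
  obtain ⟨θ, hθ⟩ := IsAlgClosed.exists_root (C (1 : AlgebraicClosure F) * X ^ 2 +
      C (-(algebraMap F (AlgebraicClosure F) a)) * X +
      C (algebraMap F (AlgebraicClosure F) b) : (AlgebraicClosure F)[X])
      (by rw [hdeg]; norm_num)
  simp only [IsRoot, eval_add, eval_mul, eval_C, eval_pow, eval_X, one_mul] at hθ
  let f : ↥(rotSub a b) →* AlgebraicClosure F :=
    { toFun := fun h => algebraMap F (AlgebraicClosure F) (h.1.1.1 0 0) +
        algebraMap F (AlgebraicClosure F) (h.1.1.1 1 0) * θ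
      map_one' := by simp
      map_mul' := by
        rintro ⟨_, ⟨u, rfl⟩⟩ ⟨_, ⟨v, rfl⟩⟩
        show algebraMap F (AlgebraicClosure F) ((rotM a b u.1 * rotM a b v.1) 0 0) +
          algebraMap F (AlgebraicClosure F) ((rotM a b u.1 * rotM a b v.1) 1 0) * θ =
          (algebraMap F (AlgebraicClosure F) (rotM a b u.1 0 0) +
            algebraMap F (AlgebraicClosure F) (rotM a b u.1 1 0) * θ) *
          (algebraMap F (AlgebraicClosure F) (rotM a b v.1 0 0) +
            algebraMap F (AlgebraicClosure F) (rotM a b v.1 1 0) * θ)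
        simp only [rotM, Matrix.mul_apply, Fin.sum_univ_two, Matrix.of_apply, Matrix.cons_val_zero,
          Matrix.cons_val_one, Matrix.cons_val', Matrix.cons_val_fin_one, map_add, map_mul,
          map_neg]
        linear_combination (-(algebraMap F (AlgebraicClosure F) (u.1 1) *
          algebraMap F (AlgebraicClosure F) (v.1 1))) * hθ }
  have hf : Function.Injective f := by
    rintro ⟨_, ⟨u, rfl⟩⟩ ⟨_, ⟨v, rfl⟩⟩ h
    change algebraMap F (AlgebraicClosure F) (rotM a b u.1 0 0) +
        algebraMap F (AlgebraicClosure F) (rotM a b u.1 1 0) * θ =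
      algebraMap F (AlgebraicClosure F) (rotM a b v.1 0 0) +
        algebraMap F (AlgebraicClosure F) (rotM a b v.1 1 0) * θ at h
    simp only [rotM, Matrix.of_apply, Matrix.cons_val_zero, Matrix.cons_val_one, Matrix.cons_val',
      Matrix.cons_val_fin_one] at h
    have hinjA := (algebraMap F (AlgebraicClosure F)).injective
    have huv : u = v := by
      apply Subtype.ext
      by_cases hd : u.1 1 = v.1 1
      · rw [hd] at h
        have h0 : u.1 0 = v.1 0 := hinjA (add_right_cancel h)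
        funext i
        fin_cases i
        · exact h0
        · exact hd
      · exfalso
        have hd' : algebraMap F (AlgebraicClosure F) (u.1 1 - v.1 1) ≠ 0 := by
          rw [Ne, map_eq_zero, sub_eq_zero]
          exact hd
        have hθ' : θ = algebraMap F (AlgebraicClosure F) ((v.1 0 - u.1 0) / (u.1 1 - v.1 1)) := by
          rw [map_div₀, eq_div_iff hd', map_sub, map_sub]
          linear_combination h
        set s := (v.1 0 - u.1 0) / (u.1 1 - v.1 1) with hs
        rw [hθ'] at hθ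
        have h3 : algebraMap F (AlgebraicClosure F) (s ^ 2 + a * s * (-1) + b * (-1) ^ 2) = 0 := by
          simp only [map_add, map_mul, map_pow, map_neg, map_one]
          linear_combination hθ
        rw [map_eq_zero] at h3
        have := (hab s (-1) h3).2
        simp at this
    subst huv
    rfl
  exact isCyclic_of_subgroup_isDomain f hf

/-- The isometry group of an anisotropic binary form over `𝔽_q` is dihedral of order
`2(q+1)`. -/
theorem qBin_dihedral (a b : F)
    (hab : ∀ z₁ z₂ : F, z₁ ^ 2 + a * z₁ * z₂ + b * z₂ ^ 2 = 0 → z₁ = 0 ∧ z₂ = 0) :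
    Nonempty (↥(isometryGroup F ⇑(qBin a b)) ≃* DihedralGroup (Fintype.card F + 1)) := by
  classical
  haveI := rotSub_isCyclic a b hab
  obtain ⟨ρ, hρ⟩ := IsCyclic.exists_generator (α := ↥(rotSub a b))
  have hord : orderOf (ρ : ↥(isometryGroup F ⇑(qBin a b))) = Fintype.card F + 1 := by
    rw [Subgroup.orderOf_coe, orderOf_eq_card_of_forall_mem_zpowers hρ, card_rotSub a b hab]
  have hinv : (conjG a b)⁻¹ = conjG a b := inv_eq_of_mul_eq_one_left (conjG_mul_self a b)
  refine Cfsg.Agent.H3.dihedral_of_gens (Fintype.card F + 1)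
    (by rw [card_isometry_qBin a b hab]) (ρ : ↥(isometryGroup F ⇑(qBin a b))) (conjG a b) hord ?_
    (conjG_mul_self a b) ?_
  · intro hmem
    have h1 : conjG a b ∈ rotSub a b := (Subgroup.zpowers_le.mpr ρ.2) hmem
    obtain ⟨u, hu, h2⟩ := (mem_rotSub a b _).mp h1
    have h3 : rotM a b u = conjM a := congrArg
      (fun g : ↥(isometryGroup F ⇑(qBin a b)) => ((g : GL (Fin 2) F) : Matrix (Fin 2) (Fin 2) F))
      h2
    have e10 : u 1 = 0 := by simpa [rotM, conjM] using congrFun (congrFun h3 1) 0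
    have e00 : u 0 = 1 := by simpa [rotM, conjM] using congrFun (congrFun h3 0) 0
    have e01 : a = 0 := by
      have := congrFun (congrFun h3 0) 1
      simp [rotM, conjM, e10] at this
      exact this.symm
    have e11 : (1 : F) = -1 := by
      have := congrFun (congrFun h3 1) 1
      simpa [rotM, conjM, e10, e00] using this
    have h2F : (2 : F) = 0 := by linear_combination e11
    haveI : CharP F 2 := CharTwo.of_one_ne_zero_of_two_eq_zero one_ne_zero h2F
    obtain ⟨s, hs⟩ := FiniteField.isSquare_of_char_two (ringChar.eq F 2) b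
    have := hab s 1 (by rw [e01, hs]; linear_combination (s * s) * h2F)
    exact one_ne_zero this.2
  · obtain ⟨u, hu, h2⟩ := (mem_rotSub a b _).mp ρ.2
    rw [hinv, ← h2, rotG_inv]
    apply Subtype.ext
    apply Units.ext
    exact conj_rotM a b u

end Cyc

end Cfsg.Agent.H7
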