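import Mathlib
import Cfsg.Agent.H7.PsDefs

/-! # S3664: assembly from the pieces (helper7) -/

set_option autoImplicit false

namespace Cfsg.Agent.H7.Ps

universe u

/-- the group `PSp₆(3)` over `ZMod 3` is finite -/
instance finiteL : Finite L := by
  unfold L Cfsg.PSp
  infer_instance

/-- both sides have the graph, hence the same graph -/
theorem graph_iff {G H : Type} [Group G] [Group H] (hG : HasGraph G) (hH : HasGraph H) :
    (∀ p : ℕ, p.Prime → (p ∣ Nat.card G ↔ p ∣ Nat.card H)) ∧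
    (∀ p q : ℕ, p.Prime → q.Prime → p ≠ q →
      ((∃ g : G, orderOf g = p * q) ↔ (∃ g : H, orderOf g = p * q))) := by
  refine ⟨fun p hp => ?_, fun p q hp hq hne => ?_⟩
  · rw [hG.1 p hp, hH.1 p hp]
  · rw [hG.2 p q hp hq hne, hH.2 p q hp hq hne]

/-- the data for `PSp₆(3)` -/
theorem dataL (hPr : StPrimes) (h6 : StEx6) (h10 : StEx10) (h15 : StEx15) (h14 : StEx14)
    (h13 : StEx13) (hOdd : StOdd) (hNo26 : StNo26) : Data L := by
  have d5 : 5 ∣ Nat.card L := by
    obtain ⟨g, hg⟩ := h10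
    have := orderOf_dvd_natCard g
    rw [hg] at this
    exact Dvd.dvd.trans (by norm_num) this
  have d7 : 7 ∣ Nat.card L := by
    obtain ⟨g, hg⟩ := h14
    have := orderOf_dvd_natCard g
    rw [hg] at this
    exact Dvd.dvd.trans (by norm_num) this
  have d13 : 13 ∣ Nat.card L := by
    obtain ⟨g, hg⟩ := h13
    have := orderOf_dvd_natCard g
    rw [hg] at this
    exact this
  have ho := hOdd d5 d7 d13
  exact
    { primes := hPr
      ex6 := h6
      ex10 := h10
      ex15 := h15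
      ex14 := h14
      ex13 := h13
      no21 := fun g => (ho g).1
      no35 := fun g => (ho g).2.1
      no26 := hNo26
      no39 := fun g => (ho g).2.2.1
      no65 := fun g => (ho g).2.2.2.1
      no91 := fun g => (ho g).2.2.2.2 }

theorem main (hCrit : StCrit.{0}) (hTrans : StTrans.{u}) (hPr : StPrimes)
    (h6 : StEx6) (h10 : StEx10) (h15 : StEx15) (h14 : StEx14) (h13 : StEx13)
    (hOdd : StOdd) (hNo26 : StNo26) (hFam : StFam) (hInst : StInst) : StMain.{u} := by
  intro F _ _ hF N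
  obtain ⟨e⟩ := hTrans F hF
  obtain ⟨A, iA, iAf, M, iM, iMf, iAct, hD⟩ := hInst
  obtain ⟨H, iH, iHf, hlt, hDH⟩ := hFam A M hD N
  have gL : HasGraph L := hCrit L (dataL hPr h6 h10 h15 h14 h13 hOdd hNo26)
  have gH : HasGraph H := hCrit H hDH
  obtain ⟨k1, k2⟩ := graph_iff gL gH
  refine ⟨H, iH, iHf, hlt, ?_, ?_⟩
  · intro p hpp
    rw [← Nat.card_congr e.toEquiv]
    exact k1 p hpp
  · intro p q hpp hqq hne
    rw [← k2 p q hpp hqq hne]
    constructor
    · rintro ⟨g, hg⟩
      exact ⟨e.symm g, by rw [MulEquiv.orderOf_eq]; exact hg⟩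
    · rintro ⟨g, hg⟩
      exact ⟨e g, by rw [MulEquiv.orderOf_eq]; exact hg⟩

example (hCrit : StCrit.{0}) (hTrans : StTrans.{u}) (hPr : StPrimes)
    (h6 : StEx6) (h10 : StEx10) (h15 : StEx15) (h14 : StEx14) (h13 : StEx13)
    (hOdd : StOdd) (hNo26 : StNo26) (hFam : StFam) (hInst : StInst) : StMain.{u} :=
  main hCrit hTrans hPr h6 h10 h15 h14 h13 hOdd hNo26 hFam hInst

end Cfsg.Agent.H7.Ps
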