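import Cfsg.Agent.H7.RUDefs
import Cfsg.Agent.H22.ReeOrd
import Cfsg.Agent.H37.RTConjInto
import Cfsg.Agent.H75.RUInto
import Cfsg.Agent.H75.RUConj
import Cfsg.Agent.H65.RUArA
import Cfsg.Agent.H65.RUArB
import Cfsg.Agent.H24.RUArC
import Cfsg.Agent.H24.RUArD
/-!
Team project S2358 (helper7): the final statement, every piece plugged in.

For `G = ²G₂(q)`, `q = 3^(2m+1) ≥ 27`: two cyclic subgroups of the same order `d` dividing one of
`(q-1)/2`, `(q+1)/4`, `q - r + 1`, `q + r + 1` (`r = 3^(m+1)`) are conjugate.  Inputs: a Ree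
context, the canonical form / Weyl group statements for `G₂` (for the order of the group) and the
conclusion of S1158 (the four cyclic Hall subgroups and their normalizers).

Pieces: INTO, CONJ (helper75), ARA, ARB (helper65), ARC, ARD (helper24); CONJINTO (helper37) from
the S2359 project; the order of the group is helper22's.
-/
set_option autoImplicit false
open Cfsg Cfsg.Lie

namespace Cfsg.Agent.H7.RU

open Cfsg.Agent.H22 Cfsg.Agent.H22.GEx Cfsg.Agent.H22.Ree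

universe u

theorem s2358 {K : Type u} [Field K] [Fintype K] [CharP K 3] {m : ℕ} (C : Ctx K (3 ^ m))
    (hK : Fintype.card K = 3 ^ (2 * m + 1)) (hm : 1 ≤ m) (hcan : CanonG2 K) (hW : WeylG2 K)
    (h1158 : H1158 ↥(twistedG2 K (3 ^ m)) m) (d : ℕ)
    (hd : d ∣ (3 ^ (2 * m + 1) - 1) / 2 ∨ d ∣ (3 ^ (2 * m + 1) + 1) / 4 ∨
      d ∣ 3 ^ (2 * m + 1) - 3 ^ (m + 1) + 1 ∨ d ∣ 3 ^ (2 * m + 1) + 3 ^ (m + 1) + 1)
    (A B : Subgroup ↥(twistedG2 K (3 ^ m))) (hAc : IsCyclic A) (hBc : IsCyclic B)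
    (hAd : Nat.card A = d) (hBd : Nat.card B = d) :
    ∃ g : ↥(twistedG2 K (3 ^ m)), B = A.map (MulAut.conj g).toMonoidHom :=
  s2358_of hm (C.card_twisted hK hcan hW) h1158
    (Cfsg.Agent.H75.RU.toralConj (Cfsg.Agent.H75.RU.toralInto Cfsg.Agent.H37.RT.conjInto))
    Cfsg.Agent.H65.RU.arA Cfsg.Agent.H65.RU.arB Cfsg.Agent.H24.RU.arC Cfsg.Agent.H24.RU.arD
    d hd A B hAc hBc hAd hBd

end Cfsg.Agent.H7.RU
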