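import Cfsg.Agent.H7.RVDefs
/-!
Team project S3626 (helper7): the assembly.  Given the pieces SPEC (element orders of `M_k`), PROD
(element orders of a product) and CARD, and the element orders of `L₀` (a copy in `Type`) and of
`L`, the group `L₀ × L₀ × M_(N+1)` has more than `N` elements and the same element orders as
`L × L × L`.
-/
set_option autoImplicit false

namespace Cfsg.Agent.H7.RV

open Matrix

open scoped MatrixGroups

universe u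

theorem s3626_of (hSpec : StSpec) (hProd : StProd.{u}) (hCard : StCard) {m : ℕ}
    (L₀ : Type) [Group L₀] [Finite L₀] (L : Type u) [Group L]
    (F : Type) [Field F] [Fintype F] [CharP F 3] (hF : Fintype.card F = 3 ^ (2 * m + 1))
    (h0 : ∀ d : ℕ, (∃ g : L₀, orderOf g = d) ↔
      (d ∣ 6 ∨ d ∣ 9 ∨ d ∣ 3 ^ (2 * m + 1) - 1 ∨ d ∣ (3 ^ (2 * m + 1) + 1) / 2 ∨
        d ∣ 3 ^ (2 * m + 1) - 3 ^ (m + 1) + 1 ∨ d ∣ 3 ^ (2 * m + 1) + 3 ^ (m + 1) + 1))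
    (h1 : ∀ d : ℕ, (∃ g : L, orderOf g = d) ↔
      (d ∣ 6 ∨ d ∣ 9 ∨ d ∣ 3 ^ (2 * m + 1) - 1 ∨ d ∣ (3 ^ (2 * m + 1) + 1) / 2 ∨
        d ∣ 3 ^ (2 * m + 1) - 3 ^ (m + 1) + 1 ∨ d ∣ 3 ^ (2 * m + 1) + 3 ^ (m + 1) + 1))
    (N : ℕ) :
    ∃ (H : Type) (_ : Group H) (_ : Fintype H), N < Fintype.card H ∧
      Set.range (orderOf : H → ℕ) = Set.range (orderOf : L × L × L → ℕ) := by
  obtain ⟨hfin, hcard⟩ := hCard F (N + 1)
  have : Finite (Mk F (N + 1)) := hfin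
  refine ⟨L₀ × L₀ × Mk F (N + 1), inferInstance, Fintype.ofFinite _, ?_, ?_⟩
  · rw [Fintype.card_eq_nat_card, Nat.card_prod, Nat.card_prod]
    have h1' : 0 < Nat.card L₀ := Nat.card_pos
    calc N < Nat.card (Mk F (N + 1)) := by omega
      _ ≤ Nat.card L₀ * (Nat.card L₀ * Nat.card (Mk F (N + 1))) := by
        calc Nat.card (Mk F (N + 1)) = 1 * (1 * Nat.card (Mk F (N + 1))) := by ring
          _ ≤ Nat.card L₀ * (Nat.card L₀ * Nat.card (Mk F (N + 1))) :=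
            Nat.mul_le_mul h1' (Nat.mul_le_mul h1' le_rfl)
  · exact hProd L₀ (Mk F (N + 1)) L (3 ^ (2 * m + 1) - 1) ((3 ^ (2 * m + 1) + 1) / 2)
      (3 ^ (2 * m + 1) - 3 ^ (m + 1) + 1) (3 ^ (2 * m + 1) + 3 ^ (m + 1) + 1) h0 h1
      (hSpec F m (N + 1) hF (by omega))

end Cfsg.Agent.H7.RV
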