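import Cfsg.Agent.H7.RVDefs
/-!
Team project S3626 (helper7), piece RV-FIX (parallel take): if `(ε, g)` fixes a non-zero matrix
`X`, i.e. `ε g X (g^{[3]})ᵀ = X`, then `g² = -1`, or `ε = 1` and `g³ = ±1`.

With `C = (g^{[3]})⁻¹` we get `X Cᵀ = ε g X`, hence `X (Cᵀ)² = g² X`; by Cayley–Hamilton
(`trace Cᵀ = τ³`, `τ = trace g`) this gives `(ε τ³ - τ) g X = 0`, so `ε τ³ = τ`.
-/
set_option autoImplicit false

namespace Cfsg.Agent.H7.RV

open Matrix

open scoped MatrixGroups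

/-- Cayley–Hamilton for `2 × 2` matrices of determinant 1 -/
theorem fix_ch (F : Type) [Field F] (M : Matrix (Fin 2) (Fin 2) F) (hdet : M.det = 1) :
    M * M = (M 0 0 + M 1 1) • M - 1 := by
  rw [Matrix.det_fin_two] at hdet
  ext i j
  fin_cases i <;> fin_cases j <;>
    simp [Matrix.mul_apply, Fin.sum_univ_two, Matrix.sub_apply, Matrix.smul_apply] <;>
    first
      | linear_combination (-1 : F) * hdet
      | ring

theorem fix_mod4 (m : ℕ) : 3 ^ (2 * m + 1) % 4 = 3 := by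
  induction m with
  | zero => norm_num
  | succ k ih =>
    have : 3 ^ (2 * (k + 1) + 1) = 9 * 3 ^ (2 * k + 1) := by ring
    rw [this]; omega

/-- the trace equation -/
theorem fix_trace (F : Type) [Field F] [CharP F 3] (g : SL(2, F)) (e : F) (he : e * e = 1)
    (X : Matrix (Fin 2) (Fin 2) F) (hX : X ≠ 0)
    (h : e • ((g : Matrix (Fin 2) (Fin 2) F) * X *
      ((tw F g : SL(2, F)) : Matrix (Fin 2) (Fin 2) F)ᵀ) = X) :
    e * ((g : Matrix (Fin 2) (Fin 2) F) 0 0 + (g : Matrix (Fin 2) (Fin 2) F) 1 1) ^ 3 =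
      (g : Matrix (Fin 2) (Fin 2) F) 0 0 + (g : Matrix (Fin 2) (Fin 2) F) 1 1 := by
  have h3 : (3 : F) = 0 := by
    have h := CharP.cast_eq_zero F 3
    exact_mod_cast h
  obtain ⟨A, hA⟩ : ∃ A : Matrix (Fin 2) (Fin 2) F, A = (g : Matrix (Fin 2) (Fin 2) F) := ⟨_, rfl⟩
  obtain ⟨B, hB⟩ : ∃ B : Matrix (Fin 2) (Fin 2) F,
      B = ((tw F g : SL(2, F)) : Matrix (Fin 2) (Fin 2) F) := ⟨_, rfl⟩
  obtain ⟨C, hC⟩ : ∃ C : Matrix (Fin 2) (Fin 2) F,
      C = (((tw F g)⁻¹ : SL(2, F)) : Matrix (Fin 2) (Fin 2) F) := ⟨_, rfl⟩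
  obtain ⟨τ, hτ⟩ : ∃ τ : F, τ = A 0 0 + A 1 1 := ⟨_, rfl⟩
  rw [← hA, ← hB] at h
  rw [← hA, ← hτ]
  have hAdet : A.det = 1 := by rw [hA]; exact g.det_coe
  have hCdet : Cᵀ.det = 1 := by rw [Matrix.det_transpose, hC]; exact ((tw F g)⁻¹).det_coe
  have hBC : B * C = 1 := by
    rw [hB, hC, ← Matrix.SpecialLinearGroup.coe_mul, mul_inv_cancel]; rfl
  have hCB : C * B = 1 := by
    rw [hB, hC, ← Matrix.SpecialLinearGroup.coe_mul, inv_mul_cancel]; rfl
  have hAinv : ∀ Z : Matrix (Fin 2) (Fin 2) F, A * Z = 0 → Z = 0 := by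
    intro Z hZ
    have h1 : ((g⁻¹ : SL(2, F)) : Matrix (Fin 2) (Fin 2) F) * A = 1 := by
      rw [hA, ← Matrix.SpecialLinearGroup.coe_mul, inv_mul_cancel]; rfl
    calc Z = (((g⁻¹ : SL(2, F)) : Matrix (Fin 2) (Fin 2) F) * A) * Z := by rw [h1, Matrix.one_mul]
      _ = 0 := by rw [Matrix.mul_assoc, hZ, Matrix.mul_zero]
  -- `X Cᵀ = e • (A X)`
  have h1 : X * Cᵀ = e • (A * X) := by
    have : Bᵀ * Cᵀ = 1 := by rw [← Matrix.transpose_mul, hCB, Matrix.transpose_one]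
    calc X * Cᵀ = (e • (A * X * Bᵀ)) * Cᵀ := by rw [h]
      _ = e • (A * X * (Bᵀ * Cᵀ)) := by rw [Matrix.smul_mul, Matrix.mul_assoc (A * X)]
      _ = e • (A * X) := by rw [this, Matrix.mul_one]
  -- trace of `Cᵀ`
  have htrC : Cᵀ 0 0 + Cᵀ 1 1 = τ ^ 3 := by
    have hC' : C = Matrix.adjugate B := by
      rw [hC, hB, Matrix.SpecialLinearGroup.coe_inv]
    rw [hC', Matrix.adjugate_fin_two, hB, hτ, hA]
    simp only [Matrix.transpose_apply, Matrix.of_apply, Matrix.cons_val_zero,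
      Matrix.cons_val_one, tw_apply]
    linear_combination (-(g : Matrix (Fin 2) (Fin 2) F) 0 0 ^ 2 * (g : Matrix (Fin 2) (Fin 2) F) 1 1
      - (g : Matrix (Fin 2) (Fin 2) F) 0 0 * (g : Matrix (Fin 2) (Fin 2) F) 1 1 ^ 2) * h3
  have hchA := fix_ch F A hAdet
  have hchC := fix_ch F Cᵀ hCdet
  rw [← hτ] at hchA
  rw [htrC] at hchC
  -- `X Cᵀ Cᵀ = A A X`
  have h2 : X * (Cᵀ * Cᵀ) = A * A * X := by
    calc X * (Cᵀ * Cᵀ) = (X * Cᵀ) * Cᵀ := by rw [Matrix.mul_assoc]
      _ = (e • (A * X)) * Cᵀ := by rw [h1]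
      _ = e • (A * (X * Cᵀ)) := by rw [Matrix.smul_mul, Matrix.mul_assoc]
      _ = (e * e) • (A * (A * X)) := by rw [h1, Matrix.mul_smul, smul_smul]
      _ = A * A * X := by rw [he, one_smul, Matrix.mul_assoc]
  rw [hchA, hchC, Matrix.mul_sub, Matrix.sub_mul, Matrix.mul_smul, Matrix.smul_mul, h1,
    Matrix.mul_one, Matrix.one_mul, smul_smul] at h2
  have h4 : (τ ^ 3 * e - τ) • (A * X) = 0 := by
    rw [sub_smul]
    have := congrArg (fun Z => Z + X) h2
    simp only [sub_add_cancel] at this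
    rw [this, sub_self]
  rcases smul_eq_zero.mp h4 with h5 | h5
  · linear_combination h5
  · exact absurd (hAinv X h5) hX

/-- (FIX). -/
theorem fix : StFix := by
  intro F _ _ _ m hF p X hX hfix
  have h3 : (3 : F) = 0 := by
    have h := CharP.cast_eq_zero F 3
    exact_mod_cast h
  have hnsq : ¬ IsSquare (-1 : F) := by
    rw [FiniteField.isSquare_neg_one_iff, hF, fix_mod4]; simp
  obtain ⟨ε, g⟩ := p
  have hgdet : (g : Matrix (Fin 2) (Fin 2) F).det = 1 := g.det_coe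
  have hch := fix_ch F (g : Matrix (Fin 2) (Fin 2) F) hgdet
  obtain ⟨τ, hτ⟩ : ∃ τ : F, τ = (g : Matrix (Fin 2) (Fin 2) F) 0 0 +
      (g : Matrix (Fin 2) (Fin 2) F) 1 1 := ⟨_, rfl⟩
  rw [← hτ] at hch
  -- the three conclusions from the value of the trace
  have hzero : τ = 0 → g ^ 2 = -1 := by
    intro h0
    apply Subtype.ext
    rw [Matrix.SpecialLinearGroup.coe_pow, pow_two, hch, h0, zero_smul, zero_sub,
      Matrix.SpecialLinearGroup.coe_neg]; rfl
  have hone : τ = 1 → g ^ 3 = -1 := by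
    intro h1
    apply Subtype.ext
    rw [Matrix.SpecialLinearGroup.coe_pow, pow_succ, pow_two, hch, h1, one_smul, Matrix.sub_mul,
      hch, h1, one_smul, Matrix.one_mul, Matrix.SpecialLinearGroup.coe_neg]
    simp
  have hneg : τ = -1 → g ^ 3 = 1 := by
    intro h1
    apply Subtype.ext
    rw [Matrix.SpecialLinearGroup.coe_pow, pow_succ, pow_two, hch, h1, Matrix.sub_mul,
      Matrix.smul_mul, hch, h1, Matrix.one_mul]
    simp
  rcases Int.units_eq_one_or ε with hε | hε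
  · -- `ε = 1`
    have h := fix_trace F g 1 (by ring) X hX (by
      have := hfix
      rw [actFun_def] at this
      simpa [hε] using this)
    rw [← hτ] at h
    have h' : τ * (τ - 1) * (τ + 1) = 0 := by linear_combination h
    rcases mul_eq_zero.mp h' with h'' | h''
    · rcases mul_eq_zero.mp h'' with h0 | h1
      · exact Or.inl (hzero h0)
      · exact Or.inr ⟨hε, Or.inr (hone (by linear_combination h1))⟩
    · exact Or.inr ⟨hε, Or.inl (hneg (by linear_combination h''))⟩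
  · -- `ε = -1`
    have h := fix_trace F g (-1) (by ring) X hX (by
      have := hfix
      rw [actFun_def] at this
      simpa [hε] using this)
    rw [← hτ] at h
    have h' : τ * (τ * τ + 1) = 0 := by linear_combination (-1 : F) * h
    rcases mul_eq_zero.mp h' with h0 | h1
    · exact Or.inl (hzero h0)
    · exfalso
      exact hnsq ⟨τ, by linear_combination (-1 : F) * h1⟩

example : Cfsg.Agent.H7.RV.StFix := fix

end Cfsg.Agent.H7.RV
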