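import Cfsg.Agent.H7.RVDefs
/-!
Team project S3626 (helper7), piece RV-TRI: every element `g` of `SL₂(q)`, `q = 3^(2m+1)`,
satisfies `g³ = ±1`, `g^(q-1) = 1` or `g^(q+1) = 1`.

With `τ` the trace and `n = g + τ` (`= g - τ/2` in characteristic 3) we have `n² = τ² - 1 =: δ`, so
`g^q = n^q - τ = δ^((q-1)/2) n - τ`, and `δ^((q-1)/2) ∈ {0, 1, -1}`.
-/
set_option autoImplicit false

namespace Cfsg.Agent.H7.RV

open Matrix

open scoped MatrixGroups

theorem tri_three_zero (F : Type) [Field F] [CharP F 3] : (3 : F) = 0 := by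
  have h := CharP.cast_eq_zero F 3
  exact_mod_cast h

theorem tri_aux (F : Type) [Field F] [Fintype F] [CharP F 3] (m : ℕ)
    (hF : Fintype.card F = 3 ^ (2 * m + 1)) (A : Matrix (Fin 2) (Fin 2) F) (hdet : A.det = 1) :
    A ^ 3 = 1 ∨ A ^ 3 = -1 ∨ A ^ (3 ^ (2 * m + 1)) = A ∨ A ^ (3 ^ (2 * m + 1)) * A = 1 := by
  have h3 : (3 : F) = 0 := tri_three_zero F
  have h2 : (2 : F) = -1 := by linear_combination h3
  rw [Matrix.det_fin_two] at hdet
  obtain ⟨τ, hτ⟩ : ∃ τ : F, τ = A 0 0 + A 1 1 := ⟨_, rfl⟩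
  obtain ⟨n, hn⟩ : ∃ n : Matrix (Fin 2) (Fin 2) F, n = A + τ • (1 : Matrix (Fin 2) (Fin 2) F) :=
    ⟨_, rfl⟩
  obtain ⟨δ, hδ⟩ : ∃ δ : F, δ = τ ^ 2 - 1 := ⟨_, rfl⟩
  -- `n² = δ`
  have hnn : n * n = δ • (1 : Matrix (Fin 2) (Fin 2) F) := by
    rw [hn, hδ, hτ]
    ext i j
    fin_cases i <;> fin_cases j <;>
      simp [Matrix.mul_apply, Fin.sum_univ_two, Matrix.add_apply, Matrix.smul_apply,
        Matrix.one_apply] <;>
      first
        | linear_combination (A 0 0 ^ 2 + A 0 0 * A 1 1) * h3 - hdet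
        | linear_combination (A 1 1 ^ 2 + A 0 0 * A 1 1) * h3 - hdet
        | linear_combination (A 0 1 * (A 0 0 + A 1 1)) * h3
        | linear_combination (A 1 0 * (A 0 0 + A 1 1)) * h3
  have hA : A = n - τ • (1 : Matrix (Fin 2) (Fin 2) F) := by rw [hn]; abel
  have hcomm : Commute n (τ • (1 : Matrix (Fin 2) (Fin 2) F)) :=
    (Commute.one_right n).smul_right τ
  -- Cayley–Hamilton
  have hCH : A * A = τ • A - 1 := by
    rw [hτ]
    ext i j
    fin_cases i <;> fin_cases j <;>
      simp [Matrix.mul_apply, Fin.sum_univ_two, Matrix.sub_apply, Matrix.smul_apply] <;>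
      first
        | linear_combination (-1 : F) * hdet
        | ring
  -- the `q`-th power
  have hq : A ^ (3 ^ (2 * m + 1)) =
      δ ^ (Fintype.card F / 2) • n - τ • (1 : Matrix (Fin 2) (Fin 2) F) := by
    have hτq : τ ^ (3 ^ (2 * m + 1)) = τ := by
      rw [← hF]; exact FiniteField.pow_card τ
    have hodd : 3 ^ (2 * m + 1) = 2 * (Fintype.card F / 2) + 1 := by
      have h1 : Fintype.card F % 2 = 1 := by
        rw [hF, Nat.pow_mod]; norm_num
      rw [← hF]; omega
    have hnq : n ^ (3 ^ (2 * m + 1)) = δ ^ (Fintype.card F / 2) • n := by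
      rw [hodd, pow_succ, pow_mul, pow_two, hnn, smul_pow, one_pow, Matrix.smul_mul,
        Matrix.one_mul]
    rw [hA, sub_pow_char_pow_of_commute 3 (2 * m + 1) hcomm, smul_pow, one_pow, hτq, hnq]
  by_cases hδ0 : δ = 0
  · -- unipotent up to sign
    have hτ2 : τ ^ 2 = 1 := by rw [hδ] at hδ0; linear_combination hδ0
    have hn3 : n ^ 3 = 0 := by
      rw [pow_succ, pow_two, hnn, hδ0, zero_smul, Matrix.zero_mul]
    have hA3 : A ^ 3 = -(τ ^ 3 • (1 : Matrix (Fin 2) (Fin 2) F)) := by
      rw [hA, sub_pow_char_of_commute 3 hcomm, hn3, smul_pow, one_pow, zero_sub]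
    have hτ' : τ = 1 ∨ τ = -1 := by
      have : (τ - 1) * (τ + 1) = 0 := by linear_combination hτ2
      rcases mul_eq_zero.mp this with h | h
      · left; linear_combination h
      · right; linear_combination h
    rcases hτ' with h | h
    · right; left
      rw [hA3, h]; simp
    · left
      rw [hA3, h]
      have : ((-1 : F)) ^ 3 = -1 := by ring
      rw [this]; simp
  · have hchar : ringChar F ≠ 2 := by
      rw [ringChar.eq F 3]; norm_num
    rcases FiniteField.pow_dichotomy hchar hδ0 with h | h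
    · right; right; left
      rw [hq, h, one_smul, ← hA]
    · right; right; right
      rw [hq, h]
      have : (-1 : F) • n - τ • (1 : Matrix (Fin 2) (Fin 2) F) =
          τ • (1 : Matrix (Fin 2) (Fin 2) F) - A := by
        rw [hn]
        ext i j
        fin_cases i <;> fin_cases j <;>
          simp [Matrix.add_apply, Matrix.smul_apply, Matrix.sub_apply] <;>
          linear_combination (-τ) * h3
      rw [this, Matrix.sub_mul, Matrix.smul_mul, Matrix.one_mul, hCH]
      abel

/-- (TRI). -/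
theorem tri : StTri := by
  intro F _ _ _ m hF g
  have hA := tri_aux F m hF (g : Matrix (Fin 2) (Fin 2) F) g.det_coe
  rcases hA with h | h | h | h
  · left
    apply Subtype.ext
    rw [Matrix.SpecialLinearGroup.coe_pow, h]; rfl
  · right; left
    apply Subtype.ext
    rw [Matrix.SpecialLinearGroup.coe_pow, h, Matrix.SpecialLinearGroup.coe_neg]; rfl
  · right; right; left
    have h1 : g ^ (3 ^ (2 * m + 1)) = g := by
      apply Subtype.ext
      rw [Matrix.SpecialLinearGroup.coe_pow, h]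
    have h2 : 3 ^ (2 * m + 1) = (3 ^ (2 * m + 1) - 1) + 1 := by
      have : 0 < 3 ^ (2 * m + 1) := by positivity
      omega
    rw [h2, pow_succ] at h1
    exact mul_eq_right.mp h1
  · right; right; right
    apply Subtype.ext
    rw [pow_succ, Matrix.SpecialLinearGroup.coe_mul, Matrix.SpecialLinearGroup.coe_pow, h]; rfl

example : Cfsg.Agent.H7.RV.StTri := tri

end Cfsg.Agent.H7.RV
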