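import Cfsg.Agent.H7.RVAsm
import Cfsg.Agent.H7.RVTri
import Cfsg.Agent.Helper55.RVProd
import Cfsg.Agent.Helper55.RVAff
import Cfsg.Agent.Helper55.RVSpec
import Cfsg.Agent.H73.RVCard
import Cfsg.Agent.H73.RVUp
import Cfsg.Agent.H73.RVEx6
import Cfsg.Agent.H73.RVEx9
import Cfsg.Agent.H39.RVSq
import Cfsg.Agent.H39.RVOne
import Cfsg.Agent.H7.RVFix
import Cfsg.Agent.H53.RVExA
import Cfsg.Agent.H60.RVExB
import Cfsg.Agent.H60.RVSing
/-!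
Team project S3626 (helper7): the final statement, every piece plugged in.

Given the element orders of `L` and of a copy `L₀` of it in `Type` (the divisors of `6`, `9`,
`q - 1`, `(q + 1)/2`, `q - r + 1`, `q + r + 1`: S1159), the groups `L₀ × L₀ × M_(N+1)` have more
than `N` elements and the same element orders as `L × L × L`.

Pieces: PROD, AFF, SPEC (helper55), CARD, UP, EX6, EX9 (helper73), SQ, ONE (helper39), EXA (helper53),
EXB, SING (helper60), TRI, FIX and the assembly (helper7).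
-/
set_option autoImplicit false

namespace Cfsg.Agent.H7.RV

universe u

theorem s3626 {m : ℕ} (L₀ : Type) [Group L₀] [Finite L₀] (L : Type u) [Group L]
    (F : Type) [Field F] [Fintype F] [CharP F 3] (hF : Fintype.card F = 3 ^ (2 * m + 1))
    (h0 : ∀ d : ℕ, (∃ g : L₀, orderOf g = d) ↔
      (d ∣ 6 ∨ d ∣ 9 ∨ d ∣ 3 ^ (2 * m + 1) - 1 ∨ d ∣ (3 ^ (2 * m + 1) + 1) / 2 ∨
        d ∣ 3 ^ (2 * m + 1) - 3 ^ (m + 1) + 1 ∨ d ∣ 3 ^ (2 * m + 1) + 3 ^ (m + 1) + 1))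
    (h1 : ∀ d : ℕ, (∃ g : L, orderOf g = d) ↔
      (d ∣ 6 ∨ d ∣ 9 ∨ d ∣ 3 ^ (2 * m + 1) - 1 ∨ d ∣ (3 ^ (2 * m + 1) + 1) / 2 ∨
        d ∣ 3 ^ (2 * m + 1) - 3 ^ (m + 1) + 1 ∨ d ∣ 3 ^ (2 * m + 1) + 3 ^ (m + 1) + 1))
    (N : ℕ) :
    ∃ (H : Type) (_ : Group H) (_ : Fintype H), N < Fintype.card H ∧
      Set.range (orderOf : H → ℕ) = Set.range (orderOf : L × L × L → ℕ) :=
  s3626_of
    (Cfsg.Agent.Helper55.RV.spec
      (Cfsg.Agent.H73.RV.up tri Cfsg.Agent.H39.RV.sq fix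
        Cfsg.Agent.Helper55.RV.aff)
      Cfsg.Agent.H73.RV.ex6 Cfsg.Agent.H73.RV.ex9
      (Cfsg.Agent.H53.RV.exA Cfsg.Agent.H39.RV.one)
      (Cfsg.Agent.H60.RV.exB Cfsg.Agent.H60.RV.sing Cfsg.Agent.H39.RV.one Cfsg.Agent.H39.RV.sq))
    Cfsg.Agent.Helper55.RV.prod Cfsg.Agent.H73.RV.card L₀ L F hF h0 h1 N

end Cfsg.Agent.H7.RV
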