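import Mathlib
import Cfsg.Agent.H7.SL2
import Cfsg.Agent.H7.PSL2Inv
import Cfsg.Agent.H7.Hall23
import Cfsg.Agent.H64.PSL2Even

set_option autoImplicit false

/-!
# Solubilizers in `SL₂(q)`, `q` even

For `x ≠ 1` in `SL₂(F)`, `F` finite of characteristic `2`, the set of `y` with `⟨x, y⟩` solvable.
-/

namespace Cfsg.Agent.H7

open Matrix

open scoped MatrixGroups

section AbstractSolv

variable {G : Type*} [Group G]

/-- A nontrivial solvable subgroup contains a nonidentity element that commutes with all its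
conjugates under the subgroup. -/
theorem exists_comm_conj_of_solvable (H : Subgroup G) [hs : Group.IsSolvable H] (hH : H ≠ ⊥) :
    ∃ v ∈ H, v ≠ 1 ∧ ∀ h ∈ H, (h * v * h⁻¹) * v = v * (h * v * h⁻¹) := by
  classical
  have hex : ∃ n, derivedSeries H n = ⊥ := hs.solvable
  have hm_spec : derivedSeries H (Nat.find hex) = ⊥ := Nat.find_spec hex
  have hm0 : Nat.find hex ≠ 0 := by
    intro h0
    rw [h0, derivedSeries_zero] at hm_spec
    apply hH
    rw [eq_bot_iff]
    intro g hg
    have : (⟨g, hg⟩ : H) ∈ (⊤ : Subgroup H) := Subgroup.mem_top _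
    rw [hm_spec, Subgroup.mem_bot] at this
    rw [Subgroup.mem_bot]
    exact congrArg Subtype.val this
  obtain ⟨k, hk⟩ := Nat.exists_eq_succ_of_ne_zero hm0
  have hk_ne : derivedSeries H k ≠ ⊥ := Nat.find_min hex (by omega)
  have hcomm : ⁅derivedSeries H k, derivedSeries H k⁆ = ⊥ := by
    rw [← derivedSeries_succ, ← Nat.succ_eq_add_one, ← hk]; exact hm_spec
  obtain ⟨⟨v, hv⟩, hv1⟩ := (Subgroup.ne_bot_iff_exists_ne_one).mp hk_ne
  have hle := (Subgroup.commutator_eq_bot_iff_le_centralizer).mp hcomm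
  refine ⟨v.1, v.2, ?_, ?_⟩
  · intro h1
    apply hv1
    apply Subtype.ext
    apply Subtype.ext
    exact h1
  · intro h hh
    have hn : (derivedSeries H k).Normal := derivedSeries_normal H k
    have hmem : (⟨h, hh⟩ : H) * v * (⟨h, hh⟩ : H)⁻¹ ∈ derivedSeries H k := hn.conj_mem v hv _
    have hc := hle hmem
    rw [Subgroup.mem_centralizer_iff] at hc
    have := hc v hv
    exact (congrArg Subtype.val this).symm

/-- A group with a homomorphism to a commutative group whose kernel is commutative is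
solvable. -/
theorem isSolvable_of_hom_comm {A : Type*} [CommGroup A] (f : G →* A)
    (h : ∀ a b : G, f a = 1 → f b = 1 → a * b = b * a) : Group.IsSolvable G := by
  have : Group.IsSolvable f.ker := Group.isSolvable_of_comm (by
    rintro ⟨a, ha⟩ ⟨b, hb⟩
    apply Subtype.ext
    exact h a b (MonoidHom.mem_ker.mp ha) (MonoidHom.mem_ker.mp hb))
  exact Group.isSolvable_of_ker_le_range f.ker.subtype f (by simp)

/-- The subgroup of elements conjugating `z` to `z` or `z⁻¹`. -/
def invNormalizer (z : G) : Subgroup G where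
  carrier := {g | g * z * g⁻¹ = z ∨ g * z * g⁻¹ = z⁻¹}
  one_mem' := by left; simp
  mul_mem' := by
    intro a b ha hb
    have e : a * b * z * (a * b)⁻¹ = a * (b * z * b⁻¹) * a⁻¹ := by group
    have e' : a * z⁻¹ * a⁻¹ = (a * z * a⁻¹)⁻¹ := by group
    show a * b * z * (a * b)⁻¹ = z ∨ a * b * z * (a * b)⁻¹ = z⁻¹
    rw [e]
    rcases hb with hb | hb <;> rcases ha with ha | ha
    · left; rw [hb, ha]
    · right; rw [hb, ha]
    · right; rw [hb, e', ha]
    · left; rw [hb, e', ha, inv_inv]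
  inv_mem' := by
    intro a ha
    show a⁻¹ * z * a⁻¹⁻¹ = z ∨ a⁻¹ * z * a⁻¹⁻¹ = z⁻¹
    rcases ha with ha | ha
    · left
      calc a⁻¹ * z * a⁻¹⁻¹ = a⁻¹ * (a * z * a⁻¹) * a := by rw [ha, inv_inv]
        _ = z := by group
    · right
      have : a * z⁻¹ * a⁻¹ = z := by
        calc a * z⁻¹ * a⁻¹ = (a * z * a⁻¹)⁻¹ := by group
          _ = z := by rw [ha, inv_inv]
      calc a⁻¹ * z * a⁻¹⁻¹ = a⁻¹ * (a * z⁻¹ * a⁻¹) * a := by rw [this, inv_inv]
        _ = z⁻¹ := by group

theorem mem_invNormalizer_iff (z g : G) :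
    g ∈ invNormalizer z ↔ g * z * g⁻¹ = z ∨ g * z * g⁻¹ = z⁻¹ := Iff.rfl

/-- If centralisers of `z` are commutative, the group of elements centralising or inverting `z`
is solvable. -/
theorem invNormalizer_solvable (z : G)
    (hz : ∀ a b : G, a * z = z * a → b * z = z * b → a * b = b * a) :
    Group.IsSolvable (invNormalizer z) := by
  classical
  let f : invNormalizer z →* ℤˣ :=
    MonoidHom.mk' (fun g => if g.1 * z * g.1⁻¹ = z then 1 else -1) (by
      rintro ⟨a, ha⟩ ⟨b, hb⟩
      have e : a * b * z * (a * b)⁻¹ = a * (b * z * b⁻¹) * a⁻¹ := by group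
      have e' : a * z⁻¹ * a⁻¹ = (a * z * a⁻¹)⁻¹ := by group
      simp only [Subgroup.coe_mul]
      by_cases h1 : a * z * a⁻¹ = z <;> by_cases h2 : b * z * b⁻¹ = z
      · rw [if_pos h1, if_pos h2, if_pos (by rw [e, h2, h1])]; rfl
      · have hb' : b * z * b⁻¹ = z⁻¹ := hb.resolve_left h2
        have : a * b * z * (a * b)⁻¹ ≠ z := by
          rw [e, hb', e', h1]
          intro h
          apply h2
          rw [hb', h]
        rw [if_pos h1, if_neg h2, if_neg this]; rfl
      · have ha' : a * z * a⁻¹ = z⁻¹ := ha.resolve_left h1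
        have : a * b * z * (a * b)⁻¹ ≠ z := by
          rw [e, h2]
          exact h1
        rw [if_neg h1, if_pos h2, if_neg this]; rfl
      · have ha' : a * z * a⁻¹ = z⁻¹ := ha.resolve_left h1
        have hb' : b * z * b⁻¹ = z⁻¹ := hb.resolve_left h2
        have : a * b * z * (a * b)⁻¹ = z := by
          rw [e, hb', e', ha', inv_inv]
        rw [if_neg h1, if_neg h2, if_pos this]; rfl)
  apply isSolvable_of_hom_comm f
  rintro ⟨a, ha⟩ ⟨b, hb⟩ hfa hfb
  have ha1 : a * z * a⁻¹ = z := by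
    by_contra h
    have : f ⟨a, ha⟩ = -1 := if_neg h
    rw [this] at hfa
    exact absurd hfa (by decide)
  have hb1 : b * z * b⁻¹ = z := by
    by_contra h
    have : f ⟨b, hb⟩ = -1 := if_neg h
    rw [this] at hfb
    exact absurd hfb (by decide)
  apply Subtype.ext
  have ha2 : a * z = z * a := by
    calc a * z = a * z * a⁻¹ * a := by group
      _ = z * a := by rw [ha1]
  have hb2 : b * z = z * b := by
    calc b * z = b * z * b⁻¹ * b := by group
      _ = z * b := by rw [hb1]
  exact hz a b ha2 hb2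

/-- If `x` and `y` both centralise or invert `z`, and centralisers of `z` are commutative, then
`⟨x, y⟩` is solvable. -/
theorem closure_pair_solvable_of_inv (z x y : G)
    (hz : ∀ a b : G, a * z = z * a → b * z = z * b → a * b = b * a)
    (hx : x * z * x⁻¹ = z ∨ x * z * x⁻¹ = z⁻¹) (hy : y * z * y⁻¹ = z ∨ y * z * y⁻¹ = z⁻¹) :
    Group.IsSolvable (Subgroup.closure ({x, y} : Set G)) := by
  have := invNormalizer_solvable z hz
  have hle : Subgroup.closure ({x, y} : Set G) ≤ invNormalizer z := by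
    rw [Subgroup.closure_le]
    rintro g (rfl | rfl)
    · exact hx
    · exact hy
  exact Group.isSolvable_of_isSolvable_injective (Subgroup.inclusion_injective hle)

/-- Solvability of `⟨x, y⟩` is invariant under group isomorphisms. -/
theorem closure_pair_solvable_iff {G' : Type*} [Group G'] (e : G ≃* G') (x y : G) :
    Group.IsSolvable (Subgroup.closure ({e x, e y} : Set G')) ↔
      Group.IsSolvable (Subgroup.closure ({x, y} : Set G)) := by
  have hmap : Subgroup.closure ({e x, e y} : Set G') =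
      (Subgroup.closure ({x, y} : Set G)).map e.toMonoidHom := by
    rw [MonoidHom.map_closure]
    congr 1
    simp [Set.image_pair]
  rw [hmap]
  let ε := (Subgroup.closure ({x, y} : Set G)).equivMapOfInjective e.toMonoidHom e.injective
  constructor
  · intro h
    exact Group.isSolvable_of_isSolvable_injective (f := ε.toMonoidHom) ε.injective
  · intro h
    exact Group.isSolvable_of_isSolvable_injective (f := ε.symm.toMonoidHom) ε.symm.injective

/-- The solubilizer count is invariant under group isomorphisms. -/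
theorem card_solubilizer_equiv {G' : Type*} [Group G'] (e : G ≃* G') (x : G) :
    Nat.card {y : G' // Group.IsSolvable (Subgroup.closure ({e x, y} : Set G'))} =
      Nat.card {y : G // Group.IsSolvable (Subgroup.closure ({x, y} : Set G))} := by
  symm
  apply Nat.card_congr
  exact Equiv.subtypeEquiv e.toEquiv (fun y => (closure_pair_solvable_iff e x y).symm)

end AbstractSolv

section SolubMat

variable {F : Type*} [Field F]

theorem sl2_ext4 {g h : SL(2, F)} (h00 : g.1 0 0 = h.1 0 0) (h01 : g.1 0 1 = h.1 0 1)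
    (h10 : g.1 1 0 = h.1 1 0) (h11 : g.1 1 1 = h.1 1 1) : g = h := by
  apply Subtype.ext
  ext i j
  fin_cases i <;> fin_cases j
  · exact h00
  · exact h01
  · exact h10
  · exact h11

theorem sl2_entries {g h : SL(2, F)} (e : g = h) :
    g.1 0 0 = h.1 0 0 ∧ g.1 0 1 = h.1 0 1 ∧ g.1 1 0 = h.1 1 0 ∧ g.1 1 1 = h.1 1 1 := by
  subst e; exact ⟨rfl, rfl, rfl, rfl⟩

theorem sl2_one_entries : (1 : SL(2, F)).1 0 0 = 1 ∧ (1 : SL(2, F)).1 0 1 = 0 ∧
    (1 : SL(2, F)).1 1 0 = 0 ∧ (1 : SL(2, F)).1 1 1 = 1 := by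
  simp

/-- In characteristic `2`, anything commuting with `z ≠ 1` is `α + β z`. -/
theorem sl2_exists_ab (h2 : (2 : F) = 0) {z a : SL(2, F)} (hz : z ≠ 1) (h : a * z = z * a) :
    ∃ α β : F, a.1 0 0 = α + β * z.1 0 0 ∧ a.1 0 1 = β * z.1 0 1 ∧ a.1 1 0 = β * z.1 1 0 ∧
      a.1 1 1 = α + β * z.1 1 1 := by
  have hns : z.1 0 1 ≠ 0 ∨ z.1 1 0 ≠ 0 ∨ z.1 0 0 ≠ z.1 1 1 := by
    by_contra hns
    push Not at hns
    exact hz (sl2_center_char_two h2 z ((sl2_mem_center_iff z).mpr hns))
  obtain ⟨e00, e01, e10, -⟩ := sl2_entries h.symm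
  simp only [sl2_mul_apply] at e00 e01 e10
  exact Cfsg.Agent.H64.PSL2Even.exists_ab hns e00 e01 e10

/-- Commutativity is transitive on nonidentity elements of `SL₂` in characteristic `2`. -/
theorem sl2_comm_of_comm (h2 : (2 : F) = 0) {z a b : SL(2, F)} (hz : z ≠ 1)
    (ha : a * z = z * a) (hb : b * z = z * b) : a * b = b * a := by
  obtain ⟨α, β, a00, a01, a10, a11⟩ := sl2_exists_ab h2 hz ha
  obtain ⟨α', β', b00, b01, b10, b11⟩ := sl2_exists_ab h2 hz hb
  apply sl2_ext4 <;> simp only [sl2_mul_apply, a00, a01, a10, a11, b00, b01, b10, b11] <;> ring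

theorem sl2_trace_conj (g v : SL(2, F)) :
    (g * v * g⁻¹).1 0 0 + (g * v * g⁻¹).1 1 1 = v.1 0 0 + v.1 1 1 := by
  have hd := sl2_det g
  simp only [sl2_mul_apply, sl2_inv_00, sl2_inv_01, sl2_inv_10, sl2_inv_11]
  linear_combination (v.1 0 0 + v.1 1 1) * hd

/-- In characteristic `2`: `z * z = 1` iff `z` has trace zero. -/
theorem sl2_mul_self_eq_one_iff (h2 : (2 : F) = 0) (z : SL(2, F)) :
    z * z = 1 ↔ z.1 0 0 + z.1 1 1 = 0 := by
  have hd := sl2_det z
  constructor
  · intro h
    obtain ⟨e00, e01, e10, e11⟩ := sl2_entries h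
    simp only [sl2_mul_apply] at e00 e01 e10 e11
    obtain ⟨o00, o01, o10, o11⟩ := sl2_one_entries (F := F)
    rw [o00] at e00
    rw [o01] at e01
    rw [o10] at e10
    rw [o11] at e11
    by_contra ht
    have h01 : z.1 0 1 = 0 := by
      have : (z.1 0 0 + z.1 1 1) * z.1 0 1 = 0 := by linear_combination e01
      rcases mul_eq_zero.mp this with h | h
      · exact absurd h ht
      · exact h
    rw [h01] at e00 hd
    have h1 : (z.1 0 0 - 1) ^ 2 = 0 := by linear_combination e00 + (1 - z.1 0 0) * h2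
    have h1' : z.1 0 0 = 1 := by
      have : z.1 0 0 - 1 = 0 := by simpa using h1
      linear_combination this
    rw [h1'] at hd
    apply ht
    rw [h1']
    linear_combination hd + h2
  · intro ht
    have h11 : z.1 1 1 = - z.1 0 0 := by linear_combination ht
    obtain ⟨o00, o01, o10, o11⟩ := sl2_one_entries (F := F)
    apply sl2_ext4 <;> simp only [sl2_mul_apply]
    · rw [o00]; rw [h11] at hd; linear_combination -hd - h2
    · rw [o01, h11]; ring
    · rw [o10, h11]; ring
    · rw [o11]; rw [h11] at hd ⊢; linear_combination -hd - h2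

/-- In characteristic `2`, an element commuting with `z ≠ 1` (trace nonzero) and having the
same trace is `z` or `z⁻¹`. -/
theorem sl2_eq_or_inv_of_comm (h2 : (2 : F) = 0) {z b : SL(2, F)} (hz : z ≠ 1)
    (ht : z.1 0 0 + z.1 1 1 ≠ 0) (hc : b * z = z * b)
    (htr : b.1 0 0 + b.1 1 1 = z.1 0 0 + z.1 1 1) : b = z ∨ b = z⁻¹ := by
  obtain ⟨α, β, b00, b01, b10, b11⟩ := sl2_exists_ab h2 hz hc
  have hdz := sl2_det z
  have hdb := sl2_det b
  rw [b00, b11] at htr
  have hβ : β = 1 := by
    have : (β - 1) * (z.1 0 0 + z.1 1 1) = 0 := by linear_combination htr - α * h2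
    rcases mul_eq_zero.mp this with h | h
    · linear_combination h
    · exact absurd h ht
  subst hβ
  rw [b00, b01, b10, b11] at hdb
  have hα : α * (α + (z.1 0 0 + z.1 1 1)) = 0 := by linear_combination hdb - hdz
  rcases mul_eq_zero.mp hα with h | h
  · left
    subst h
    apply sl2_ext4
    · rw [b00]; ring
    · rw [b01]; ring
    · rw [b10]; ring
    · rw [b11]; ring
  · right
    apply sl2_ext4
    · rw [b00, sl2_inv_00]; linear_combination h - z.1 1 1 * h2
    · rw [b01, sl2_inv_01]; linear_combination z.1 0 1 * h2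
    · rw [b10, sl2_inv_10]; linear_combination z.1 1 0 * h2
    · rw [b11, sl2_inv_11]; linear_combination h - z.1 0 0 * h2

/-- If `g v g⁻¹` commutes with `v`, it is `v` or `v⁻¹` (trace of `v` nonzero). -/
theorem sl2_conj_eq_or_inv (h2 : (2 : F) = 0) {v g : SL(2, F)} (hv : v ≠ 1)
    (ht : v.1 0 0 + v.1 1 1 ≠ 0) (hc : (g * v * g⁻¹) * v = v * (g * v * g⁻¹)) :
    g * v * g⁻¹ = v ∨ g * v * g⁻¹ = v⁻¹ :=
  sl2_eq_or_inv_of_comm h2 hv ht hc (sl2_trace_conj g v)

/-- An element of nonzero trace cannot invert an element of nonzero trace. -/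
theorem sl2_not_inv_of_trace_ne_zero (h2 : (2 : F) = 0) {x v : SL(2, F)}
    (htv : v.1 0 0 + v.1 1 1 ≠ 0) (htx : x.1 0 0 + x.1 1 1 ≠ 0) : x * v * x⁻¹ ≠ v⁻¹ := by
  intro h
  have hxx : x * x ≠ 1 := fun h' => htx ((sl2_mul_self_eq_one_iff h2 x).mp h')
  have h1 : x * x * v = v * (x * x) := by
    have e1 : x * x * v = x * (x * v * x⁻¹) * x := by group
    have e2 : x * v⁻¹ * x⁻¹ = (x * v * x⁻¹)⁻¹ := by group
    have e3 : x * v⁻¹ = (x * v⁻¹ * x⁻¹) * x := by group
    rw [e1, h, e3, e2, h, inv_inv, mul_assoc]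
  have h2' : x * (x * x) = (x * x) * x := by group
  have hcomm : x * v = v * x := sl2_comm_of_comm h2 hxx h2' h1.symm
  have hv : x * v * x⁻¹ = v := by rw [hcomm]; group
  rw [hv] at h
  have hvv : v * v = 1 := by
    nth_rewrite 2 [h]
    exact mul_inv_cancel v
  exact htv ((sl2_mul_self_eq_one_iff h2 v).mp hvv)

/-- The involution (or identity) `1 + w wᗮ` attached to the vector `w = (p, r)`. -/
def invOf (h2 : (2 : F) = 0) (p r : F) : SL(2, F) :=
  slMk (1 + p * r) (p * p) (r * r) (1 + p * r) (by linear_combination (p * r) * h2)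

theorem conj_invOf (h2 : (2 : F) = 0) (g : SL(2, F)) (p r : F) :
    g * invOf h2 p r * g⁻¹ =
      invOf h2 (g.1 0 0 * p + g.1 0 1 * r) (g.1 1 0 * p + g.1 1 1 * r) := by
  have hd := sl2_det g
  apply sl2_ext4 <;>
    simp only [sl2_mul_apply, sl2_inv_00, sl2_inv_01, sl2_inv_10, sl2_inv_11, invOf, slMk_00,
      slMk_01, slMk_10, slMk_11]
  · linear_combination hd - (g.1 0 0 * g.1 1 0 * p * p + g.1 0 1 * g.1 1 0 * p * r) * h2
  · linear_combination (-(p * r) * g.1 0 0 * g.1 0 1 - r ^ 2 * g.1 0 1 ^ 2) * h2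
  · linear_combination (-(g.1 1 0 * g.1 1 1 * p * r) - g.1 1 0 ^ 2 * p ^ 2) * h2
  · linear_combination hd - (g.1 0 1 * g.1 1 1 * r * r + g.1 0 1 * g.1 1 0 * p * r) * h2

theorem invOf_comm (h2 : (2 : F) = 0) (p r p' r' : F)
    (h : invOf h2 p r * invOf h2 p' r' = invOf h2 p' r' * invOf h2 p r) :
    p * r' + p' * r = 0 := by
  obtain ⟨e00, -, -, -⟩ := sl2_entries h
  simp only [sl2_mul_apply, invOf, slMk_00, slMk_01, slMk_10] at e00
  have : (p * r' + p' * r) ^ 2 = 0 := by
    linear_combination e00 + (p * r' * p' * r + p' * p' * r * r) * h2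
  simpa using this

theorem invOf_eq_one (h2 : (2 : F) = 0) (p r : F) (h : invOf h2 p r = 1) : p = 0 ∧ r = 0 := by
  obtain ⟨-, e01, e10, -⟩ := sl2_entries h
  obtain ⟨-, o01, o10, -⟩ := sl2_one_entries (F := F)
  rw [o01] at e01
  rw [o10] at e10
  simp only [invOf, slMk_01, slMk_10] at e01 e10
  exact ⟨by simpa using e01, by simpa using e10⟩

/-- Every trace-zero element is of the form `invOf p r` (finite field of characteristic `2`). -/
theorem exists_invOf [Finite F] (h2 : (2 : F) = 0) (v : SL(2, F))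
    (htr : v.1 0 0 + v.1 1 1 = 0) : ∃ p r : F, v = invOf h2 p r := by
  have hchar : CharP F 2 := CharTwo.of_one_ne_zero_of_two_eq_zero one_ne_zero h2
  have hring : ringChar F = 2 := ringChar.eq F 2
  obtain ⟨p, hp⟩ := FiniteField.isSquare_of_char_two hring (v.1 0 1)
  obtain ⟨r, hr⟩ := FiniteField.isSquare_of_char_two hring (v.1 1 0)
  have hd := sl2_det v
  have h11 : v.1 1 1 = - v.1 0 0 := by linear_combination htr
  rw [h11, hp, hr] at hd
  have h00 : v.1 0 0 = 1 + p * r := by
    have : (v.1 0 0 - (1 + p * r)) ^ 2 = 0 := by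
      linear_combination -hd + (v.1 0 0 * v.1 0 0 - v.1 0 0 * (1 + p * r) + p * r + p * p * r * r
        - v.1 0 0 ^ 2 - p ^ 2 * r ^ 2) * h2
    have : v.1 0 0 - (1 + p * r) = 0 := by simpa using this
    linear_combination this
  refine ⟨p, r, ?_⟩
  apply sl2_ext4 <;> simp only [invOf, slMk_00, slMk_01, slMk_10, slMk_11]
  · exact h00
  · exact hp
  · exact hr
  · rw [h11, h00]; linear_combination -(1 + p * r) * h2

/-- If `x` maps the nonzero vector `(p, r)` to a multiple of itself, its characteristic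
polynomial has a root. -/
theorem root_of_fix (h2 : (2 : F) = 0) (x : SL(2, F)) (p r : F) (hpr : p ≠ 0 ∨ r ≠ 0)
    (h : p * (x.1 1 0 * p + x.1 1 1 * r) + (x.1 0 0 * p + x.1 0 1 * r) * r = 0) :
    ∃ l : F, l ^ 2 + (x.1 0 0 + x.1 1 1) * l + 1 = 0 := by
  have hd := sl2_det x
  rcases hpr with hp | hr
  · refine ⟨(x.1 0 0 * p + x.1 0 1 * r) / p, ?_⟩
    field_simp
    have e : x.1 0 1 * r * r = -(p * (x.1 1 0 * p + x.1 1 1 * r) + x.1 0 0 * p * r) := by
      linear_combination h
    linear_combination (p ^ 2) * (-hd) + (x.1 0 1) * e * 1 +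
      (x.1 0 0 ^ 2 * p ^ 2 + x.1 0 0 * x.1 0 1 * p * r + x.1 0 0 * x.1 1 1 * p ^ 2 + p ^ 2
        - p ^ 2 - p ^ 2 * x.1 0 1 * x.1 1 0) * h2
  · refine ⟨(x.1 1 0 * p + x.1 1 1 * r) / r, ?_⟩
    field_simp
    have e : x.1 1 0 * p * p = -(x.1 1 1 * r * p + (x.1 0 0 * p + x.1 0 1 * r) * r) := by
      linear_combination h
    linear_combination (r ^ 2) * (-hd) + (x.1 1 0) * e * 1 +
      (x.1 1 1 ^ 2 * r ^ 2 + x.1 1 1 * x.1 1 0 * p * r + x.1 0 0 * x.1 1 1 * r ^ 2 + r ^ 2
        - x.1 1 0 * r ^ 2 * x.1 0 1 - r ^ 2) * h2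

end SolubMat

section GroupAux

variable {G : Type*} [Group G]

theorem comm_of_conj_eq {g v : G} (h : g * v * g⁻¹ = v) : g * v = v * g := by
  calc g * v = g * v * g⁻¹ * g := by group
    _ = v * g := by rw [h]

theorem mul_eq_of_conj_eq {g v w : G} (h : g * v * g⁻¹ = w) : g * v = w * g := by
  calc g * v = g * v * g⁻¹ * g := by group
    _ = w * g := by rw [h]

theorem conj_eq_of_mul_eq {g v w : G} (h : g * v = w * g) : g * v * g⁻¹ = w := by
  rw [h]; group

theorem conj_comm_conj (g a b : G) (h : a * b = b * a) :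
    (g * a * g⁻¹) * (g * b * g⁻¹) = (g * b * g⁻¹) * (g * a * g⁻¹) := by
  have e1 : g * a * g⁻¹ * (g * b * g⁻¹) = g * (a * b) * g⁻¹ := by group
  have e2 : g * b * g⁻¹ * (g * a * g⁻¹) = g * (b * a) * g⁻¹ := by group
  rw [e1, e2, h]

/-- From solvability of `⟨x, y⟩`, `x ≠ 1`: a nonidentity `v` commuting with its conjugates under
`x` and `y`. -/
theorem exists_comm_pair (x y : G) (hx : x ≠ 1)
    (hs : Group.IsSolvable (Subgroup.closure ({x, y} : Set G))) :
    ∃ v : G, v ≠ 1 ∧ (x * v * x⁻¹) * v = v * (x * v * x⁻¹) ∧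
      (y * v * y⁻¹) * v = v * (y * v * y⁻¹) := by
  have hxm : x ∈ Subgroup.closure ({x, y} : Set G) := Subgroup.subset_closure (by simp)
  have hym : y ∈ Subgroup.closure ({x, y} : Set G) := Subgroup.subset_closure (by simp)
  have hne : Subgroup.closure ({x, y} : Set G) ≠ ⊥ := by
    intro h
    rw [h, Subgroup.mem_bot] at hxm
    exact hx hxm
  obtain ⟨v, -, hv1, hv⟩ := exists_comm_conj_of_solvable _ hne
  exact ⟨v, hv1, hv x hxm, hv y hym⟩

end GroupAux

section SolubSets

variable {F : Type*} [Field F]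

theorem invOf_zero (h2 : (2 : F) = 0) : invOf h2 0 0 = 1 := by
  obtain ⟨o00, o01, o10, o11⟩ := sl2_one_entries (F := F)
  apply sl2_ext4 <;> simp only [invOf, slMk_00, slMk_01, slMk_10, slMk_11]
  · rw [o00]; ring
  · rw [o01]; ring
  · rw [o10]; ring
  · rw [o11]; ring

/-- The diagonal element `diag(a, b)`, `a b = 1`. -/
def slDiagS (a b : F) (h : a * b = 1) : SL(2, F) :=
  slMk a 0 0 b (by rw [mul_zero, sub_zero]; exact h)

theorem sl2_one_trace (h2 : (2 : F) = 0) : (1 : SL(2, F)).1 0 0 + (1 : SL(2, F)).1 1 1 = 0 := by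
  obtain ⟨o00, -, -, o11⟩ := sl2_one_entries (F := F)
  rw [o00, o11]; linear_combination h2

/-- Solvable `⟨u, y⟩` for the standard involution `u`: the three possibilities. -/
theorem solub_invol_sub [Finite F] (h2 : (2 : F) = 0) (y : SL(2, F))
    (hs : Group.IsSolvable (Subgroup.closure ({invOf h2 1 0, y} : Set SL(2, F)))) :
    y.1 1 0 = 0 ∨ y.1 0 0 + y.1 1 1 = 0 ∨ y.1 0 0 + y.1 1 0 + y.1 1 1 = 0 := by
  obtain ⟨x, hxdef⟩ : ∃ x : SL(2, F), x = invOf h2 1 0 := ⟨_, rfl⟩
  rw [← hxdef] at hs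
  have x00 : x.1 0 0 = 1 := by rw [hxdef]; simp [invOf]
  have x01 : x.1 0 1 = 1 := by rw [hxdef]; simp [invOf]
  have x10 : x.1 1 0 = 0 := by rw [hxdef]; simp [invOf]
  have x11 : x.1 1 1 = 1 := by rw [hxdef]; simp [invOf]
  have hx1 : x ≠ 1 := by
    intro h
    obtain ⟨-, e01, -, -⟩ := sl2_entries h
    obtain ⟨-, o01, -, -⟩ := sl2_one_entries (F := F)
    rw [x01, o01] at e01
    exact one_ne_zero e01
  have hxtr : x.1 0 0 + x.1 1 1 = 0 := by rw [x00, x11]; linear_combination h2
  have hxx : x * x = 1 := (sl2_mul_self_eq_one_iff h2 x).mpr hxtr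
  obtain ⟨v, hv1, hxv, hyv⟩ := exists_comm_pair x y hx1 hs
  by_cases htv : v.1 0 0 + v.1 1 1 = 0
  · obtain ⟨p, r, rfl⟩ := exists_invOf h2 v htv
    rw [conj_invOf] at hxv hyv
    have e1 := invOf_comm h2 _ _ _ _ hxv
    have e2 := invOf_comm h2 _ _ _ _ hyv
    rw [x00, x01, x10, x11] at e1
    have hr : r = 0 := by
      have : r ^ 2 = 0 := by linear_combination e1 - (p * r) * h2
      simpa using this
    subst hr
    have hp : p ≠ 0 := by
      rintro rfl
      exact hv1 (invOf_zero h2)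
    left
    have : p * p * y.1 1 0 = 0 := by linear_combination e2
    rcases mul_eq_zero.mp this with h | h
    · exact absurd (mul_self_eq_zero.mp h) hp
    · exact h
  · rcases sl2_conj_eq_or_inv h2 hv1 htv hxv with h | h
    · exfalso
      have hvx : v * x = x * v := (comm_of_conj_eq h).symm
      obtain ⟨α, β, v00, -, -, v11⟩ := sl2_exists_ab h2 hx1 hvx
      apply htv
      rw [v00, v11, x00, x11]
      linear_combination (α + β) * h2
    · by_cases hty : y.1 0 0 + y.1 1 1 = 0
      · right; left; exact hty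
      · rcases sl2_conj_eq_or_inv h2 hv1 htv hyv with h' | h'
        · right; right
          have hy1 : y ≠ 1 := by
            rintro rfl
            exact hty (sl2_one_trace h2)
          have hyv' : y * v = v * y := comm_of_conj_eq h'
          have hc1 := conj_comm_conj x y v hyv'
          rw [h] at hc1
          have hc2 : (x * y * x⁻¹) * v = v * (x * y * x⁻¹) :=
            (Commute.inv_right_iff (a := x * y * x⁻¹) (b := v)).mp hc1
          have hc3 : (x * y * x⁻¹) * y = y * (x * y * x⁻¹) := sl2_comm_of_comm h2 hv1 hc2 hyv'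
          rcases sl2_eq_or_inv_of_comm h2 hy1 hty hc3 (sl2_trace_conj x y) with h'' | h''
          · exfalso
            have hxy : x * y = y * x := comm_of_conj_eq h''
            have hxv' : x * v = v * x := sl2_comm_of_comm h2 hy1 hxy hyv'.symm
            have hv : x * v * x⁻¹ = v := by rw [hxv']; group
            rw [hv] at h
            have hvv : v * v = 1 := by
              nth_rewrite 2 [h]
              exact mul_inv_cancel v
            exact htv ((sl2_mul_self_eq_one_iff h2 v).mp hvv)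
          · have hzz : (x * y) * (x * y) = 1 := by
              calc x * y * (x * y) = (x * y * x⁻¹) * (x * x) * y := by group
                _ = 1 := by rw [h'', hxx]; group
            have ht := (sl2_mul_self_eq_one_iff h2 (x * y)).mp hzz
            simp only [sl2_mul_apply, x00, x01, x10, x11] at ht
            linear_combination ht
        · exact absurd h' (sl2_not_inv_of_trace_ne_zero h2 htv hty)

/-- Solvable `⟨d, y⟩` for a diagonal `d ≠ 1`: the three possibilities. -/
theorem solub_diag_sub [Finite F] (h2 : (2 : F) = 0) (a b : F) (hab : a * b = 1) (ha : a ≠ 1)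
    (y : SL(2, F))
    (hs : Group.IsSolvable (Subgroup.closure ({slDiagS a b hab, y} : Set SL(2, F)))) :
    y.1 1 0 = 0 ∨ y.1 0 1 = 0 ∨ (y.1 0 0 = 0 ∧ y.1 1 1 = 0) := by
  obtain ⟨x, hxdef⟩ : ∃ x : SL(2, F), x = slDiagS a b hab := ⟨_, rfl⟩
  rw [← hxdef] at hs
  have x00 : x.1 0 0 = a := by rw [hxdef]; simp [slDiagS]
  have x01 : x.1 0 1 = 0 := by rw [hxdef]; simp [slDiagS]
  have x10 : x.1 1 0 = 0 := by rw [hxdef]; simp [slDiagS]
  have x11 : x.1 1 1 = b := by rw [hxdef]; simp [slDiagS]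
  have hsum : a + b ≠ 0 := by
    intro h
    apply ha
    have : (a - 1) ^ 2 = 0 := by linear_combination a * h - hab - a * h2
    have : a - 1 = 0 := by simpa using this
    linear_combination this
  have hdiff : a - b ≠ 0 := by
    intro h
    apply hsum
    linear_combination h + b * h2
  have hx1 : x ≠ 1 := by
    intro h
    obtain ⟨e00, -, -, -⟩ := sl2_entries h
    obtain ⟨o00, -, -, -⟩ := sl2_one_entries (F := F)
    rw [x00, o00] at e00
    exact ha e00
  have hxtr : x.1 0 0 + x.1 1 1 ≠ 0 := by rw [x00, x11]; exact hsum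
  obtain ⟨v, hv1, hxv, hyv⟩ := exists_comm_pair x y hx1 hs
  by_cases htv : v.1 0 0 + v.1 1 1 = 0
  · obtain ⟨p, r, rfl⟩ := exists_invOf h2 v htv
    rw [conj_invOf] at hxv hyv
    have e1 := invOf_comm h2 _ _ _ _ hxv
    have e2 := invOf_comm h2 _ _ _ _ hyv
    rw [x00, x01, x10, x11] at e1
    have hpr : p * r = 0 := by
      have : (a + b) * (p * r) = 0 := by linear_combination e1
      rcases mul_eq_zero.mp this with h | h
      · exact absurd h hsum
      · exact h
    rcases mul_eq_zero.mp hpr with hp | hr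
    · subst hp
      have hr : r ≠ 0 := by
        rintro rfl
        exact hv1 (invOf_zero h2)
      right; left
      have : r * r * y.1 0 1 = 0 := by linear_combination e2
      rcases mul_eq_zero.mp this with h | h
      · exact absurd (mul_self_eq_zero.mp h) hr
      · exact h
    · subst hr
      have hp : p ≠ 0 := by
        rintro rfl
        exact hv1 (invOf_zero h2)
      left
      have : p * p * y.1 1 0 = 0 := by linear_combination e2
      rcases mul_eq_zero.mp this with h | h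
      · exact absurd (mul_self_eq_zero.mp h) hp
      · exact h
  · rcases sl2_conj_eq_or_inv h2 hv1 htv hxv with h | h
    · have hvx : v * x = x * v := (comm_of_conj_eq h).symm
      obtain ⟨-, e01, e10, -⟩ := sl2_entries hvx
      simp only [sl2_mul_apply, x00, x01, x10, x11] at e01 e10
      have v01 : v.1 0 1 = 0 := by
        have : (a - b) * v.1 0 1 = 0 := by linear_combination -e01
        rcases mul_eq_zero.mp this with h | h
        · exact absurd h hdiff
        · exact h
      have v10 : v.1 1 0 = 0 := by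
        have : (a - b) * v.1 1 0 = 0 := by linear_combination e10
        rcases mul_eq_zero.mp this with h | h
        · exact absurd h hdiff
        · exact h
      have hvd : v.1 0 0 - v.1 1 1 ≠ 0 := by
        intro h
        apply htv
        linear_combination h + v.1 1 1 * h2
      rcases sl2_conj_eq_or_inv h2 hv1 htv hyv with h' | h'
      · left
        obtain ⟨-, -, f10, -⟩ := sl2_entries (comm_of_conj_eq h')
        simp only [sl2_mul_apply, v10] at f10
        have : (v.1 0 0 - v.1 1 1) * y.1 1 0 = 0 := by linear_combination f10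
        rcases mul_eq_zero.mp this with h | h
        · exact absurd h hvd
        · exact h
      · right; right
        obtain ⟨f00, -, -, f11⟩ := sl2_entries (mul_eq_of_conj_eq h')
        simp only [sl2_mul_apply, sl2_inv_00, sl2_inv_01, sl2_inv_10, sl2_inv_11, v01, v10]
          at f00 f11
        constructor
        · have : (v.1 0 0 - v.1 1 1) * y.1 0 0 = 0 := by linear_combination f00
          rcases mul_eq_zero.mp this with h | h
          · exact absurd h hvd
          · exact h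
        · have : (v.1 0 0 - v.1 1 1) * y.1 1 1 = 0 := by linear_combination -f11
          rcases mul_eq_zero.mp this with h | h
          · exact absurd h hvd
          · exact h
    · exact absurd h (sl2_not_inv_of_trace_ne_zero h2 htv hxtr)

/-- Solvable `⟨x, y⟩` for `x` with irreducible characteristic polynomial: `y` centralises or
inverts `x`. -/
theorem solub_ellip_sub [Finite F] (h2 : (2 : F) = 0) (x : SL(2, F))
    (hroot : ∀ l : F, l ^ 2 + (x.1 0 0 + x.1 1 1) * l + 1 ≠ 0) (y : SL(2, F))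
    (hs : Group.IsSolvable (Subgroup.closure ({x, y} : Set SL(2, F)))) :
    y * x * y⁻¹ = x ∨ y * x * y⁻¹ = x⁻¹ := by
  have htx : x.1 0 0 + x.1 1 1 ≠ 0 := by
    intro h
    apply hroot 1
    rw [h]
    linear_combination h2
  have hx1 : x ≠ 1 := by
    rintro rfl
    exact htx (sl2_one_trace h2)
  obtain ⟨v, hv1, hxv, hyv⟩ := exists_comm_pair x y hx1 hs
  by_cases htv : v.1 0 0 + v.1 1 1 = 0
  · exfalso
    obtain ⟨p, r, rfl⟩ := exists_invOf h2 v htv
    rw [conj_invOf] at hxv
    have e1 := invOf_comm h2 _ _ _ _ hxv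
    have hpr : p ≠ 0 ∨ r ≠ 0 := by
      by_contra hpr
      push Not at hpr
      obtain ⟨rfl, rfl⟩ := hpr
      exact hv1 (invOf_zero h2)
    obtain ⟨l, hl⟩ := root_of_fix h2 x p r hpr (by linear_combination e1)
    exact hroot l hl
  · rcases sl2_conj_eq_or_inv h2 hv1 htv hxv with h | h
    · have hxv' : x * v = v * x := comm_of_conj_eq h
      have hc1 := conj_comm_conj y x v hxv'
      have hc2 : (y * x * y⁻¹) * v = v * (y * x * y⁻¹) := by
        rcases sl2_conj_eq_or_inv h2 hv1 htv hyv with h' | h'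
        · rw [h'] at hc1; exact hc1
        · rw [h'] at hc1
          exact (Commute.inv_right_iff (a := y * x * y⁻¹) (b := v)).mp hc1
      have hc3 : (y * x * y⁻¹) * x = x * (y * x * y⁻¹) := sl2_comm_of_comm h2 hv1 hc2 hxv'
      exact sl2_eq_or_inv_of_comm h2 hx1 htx hc3 (sl2_trace_conj y x)
    · exact absurd h (sl2_not_inv_of_trace_ne_zero h2 htv htx)

theorem slBorel_00_ne_zero (g : SL(2, F)) (hg : g.1 1 0 = 0) : g.1 0 0 ≠ 0 := by
  intro h
  have hd := sl2_det g
  rw [h, hg] at hd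
  simp at hd

/-- The upper triangular subgroup of `SL₂` is solvable. -/
theorem slBorel_solvable : Group.IsSolvable (slBorel F) := by
  let f : slBorel F →* Fˣ :=
    MonoidHom.mk' (fun g => Units.mk0 (g.1.1 0 0) (slBorel_00_ne_zero g.1 g.2)) (by
      rintro ⟨a, ha⟩ ⟨b, hb⟩
      apply Units.ext
      have hb' : b.1 1 0 = 0 := hb
      simp only [Subgroup.coe_mul, Units.val_mul, Units.val_mk0, sl2_mul_apply, hb']
      ring)
  apply isSolvable_of_hom_comm f
  rintro ⟨a, ha⟩ ⟨b, hb⟩ hfa hfb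
  have ha' : a.1 1 0 = 0 := ha
  have hb' : b.1 1 0 = 0 := hb
  have a00 : a.1 0 0 = 1 := congrArg Units.val hfa
  have b00 : b.1 0 0 = 1 := congrArg Units.val hfb
  have hda := sl2_det a
  have hdb := sl2_det b
  rw [a00, ha'] at hda
  rw [b00, hb'] at hdb
  have a11 : a.1 1 1 = 1 := by linear_combination hda
  have b11 : b.1 1 1 = 1 := by linear_combination hdb
  apply Subtype.ext
  show a * b = b * a
  apply sl2_ext4 <;> simp only [sl2_mul_apply, a00, a11, b00, b11, ha', hb'] <;> ring

theorem closure_pair_solvable_of_borel (x y : SL(2, F)) (hx : x.1 1 0 = 0) (hy : y.1 1 0 = 0) :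
    Group.IsSolvable (Subgroup.closure ({x, y} : Set SL(2, F))) := by
  have := slBorel_solvable (F := F)
  have hle : Subgroup.closure ({x, y} : Set SL(2, F)) ≤ slBorel F := by
    rw [Subgroup.closure_le]
    rintro g (rfl | rfl)
    · exact hx
    · exact hy
  exact Group.isSolvable_of_isSolvable_injective (Subgroup.inclusion_injective hle)

theorem solub_invol_sup (h2 : (2 : F) = 0) (y : SL(2, F))
    (h : y.1 1 0 = 0 ∨ y.1 0 0 + y.1 1 1 = 0 ∨ y.1 0 0 + y.1 1 0 + y.1 1 1 = 0) :
    Group.IsSolvable (Subgroup.closure ({invOf h2 1 0, y} : Set SL(2, F))) := by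
  obtain ⟨x, hxdef⟩ : ∃ x : SL(2, F), x = invOf h2 1 0 := ⟨_, rfl⟩
  rw [← hxdef]
  have x00 : x.1 0 0 = 1 := by rw [hxdef]; simp [invOf]
  have x01 : x.1 0 1 = 1 := by rw [hxdef]; simp [invOf]
  have x10 : x.1 1 0 = 0 := by rw [hxdef]; simp [invOf]
  have x11 : x.1 1 1 = 1 := by rw [hxdef]; simp [invOf]
  have hxtr : x.1 0 0 + x.1 1 1 = 0 := by rw [x00, x11]; linear_combination h2
  have hxx : x * x = 1 := (sl2_mul_self_eq_one_iff h2 x).mpr hxtr
  have hxinv : x⁻¹ = x := inv_eq_of_mul_eq_one_left hxx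
  by_cases hy10 : y.1 1 0 = 0
  · exact closure_pair_solvable_of_borel x y x10 hy10
  · have hy1 : y ≠ 1 := by
      rintro rfl
      apply hy10
      exact sl2_one_entries.2.2.1
    rcases h with h | h | h
    · exact absurd h hy10
    · have hyy : y * y = 1 := (sl2_mul_self_eq_one_iff h2 y).mpr h
      have hyinv : y⁻¹ = y := inv_eq_of_mul_eq_one_left hyy
      have hz1 : x * y ≠ 1 := by
        intro hz
        have : y = x⁻¹ := eq_inv_of_mul_eq_one_right hz
        rw [hxinv] at this
        apply hy10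
        rw [this]; exact x10
      refine closure_pair_solvable_of_inv (x * y) x y
        (fun a b ha hb => sl2_comm_of_comm h2 hz1 ha hb) (Or.inr ?_) (Or.inr ?_)
      · calc x * (x * y) * x⁻¹ = (x * x) * y * x⁻¹ := by group
          _ = y⁻¹ * x⁻¹ := by rw [hxx, one_mul, hyinv]
          _ = (x * y)⁻¹ := by group
      · calc y * (x * y) * y⁻¹ = y * x := by group
          _ = y⁻¹ * x⁻¹ := by rw [hyinv, hxinv]
          _ = (x * y)⁻¹ := by group
    · have hzz : (x * y) * (x * y) = 1 := by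
        apply (sl2_mul_self_eq_one_iff h2 (x * y)).mpr
        simp only [sl2_mul_apply, x00, x01, x10, x11]
        linear_combination h
      refine closure_pair_solvable_of_inv y x y
        (fun a b ha hb => sl2_comm_of_comm h2 hy1 ha hb) (Or.inr ?_) (Or.inl (by group))
      calc x * y * x⁻¹ = x * y * x := by rw [hxinv]
        _ = (x * y * (x * y)) * y⁻¹ := by group
        _ = y⁻¹ := by rw [hzz, one_mul]

theorem solub_invol_iff [Finite F] (h2 : (2 : F) = 0) (y : SL(2, F)) :
    Group.IsSolvable (Subgroup.closure ({invOf h2 1 0, y} : Set SL(2, F))) ↔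
      (y.1 1 0 = 0 ∨ y.1 0 0 + y.1 1 1 = 0 ∨ y.1 0 0 + y.1 1 0 + y.1 1 1 = 0) :=
  ⟨solub_invol_sub h2 y, solub_invol_sup h2 y⟩

theorem solub_diag_sup (h2 : (2 : F) = 0) (a b : F) (hab : a * b = 1) (ha : a ≠ 1) (y : SL(2, F))
    (h : y.1 1 0 = 0 ∨ y.1 0 1 = 0 ∨ (y.1 0 0 = 0 ∧ y.1 1 1 = 0)) :
    Group.IsSolvable (Subgroup.closure ({slDiagS a b hab, y} : Set SL(2, F))) := by
  obtain ⟨x, hxdef⟩ : ∃ x : SL(2, F), x = slDiagS a b hab := ⟨_, rfl⟩
  rw [← hxdef]
  have x00 : x.1 0 0 = a := by rw [hxdef]; simp [slDiagS]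
  have x01 : x.1 0 1 = 0 := by rw [hxdef]; simp [slDiagS]
  have x10 : x.1 1 0 = 0 := by rw [hxdef]; simp [slDiagS]
  have x11 : x.1 1 1 = b := by rw [hxdef]; simp [slDiagS]
  have hx1 : x ≠ 1 := by
    intro h
    obtain ⟨e00, -, -, -⟩ := sl2_entries h
    obtain ⟨o00, -, -, -⟩ := sl2_one_entries (F := F)
    rw [x00, o00] at e00
    exact ha e00
  rcases h with h | h | ⟨h00, h11⟩
  · exact closure_pair_solvable_of_borel x y x10 h
  · -- conjugate by the Weyl element
    obtain ⟨w, hwdef⟩ : ∃ w : SL(2, F), w = slMk 0 1 1 0 (by linear_combination -h2) := ⟨_, rfl⟩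
    have w00 : w.1 0 0 = 0 := by rw [hwdef]; simp
    have w01 : w.1 0 1 = 1 := by rw [hwdef]; simp
    have w10 : w.1 1 0 = 1 := by rw [hwdef]; simp
    have w11 : w.1 1 1 = 0 := by rw [hwdef]; simp
    have key : ∀ g : SL(2, F), g.1 0 1 = 0 → (w * g * w⁻¹).1 1 0 = 0 := by
      intro g hg
      simp only [sl2_mul_apply, sl2_inv_00, sl2_inv_10, w10, w11, hg]
      ring
    have h1 := closure_pair_solvable_of_borel (w * x * w⁻¹) (w * y * w⁻¹) (key x x01) (key y h)
    exact (closure_pair_solvable_iff (MulAut.conj w) x y).mp h1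
  · have hyx : y * x * y⁻¹ = x⁻¹ := by
      apply conj_eq_of_mul_eq
      apply sl2_ext4 <;>
        simp only [sl2_mul_apply, sl2_inv_00, sl2_inv_01, sl2_inv_10, sl2_inv_11, x00, x01, x10,
          x11, h00, h11] <;> ring
    exact closure_pair_solvable_of_inv x x y
      (fun a b ha hb => sl2_comm_of_comm h2 hx1 ha hb) (Or.inl (by group)) (Or.inr hyx)

theorem solub_diag_iff [Finite F] (h2 : (2 : F) = 0) (a b : F) (hab : a * b = 1) (ha : a ≠ 1)
    (y : SL(2, F)) :
    Group.IsSolvable (Subgroup.closure ({slDiagS a b hab, y} : Set SL(2, F))) ↔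
      (y.1 1 0 = 0 ∨ y.1 0 1 = 0 ∨ (y.1 0 0 = 0 ∧ y.1 1 1 = 0)) :=
  ⟨solub_diag_sub h2 a b hab ha y, solub_diag_sup h2 a b hab ha y⟩

theorem solub_ellip_iff [Finite F] (h2 : (2 : F) = 0) (x : SL(2, F))
    (hroot : ∀ l : F, l ^ 2 + (x.1 0 0 + x.1 1 1) * l + 1 ≠ 0) (y : SL(2, F)) :
    Group.IsSolvable (Subgroup.closure ({x, y} : Set SL(2, F))) ↔
      (y * x * y⁻¹ = x ∨ y * x * y⁻¹ = x⁻¹) := by
  refine ⟨solub_ellip_sub h2 x hroot y, fun h => ?_⟩
  have htx : x.1 0 0 + x.1 1 1 ≠ 0 := by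
    intro h
    apply hroot 1
    rw [h]
    linear_combination h2
  have hx1 : x ≠ 1 := by
    rintro rfl
    exact htx (sl2_one_trace h2)
  exact closure_pair_solvable_of_inv x x y
    (fun a b ha hb => sl2_comm_of_comm h2 hx1 ha hb) (Or.inl (by group)) h

end SolubSets

section SolubCount

variable {F : Type*} [Field F]

section

variable [Fintype F]

theorem card_units_nat : Nat.card Fˣ = Fintype.card F - 1 := by
  rw [Nat.card_units, Nat.card_eq_fintype_card]

theorem card_units_prod : Nat.card (Fˣ × F) = (Fintype.card F - 1) * Fintype.card F := by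
  rw [Nat.card_prod, card_units_nat, Nat.card_eq_fintype_card]

theorem card_units_units : Nat.card (Fˣ × Fˣ) = (Fintype.card F - 1) * (Fintype.card F - 1) := by
  rw [Nat.card_prod, card_units_nat]

end

/-- The upper triangular elements of `SL₂`, parametrised. -/
def borelElt (ab : Fˣ × F) : SL(2, F) :=
  slMk (ab.1 : F) ab.2 0 (ab.1 : F)⁻¹ (by
    rw [mul_zero, sub_zero, mul_inv_cancel₀ (Units.ne_zero _)])

theorem borelElt_injective : Function.Injective (borelElt (F := F)) := by
  rintro ⟨a, b⟩ ⟨a', b'⟩ h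
  obtain ⟨e00, e01, -, -⟩ := sl2_entries h
  simp only [borelElt, slMk_00, slMk_01] at e00 e01
  exact Prod.ext (Units.ext e00) e01

theorem mem_range_borelElt (y : SL(2, F)) : y ∈ Set.range (borelElt (F := F)) ↔ y.1 1 0 = 0 := by
  constructor
  · rintro ⟨ab, rfl⟩
    simp [borelElt]
  · intro h
    have h0 := slBorel_00_ne_zero y h
    have hd := sl2_det y
    rw [h] at hd
    refine ⟨(Units.mk0 _ h0, y.1 0 1), ?_⟩
    apply sl2_ext4 <;> simp only [borelElt, slMk_00, slMk_01, slMk_10, slMk_11, Units.val_mk0]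
    · exact h.symm
    · rw [← mul_right_inj' h0, mul_inv_cancel₀ h0]
      linear_combination -hd

/-- Lower triangular elements with nonzero corner. -/
def lowerElt (ac : Fˣ × Fˣ) : SL(2, F) :=
  slMk (ac.1 : F) 0 (ac.2 : F) (ac.1 : F)⁻¹ (by
    rw [zero_mul, sub_zero, mul_inv_cancel₀ (Units.ne_zero _)])

theorem lowerElt_injective : Function.Injective (lowerElt (F := F)) := by
  rintro ⟨a, c⟩ ⟨a', c'⟩ h
  obtain ⟨e00, -, e10, -⟩ := sl2_entries h
  simp only [lowerElt, slMk_00, slMk_10] at e00 e10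
  exact Prod.ext (Units.ext e00) (Units.ext e10)

theorem mem_range_lowerElt (y : SL(2, F)) :
    y ∈ Set.range (lowerElt (F := F)) ↔ y.1 0 1 = 0 ∧ y.1 1 0 ≠ 0 := by
  constructor
  · rintro ⟨ac, rfl⟩
    simp [lowerElt]
  · rintro ⟨h01, h10⟩
    have hd := sl2_det y
    rw [h01] at hd
    have h0 : y.1 0 0 ≠ 0 := by
      intro h
      rw [h] at hd
      simp at hd
    refine ⟨(Units.mk0 _ h0, Units.mk0 _ h10), ?_⟩
    apply sl2_ext4 <;> simp only [lowerElt, slMk_00, slMk_01, slMk_10, slMk_11, Units.val_mk0]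
    · exact h01.symm
    · rw [← mul_right_inj' h0, mul_inv_cancel₀ h0]
      linear_combination -hd

/-- Antidiagonal elements (characteristic `2`). -/
def antiElt (h2 : (2 : F) = 0) (c : Fˣ) : SL(2, F) :=
  slMk 0 (c : F)⁻¹ (c : F) 0 (by
    rw [inv_mul_cancel₀ (Units.ne_zero _)]; linear_combination -h2)

theorem antiElt_injective (h2 : (2 : F) = 0) : Function.Injective (antiElt h2) := by
  intro c c' h
  obtain ⟨-, -, e10, -⟩ := sl2_entries h
  simp only [antiElt, slMk_10] at e10
  exact Units.ext e10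

theorem mem_range_antiElt (h2 : (2 : F) = 0) (y : SL(2, F)) :
    y ∈ Set.range (antiElt h2) ↔ y.1 0 0 = 0 ∧ y.1 1 1 = 0 := by
  constructor
  · rintro ⟨c, rfl⟩
    simp [antiElt]
  · rintro ⟨h00, h11⟩
    have hd := sl2_det y
    rw [h00, h11] at hd
    have h10 : y.1 1 0 ≠ 0 := by
      intro h
      rw [h] at hd
      simp at hd
    refine ⟨Units.mk0 _ h10, ?_⟩
    apply sl2_ext4 <;> simp only [antiElt, slMk_00, slMk_01, slMk_10, slMk_11, Units.val_mk0]
    · exact h00.symm
    · rw [← mul_right_inj' h10, mul_inv_cancel₀ h10]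
      linear_combination hd + h2
    · exact h11.symm

/-- Trace-zero elements off the Borel subgroup. -/
def traceZeroElt (h2 : (2 : F) = 0) (ca : Fˣ × F) : SL(2, F) :=
  slMk ca.2 ((ca.2 * ca.2 + 1) / (ca.1 : F)) (ca.1 : F) ca.2 (by
    rw [div_mul_cancel₀ _ (Units.ne_zero _)]; linear_combination -h2)

theorem traceZeroElt_injective (h2 : (2 : F) = 0) : Function.Injective (traceZeroElt h2) := by
  rintro ⟨c, a⟩ ⟨c', a'⟩ h
  obtain ⟨e00, -, e10, -⟩ := sl2_entries h
  simp only [traceZeroElt, slMk_00, slMk_10] at e00 e10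
  exact Prod.ext (Units.ext e10) e00

theorem mem_range_traceZeroElt (h2 : (2 : F) = 0) (y : SL(2, F)) :
    y ∈ Set.range (traceZeroElt h2) ↔ y.1 1 0 ≠ 0 ∧ y.1 0 0 + y.1 1 1 = 0 := by
  constructor
  · rintro ⟨ca, rfl⟩
    simp only [traceZeroElt, slMk_00, slMk_10, slMk_11]
    exact ⟨Units.ne_zero _, by linear_combination ca.2 * h2⟩
  · rintro ⟨h10, htr⟩
    have hd := sl2_det y
    refine ⟨(Units.mk0 _ h10, y.1 0 0), ?_⟩
    apply sl2_ext4 <;> simp only [traceZeroElt, slMk_00, slMk_01, slMk_10, slMk_11, Units.val_mk0]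
    · rw [div_eq_iff h10]
      linear_combination -hd + y.1 0 0 * htr - (y.1 0 1 * y.1 1 0) * h2
    · linear_combination -htr + y.1 0 0 * h2

/-- Elements with `tr = c` (the corner entry) off the Borel subgroup. -/
def traceCornerElt (h2 : (2 : F) = 0) (ca : Fˣ × F) : SL(2, F) :=
  slMk ca.2 ((ca.2 * (ca.2 + (ca.1 : F)) + 1) / (ca.1 : F)) (ca.1 : F) (ca.2 + (ca.1 : F)) (by
    rw [div_mul_cancel₀ _ (Units.ne_zero _)]; linear_combination -h2)

theorem traceCornerElt_injective (h2 : (2 : F) = 0) : Function.Injective (traceCornerElt h2) := by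
  rintro ⟨c, a⟩ ⟨c', a'⟩ h
  obtain ⟨e00, -, e10, -⟩ := sl2_entries h
  simp only [traceCornerElt, slMk_00, slMk_10] at e00 e10
  exact Prod.ext (Units.ext e10) e00

theorem mem_range_traceCornerElt (h2 : (2 : F) = 0) (y : SL(2, F)) :
    y ∈ Set.range (traceCornerElt h2) ↔ y.1 1 0 ≠ 0 ∧ y.1 0 0 + y.1 1 0 + y.1 1 1 = 0 := by
  constructor
  · rintro ⟨ca, rfl⟩
    simp only [traceCornerElt, slMk_00, slMk_10, slMk_11]
    exact ⟨Units.ne_zero _, by linear_combination (ca.2 + (ca.1 : F)) * h2⟩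
  · rintro ⟨h10, htr⟩
    have hd := sl2_det y
    refine ⟨(Units.mk0 _ h10, y.1 0 0), ?_⟩
    apply sl2_ext4 <;>
      simp only [traceCornerElt, slMk_00, slMk_01, slMk_10, slMk_11, Units.val_mk0]
    · rw [div_eq_iff h10]
      linear_combination -hd + y.1 0 0 * htr - (y.1 0 1 * y.1 1 0) * h2
    · linear_combination -htr + (y.1 0 0 + y.1 1 0) * h2

end SolubCount

section SolubCount2

variable {F : Type*} [Field F] [Fintype F]

theorem card_invol_set (h2 : (2 : F) = 0) :
    Nat.card {y : SL(2, F) // y.1 1 0 = 0 ∨ y.1 0 0 + y.1 1 1 = 0 ∨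
        y.1 0 0 + y.1 1 0 + y.1 1 1 = 0} = 3 * Fintype.card F * (Fintype.card F - 1) := by
  have hset : {y : SL(2, F) | y.1 1 0 = 0 ∨ y.1 0 0 + y.1 1 1 = 0 ∨
      y.1 0 0 + y.1 1 0 + y.1 1 1 = 0} =
      Set.range (borelElt (F := F)) ∪ Set.range (traceZeroElt h2) ∪
        Set.range (traceCornerElt h2) := by
    ext y
    simp only [Set.mem_ofPred_eq, Set.mem_union, mem_range_borelElt, mem_range_traceZeroElt,
      mem_range_traceCornerElt]
    by_cases h : y.1 1 0 = 0
    · simp [h]
    · simp [h]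
  have hd1 : Disjoint (Set.range (borelElt (F := F))) (Set.range (traceZeroElt h2)) := by
    rw [Set.disjoint_left]
    intro y h1 h3
    rw [mem_range_borelElt] at h1
    rw [mem_range_traceZeroElt] at h3
    exact h3.1 h1
  have hd2 : Disjoint (Set.range (borelElt (F := F)) ∪ Set.range (traceZeroElt h2))
      (Set.range (traceCornerElt h2)) := by
    rw [Set.disjoint_left]
    rintro y (h1 | h1) h3
    · rw [mem_range_borelElt] at h1
      rw [mem_range_traceCornerElt] at h3
      exact h3.1 h1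
    · rw [mem_range_traceZeroElt] at h1
      rw [mem_range_traceCornerElt] at h3
      apply h3.1
      linear_combination h3.2 - h1.2
  have hcard := Nat.card_coe_set_eq {y : SL(2, F) | y.1 1 0 = 0 ∨ y.1 0 0 + y.1 1 1 = 0 ∨
      y.1 0 0 + y.1 1 0 + y.1 1 1 = 0}
  rw [hset, Set.ncard_union_eq hd2, Set.ncard_union_eq hd1,
    Set.ncard_range_of_injective borelElt_injective,
    Set.ncard_range_of_injective (traceZeroElt_injective h2),
    Set.ncard_range_of_injective (traceCornerElt_injective h2), card_units_prod] at hcard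
  rw [← hset] at hcard
  refine hcard.trans ?_
  ring

theorem card_diag_set (h2 : (2 : F) = 0) :
    Nat.card {y : SL(2, F) // y.1 1 0 = 0 ∨ y.1 0 1 = 0 ∨ (y.1 0 0 = 0 ∧ y.1 1 1 = 0)} =
      2 * Fintype.card F * (Fintype.card F - 1) := by
  have hset : {y : SL(2, F) | y.1 1 0 = 0 ∨ y.1 0 1 = 0 ∨ (y.1 0 0 = 0 ∧ y.1 1 1 = 0)} =
      Set.range (borelElt (F := F)) ∪ Set.range (lowerElt (F := F)) ∪
        Set.range (antiElt h2) := by
    ext y
    simp only [Set.mem_ofPred_eq, Set.mem_union, mem_range_borelElt, mem_range_lowerElt,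
      mem_range_antiElt]
    by_cases h : y.1 1 0 = 0
    · simp [h]
    · simp [h]
  have hd1 : Disjoint (Set.range (borelElt (F := F))) (Set.range (lowerElt (F := F))) := by
    rw [Set.disjoint_left]
    intro y h1 h3
    rw [mem_range_borelElt] at h1
    rw [mem_range_lowerElt] at h3
    exact h3.2 h1
  have hd2 : Disjoint (Set.range (borelElt (F := F)) ∪ Set.range (lowerElt (F := F)))
      (Set.range (antiElt h2)) := by
    rw [Set.disjoint_left]
    rintro y h1 h3
    rw [mem_range_antiElt] at h3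
    have hd := sl2_det y
    rw [h3.1, h3.2] at hd
    rcases h1 with h1 | h1
    · rw [mem_range_borelElt] at h1
      rw [h1] at hd
      simp at hd
    · rw [mem_range_lowerElt] at h1
      rw [h1.1] at hd
      simp at hd
  have hcard := Nat.card_coe_set_eq {y : SL(2, F) | y.1 1 0 = 0 ∨ y.1 0 1 = 0 ∨
      (y.1 0 0 = 0 ∧ y.1 1 1 = 0)}
  rw [hset, Set.ncard_union_eq hd2, Set.ncard_union_eq hd1,
    Set.ncard_range_of_injective borelElt_injective,
    Set.ncard_range_of_injective lowerElt_injective,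
    Set.ncard_range_of_injective (antiElt_injective h2), card_units_prod, card_units_units,
    card_units_nat] at hcard
  rw [← hset] at hcard
  refine hcard.trans ?_
  obtain ⟨m, hm⟩ : ∃ m, Fintype.card F = m + 1 :=
    ⟨Fintype.card F - 1, by have := Fintype.card_pos (α := F); omega⟩
  rw [hm]
  simp only [Nat.add_sub_cancel]
  ring

/-- The set of elements centralising or inverting an elliptic element has `2(q+1)` elements. -/
theorem card_ellip_set (h2 : (2 : F) = 0) (x : SL(2, F))
    (hroot : ∀ l : F, l ^ 2 + (x.1 0 0 + x.1 1 1) * l + 1 ≠ 0) :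
    Nat.card {y : SL(2, F) // y * x * y⁻¹ = x ∨ y * x * y⁻¹ = x⁻¹} =
      2 * (Fintype.card F + 1) := by
  classical
  have hchar : CharP F 2 := CharTwo.of_one_ne_zero_of_two_eq_zero one_ne_zero h2
  have hring : ringChar F = 2 := ringChar.eq F 2
  have htx : x.1 0 0 + x.1 1 1 ≠ 0 := by
    intro h
    apply hroot 1
    rw [h]
    linear_combination h2
  have hx1 : x ≠ 1 := by
    rintro rfl
    exact htx (sl2_one_trace h2)
  have hd := sl2_det x
  have x01 : x.1 0 1 ≠ 0 := by
    intro h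
    apply hroot (x.1 0 0)
    rw [h] at hd
    linear_combination hd + (x.1 0 0 ^ 2 + 1) * h2
  have x10 : x.1 1 0 ≠ 0 := by
    intro h
    apply hroot (x.1 0 0)
    rw [h] at hd
    linear_combination hd + (x.1 0 0 ^ 2 + 1) * h2
  -- the centraliser has `q + 1` elements
  have hns : Cfsg.Agent.H64.PSL2Even.Nonscalar x := Or.inl x01
  have hC := Cfsg.Agent.H64.PSL2Even.card_centralizer x hns
  have hconic := Cfsg.Agent.H64.PSL2Even.card_conic_one h2 (x.1 0 0 + x.1 1 1)
  have hq0 : (Cfsg.Agent.H64.PSL2Even.qroots (x.1 0 0 + x.1 1 1)).card = 0 := by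
    rw [Finset.card_eq_zero, Finset.eq_empty_iff_forall_notMem]
    intro l hl
    exact hroot l (Cfsg.Agent.H64.PSL2Even.mem_qroots.mp hl)
  rw [hq0, add_zero] at hconic
  rw [hconic] at hC
  -- an inverting element
  obtain ⟨s, hs⟩ := FiniteField.isSquare_of_char_two hring (x.1 1 0 / x.1 0 1)
  have hs2 : x.1 1 0 = s * s * x.1 0 1 := by
    rw [← hs]; field_simp
  have hs0 : s ≠ 0 := by
    rintro rfl
    apply x10
    rw [hs2]; ring
  have e : s⁻¹ * s = 1 := inv_mul_cancel₀ hs0
  obtain ⟨w, hwdef⟩ : ∃ w : SL(2, F), w = slMk 0 s⁻¹ s 0 (by rw [e]; linear_combination -h2) :=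
    ⟨_, rfl⟩
  have w00 : w.1 0 0 = 0 := by rw [hwdef]; simp
  have w01 : w.1 0 1 = s⁻¹ := by rw [hwdef]; simp
  have w10 : w.1 1 0 = s := by rw [hwdef]; simp
  have w11 : w.1 1 1 = 0 := by rw [hwdef]; simp
  have hw : w * x * w⁻¹ = x⁻¹ := by
    apply conj_eq_of_mul_eq
    apply sl2_ext4 <;>
      simp only [sl2_mul_apply, sl2_inv_00, sl2_inv_01, sl2_inv_10, sl2_inv_11, w00, w01, w10, w11]
    · rw [hs2]; linear_combination (s * x.1 0 1) * e + (x.1 0 1 * s) * h2
    · ring
    · ring
    · rw [hs2]; linear_combination (s * x.1 0 1) * e + (s * x.1 0 1) * h2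
  -- the two cosets
  have hA : {y : SL(2, F) | y * x * y⁻¹ = x} =
      ((Subgroup.centralizer ({x} : Set SL(2, F)) : Subgroup SL(2, F)) : Set SL(2, F)) := by
    ext y
    simp only [Set.mem_ofPred_eq, SetLike.mem_coe, Subgroup.mem_centralizer_iff,
      Set.mem_singleton_iff, forall_eq]
    constructor
    · intro h
      exact (comm_of_conj_eq h).symm
    · intro h
      rw [← h]; group
  have hAcard : {y : SL(2, F) | y * x * y⁻¹ = x}.ncard = Fintype.card F + 1 := by
    rw [hA, ← hC]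
    rfl
  have hB : {y : SL(2, F) | y * x * y⁻¹ = x⁻¹} =
      (fun y => w * y) '' {y : SL(2, F) | y * x * y⁻¹ = x} := by
    ext y
    simp only [Set.mem_ofPred_eq, Set.mem_image]
    constructor
    · intro h
      refine ⟨w⁻¹ * y, ?_, by group⟩
      have e1 : w⁻¹ * y * x * (w⁻¹ * y)⁻¹ = w⁻¹ * (y * x * y⁻¹) * w := by group
      have e2 : w⁻¹ * (w * x * w⁻¹) * w = x := by group
      rw [e1, h, ← hw, e2]
    · rintro ⟨y', hy', rfl⟩
      have e1 : w * y' * x * (w * y')⁻¹ = w * (y' * x * y'⁻¹) * w⁻¹ := by group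
      rw [e1, hy', hw]
  have hBcard : {y : SL(2, F) | y * x * y⁻¹ = x⁻¹}.ncard = Fintype.card F + 1 := by
    rw [hB, Set.ncard_image_of_injective _ (mul_right_injective w), hAcard]
  have hdisj : Disjoint {y : SL(2, F) | y * x * y⁻¹ = x} {y : SL(2, F) | y * x * y⁻¹ = x⁻¹} := by
    rw [Set.disjoint_left]
    intro y h1 h3
    rw [Set.mem_ofPred_eq] at h1 h3
    rw [h1] at h3
    have hxx : x * x = 1 := by
      nth_rewrite 2 [h3]
      exact mul_inv_cancel x
    exact htx ((sl2_mul_self_eq_one_iff h2 x).mp hxx)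
  have hcard := Nat.card_coe_set_eq
    ({y : SL(2, F) | y * x * y⁻¹ = x} ∪ {y : SL(2, F) | y * x * y⁻¹ = x⁻¹})
  rw [Set.ncard_union_eq hdisj, hAcard, hBcard] at hcard
  refine Eq.trans ?_ (hcard.trans (by ring))
  rfl

end SolubCount2

section SolubMain

variable {F : Type*} [Field F] [Fintype F]

theorem card_solub_invol_std (h2 : (2 : F) = 0) :
    Nat.card {y : SL(2, F) //
      Group.IsSolvable (Subgroup.closure ({invOf h2 1 0, y} : Set SL(2, F)))} =
      3 * Fintype.card F * (Fintype.card F - 1) := by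
  rw [← card_invol_set h2]
  exact Nat.card_congr (Equiv.subtypeEquivRight (solub_invol_iff h2))

/-- The solubilizer of an involution of `SL₂(q)`, `q` even, has `3q(q-1)` elements. -/
theorem card_solub_invol (h2 : (2 : F) = 0) (X : SL(2, F)) (hX1 : X ≠ 1)
    (htr : X.1 0 0 + X.1 1 1 = 0) :
    Nat.card {y : SL(2, F) // Group.IsSolvable (Subgroup.closure ({X, y} : Set SL(2, F)))} =
      3 * Fintype.card F * (Fintype.card F - 1) := by
  obtain ⟨p, r, rfl⟩ := exists_invOf h2 X htr
  obtain ⟨k, hk0, hk1⟩ : ∃ k : SL(2, F), k.1 0 0 = p ∧ k.1 1 0 = r := by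
    by_cases hp : p = 0
    · have hr : r ≠ 0 := by
        rintro rfl
        subst hp
        exact hX1 (invOf_zero h2)
      exact ⟨slMk 0 r⁻¹ r 0 (by rw [inv_mul_cancel₀ hr]; linear_combination -h2),
        by simp [hp], by simp⟩
    · exact ⟨slMk p 0 r p⁻¹ (by rw [zero_mul, sub_zero, mul_inv_cancel₀ hp]), by simp, by simp⟩
  have hconj : (MulAut.conj k) (invOf h2 1 0) = invOf h2 p r := by
    rw [MulAut.conj_apply, conj_invOf, hk0, hk1]
    simp
  rw [← hconj, card_solubilizer_equiv (MulAut.conj k) (invOf h2 1 0)]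
  exact card_solub_invol_std h2

theorem card_solub_diag_std (h2 : (2 : F) = 0) (a b : F) (hab : a * b = 1) (ha : a ≠ 1) :
    Nat.card {y : SL(2, F) //
      Group.IsSolvable (Subgroup.closure ({slDiagS a b hab, y} : Set SL(2, F)))} =
      2 * Fintype.card F * (Fintype.card F - 1) := by
  rw [← card_diag_set h2]
  exact Nat.card_congr (Equiv.subtypeEquivRight (solub_diag_iff h2 a b hab ha))

omit [Fintype F] in
/-- Conjugating to diagonal form from two eigenvectors. -/
theorem conj_of_eigen (X : SL(2, F)) (l m : F) (hlm : l * m = 1) (u1 u2 v1 v2 : F)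
    (hu1 : X.1 0 0 * u1 + X.1 0 1 * u2 = l * u1) (hu2 : X.1 1 0 * u1 + X.1 1 1 * u2 = l * u2)
    (hv1 : X.1 0 0 * v1 + X.1 0 1 * v2 = m * v1) (hv2 : X.1 1 0 * v1 + X.1 1 1 * v2 = m * v2)
    (hδ : u1 * v2 - v1 * u2 ≠ 0) : ∃ k : SL(2, F), X = k * slDiagS l m hlm * k⁻¹ := by
  obtain ⟨δ, hδdef⟩ : ∃ δ : F, δ = u1 * v2 - v1 * u2 := ⟨_, rfl⟩
  rw [← hδdef] at hδ
  refine ⟨slMk (u1 / δ) v1 (u2 / δ) v2 (by field_simp; rw [hδdef]), ?_⟩
  apply eq_mul_inv_of_mul_eq
  apply sl2_ext4 <;> simp only [sl2_mul_apply, slDiagS, slMk_00, slMk_01, slMk_10, slMk_11]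
  · field_simp
    linear_combination hu1
  · linear_combination hv1
  · field_simp
    linear_combination hu2
  · linear_combination hv2

omit [Fintype F] in
/-- A split element of nonzero trace is conjugate to a diagonal element. -/
theorem exists_diag_conj (h2 : (2 : F) = 0) (X : SL(2, F)) (l : F)
    (hl : l ^ 2 + (X.1 0 0 + X.1 1 1) * l + 1 = 0) (htx : X.1 0 0 + X.1 1 1 ≠ 0) :
    ∃ (k : SL(2, F)) (a b : F) (hab : a * b = 1), a ≠ 1 ∧ X = k * slDiagS a b hab * k⁻¹ := by
  have hd := sl2_det X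
  obtain ⟨m, hm⟩ : ∃ m : F, m = l + (X.1 0 0 + X.1 1 1) := ⟨_, rfl⟩
  have hlm : l * m = 1 := by rw [hm]; linear_combination hl - h2
  have hm' : m ^ 2 + (X.1 0 0 + X.1 1 1) * m + 1 = 0 := by
    rw [hm]
    linear_combination hl + (l * (X.1 0 0 + X.1 1 1) + (X.1 0 0 + X.1 1 1) ^ 2) * h2
  have hl1 : l ≠ 1 := by
    intro h
    apply htx
    rw [h] at hl
    linear_combination hl - h2
  by_cases h01 : X.1 0 1 = 0
  · by_cases h10 : X.1 1 0 = 0
    · -- already diagonal
      rw [h01, zero_mul, sub_zero] at hd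
      have ha : X.1 0 0 ≠ 1 := by
        intro h
        apply htx
        rw [h, one_mul] at hd
        rw [h, hd]
        linear_combination h2
      refine ⟨1, X.1 0 0, X.1 1 1, hd, ha, ?_⟩
      rw [one_mul, inv_one, mul_one]
      apply sl2_ext4 <;> simp [slDiagS, h01, h10]
    · -- eigenvectors `(l - X11, X10)`, `(m - X11, X10)`
      obtain ⟨k, hk⟩ := conj_of_eigen X l m hlm (l - X.1 1 1) (X.1 1 0) (m - X.1 1 1) (X.1 1 0)
        (by linear_combination hl - hd + (-1 - l ^ 2) * h2) (by ring)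
        (by linear_combination hm' - hd + (-1 - m ^ 2) * h2) (by ring)
        (by
          intro h
          have : (X.1 0 0 + X.1 1 1) * X.1 1 0 = 0 := by
            rw [hm] at h
            linear_combination -h
          rcases mul_eq_zero.mp this with h' | h'
          · exact htx h'
          · exact h10 h')
      exact ⟨k, l, m, hlm, hl1, hk⟩
  · -- eigenvectors `(X01, l - X00)`, `(X01, m - X00)`
    obtain ⟨k, hk⟩ := conj_of_eigen X l m hlm (X.1 0 1) (l - X.1 0 0) (X.1 0 1) (m - X.1 0 0)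
      (by ring) (by linear_combination hl - hd + (-1 - l ^ 2) * h2)
      (by ring) (by linear_combination hm' - hd + (-1 - m ^ 2) * h2)
      (by
        intro h
        have : (X.1 0 0 + X.1 1 1) * X.1 0 1 = 0 := by
          rw [hm] at h
          linear_combination h
        rcases mul_eq_zero.mp this with h' | h'
        · exact htx h'
        · exact h01 h')
    exact ⟨k, l, m, hlm, hl1, hk⟩

/-- The solubilizer of a split element of nonzero trace has `2q(q-1)` elements. -/
theorem card_solub_split (h2 : (2 : F) = 0) (X : SL(2, F)) (l : F)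
    (hl : l ^ 2 + (X.1 0 0 + X.1 1 1) * l + 1 = 0) (htx : X.1 0 0 + X.1 1 1 ≠ 0) :
    Nat.card {y : SL(2, F) // Group.IsSolvable (Subgroup.closure ({X, y} : Set SL(2, F)))} =
      2 * Fintype.card F * (Fintype.card F - 1) := by
  obtain ⟨k, a, b, hab, ha, rfl⟩ := exists_diag_conj h2 X l hl htx
  have hconj : (MulAut.conj k) (slDiagS a b hab) = k * slDiagS a b hab * k⁻¹ :=
    MulAut.conj_apply _ _
  rw [← hconj, card_solubilizer_equiv (MulAut.conj k) (slDiagS a b hab)]
  exact card_solub_diag_std h2 a b hab ha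

/-- The solubilizer of an elliptic element has `2(q+1)` elements. -/
theorem card_solub_ellip (h2 : (2 : F) = 0) (X : SL(2, F))
    (hroot : ∀ l : F, l ^ 2 + (X.1 0 0 + X.1 1 1) * l + 1 ≠ 0) :
    Nat.card {y : SL(2, F) // Group.IsSolvable (Subgroup.closure ({X, y} : Set SL(2, F)))} =
      2 * (Fintype.card F + 1) := by
  rw [← card_ellip_set h2 X hroot]
  exact Nat.card_congr (Equiv.subtypeEquivRight (solub_ellip_iff h2 X hroot))

end SolubMain

section SolubClass

theorem orderOf_dvd_card_centralizer {G : Type*} [Group G] [Finite G] (x : G) :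
    orderOf x ∣ Nat.card (Subgroup.centralizer ({x} : Set G)) := by
  have hx : x ∈ Subgroup.centralizer ({x} : Set G) := by
    rw [Subgroup.mem_centralizer_iff]
    intro h hh
    rw [Set.mem_singleton_iff] at hh
    rw [hh]
  have h := orderOf_dvd_natCard (⟨x, hx⟩ : Subgroup.centralizer ({x} : Set G))
  rwa [← Subgroup.orderOf_coe] at h

theorem eq_one_of_dvd_two_of_dvd_odd (d n : ℕ) (hn : Odd n) (h1 : d ∣ 2) (h2 : d ∣ n) :
    d = 1 := by
  have h := Nat.dvd_gcd h1 h2
  have hc : Nat.gcd 2 n = 1 := Nat.coprime_two_left.mpr hn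
  rw [hc] at h
  exact Nat.dvd_one.mp h

variable {F : Type*} [Field F] [Fintype F]

theorem card_centralizer_add_roots [DecidableEq F] (h2 : (2 : F) = 0) (x : SL(2, F))
    (hx : x ≠ 1) :
    Nat.card (Subgroup.centralizer ({x} : Set SL(2, F))) +
      (Cfsg.Agent.H64.PSL2Even.qroots (x.1 0 0 + x.1 1 1)).card = Fintype.card F + 1 := by
  have hns : Cfsg.Agent.H64.PSL2Even.Nonscalar x := by
    by_contra hns
    unfold Cfsg.Agent.H64.PSL2Even.Nonscalar at hns
    push Not at hns
    exact hx (sl2_center_char_two h2 x ((sl2_mem_center_iff x).mpr hns))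
  rw [Cfsg.Agent.H64.PSL2Even.card_centralizer x hns]
  exact Cfsg.Agent.H64.PSL2Even.card_conic_one h2 _

/-- A nonidentity element of order dividing `q - 1` is split with nonzero trace. -/
theorem exists_root_of_orderOf_dvd_pred (h2 : (2 : F) = 0) (x : SL(2, F)) (hx1 : x ≠ 1)
    (hd : orderOf x ∣ Fintype.card F - 1) :
    x.1 0 0 + x.1 1 1 ≠ 0 ∧ ∃ l : F, l ^ 2 + (x.1 0 0 + x.1 1 1) * l + 1 = 0 := by
  classical
  have hchar : CharP F 2 := CharTwo.of_one_ne_zero_of_two_eq_zero one_ne_zero h2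
  have hring : ringChar F = 2 := ringChar.eq F 2
  have hq : Fintype.card F % 2 = 0 := FiniteField.even_card_of_char_two hring
  have hq2 : 2 ≤ Fintype.card F := Fintype.one_lt_card
  have hodd1 : Odd (Fintype.card F - 1) := Nat.odd_iff.mpr (by omega)
  have hord1 : orderOf x ≠ 1 := fun h => hx1 (orderOf_eq_one_iff.mp h)
  have htx : x.1 0 0 + x.1 1 1 ≠ 0 := by
    intro h
    have hxx := (sl2_mul_self_eq_one_iff h2 x).mpr h
    have h2' : orderOf x ∣ 2 := orderOf_dvd_of_pow_eq_one (by rw [pow_two]; exact hxx)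
    exact hord1 (eq_one_of_dvd_two_of_dvd_odd _ _ hodd1 h2' hd)
  refine ⟨htx, ?_⟩
  by_contra hno
  push Not at hno
  have hq0 : (Cfsg.Agent.H64.PSL2Even.qroots (x.1 0 0 + x.1 1 1)).card = 0 := by
    rw [Finset.card_eq_zero, Finset.eq_empty_iff_forall_notMem]
    intro l hl
    exact hno l (Cfsg.Agent.H64.PSL2Even.mem_qroots.mp hl)
  have hC := card_centralizer_add_roots h2 x hx1
  rw [hq0, add_zero] at hC
  have h1 := orderOf_dvd_card_centralizer x
  rw [hC] at h1
  have h2' : orderOf x ∣ 2 := by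
    have h := Nat.dvd_sub h1 hd
    have e : Fintype.card F + 1 - (Fintype.card F - 1) = 2 := by omega
    rwa [e] at h
  exact hord1 (eq_one_of_dvd_two_of_dvd_odd _ _ hodd1 h2' hd)

/-- A nonidentity element of order dividing `q + 1` is elliptic. -/
theorem no_root_of_orderOf_dvd_succ (h2 : (2 : F) = 0) (x : SL(2, F)) (hx1 : x ≠ 1)
    (hd : orderOf x ∣ Fintype.card F + 1) :
    ∀ l : F, l ^ 2 + (x.1 0 0 + x.1 1 1) * l + 1 ≠ 0 := by
  classical
  have hchar : CharP F 2 := CharTwo.of_one_ne_zero_of_two_eq_zero one_ne_zero h2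
  have hring : ringChar F = 2 := ringChar.eq F 2
  have hq : Fintype.card F % 2 = 0 := FiniteField.even_card_of_char_two hring
  have hq2 : 2 ≤ Fintype.card F := Fintype.one_lt_card
  have hodd1 : Odd (Fintype.card F + 1) := Nat.odd_iff.mpr (by omega)
  have hord1 : orderOf x ≠ 1 := fun h => hx1 (orderOf_eq_one_iff.mp h)
  intro l hl
  by_cases htx : x.1 0 0 + x.1 1 1 = 0
  · have hxx := (sl2_mul_self_eq_one_iff h2 x).mpr htx
    have h2' : orderOf x ∣ 2 := orderOf_dvd_of_pow_eq_one (by rw [pow_two]; exact hxx)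
    exact hord1 (eq_one_of_dvd_two_of_dvd_odd _ _ hodd1 h2' hd)
  · have hcard := Cfsg.Agent.H64.PSL2Even.qroots_of_mem h2 htx
      (Cfsg.Agent.H64.PSL2Even.mem_qroots.mpr hl)
    have hC := card_centralizer_add_roots h2 x hx1
    rw [hcard] at hC
    have hC' : Nat.card (Subgroup.centralizer ({x} : Set SL(2, F))) = Fintype.card F - 1 := by
      omega
    have h1 := orderOf_dvd_card_centralizer x
    rw [hC'] at h1
    have h2' : orderOf x ∣ 2 := by
      have h := Nat.dvd_sub hd h1
      have e : Fintype.card F + 1 - (Fintype.card F - 1) = 2 := by omega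
      rwa [e] at h
    exact hord1 (eq_one_of_dvd_two_of_dvd_odd _ _ hodd1 h2' hd)

end SolubClass

end Cfsg.Agent.H7
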