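import Mathlib
import Cfsg.Agent.H7.Solub

set_option autoImplicit false

/-!
# Solubilizers: abstract lemmas used for `PSL₂(3^p)` (helper7)
-/

namespace Cfsg.Agent.H7

section Abstract3

variable {G : Type*} [Group G]

/-- A solvable subgroup `H` not contained in `Z` contains an element outside `Z` all of whose
`H`-conjugates commute with it modulo `Z`. -/
theorem exists_comm_conj_mod_of_solvable (H Z : Subgroup G) [hs : Group.IsSolvable H]
    (hH : ¬ H ≤ Z) :
    ∃ v ∈ H, v ∉ Z ∧ ∀ h ∈ H, (h * v * h⁻¹) * v * (h * v * h⁻¹)⁻¹ * v⁻¹ ∈ Z := by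
  classical
  have hex : ∃ n, derivedSeries H n ≤ Z.subgroupOf H := by
    obtain ⟨n, hn⟩ := hs.solvable
    exact ⟨n, by rw [hn]; exact bot_le⟩
  have hm_spec := Nat.find_spec hex
  have hm0 : Nat.find hex ≠ 0 := by
    intro h0
    rw [h0, derivedSeries_zero] at hm_spec
    apply hH
    intro g hg
    have : (⟨g, hg⟩ : H) ∈ Z.subgroupOf H := hm_spec (Subgroup.mem_top _)
    exact Subgroup.mem_subgroupOf.mp this
  obtain ⟨k, hk⟩ := Nat.exists_eq_succ_of_ne_zero hm0
  have hk_not : ¬ derivedSeries H k ≤ Z.subgroupOf H := Nat.find_min hex (by omega)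
  have hcomm : ⁅derivedSeries H k, derivedSeries H k⁆ ≤ Z.subgroupOf H := by
    rw [← derivedSeries_succ, ← Nat.succ_eq_add_one, ← hk]; exact hm_spec
  obtain ⟨v, hv, hvZ⟩ := SetLike.not_le_iff_exists.mp hk_not
  refine ⟨v.1, v.2, fun h => hvZ (Subgroup.mem_subgroupOf.mpr h), ?_⟩
  intro h hh
  have hn : (derivedSeries H k).Normal := derivedSeries_normal H k
  have hmem : (⟨h, hh⟩ : H) * v * (⟨h, hh⟩ : H)⁻¹ ∈ derivedSeries H k := hn.conj_mem v hv _
  have hc := hcomm (Subgroup.commutator_mem_commutator hmem hv)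
  have h' := Subgroup.mem_subgroupOf.mp hc
  rw [commutatorElement_def] at h'
  exact h'

/-- A group generated by an abelian subgroup and an element normalising it is solvable. -/
theorem solvable_of_abelian_normalized (K : Subgroup G) (hK : ∀ x ∈ K, ∀ y ∈ K, x * y = y * x)
    (a : G) (ha : a ∈ Subgroup.normalizer (K : Set G)) :
    Group.IsSolvable ↥(K ⊔ Subgroup.zpowers a) := by
  obtain ⟨L, hL⟩ : ∃ L : Subgroup G, L = K ⊔ Subgroup.zpowers a := ⟨_, rfl⟩
  rw [← hL]
  have hKL : K ≤ L := hL ▸ le_sup_left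
  have haL : Subgroup.zpowers a ≤ L := hL ▸ le_sup_right
  have hLN : L ≤ Subgroup.normalizer (K : Set G) := by
    rw [hL]
    exact sup_le Subgroup.le_normalizer (by rw [Subgroup.zpowers_le]; exact ha)
  haveI hn : (K.subgroupOf L).Normal := (Subgroup.normal_subgroupOf_iff_le_normalizer hKL).mpr hLN
  have hsup : K.subgroupOf L ⊔ (Subgroup.zpowers a).subgroupOf L = ⊤ := by
    rw [← Subgroup.subgroupOf_sup hKL haL, ← hL]
    exact Subgroup.subgroupOf_self L
  have hcomm : IsMulCommutative ((Subgroup.zpowers a).subgroupOf L) := by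
    refine ⟨⟨?_⟩⟩
    rintro ⟨⟨x, hxL⟩, hx⟩ ⟨⟨y, hyL⟩, hy⟩
    apply Subtype.ext
    apply Subtype.ext
    have hx' : x ∈ Subgroup.zpowers a := Subgroup.mem_subgroupOf.mp hx
    have hy' : y ∈ Subgroup.zpowers a := Subgroup.mem_subgroupOf.mp hy
    obtain ⟨m, rfl⟩ := Subgroup.mem_zpowers_iff.mp hx'
    obtain ⟨n, rfl⟩ := Subgroup.mem_zpowers_iff.mp hy'
    show a ^ m * a ^ n = a ^ n * a ^ m
    rw [← zpow_add, ← zpow_add, add_comm]
  have h1 := Subgroup.Normal.commutator_le_of_self_sup_commutative_eq_top hsup hcomm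
  have hq : IsMulCommutative (L ⧸ K.subgroupOf L) :=
    Subgroup.Normal.quotient_commutative_iff_commutator_le.mpr h1
  haveI : Group.IsSolvable (K.subgroupOf L) := Group.isSolvable_of_comm (by
    rintro ⟨⟨x, hxL⟩, hx⟩ ⟨⟨y, hyL⟩, hy⟩
    apply Subtype.ext
    apply Subtype.ext
    exact hK x (Subgroup.mem_subgroupOf.mp hx) y (Subgroup.mem_subgroupOf.mp hy))
  haveI : Group.IsSolvable (L ⧸ K.subgroupOf L) :=
    Group.isSolvable_of_comm (fun x y => mul_comm' x y)
  exact Group.isSolvable_of_ker_le_range (K.subgroupOf L).subtype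
    (QuotientGroup.mk' (K.subgroupOf L)) (by simp)

/-- The closure of a pairwise commuting pair is commutative. -/
theorem closure_pair_comm (s t : G) (hst : s * t = t * s) :
    ∀ x ∈ Subgroup.closure ({s, t} : Set G), ∀ y ∈ Subgroup.closure ({s, t} : Set G),
      x * y = y * x := by
  have h1 : Subgroup.closure ({s, t} : Set G) ≤ Subgroup.centralizer ({s, t} : Set G) := by
    rw [Subgroup.closure_le]
    rintro g (rfl | rfl)
    · rw [SetLike.mem_coe, Subgroup.mem_centralizer_iff]
      rintro h (rfl | rfl)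
      · rfl
      · exact hst.symm
    · rw [SetLike.mem_coe, Subgroup.mem_centralizer_iff]
      rintro h (rfl | rfl)
      · exact hst
      · rfl
  intro x hx y hy
  have hx' := h1 hx
  rw [Subgroup.mem_centralizer_iff] at hx'
  have h2 : Subgroup.closure ({s, t} : Set G) ≤ Subgroup.centralizer ({x} : Set G) := by
    rw [Subgroup.closure_le]
    intro g hg
    rw [SetLike.mem_coe, Subgroup.mem_centralizer_iff]
    intro h hh
    rw [Set.mem_singleton_iff] at hh
    rw [hh]
    exact (hx' g hg).symm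
  have := h2 hy
  rw [Subgroup.mem_centralizer_iff] at this
  exact this x (Set.mem_singleton x)

/-- A group generated by `a`, `b` with `a³ = b² = (ab)³ = 1` is solvable. -/
theorem solvable_233 (a b : G) (ha : a ^ 3 = 1) (hb : b * b = 1) (hab : (a * b) ^ 3 = 1) :
    Group.IsSolvable (Subgroup.closure ({a, b} : Set G)) := by
  have ha' : a⁻¹ = a * a := by
    apply inv_eq_of_mul_eq_one_right
    rw [← ha]; simp [pow_succ, mul_assoc]
  have hb' : b⁻¹ = b := inv_eq_of_mul_eq_one_right hb
  have h1 : a * (b * a * b) * (a * b) = 1 := by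
    rw [← hab]; simp [pow_succ, mul_assoc]
  have hbab : b * a * b = a⁻¹ * b * a⁻¹ := by
    calc b * a * b = a⁻¹ * (a * (b * a * b) * (a * b)) * (a * b)⁻¹ := by group
      _ = a⁻¹ * (a * b)⁻¹ := by rw [h1]; group
      _ = a⁻¹ * b * a⁻¹ := by rw [mul_inv_rev, hb']; group
  -- `v₂ = a b a⁻¹`; `b v₂ = v₂ b = a (v₂) a⁻¹`
  have e1 : b * (a * b * a⁻¹) = a * a * b * a := by
    calc b * (a * b * a⁻¹) = (b * a * b) * a⁻¹ := by group
      _ = a⁻¹ * b * a⁻¹ * a⁻¹ := by rw [hbab]
      _ = a * a * b * (a⁻¹ * a⁻¹) := by rw [ha']; group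
      _ = a * a * b * a := by
        have : a⁻¹ * a⁻¹ = a := by
          rw [ha']
          calc a * a * (a * a) = a ^ 3 * a := by simp [pow_succ, mul_assoc]
            _ = a := by rw [ha, one_mul]
        rw [this]
  have e2 : (a * b * a⁻¹) * b = a * a * b * a := by
    have hinv : b * a⁻¹ * b = (b * a * b)⁻¹ := by
      rw [mul_inv_rev, mul_inv_rev, hb']; group
    calc (a * b * a⁻¹) * b = a * (b * a⁻¹ * b) := by group
      _ = a * (a⁻¹ * b * a⁻¹)⁻¹ := by rw [hinv, hbab]
      _ = a * a * b⁻¹ * a := by group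
      _ = a * a * b * a := by rw [hb']
  have e3 : a * (a * b * a⁻¹) * a⁻¹ = a * a * b * a := by
    have : a⁻¹ * a⁻¹ = a := by
      rw [ha']
      calc a * a * (a * a) = a ^ 3 * a := by simp [pow_succ, mul_assoc]
        _ = a := by rw [ha, one_mul]
    calc a * (a * b * a⁻¹) * a⁻¹ = a * a * b * (a⁻¹ * a⁻¹) := by group
      _ = a * a * b * a := by rw [this]
  obtain ⟨K, hKdef⟩ : ∃ K : Subgroup G, K = Subgroup.closure ({b, a * b * a⁻¹} : Set G) :=
    ⟨_, rfl⟩
  have hbK : b ∈ K := hKdef ▸ Subgroup.subset_closure (by simp)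
  have hvK : a * b * a⁻¹ ∈ K := hKdef ▸ Subgroup.subset_closure (by simp)
  have hKcomm : ∀ x ∈ K, ∀ y ∈ K, x * y = y * x := by
    rw [hKdef]
    exact closure_pair_comm b (a * b * a⁻¹) (e1.trans e2.symm)
  -- conjugation by `a` maps `K` into `K`
  have hfwd : ∀ h ∈ K, a * h * a⁻¹ ∈ K := by
    have hle : K ≤ K.comap (MulAut.conj a).toMonoidHom := by
      rw [hKdef, Subgroup.closure_le]
      rintro g (rfl | rfl)
      · show a * g * a⁻¹ ∈ Subgroup.closure ({g, a * g * a⁻¹} : Set G)
        exact Subgroup.subset_closure (by simp)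
      · show a * (a * b * a⁻¹) * a⁻¹ ∈ Subgroup.closure ({b, a * b * a⁻¹} : Set G)
        rw [e3, ← e1]
        exact mul_mem (Subgroup.subset_closure (by simp)) (Subgroup.subset_closure (by simp))
    intro h hh
    exact hle hh
  have haN : a ∈ Subgroup.normalizer (K : Set G) := by
    rw [Subgroup.mem_normalizer_iff]
    intro h
    refine ⟨hfwd h, fun hh => ?_⟩
    have h3 := hfwd _ (hfwd _ hh)
    have e : a * (a * (a * h * a⁻¹) * a⁻¹) * a⁻¹ = h := by
      have h3' : a * a * a = 1 := by rw [← ha]; simp [pow_succ, mul_assoc]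
      have h3'' : a⁻¹ * a⁻¹ * a⁻¹ = 1 := by
        rw [← mul_inv_rev, ← mul_inv_rev, ← mul_assoc, h3', inv_one]
      calc a * (a * (a * h * a⁻¹) * a⁻¹) * a⁻¹ = (a * a * a) * h * (a⁻¹ * a⁻¹ * a⁻¹) := by group
        _ = h := by rw [h3', h3'', one_mul, mul_one]
    rwa [e] at h3
  have hsolv := solvable_of_abelian_normalized K hKcomm a haN
  have hle : Subgroup.closure ({a, b} : Set G) ≤ K ⊔ Subgroup.zpowers a := by
    rw [Subgroup.closure_le]
    rintro g (rfl | rfl)
    · exact (le_sup_right : Subgroup.zpowers g ≤ _) (Subgroup.mem_zpowers g)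
    · exact (le_sup_left : K ≤ _) hbK
  exact Group.isSolvable_of_isSolvable_injective (Subgroup.inclusion_injective hle)

/-- Solvability of `⟨x, y⟩` can be tested modulo a central kernel. -/
theorem closure_pair_solvable_map_iff {G' : Type*} [Group G'] (f : G →* G')
    (hker : f.ker ≤ Subgroup.center G) (x y : G) :
    Group.IsSolvable (Subgroup.closure ({f x, f y} : Set G')) ↔
      Group.IsSolvable (Subgroup.closure ({x, y} : Set G)) := by
  have hmap : Subgroup.closure ({f x, f y} : Set G') =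
      (Subgroup.closure ({x, y} : Set G)).map f := by
    rw [MonoidHom.map_closure]
    congr 1
    simp [Set.image_pair]
  rw [hmap]
  constructor
  · intro h
    haveI : Group.IsSolvable (f.subgroupMap (Subgroup.closure ({x, y} : Set G))).ker :=
      Group.isSolvable_of_comm (by
        rintro ⟨⟨a, haH⟩, ha⟩ ⟨⟨b, hbH⟩, hb⟩
        apply Subtype.ext
        apply Subtype.ext
        have ha' : f a = 1 := by
          have := congrArg Subtype.val (MonoidHom.mem_ker.mp ha)
          simpa using this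
        have hac := hker (MonoidHom.mem_ker.mpr ha')
        rw [Subgroup.mem_center_iff] at hac
        exact (hac b).symm)
    exact Group.isSolvable_of_ker_le_range
      (f.subgroupMap (Subgroup.closure ({x, y} : Set G))).ker.subtype
      (f.subgroupMap (Subgroup.closure ({x, y} : Set G))) (by simp)
  · intro h
    exact Group.isSolvable_of_surjective
      (f.subgroupMap_surjective (Subgroup.closure ({x, y} : Set G)))

/-- Fibres of the quotient map. -/
theorem card_preimage_quot (N : Subgroup G) [N.Normal] (P : G ⧸ N → Prop) :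
    Nat.card {Y : G // P (QuotientGroup.mk Y)} = Nat.card N * Nat.card {y : G ⧸ N // P y} := by
  have e := QuotientGroup.preimageMkEquivSubgroupProdSet N {y : G ⧸ N | P y}
  have e' : {Y : G // P (QuotientGroup.mk Y)} ≃ N × {y : G ⧸ N // P y} := e
  rw [Nat.card_congr e', Nat.card_prod]

end Abstract3

end Cfsg.Agent.H7
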