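import Mathlib
import Cfsg.Agent.H7.Solub3A
import Cfsg.Agent.H18.DkTor
import Cfsg.Agent.H44.SL2Sylow

set_option autoImplicit false

/-!
# Solvable subgroups of `SL₂(F)` in odd characteristic: structure lemmas (helper7)
-/

namespace Cfsg.Agent.H7

open Matrix
open scoped MatrixGroups
open Cfsg.Agent.H65.SL2 (tr mul00 mul01 mul10 mul11 inv00 inv01 inv10 inv11 neg00 neg01 neg10 neg11
  one00 one01 one10 one11 det_eq)
open Cfsg.Agent.H29.Dk (Ze)

section S3Mat

variable {F : Type*} [Field F]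

theorem s3_ze_cases (h2 : (2 : F) ≠ 0) {g : SL(2, F)} (hg : g ∈ (Ze : Subgroup SL(2, F))) :
    g = 1 ∨ g = -1 :=
  Cfsg.Agent.H65.SL2.eq_one_or_neg_one h2 g (Cfsg.Agent.H18.Dk.Ze_mul_self hg)

theorem s3_neg_one_mem : (-1 : SL(2, F)) ∈ (Ze : Subgroup SL(2, F)) :=
  Cfsg.Agent.H18.Dk.neg_one_mem_Ze

theorem s3_neg_mem_ze {g : SL(2, F)} (hg : g ∈ (Ze : Subgroup SL(2, F))) :
    -g ∈ (Ze : Subgroup SL(2, F)) := by
  have : -g = (-1) * g := by simp
  rw [this]
  exact mul_mem s3_neg_one_mem hg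

theorem s3_tr_neg (g : SL(2, F)) : tr (-g) = -tr g := by
  unfold Cfsg.Agent.H65.SL2.tr
  rw [neg00, neg11]; ring

theorem s3_tr_one : tr (1 : SL(2, F)) = 2 := by
  unfold Cfsg.Agent.H65.SL2.tr
  rw [one00, one11]; norm_num

theorem s3_four_ne (h2 : (2 : F) ≠ 0) : (4 : F) ≠ 0 := by
  have : (4 : F) = 2 * 2 := by norm_num
  rw [this]
  exact mul_ne_zero h2 h2

theorem s3_tr_of_mem_ze (h2 : (2 : F) ≠ 0) {g : SL(2, F)} (hg : g ∈ (Ze : Subgroup SL(2, F))) :
    tr g ^ 2 = 4 := by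
  rcases s3_ze_cases h2 hg with rfl | rfl
  · rw [s3_tr_one]; norm_num
  · rw [s3_tr_neg, s3_tr_one]; norm_num

theorem s3_not_mem_of_tr (h2 : (2 : F) ≠ 0) {g : SL(2, F)} (hg : tr g ^ 2 ≠ 4) :
    g ∉ (Ze : Subgroup SL(2, F)) := fun h => hg (s3_tr_of_mem_ze h2 h)

theorem s3_nonScalar {g : SL(2, F)} (hg : g ∉ (Ze : Subgroup SL(2, F))) :
    Cfsg.Agent.H44.NonScalar (g : Matrix (Fin 2) (Fin 2) F) :=
  Cfsg.Agent.H44.sl2_nonScalar_of_ne g (fun h => hg (h ▸ one_mem _))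
    (fun h => hg (h ▸ s3_neg_one_mem))

theorem s3_ne_neg (h2 : (2 : F) ≠ 0) (A : SL(2, F)) : A ≠ -A := by
  intro h
  have e00 := congrArg (fun M : SL(2, F) => M.1 0 0) h
  have e01 := congrArg (fun M : SL(2, F) => M.1 0 1) h
  simp only [neg00, neg01] at e00 e01
  have hd := det_eq A
  have h00 : A.1 0 0 = 0 := by
    have : (2 : F) * A.1 0 0 = 0 := by linear_combination e00
    exact (mul_eq_zero.mp this).resolve_left h2
  have h01 : A.1 0 1 = 0 := by
    have : (2 : F) * A.1 0 1 = 0 := by linear_combination e01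
    exact (mul_eq_zero.mp this).resolve_left h2
  rw [h00, h01] at hd
  simp at hd

/-- A central commutator means commuting or anticommuting. -/
theorem s3_comm_or_anti (h2 : (2 : F) ≠ 0) {A B : SL(2, F)}
    (h : A * B * A⁻¹ * B⁻¹ ∈ (Ze : Subgroup SL(2, F))) : A * B = B * A ∨ A * B = -(B * A) := by
  rcases s3_ze_cases h2 h with h1 | h1
  · left
    calc A * B = (A * B * A⁻¹ * B⁻¹) * (B * A) := by group
      _ = B * A := by rw [h1, one_mul]
  · right
    calc A * B = (A * B * A⁻¹ * B⁻¹) * (B * A) := by group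
      _ = -(B * A) := by rw [h1, neg_one_mul]

theorem s3_tr_zero_of_anti (h2 : (2 : F) ≠ 0) {A B : SL(2, F)} (h : A * B = -(B * A)) :
    tr B = 0 := by
  have e : A * B * A⁻¹ = -B := by
    rw [h, neg_mul, mul_inv_cancel_right]
  have h1 := Cfsg.Agent.H65.SL2.tr_conj A B
  rw [e, s3_tr_neg] at h1
  have : (2 : F) * tr B = 0 := by linear_combination -h1
  exact (mul_eq_zero.mp this).resolve_left h2

theorem s3_anti_symm {A B : SL(2, F)} (h : A * B = -(B * A)) : B * A = -(A * B) := by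
  rw [h, neg_neg]

theorem s3_tr_zero_of_anti' (h2 : (2 : F) ≠ 0) {A B : SL(2, F)} (h : A * B = -(B * A)) :
    tr A = 0 := s3_tr_zero_of_anti h2 (s3_anti_symm h)

theorem s3_sq_of_tr (V : SL(2, F)) (hV : tr V = 0) : V * V = -1 :=
  Cfsg.Agent.H44.sl2_mul_self_of_trace_zero hV

theorem s3_inv_of_tr (V : SL(2, F)) (hV : tr V = 0) : V⁻¹ = -V := by
  apply inv_eq_of_mul_eq_one_right
  rw [mul_neg, s3_sq_of_tr V hV, neg_neg]

theorem s3_conj_neg (h A : SL(2, F)) : h * (-A) * h⁻¹ = -(h * A * h⁻¹) := by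
  rw [mul_neg, neg_mul]

theorem s3_comm_of_conj {h V : SL(2, F)} (e : h * V * h⁻¹ = V) : h * V = V * h := by
  calc h * V = (h * V * h⁻¹) * h := by group
    _ = V * h := by rw [e]

theorem s3_anti_of_conj {h V : SL(2, F)} (e : h * V * h⁻¹ = -V) : h * V = -(V * h) := by
  calc h * V = (h * V * h⁻¹) * h := by group
    _ = -(V * h) := by rw [e, neg_mul]

theorem s3_conj_of_anti {A B : SL(2, F)} (h : A * B = -(B * A)) : A * B * A⁻¹ = -B := by
  rw [h, neg_mul, mul_inv_cancel_right]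

/-- Commuting with two anticommuting elements forces centrality. -/
theorem s3_comm_both (h2 : (2 : F) ≠ 0) {V W g : SL(2, F)} (hVW : V * W = -(W * V))
    (c1 : g * V = V * g) (c2 : g * W = W * g) : g ∈ (Ze : Subgroup SL(2, F)) := by
  by_contra hg
  have hns := s3_nonScalar hg
  have := Cfsg.Agent.H44.sl2_commute_of_commute hns c1.symm c2.symm
  rw [hVW] at this
  exact s3_ne_neg h2 (W * V) this.symm

/-- The elements of trace zero commuting modulo the centre with two anticommuting elements of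
trace zero. -/
theorem s3_quat_elt (h2 : (2 : F) ≠ 0) {V W M : SL(2, F)} (hV : tr V = 0) (hW : tr W = 0)
    (hVW : V * W = -(W * V)) (hM : tr M = 0)
    (h1 : M * V = V * M ∨ M * V = -(V * M)) (h2' : M * W = W * M ∨ M * W = -(W * M)) :
    M = V ∨ M = -V ∨ M = W ∨ M = -W ∨ M = V * W ∨ M = -(V * W) := by
  have h4 := s3_four_ne h2
  rcases h1 with h1 | h1
  · have hD : tr V ^ 2 ≠ 4 := by rw [hV]; intro h; apply h4; linear_combination -h
    rcases Cfsg.Agent.H65.SL2.eq_or_eq_inv_of_commute h2 M V h1 (hM.trans hV.symm) hD with h | h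
    · exact Or.inl h
    · exact Or.inr (Or.inl (by rw [h, s3_inv_of_tr V hV]))
  · rcases h2' with h2' | h2'
    · have hD : tr W ^ 2 ≠ 4 := by rw [hW]; intro h; apply h4; linear_combination -h
      rcases Cfsg.Agent.H65.SL2.eq_or_eq_inv_of_commute h2 M W h2' (hM.trans hW.symm) hD with h | h
      · exact Or.inr (Or.inr (Or.inl h))
      · exact Or.inr (Or.inr (Or.inr (Or.inl (by rw [h, s3_inv_of_tr W hW]))))
    · have hc : M * (V * W) = (V * W) * M := by
        calc M * (V * W) = (M * V) * W := by group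
          _ = -(V * (M * W)) := by rw [h1, neg_mul, mul_assoc]
          _ = V * W * M := by rw [h2', mul_neg, neg_neg, mul_assoc]
      have hanti : (V * W) * V = -(V * (V * W)) := by
        calc (V * W) * V = V * (W * V) := by group
          _ = -(V * (V * W)) := by rw [s3_anti_symm hVW, mul_neg]
      have hVWtr : tr (V * W) = 0 := s3_tr_zero_of_anti' h2 hanti
      have hD : tr (V * W) ^ 2 ≠ 4 := by rw [hVWtr]; intro h; apply h4; linear_combination -h
      rcases Cfsg.Agent.H65.SL2.eq_or_eq_inv_of_commute h2 M (V * W) hc (hM.trans hVWtr.symm) hD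
        with h | h
      · exact Or.inr (Or.inr (Or.inr (Or.inr (Or.inl h))))
      · exact Or.inr (Or.inr (Or.inr (Or.inr (Or.inr (by rw [h, s3_inv_of_tr _ hVWtr])))))

theorem s3_tr_mul_anti (h2 : (2 : F) ≠ 0) {V W : SL(2, F)} (hVW : V * W = -(W * V)) :
    tr (V * W) = 0 := by
  have hanti : (V * W) * V = -(V * (V * W)) := by
    calc (V * W) * V = V * (W * V) := by group
      _ = -(V * (V * W)) := by rw [s3_anti_symm hVW, mul_neg]
  exact s3_tr_zero_of_anti' h2 hanti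

/-- Elements fixing both axes up to sign are central or of trace zero. -/
theorem s3_quat_kernel (h2 : (2 : F) ≠ 0) {V W h : SL(2, F)} (hVW : V * W = -(W * V))
    (h1 : h * V * h⁻¹ = V ∨ h * V * h⁻¹ = -V) (h2' : h * W * h⁻¹ = W ∨ h * W * h⁻¹ = -W) :
    h ∈ (Ze : Subgroup SL(2, F)) ∨ tr h = 0 := by
  rcases h1 with h1 | h1
  · rcases h2' with h2' | h2'
    · exact Or.inl (s3_comm_both h2 hVW (s3_comm_of_conj h1) (s3_comm_of_conj h2'))
    · exact Or.inr (s3_tr_zero_of_anti' h2 (s3_anti_of_conj h2'))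
  · exact Or.inr (s3_tr_zero_of_anti' h2 (s3_anti_of_conj h1))

/-- No element fixes one axis and exchanges the other two (`-1` is not a square, char 3). -/
theorem s3_no_transp (h3 : (3 : F) = 0) (hns : ∀ a : F, a ^ 2 ≠ -1) {V W h : SL(2, F)}
    (hV : tr V = 0) (hW : tr W = 0) (hVW : V * W = -(W * V))
    (h1 : h * V * h⁻¹ = V ∨ h * V * h⁻¹ = -V)
    (h2' : h * W * h⁻¹ = V * W ∨ h * W * h⁻¹ = -(V * W)) : False := by
  have h2 : (2 : F) ≠ 0 := by
    intro h
    have : (1 : F) = 0 := by linear_combination h3 - h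
    exact one_ne_zero this
  have h4 := s3_four_ne h2
  -- reduce to the case where `h` commutes with `V`
  have key : ∀ k : SL(2, F), k * V * k⁻¹ = V →
      (k * W * k⁻¹ = V * W ∨ k * W * k⁻¹ = -(V * W)) → False := by
    intro k k1 k2
    have hWV : W * V * W⁻¹ = V⁻¹ := by
      rw [s3_conj_of_anti (s3_anti_symm hVW), s3_inv_of_tr V hV]
    have hD : (V.1 0 0 + V.1 1 1) ^ 2 ≠ 4 := by
      have : V.1 0 0 + V.1 1 1 = 0 := hV
      rw [this]; intro h; apply h4; linear_combination -h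
    have hWN : W ∈ Subgroup.normalizer
        (Subgroup.centralizer ({V} : Set SL(2, F)) : Set SL(2, F)) :=
      Cfsg.Agent.H18.Dk.mem_NT_of_inv hWV
    have hWT : W ∉ Subgroup.centralizer ({V} : Set SL(2, F)) := by
      intro hmem
      rw [Subgroup.mem_centralizer_iff] at hmem
      have := hmem V (Set.mem_singleton V)
      rw [hVW] at this
      exact s3_ne_neg h2 (W * V) this.symm
    have hkT : k ∈ Subgroup.centralizer ({V} : Set SL(2, F)) := by
      rw [Subgroup.mem_centralizer_iff]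
      intro g hg
      rw [Set.mem_singleton_iff] at hg
      rw [hg]
      exact (s3_comm_of_conj k1).symm
    have hinv := Cfsg.Agent.H44.sl2_normalizer_invert h2 hD hWN hWT hkT
    -- `k W k⁻¹ = k² W`
    have e1 : k * W * k⁻¹ = k * k * W := by
      have : W * k⁻¹ = k * W := by
        calc W * k⁻¹ = (W * k * W⁻¹)⁻¹ * W := by group
          _ = k * W := by rw [hinv, inv_inv]
      calc k * W * k⁻¹ = k * (W * k⁻¹) := by group
        _ = k * k * W := by rw [this]; group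
    have e2 : k * k = V ∨ k * k = -V := by
      rcases k2 with k2 | k2
      · left
        have : k * k * W = V * W := e1.symm.trans k2
        exact mul_right_cancel this
      · right
        have : k * k * W = (-V) * W := by rw [neg_mul]; exact e1.symm.trans k2
        exact mul_right_cancel this
    have e3 : tr (k * k) = 0 := by
      rcases e2 with e2 | e2
      · rw [e2]; exact hV
      · rw [e2, s3_tr_neg, hV, neg_zero]
    rw [Cfsg.Agent.H65.SL2.tr_mul_self] at e3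
    apply hns (tr k)
    linear_combination e3 + h3
  rcases h1 with h1 | h1
  · exact key h h1 h2'
  · apply key (h * W)
    · have hWV : W * V * W⁻¹ = -V := s3_conj_of_anti (s3_anti_symm hVW)
      calc h * W * V * (h * W)⁻¹ = h * (W * V * W⁻¹) * h⁻¹ := by group
        _ = V := by rw [hWV, s3_conj_neg, h1, neg_neg]
    · have : h * W * W * (h * W)⁻¹ = h * W * h⁻¹ := by group
      rw [this]
      exact h2'

theorem s3_uSL_entries (b : F) : (Cfsg.Agent.H44.uSL b).1 0 0 = 1 ∧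
    (Cfsg.Agent.H44.uSL b).1 0 1 = b ∧ (Cfsg.Agent.H44.uSL b).1 1 0 = 0 ∧
    (Cfsg.Agent.H44.uSL b).1 1 1 = 1 := by
  refine ⟨?_, ?_, ?_, ?_⟩ <;> simp [Cfsg.Agent.H44.uSL, Cfsg.Agent.H44.uMat]

theorem s3_borel_of_unip_aux (H : Subgroup SL(2, F)) (V : SL(2, F))
    (hV : V ∉ (Ze : Subgroup SL(2, F))) (htr : tr V = 2)
    (hH : ∀ h ∈ H, (h * V * h⁻¹) * V = V * (h * V * h⁻¹)) :
    ∃ g : SL(2, F), ∀ h ∈ H, (g⁻¹ * h * g).1 1 0 = 0 := by
  obtain ⟨b, hb, hconj⟩ := Cfsg.Agent.H44.SL2_isConj_uSL V (s3_nonScalar hV)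
    (by rw [Matrix.trace_fin_two]; exact htr)
  obtain ⟨c, hc⟩ := isConj_iff.mp hconj
  refine ⟨c⁻¹, fun h hh => ?_⟩
  rw [inv_inv]
  obtain ⟨k, hkdef⟩ : ∃ k, k = c * h * c⁻¹ := ⟨_, rfl⟩
  rw [← hkdef]
  obtain ⟨u00, u01, u10, u11⟩ := s3_uSL_entries b
  have hcomm : (c * (h * V * h⁻¹) * c⁻¹) * (c * V * c⁻¹) =
      (c * V * c⁻¹) * (c * (h * V * h⁻¹) * c⁻¹) := by
    calc (c * (h * V * h⁻¹) * c⁻¹) * (c * V * c⁻¹) = c * ((h * V * h⁻¹) * V) * c⁻¹ := by group
      _ = c * (V * (h * V * h⁻¹)) * c⁻¹ := by rw [hH h hh]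
      _ = _ := by group
  have e : c * (h * V * h⁻¹) * c⁻¹ = k * (c * V * c⁻¹) * k⁻¹ := by rw [hkdef]; group
  rw [e, hc] at hcomm
  have e00 := congrArg (fun M : SL(2, F) => M.1 0 0) hcomm
  simp only [mul00, mul01, mul10, mul11, inv00, inv01, inv10, inv11, u00, u01, u10, u11] at e00
  have h1 : b ^ 2 * (k.1 1 0) ^ 2 = 0 := by linear_combination e00
  rcases mul_eq_zero.mp h1 with h | h
  · exact absurd (pow_eq_zero_iff (two_ne_zero) |>.mp h) hb
  · exact pow_eq_zero_iff (two_ne_zero) |>.mp h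

/-- If a non-central `V` with `tr² = 4` commutes modulo the centre with all its `H`-conjugates,
then `H` is conjugate into the Borel subgroup. -/
theorem s3_borel_of_unip (h2 : (2 : F) ≠ 0) (H : Subgroup SL(2, F)) (V : SL(2, F))
    (hV : V ∉ (Ze : Subgroup SL(2, F))) (htr : tr V ^ 2 = 4)
    (hH : ∀ h ∈ H, (h * V * h⁻¹) * V * (h * V * h⁻¹)⁻¹ * V⁻¹ ∈ (Ze : Subgroup SL(2, F))) :
    ∃ g : SL(2, F), ∀ h ∈ H, (g⁻¹ * h * g).1 1 0 = 0 := by
  have h4 := s3_four_ne h2
  have hcomm : ∀ h ∈ H, (h * V * h⁻¹) * V = V * (h * V * h⁻¹) := by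
    intro h hh
    rcases s3_comm_or_anti h2 (hH h hh) with e | e
    · exact e
    · exfalso
      have := s3_tr_zero_of_anti h2 e
      rw [this] at htr
      apply h4
      linear_combination -htr
  have ht : tr V = 2 ∨ tr V = -2 := by
    have : (tr V - 2) * (tr V + 2) = 0 := by linear_combination htr
    rcases mul_eq_zero.mp this with h | h
    · left; linear_combination h
    · right; linear_combination h
  rcases ht with ht | ht
  · exact s3_borel_of_unip_aux H V hV ht hcomm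
  · apply s3_borel_of_unip_aux H (-V) ?_ ?_ ?_
    · intro h
      apply hV
      have := s3_neg_mem_ze h
      rwa [neg_neg] at this
    · rw [s3_tr_neg, ht, neg_neg]
    · intro h hh
      rw [s3_conj_neg, neg_mul_neg, neg_mul_neg]
      exact hcomm h hh

/-- The six non-central elements of the quaternion group generated by `V`, `W`. -/
def QAx (V W M : SL(2, F)) : Prop :=
  M = V ∨ M = -V ∨ M = W ∨ M = -W ∨ M = V * W ∨ M = -(V * W)

/-- Structure of solvable subgroups of `SL₂(F)` not contained in the centre. -/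
theorem s3_structure (h2 : (2 : F) ≠ 0) (H : Subgroup SL(2, F)) [Group.IsSolvable H]
    (hH : ¬ H ≤ (Ze : Subgroup SL(2, F))) :
    (∃ g : SL(2, F), ∀ h ∈ H, (g⁻¹ * h * g).1 1 0 = 0) ∨
    (∃ V ∈ H, tr V ^ 2 ≠ 4 ∧ ∀ h ∈ H, h * V * h⁻¹ = V ∨ h * V * h⁻¹ = V⁻¹) ∨
    (∃ V ∈ H, ∃ W ∈ H, tr V = 0 ∧ tr W = 0 ∧ V * W = -(W * V) ∧
      ∀ h ∈ H, QAx V W (h * V * h⁻¹) ∧ QAx V W (h * W * h⁻¹)) := by
  obtain ⟨V, hVH, hVZ, hcomm⟩ := exists_comm_conj_mod_of_solvable H Ze hH
  by_cases htr : tr V ^ 2 = 4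
  · exact Or.inl (s3_borel_of_unip h2 H V hVZ htr hcomm)
  right
  by_cases hall : ∀ h ∈ H, (h * V * h⁻¹) * V = V * (h * V * h⁻¹)
  · left
    refine ⟨V, hVH, htr, fun h hh => ?_⟩
    exact Cfsg.Agent.H65.SL2.eq_or_eq_inv_of_commute h2 _ V (hall h hh)
      (Cfsg.Agent.H65.SL2.tr_conj h V) htr
  · right
    push Not at hall
    obtain ⟨h₀, hh₀, hne⟩ := hall
    obtain ⟨W, hWdef⟩ : ∃ W, W = h₀ * V * h₀⁻¹ := ⟨_, rfl⟩
    rw [← hWdef] at hne
    have hWH : W ∈ H := hWdef ▸ mul_mem (mul_mem hh₀ hVH) (inv_mem hh₀)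
    have hanti : W * V = -(V * W) := by
      have := hcomm h₀ hh₀
      rw [← hWdef] at this
      exact (s3_comm_or_anti h2 this).resolve_left hne
    have hVtr : tr V = 0 := s3_tr_zero_of_anti h2 hanti
    have hWtr : tr W = 0 := by rw [hWdef, Cfsg.Agent.H65.SL2.tr_conj]; exact hVtr
    have hVW : V * W = -(W * V) := s3_anti_symm hanti
    have hconjV : ∀ h ∈ H, QAx V W (h * V * h⁻¹) := by
      intro h hh
      apply s3_quat_elt h2 hVtr hWtr hVW (by rw [Cfsg.Agent.H65.SL2.tr_conj]; exact hVtr)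
      · exact s3_comm_or_anti h2 (hcomm h hh)
      · have hk := hcomm (h₀⁻¹ * h) (mul_mem (inv_mem hh₀) hh)
        have hconj := (Cfsg.Agent.H29.Dk.conj_mem_Ze_iff h₀ _).mpr hk
        have e : h₀ * ((h₀⁻¹ * h) * V * (h₀⁻¹ * h)⁻¹ * V * ((h₀⁻¹ * h) * V * (h₀⁻¹ * h)⁻¹)⁻¹ * V⁻¹)
            * h₀⁻¹ = (h * V * h⁻¹) * W * (h * V * h⁻¹)⁻¹ * W⁻¹ := by rw [hWdef]; group
        rw [e] at hconj
        exact s3_comm_or_anti h2 hconj
    refine ⟨V, hVH, W, hWH, hVtr, hWtr, hVW, fun h hh => ⟨hconjV h hh, ?_⟩⟩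
    have := hconjV (h * h₀) (mul_mem hh hh₀)
    have e : h * h₀ * V * (h * h₀)⁻¹ = h * W * h⁻¹ := by rw [hWdef]; group
    rwa [e] at this

end S3Mat

section V4

variable {G : Type*} [Group G]

/-- `h` fixes `v` and `w`. -/
def KT (v w h : G) : Prop := h * v * h⁻¹ = v ∧ h * w * h⁻¹ = w

/-- `h` acts as `v ↦ w ↦ vw ↦ v`. -/
def RT (v w h : G) : Prop := h * v * h⁻¹ = w ∧ h * w * h⁻¹ = v * w

/-- `h` acts as `v ↦ vw ↦ w ↦ v`. -/
def RT' (v w h : G) : Prop := h * v * h⁻¹ = v * w ∧ h * w * h⁻¹ = v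

/-- A four-group `{1, v, w, vw}` that is self-centralising and admits no transposition. -/
structure V4Conf (v w : G) : Prop where
  v2 : v * v = 1
  w2 : w * w = 1
  comm : v * w = w * v
  v1 : v ≠ 1
  w1 : w ≠ 1
  vw : v ≠ w
  ker : ∀ k : G, KT v w k → k = 1 ∨ k = v ∨ k = w ∨ k = v * w
  nt1 : ∀ k : G, ¬ (k * v * k⁻¹ = v ∧ k * w * k⁻¹ = v * w)
  nt2 : ∀ k : G, ¬ (k * v * k⁻¹ = w ∧ k * w * k⁻¹ = v)
  nt3 : ∀ k : G, ¬ (k * v * k⁻¹ = v * w ∧ k * w * k⁻¹ = w)

theorem conj_prod (h a b : G) : h * (a * b) * h⁻¹ = (h * a * h⁻¹) * (h * b * h⁻¹) := by group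

theorem conj_inj {h a b : G} (e : h * a * h⁻¹ = h * b * h⁻¹) : a = b :=
  mul_left_cancel (mul_right_cancel e)

theorem conj_inv_eq {k x y : G} (e : k * y * k⁻¹ = x) : k⁻¹ * x * k = y := by
  rw [← e]; group

namespace V4Conf

variable {v w : G}

theorem wvw (c : V4Conf v w) : w * (v * w) = v := by
  rw [c.comm, ← mul_assoc, c.w2, one_mul]

theorem vwv (c : V4Conf v w) : (v * w) * v = w := by
  rw [c.comm, mul_assoc, c.v2, mul_one]

theorem vw_ne_v (c : V4Conf v w) : v * w ≠ v := by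
  intro h
  apply c.w1
  have : v * w = v * 1 := by rw [mul_one]; exact h
  exact mul_left_cancel this

theorem vw_ne_w (c : V4Conf v w) : v * w ≠ w := by
  intro h
  apply c.v1
  have : v * w = 1 * w := by rw [one_mul]; exact h
  exact mul_right_cancel this

theorem type (c : V4Conf v w) {h : G}
    (ha : h * v * h⁻¹ = v ∨ h * v * h⁻¹ = w ∨ h * v * h⁻¹ = v * w)
    (hb : h * w * h⁻¹ = v ∨ h * w * h⁻¹ = w ∨ h * w * h⁻¹ = v * w) :
    KT v w h ∨ RT v w h ∨ RT' v w h := by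
  rcases ha with ha | ha | ha <;> rcases hb with hb | hb | hb
  · exact absurd (conj_inj (ha.trans hb.symm)) c.vw
  · exact Or.inl ⟨ha, hb⟩
  · exact absurd ⟨ha, hb⟩ (c.nt1 h)
  · exact absurd ⟨ha, hb⟩ (c.nt2 h)
  · exact absurd (conj_inj (ha.trans hb.symm)) c.vw
  · exact Or.inr (Or.inl ⟨ha, hb⟩)
  · exact Or.inr (Or.inr ⟨ha, hb⟩)
  · exact absurd ⟨ha, hb⟩ (c.nt3 h)
  · exact absurd (conj_inj (ha.trans hb.symm)) c.vw

theorem rt_vw (c : V4Conf v w) {h : G} (hR : RT v w h) : h * (v * w) * h⁻¹ = v := by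
  rw [conj_prod, hR.1, hR.2, c.wvw]

theorem rt'_vw (c : V4Conf v w) {h : G} (hR : RT' v w h) : h * (v * w) * h⁻¹ = w := by
  rw [conj_prod, hR.1, hR.2, c.vwv]

theorem kt_vw {h : G} (hK : KT v w h) : h * (v * w) * h⁻¹ = v * w := by
  rw [conj_prod, hK.1, hK.2]

theorem kt_mul_rt (c : V4Conf v w) {h k : G} (hK : KT v w h) (hR : RT v w k) : RT v w (h * k) := by
  constructor
  · calc h * k * v * (h * k)⁻¹ = h * (k * v * k⁻¹) * h⁻¹ := by group
      _ = w := by rw [hR.1, hK.2]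
  · calc h * k * w * (h * k)⁻¹ = h * (k * w * k⁻¹) * h⁻¹ := by group
      _ = v * w := by rw [hR.2, kt_vw hK]

theorem kt_mul_rt' (c : V4Conf v w) {h k : G} (hK : KT v w h) (hR : RT' v w k) :
    RT' v w (h * k) := by
  constructor
  · calc h * k * v * (h * k)⁻¹ = h * (k * v * k⁻¹) * h⁻¹ := by group
      _ = v * w := by rw [hR.1, kt_vw hK]
  · calc h * k * w * (h * k)⁻¹ = h * (k * w * k⁻¹) * h⁻¹ := by group
      _ = v := by rw [hR.2, hK.1]

theorem rt_mul_kt (c : V4Conf v w) {h k : G} (hR : RT v w h) (hK : KT v w k) : RT v w (h * k) := by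
  constructor
  · calc h * k * v * (h * k)⁻¹ = h * (k * v * k⁻¹) * h⁻¹ := by group
      _ = w := by rw [hK.1, hR.1]
  · calc h * k * w * (h * k)⁻¹ = h * (k * w * k⁻¹) * h⁻¹ := by group
      _ = v * w := by rw [hK.2, hR.2]

theorem rt'_mul_kt (c : V4Conf v w) {h k : G} (hR : RT' v w h) (hK : KT v w k) :
    RT' v w (h * k) := by
  constructor
  · calc h * k * v * (h * k)⁻¹ = h * (k * v * k⁻¹) * h⁻¹ := by group
      _ = v * w := by rw [hK.1, hR.1]
  · calc h * k * w * (h * k)⁻¹ = h * (k * w * k⁻¹) * h⁻¹ := by group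
      _ = v := by rw [hK.2, hR.2]

theorem rt_mul_rt_inv (c : V4Conf v w) {h k : G} (hR : RT v w h) (hR' : RT v w k) :
    KT v w (h * k⁻¹) := by
  constructor
  · calc h * k⁻¹ * v * (h * k⁻¹)⁻¹ = h * (k⁻¹ * v * k) * h⁻¹ := by group
      _ = v := by rw [conj_inv_eq (c.rt_vw hR'), c.rt_vw hR]
  · calc h * k⁻¹ * w * (h * k⁻¹)⁻¹ = h * (k⁻¹ * w * k) * h⁻¹ := by group
      _ = w := by rw [conj_inv_eq hR'.1, hR.1]

theorem rt'_mul_rt'_inv (c : V4Conf v w) {h k : G} (hR : RT' v w h) (hR' : RT' v w k) :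
    KT v w (h * k⁻¹) := by
  constructor
  · calc h * k⁻¹ * v * (h * k⁻¹)⁻¹ = h * (k⁻¹ * v * k) * h⁻¹ := by group
      _ = v := by rw [conj_inv_eq hR'.2, hR.2]
  · calc h * k⁻¹ * w * (h * k⁻¹)⁻¹ = h * (k⁻¹ * w * k) * h⁻¹ := by group
      _ = w := by rw [conj_inv_eq (c.rt'_vw hR'), c.rt'_vw hR]

theorem rt_mul_rt' (c : V4Conf v w) {h k : G} (hR : RT v w h) (hR' : RT' v w k) :
    KT v w (h * k) := by
  constructor
  · calc h * k * v * (h * k)⁻¹ = h * (k * v * k⁻¹) * h⁻¹ := by group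
      _ = v := by rw [hR'.1, c.rt_vw hR]
  · calc h * k * w * (h * k)⁻¹ = h * (k * w * k⁻¹) * h⁻¹ := by group
      _ = w := by rw [hR'.2, hR.1]

theorem rt'_mul_rt (c : V4Conf v w) {h k : G} (hR : RT' v w h) (hR' : RT v w k) :
    KT v w (h * k) := by
  constructor
  · calc h * k * v * (h * k)⁻¹ = h * (k * v * k⁻¹) * h⁻¹ := by group
      _ = v := by rw [hR'.1, hR.2]
  · calc h * k * w * (h * k)⁻¹ = h * (k * w * k⁻¹) * h⁻¹ := by group
      _ = w := by rw [hR'.2, c.rt'_vw hR]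

theorem ne_one_of_rt (c : V4Conf v w) {h : G} (hR : RT v w h ∨ RT' v w h) : h ≠ 1 := by
  rintro rfl
  rcases hR with hR | hR
  · apply c.vw
    have := hR.1
    simpa using this
  · apply c.vw_ne_v
    have := hR.1
    simpa using this.symm

theorem cube (c : V4Conf v w) {h : G} (hR : RT v w h ∨ RT' v w h) : h * h * h = 1 := by
  have hK : KT v w (h * h * h) := by
    rcases hR with hR | hR
    · constructor
      · calc h * h * h * v * (h * h * h)⁻¹ = h * (h * (h * v * h⁻¹) * h⁻¹) * h⁻¹ := by group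
          _ = v := by rw [hR.1, hR.2, c.rt_vw hR]
      · calc h * h * h * w * (h * h * h)⁻¹ = h * (h * (h * w * h⁻¹) * h⁻¹) * h⁻¹ := by group
          _ = w := by rw [hR.2, c.rt_vw hR, hR.1]
    · constructor
      · calc h * h * h * v * (h * h * h)⁻¹ = h * (h * (h * v * h⁻¹) * h⁻¹) * h⁻¹ := by group
          _ = v := by rw [hR.1, c.rt'_vw hR, hR.2]
      · calc h * h * h * w * (h * h * h)⁻¹ = h * (h * (h * w * h⁻¹) * h⁻¹) * h⁻¹ := by group
          _ = w := by rw [hR.2, hR.1, c.rt'_vw hR]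
  have hfix : h * (h * h * h) * h⁻¹ = h * h * h := by group
  rcases c.ker _ hK with e | e | e | e
  · exact e
  · exfalso
    rw [e] at hfix
    rcases hR with hR | hR
    · exact c.vw (hfix.symm.trans hR.1)
    · exact c.vw_ne_v (hR.1.symm.trans hfix)
  · exfalso
    rw [e] at hfix
    rcases hR with hR | hR
    · exact c.vw_ne_w (hR.2.symm.trans hfix)
    · exact c.vw (hR.2.symm.trans hfix)
  · exfalso
    rw [e] at hfix
    rcases hR with hR | hR
    · exact c.vw_ne_v (hfix.symm.trans (c.rt_vw hR))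
    · exact c.vw_ne_w (hfix.symm.trans (c.rt'_vw hR))

end V4Conf

end V4

end Cfsg.Agent.H7
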