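import Mathlib
import Cfsg.Agent.H7.Solub3B

set_option autoImplicit false

/-!
# Solvable subgroups of `SL₂(F)`, characteristic 3: the quaternion case (helper7)
-/

namespace Cfsg.Agent.H7

open Matrix
open scoped MatrixGroups
open Cfsg.Agent.H65.SL2 (tr mul00 mul01 mul10 mul11 inv00 inv01 inv10 inv11 neg00 neg01 neg10 neg11
  one00 one01 one10 one11 det_eq)
open Cfsg.Agent.H29.Dk (Ze)
open Cfsg.Agent.H18.Dk (mkP)

section S3Q

variable {F : Type*} [Field F]

theorem s3_mkP_eq (h2 : (2 : F) ≠ 0) {A B : SL(2, F)} : mkP F A = mkP F B ↔ B = A ∨ B = -A := by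
  rw [Cfsg.Agent.H18.Dk.mkP_eq_iff]
  constructor
  · intro h
    rcases s3_ze_cases h2 h with h1 | h1
    · left
      calc B = A * (A⁻¹ * B) := by group
        _ = A := by rw [h1, mul_one]
    · right
      calc B = A * (A⁻¹ * B) := by group
        _ = -A := by rw [h1, mul_neg, mul_one]
  · rintro (rfl | rfl)
    · rw [inv_mul_cancel]; exact one_mem _
    · rw [mul_neg, inv_mul_cancel]; exact s3_neg_one_mem

theorem s3_mkP_neg (A : SL(2, F)) : mkP F (-A) = mkP F A := by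
  have : -A = (-1) * A := by simp
  rw [this, map_mul, Cfsg.Agent.H18.Dk.mkP_eq_one_iff.mpr s3_neg_one_mem, one_mul]

theorem s3_mkP_conj (h A : SL(2, F)) :
    mkP F h * mkP F A * (mkP F h)⁻¹ = mkP F (h * A * h⁻¹) := by
  rw [map_mul, map_mul, map_inv]

theorem s3_two_ne [CharP F 3] : (2 : F) ≠ 0 := by
  have h3 : (3 : F) = 0 := by exact_mod_cast CharP.cast_eq_zero F 3
  intro h
  have : (1 : F) = 0 := by linear_combination h3 - h
  exact one_ne_zero this

theorem s3_three [CharP F 3] : (3 : F) = 0 := by exact_mod_cast CharP.cast_eq_zero F 3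

theorem s3_not_mem_of_tr_zero (h2 : (2 : F) ≠ 0) {V : SL(2, F)} (hV : tr V = 0) :
    V ∉ (Ze : Subgroup SL(2, F)) := by
  apply s3_not_mem_of_tr h2
  rw [hV]
  intro h
  apply s3_four_ne h2
  linear_combination -h

/-- The four-group configuration in `PSL₂` attached to two anticommuting elements of trace 0. -/
theorem s3_v4conf [CharP F 3] (hns : ∀ a : F, a ^ 2 ≠ -1) {V W : SL(2, F)} (hV : tr V = 0)
    (hW : tr W = 0) (hVW : V * W = -(W * V)) : V4Conf (mkP F V) (mkP F W) := by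
  have h3 : (3 : F) = 0 := s3_three
  have h2 : (2 : F) ≠ 0 := s3_two_ne
  have hVZ := s3_not_mem_of_tr_zero h2 hV
  have hWZ := s3_not_mem_of_tr_zero h2 hW
  have hVWtr := s3_tr_mul_anti h2 hVW
  have hWV : W * V = -(V * W) := s3_anti_symm hVW
  have hanti : (V * W) * V = -(V * (V * W)) := by
    calc (V * W) * V = V * (W * V) := by group
      _ = -(V * (V * W)) := by rw [hWV, mul_neg]
  have hanti' : (V * W) * W = -(W * (V * W)) := by
    calc (V * W) * W = -(W * V) * W := by rw [hVW]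
      _ = -(W * (V * W)) := by rw [neg_mul, mul_assoc]
  have hVWV : V * W * V = W := by
    rw [hanti, ← mul_assoc, s3_sq_of_tr V hV, neg_one_mul, neg_neg]
  have v2 : mkP F V * mkP F V = 1 := by
    rw [← map_mul, s3_sq_of_tr V hV]
    exact Cfsg.Agent.H18.Dk.mkP_eq_one_iff.mpr s3_neg_one_mem
  have w2 : mkP F W * mkP F W = 1 := by
    rw [← map_mul, s3_sq_of_tr W hW]
    exact Cfsg.Agent.H18.Dk.mkP_eq_one_iff.mpr s3_neg_one_mem
  have hcomm : mkP F V * mkP F W = mkP F W * mkP F V := by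
    rw [← map_mul, ← map_mul, hVW, s3_mkP_neg]
  have eq_of_mul : ∀ k a : PSL(2, F), a * a = 1 → k * a = 1 → k = a := by
    intro k a ha hk
    calc k = k * (a * a) := by rw [ha, mul_one]
      _ = (k * a) * a := by group
      _ = a := by rw [hk, one_mul]
  refine ⟨v2, w2, hcomm, ?_, ?_, ?_, ?_, ?_, ?_, ?_⟩
  · intro h
    exact hVZ (Cfsg.Agent.H18.Dk.mkP_eq_one_iff.mp h)
  · intro h
    exact hWZ (Cfsg.Agent.H18.Dk.mkP_eq_one_iff.mp h)
  · intro h
    rcases (s3_mkP_eq h2).mp h with e | e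
    · rw [e] at hVW
      exact s3_ne_neg h2 _ hVW
    · rw [e, mul_neg, neg_mul, neg_neg] at hVW
      exact s3_ne_neg h2 _ hVW.symm
  · intro k hK
    obtain ⟨h, rfl⟩ := Cfsg.Agent.H18.Dk.mkP_surjective k
    obtain ⟨k1, k2⟩ := hK
    rw [s3_mkP_conj] at k1 k2
    rcases (s3_mkP_eq h2).mp k1.symm with e1 | e1 <;> rcases (s3_mkP_eq h2).mp k2.symm with e2 | e2
    · left
      exact Cfsg.Agent.H18.Dk.mkP_eq_one_iff.mpr
        (s3_comm_both h2 hVW (s3_comm_of_conj e1) (s3_comm_of_conj e2))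
    · right; left
      have c1 : (h * V) * V * (h * V)⁻¹ = V := by
        calc (h * V) * V * (h * V)⁻¹ = h * V * h⁻¹ := by group
          _ = V := e1
      have c2 : (h * V) * W * (h * V)⁻¹ = W := by
        calc (h * V) * W * (h * V)⁻¹ = h * (V * W * V⁻¹) * h⁻¹ := by group
          _ = W := by rw [s3_conj_of_anti hVW, s3_conj_neg, e2, neg_neg]
      have hz := s3_comm_both h2 hVW (s3_comm_of_conj c1) (s3_comm_of_conj c2)
      apply eq_of_mul _ _ v2
      rw [← map_mul]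
      exact Cfsg.Agent.H18.Dk.mkP_eq_one_iff.mpr hz
    · right; right; left
      have c1 : (h * W) * V * (h * W)⁻¹ = V := by
        calc (h * W) * V * (h * W)⁻¹ = h * (W * V * W⁻¹) * h⁻¹ := by group
          _ = V := by rw [s3_conj_of_anti hWV, s3_conj_neg, e1, neg_neg]
      have c2 : (h * W) * W * (h * W)⁻¹ = W := by
        calc (h * W) * W * (h * W)⁻¹ = h * W * h⁻¹ := by group
          _ = W := e2
      have hz := s3_comm_both h2 hVW (s3_comm_of_conj c1) (s3_comm_of_conj c2)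
      apply eq_of_mul _ _ w2
      rw [← map_mul]
      exact Cfsg.Agent.H18.Dk.mkP_eq_one_iff.mpr hz
    · right; right; right
      have c1 : (h * (V * W)) * V * (h * (V * W))⁻¹ = V := by
        calc (h * (V * W)) * V * (h * (V * W))⁻¹ = h * ((V * W) * V * (V * W)⁻¹) * h⁻¹ := by group
          _ = V := by rw [s3_conj_of_anti hanti, s3_conj_neg, e1, neg_neg]
      have c2 : (h * (V * W)) * W * (h * (V * W))⁻¹ = W := by
        calc (h * (V * W)) * W * (h * (V * W))⁻¹ = h * ((V * W) * W * (V * W)⁻¹) * h⁻¹ := by group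
          _ = W := by rw [s3_conj_of_anti hanti', s3_conj_neg, e2, neg_neg]
      have hz := s3_comm_both h2 hVW (s3_comm_of_conj c1) (s3_comm_of_conj c2)
      have vw2 : (mkP F V * mkP F W) * (mkP F V * mkP F W) = 1 := by
        calc (mkP F V * mkP F W) * (mkP F V * mkP F W)
            = mkP F V * (mkP F W * mkP F V) * mkP F W := by group
          _ = mkP F V * (mkP F V * mkP F W) * mkP F W := by rw [hcomm]
          _ = (mkP F V * mkP F V) * (mkP F W * mkP F W) := by group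
          _ = 1 := by rw [v2, w2, one_mul]
      apply eq_of_mul _ _ vw2
      rw [← map_mul, ← map_mul]
      exact Cfsg.Agent.H18.Dk.mkP_eq_one_iff.mpr hz
  · rintro k ⟨k1, k2⟩
    obtain ⟨h, rfl⟩ := Cfsg.Agent.H18.Dk.mkP_surjective k
    rw [s3_mkP_conj] at k1 k2
    rw [← map_mul] at k2
    exact s3_no_transp h3 hns hV hW hVW ((s3_mkP_eq h2).mp k1.symm) ((s3_mkP_eq h2).mp k2.symm)
  · rintro k ⟨k1, k2⟩
    obtain ⟨h, rfl⟩ := Cfsg.Agent.H18.Dk.mkP_surjective k
    -- pair `(V W, V)`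
    have k3 : mkP F h * mkP F (V * W) * (mkP F h)⁻¹ = mkP F (V * W) := by
      rw [map_mul, conj_prod, k1, k2, hcomm]
    rw [s3_mkP_conj] at k1 k2 k3
    apply s3_no_transp h3 hns hVWtr hV hanti ((s3_mkP_eq h2).mp k3.symm)
    rw [hVWV]
    exact (s3_mkP_eq h2).mp k1.symm
  · rintro k ⟨k1, k2⟩
    obtain ⟨h, rfl⟩ := Cfsg.Agent.H18.Dk.mkP_surjective k
    -- pair `(W, V)`
    rw [s3_mkP_conj] at k1 k2
    rw [← map_mul] at k1
    apply s3_no_transp h3 hns hW hV hWV ((s3_mkP_eq h2).mp k2.symm)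
    rcases (s3_mkP_eq h2).mp k1.symm with e | e
    · right
      rw [e, hVW]
    · left
      rw [e, hVW, neg_neg]

/-- Type of an element normalising the quaternion configuration. -/
theorem s3_type [CharP F 3] (hns : ∀ a : F, a ^ 2 ≠ -1) {V W : SL(2, F)} (hV : tr V = 0)
    (hW : tr W = 0) (hVW : V * W = -(W * V)) {h : SL(2, F)}
    (hax : QAx V W (h * V * h⁻¹) ∧ QAx V W (h * W * h⁻¹)) :
    KT (mkP F V) (mkP F W) (mkP F h) ∨ RT (mkP F V) (mkP F W) (mkP F h) ∨
      RT' (mkP F V) (mkP F W) (mkP F h) := by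
  have c := s3_v4conf hns hV hW hVW
  have key : ∀ M : SL(2, F), QAx V W M →
      mkP F M = mkP F V ∨ mkP F M = mkP F W ∨ mkP F M = mkP F V * mkP F W := by
    rintro M (rfl | rfl | rfl | rfl | rfl | rfl)
    · exact Or.inl rfl
    · exact Or.inl (s3_mkP_neg _)
    · exact Or.inr (Or.inl rfl)
    · exact Or.inr (Or.inl (s3_mkP_neg _))
    · exact Or.inr (Or.inr (map_mul _ _ _))
    · exact Or.inr (Or.inr (by rw [s3_mkP_neg, map_mul]))
  apply c.type
  · rw [s3_mkP_conj]; exact key _ hax.1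
  · rw [s3_mkP_conj]; exact key _ hax.2

theorem s3_K_tr (h2 : (2 : F) ≠ 0) {V W h : SL(2, F)} (hVW : V * W = -(W * V))
    (hK : KT (mkP F V) (mkP F W) (mkP F h)) : h ∈ (Ze : Subgroup SL(2, F)) ∨ tr h = 0 := by
  obtain ⟨k1, k2⟩ := hK
  rw [s3_mkP_conj] at k1 k2
  exact s3_quat_kernel h2 hVW ((s3_mkP_eq h2).mp k1.symm) ((s3_mkP_eq h2).mp k2.symm)

theorem s3_tr_of_cube [CharP F 3] {h : SL(2, F)} (hc : h * h * h ∈ (Ze : Subgroup SL(2, F))) :
    tr h ^ 2 = 1 := by
  have h3 : (3 : F) = 0 := s3_three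
  have h2 : (2 : F) ≠ 0 := s3_two_ne
  have hp : h ^ 3 = h * h * h := by simp [pow_succ]
  rcases s3_ze_cases h2 hc with e | e
  · have e' : h ^ 3 ^ 1 = 1 := by rw [pow_one, hp]; exact e
    have ht := Cfsg.Agent.H65.SL2.tr_eq_two_of_pow 3 h 1 e'
    rw [ht]; linear_combination h3
  · have e' : (-h) ^ 3 ^ 1 = 1 := by
      rw [pow_one, Odd.neg_pow (by decide), hp, e, neg_neg]
    have ht := Cfsg.Agent.H65.SL2.tr_eq_two_of_pow 3 (-h) 1 e'
    rw [s3_tr_neg] at ht
    have : tr h = -2 := by linear_combination -ht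
    rw [this]; linear_combination h3

theorem s3_R_cube {v w : PSL(2, F)} (c : V4Conf v w) {h : SL(2, F)}
    (hR : RT v w (mkP F h) ∨ RT' v w (mkP F h)) : h * h * h ∈ (Ze : Subgroup SL(2, F)) := by
  have := c.cube hR
  rw [← map_mul, ← map_mul, Cfsg.Agent.H18.Dk.mkP_eq_one_iff] at this
  exact this

theorem s3_R_tr [CharP F 3] {v w : PSL(2, F)} (c : V4Conf v w) {h : SL(2, F)}
    (hR : RT v w (mkP F h) ∨ RT' v w (mkP F h)) : tr h ^ 2 = 1 :=
  s3_tr_of_cube (s3_R_cube c hR)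

/-- Quaternion case, general element. -/
theorem s3_Q_gen [CharP F 3] (hns : ∀ a : F, a ^ 2 ≠ -1) {V W X : SL(2, F)} (hV : tr V = 0)
    (hW : tr W = 0) (hVW : V * W = -(W * V))
    (hax : QAx V W (X * V * X⁻¹) ∧ QAx V W (X * W * X⁻¹)) :
    X ∈ (Ze : Subgroup SL(2, F)) ∨ tr X = 0 ∨ X * X * X ∈ (Ze : Subgroup SL(2, F)) := by
  have c := s3_v4conf hns hV hW hVW
  rcases s3_type hns hV hW hVW hax with t | t | t
  · rcases s3_K_tr s3_two_ne hVW t with h | h
    · exact Or.inl h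
    · exact Or.inr (Or.inl h)
  · exact Or.inr (Or.inr (s3_R_cube c (Or.inl t)))
  · exact Or.inr (Or.inr (s3_R_cube c (Or.inr t)))

/-- Quaternion case, `X` of trace zero. -/
theorem s3_Q_one [CharP F 3] (hns : ∀ a : F, a ^ 2 ≠ -1) {V W X Y : SL(2, F)} (hV : tr V = 0)
    (hW : tr W = 0) (hVW : V * W = -(W * V)) (hX : tr X = 0)
    (haX : QAx V W (X * V * X⁻¹) ∧ QAx V W (X * W * X⁻¹))
    (haY : QAx V W (Y * V * Y⁻¹) ∧ QAx V W (Y * W * Y⁻¹)) :
    Y ∈ (Ze : Subgroup SL(2, F)) ∨ tr Y = 0 ∨ (tr Y ^ 2 = 1 ∧ tr (X * Y) ^ 2 = 1) := by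
  have c := s3_v4conf hns hV hW hVW
  have hXK : KT (mkP F V) (mkP F W) (mkP F X) := by
    rcases s3_type hns hV hW hVW haX with t | t | t
    · exact t
    · exfalso
      have := s3_R_tr c (Or.inl t)
      rw [hX] at this
      simp at this
    · exfalso
      have := s3_R_tr c (Or.inr t)
      rw [hX] at this
      simp at this
  rcases s3_type hns hV hW hVW haY with t | t | t
  · rcases s3_K_tr s3_two_ne hVW t with h | h
    · exact Or.inl h
    · exact Or.inr (Or.inl h)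
  · refine Or.inr (Or.inr ⟨s3_R_tr c (Or.inl t), ?_⟩)
    have := c.kt_mul_rt hXK t
    rw [← map_mul] at this
    exact s3_R_tr c (Or.inl this)
  · refine Or.inr (Or.inr ⟨s3_R_tr c (Or.inr t), ?_⟩)
    have := c.kt_mul_rt' hXK t
    rw [← map_mul] at this
    exact s3_R_tr c (Or.inr this)

/-- Quaternion case, `U` unipotent. -/
theorem s3_Q_two [CharP F 3] (hns : ∀ a : F, a ^ 2 ≠ -1) {V W U Y : SL(2, F)} (hV : tr V = 0)
    (hW : tr W = 0) (hVW : V * W = -(W * V)) (hU : tr U = 2)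
    (hUZ : U ∉ (Ze : Subgroup SL(2, F)))
    (haU : QAx V W (U * V * U⁻¹) ∧ QAx V W (U * W * U⁻¹))
    (haY : QAx V W (Y * V * Y⁻¹) ∧ QAx V W (Y * W * Y⁻¹)) :
    Y ∈ (Ze : Subgroup SL(2, F)) ∨ (tr Y = 0 ∧ tr (U * Y) ^ 2 = 1) ∨
      (tr Y ^ 2 = 1 ∧ (U * Y⁻¹ ∈ (Ze : Subgroup SL(2, F)) ∨ tr (U * Y⁻¹) = 0 ∨
        U * Y ∈ (Ze : Subgroup SL(2, F)) ∨ tr (U * Y) = 0)) := by
  have h2 : (2 : F) ≠ 0 := s3_two_ne
  have c := s3_v4conf hns hV hW hVW
  have hUR : RT (mkP F V) (mkP F W) (mkP F U) ∨ RT' (mkP F V) (mkP F W) (mkP F U) := by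
    rcases s3_type hns hV hW hVW haU with t | t | t
    · exfalso
      rcases s3_K_tr h2 hVW t with h | h
      · exact hUZ h
      · rw [hU] at h
        exact h2 h
    · exact Or.inl t
    · exact Or.inr t
  rcases s3_type hns hV hW hVW haY with t | t | t
  · rcases s3_K_tr h2 hVW t with h | h
    · exact Or.inl h
    · refine Or.inr (Or.inl ⟨h, ?_⟩)
      rcases hUR with hU' | hU'
      · have := c.rt_mul_kt hU' t
        rw [← map_mul] at this
        exact s3_R_tr c (Or.inl this)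
      · have := c.rt'_mul_kt hU' t
        rw [← map_mul] at this
        exact s3_R_tr c (Or.inr this)
  · refine Or.inr (Or.inr ⟨s3_R_tr c (Or.inl t), ?_⟩)
    rcases hUR with hU' | hU'
    · have := c.rt_mul_rt_inv hU' t
      rw [← map_inv, ← map_mul] at this
      rcases s3_K_tr h2 hVW this with h | h
      · exact Or.inl h
      · exact Or.inr (Or.inl h)
    · have := c.rt'_mul_rt hU' t
      rw [← map_mul] at this
      rcases s3_K_tr h2 hVW this with h | h
      · exact Or.inr (Or.inr (Or.inl h))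
      · exact Or.inr (Or.inr (Or.inr h))
  · refine Or.inr (Or.inr ⟨s3_R_tr c (Or.inr t), ?_⟩)
    rcases hUR with hU' | hU'
    · have := c.rt_mul_rt' hU' t
      rw [← map_mul] at this
      rcases s3_K_tr h2 hVW this with h | h
      · exact Or.inr (Or.inr (Or.inl h))
      · exact Or.inr (Or.inr (Or.inr h))
    · have := c.rt'_mul_rt'_inv hU' t
      rw [← map_inv, ← map_mul] at this
      rcases s3_K_tr h2 hVW this with h | h
      · exact Or.inl h
      · exact Or.inr (Or.inl h)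

end S3Q

end Cfsg.Agent.H7
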