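import Mathlib
import Cfsg.Agent.H7.Solub3C

set_option autoImplicit false

/-!
# Solubilizers in `SL₂(F)`, characteristic 3 with `-1` a non-square: membership criteria (helper7)
-/

namespace Cfsg.Agent.H7

open Matrix
open scoped MatrixGroups
open Cfsg.Agent.H65.SL2 (tr mul00 mul01 mul10 mul11 inv00 inv01 inv10 inv11 neg00 neg01 neg10 neg11
  one00 one01 one10 one11 det_eq)
open Cfsg.Agent.H29.Dk (Ze)
open Cfsg.Agent.H18.Dk (mkP)

section S3Cases

variable {F : Type*} [Field F]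

theorem s3_CT {z : SL(2, F)} (hz : z ∉ (Ze : Subgroup SL(2, F))) :
    ∀ a b : SL(2, F), a * z = z * a → b * z = z * b → a * b = b * a :=
  fun _ _ ha hb => Cfsg.Agent.H44.sl2_commute_of_commute (s3_nonScalar hz) ha hb

/-- An element normalising `⟨V⟩` up to inversion commutes with `V` or has trace zero. -/
theorem s3_N_cases (h2 : (2 : F) ≠ 0) {V h : SL(2, F)} (htr : tr V ^ 2 ≠ 4)
    (hh : h * V * h⁻¹ = V ∨ h * V * h⁻¹ = V⁻¹) :
    h * V = V * h ∨ (h * V * h⁻¹ = V⁻¹ ∧ tr h = 0) := by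
  rcases hh with hh | hh
  · exact Or.inl (s3_comm_of_conj hh)
  · right
    refine ⟨hh, ?_⟩
    have e : h * V = V⁻¹ * h := by
      calc h * V = (h * V * h⁻¹) * h := by group
        _ = V⁻¹ * h := by rw [hh]
    exact Cfsg.Agent.H44.sl2_trace_zero_of_invert (s3_nonScalar (s3_not_mem_of_tr h2 htr)) e

theorem s3_ker_mkP : (mkP F).ker ≤ Subgroup.center SL(2, F) := by
  rw [Cfsg.Agent.H18.Dk.mkP_ker, Cfsg.Agent.H18.Dk.Ze_eq_center]

theorem s3_tr_comm (A B : SL(2, F)) : tr (A * B) = tr (B * A) := by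
  unfold Cfsg.Agent.H65.SL2.tr
  simp only [mul00, mul11]
  ring

theorem s3_tr_conj' (g X : SL(2, F)) : tr (g⁻¹ * X * g) = tr X := by
  have := Cfsg.Agent.H65.SL2.tr_conj g⁻¹ X
  rwa [inv_inv] at this

/-- In characteristic 3, `tr² = 1` forces the cube to be central. -/
theorem s3_cube_of_tr [CharP F 3] {Y : SL(2, F)} (ht : tr Y ^ 2 = 1) :
    Y * Y * Y ∈ (Ze : Subgroup SL(2, F)) := by
  have h3 : (3 : F) = 0 := s3_three
  have hp : ∀ A : SL(2, F), A ^ 3 = A * A * A := fun A => by simp [pow_succ]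
  have hc : (tr Y - 1) * (tr Y + 1) = 0 := by linear_combination ht
  rcases mul_eq_zero.mp hc with h | h
  · -- `tr Y = 1`, so `tr (-Y) = 2`
    have h' : tr (-Y) = 2 := by rw [s3_tr_neg]; linear_combination -h - h3
    have e := Cfsg.Agent.H65.SL2.pow_char_eq_one 3 (-Y) h'
    rw [Odd.neg_pow (by decide), hp] at e
    have : Y * Y * Y = -1 := by rw [← e, neg_neg]
    rw [this]
    exact s3_neg_one_mem
  · have h' : tr Y = 2 := by linear_combination h - h3
    have e := Cfsg.Agent.H65.SL2.pow_char_eq_one 3 Y h'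
    rw [hp] at e
    rw [e]
    exact one_mem _

theorem s3_mkP_cube {Y : SL(2, F)} (h : Y * Y * Y ∈ (Ze : Subgroup SL(2, F))) :
    (mkP F Y) ^ 3 = 1 := by
  have hp : (mkP F Y) ^ 3 = mkP F (Y * Y * Y) := by simp [pow_succ]
  rw [hp]
  exact Cfsg.Agent.H18.Dk.mkP_eq_one_iff.mpr h

theorem s3_mkP_sq {Y : SL(2, F)} (h : tr Y = 0) : mkP F Y * mkP F Y = 1 := by
  rw [← map_mul, s3_sq_of_tr Y h]
  exact Cfsg.Agent.H18.Dk.mkP_eq_one_iff.mpr s3_neg_one_mem

/-! ### Elements of trace zero -/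

theorem s3_solub_inv_sub [CharP F 3] (hns : ∀ a : F, a ^ 2 ≠ -1) (X Y : SL(2, F))
    (hX : tr X = 0) (hs : Group.IsSolvable (Subgroup.closure ({X, Y} : Set SL(2, F)))) :
    Y * X = X * Y ∨ tr Y = 0 ∨ X * Y * X⁻¹ = Y⁻¹ ∨ (tr Y ^ 2 = 1 ∧ tr (X * Y) ^ 2 = 1) := by
  have h2 : (2 : F) ≠ 0 := s3_two_ne
  have hXZ := s3_not_mem_of_tr_zero h2 hX
  have hXH : X ∈ Subgroup.closure ({X, Y} : Set SL(2, F)) := Subgroup.subset_closure (by simp)
  have hYH : Y ∈ Subgroup.closure ({X, Y} : Set SL(2, F)) := Subgroup.subset_closure (by simp)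
  have hH : ¬ Subgroup.closure ({X, Y} : Set SL(2, F)) ≤ (Ze : Subgroup SL(2, F)) :=
    fun h => hXZ (h hXH)
  rcases s3_structure h2 _ hH with ⟨g, hg⟩ | ⟨V, -, hVtr, hV⟩ | ⟨V, -, W, -, hVt, hWt, hVW, hax⟩
  · exfalso
    have h10 := hg X hXH
    have htr := s3_tr_conj' g X
    rw [hX] at htr
    have hd := det_eq (g⁻¹ * X * g)
    rw [h10, mul_zero, sub_zero] at hd
    have h11 : (g⁻¹ * X * g).1 1 1 = -(g⁻¹ * X * g).1 0 0 := by
      unfold Cfsg.Agent.H65.SL2.tr at htr
      linear_combination htr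
    rw [h11] at hd
    apply hns ((g⁻¹ * X * g).1 0 0)
    linear_combination -hd
  · have hVZ := s3_not_mem_of_tr h2 hVtr
    by_cases hXV : X * V = V * X
    · rcases s3_N_cases h2 hVtr (hV Y hYH) with hY | ⟨-, hY⟩
      · left
        exact Cfsg.Agent.H44.sl2_commute_of_commute (s3_nonScalar hVZ) hY hXV
      · exact Or.inr (Or.inl hY)
    · have hXinv : X * V * X⁻¹ = V⁻¹ := by
        rcases hV X hXH with h | h
        · exact absurd (s3_comm_of_conj h) hXV
        · exact h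
      rcases s3_N_cases h2 hVtr (hV Y hYH) with hY | ⟨-, hY⟩
      · right; right; left
        have hXN : X ∈ Subgroup.normalizer
            (Subgroup.centralizer ({V} : Set SL(2, F)) : Set SL(2, F)) :=
          Cfsg.Agent.H18.Dk.mem_NT_of_inv hXinv
        have hXT : X ∉ Subgroup.centralizer ({V} : Set SL(2, F)) := by
          intro hmem
          rw [Subgroup.mem_centralizer_iff] at hmem
          exact hXV (hmem V (Set.mem_singleton V)).symm
        have hYT : Y ∈ Subgroup.centralizer ({V} : Set SL(2, F)) := by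
          rw [Subgroup.mem_centralizer_iff]
          intro k hk
          rw [Set.mem_singleton_iff] at hk
          rw [hk]
          exact hY.symm
        exact Cfsg.Agent.H44.sl2_normalizer_invert h2 hVtr hXN hXT hYT
      · exact Or.inr (Or.inl hY)
  · rcases s3_Q_one hns hVt hWt hVW hX (hax X hXH) (hax Y hYH) with h | h | h
    · left
      exact Cfsg.Agent.H29.Dk.Ze_comm h X
    · exact Or.inr (Or.inl h)
    · exact Or.inr (Or.inr (Or.inr h))

theorem s3_solub_inv_sup [CharP F 3] (X Y : SL(2, F)) (hX : tr X = 0)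
    (h : Y * X = X * Y ∨ tr Y = 0 ∨ X * Y * X⁻¹ = Y⁻¹ ∨ (tr Y ^ 2 = 1 ∧ tr (X * Y) ^ 2 = 1)) :
    Group.IsSolvable (Subgroup.closure ({X, Y} : Set SL(2, F))) := by
  have h2 : (2 : F) ≠ 0 := s3_two_ne
  have hXZ := s3_not_mem_of_tr_zero h2 hX
  have hcomm : Y * X = X * Y → Group.IsSolvable (Subgroup.closure ({X, Y} : Set SL(2, F))) := by
    intro hc
    refine closure_pair_solvable_of_inv X X Y (s3_CT hXZ) (Or.inl (by group)) (Or.inl ?_)
    rw [hc]; group
  rcases h with h | h | h | ⟨h, h'⟩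
  · exact hcomm h
  · by_cases hz : X * Y ∈ (Ze : Subgroup SL(2, F))
    · apply hcomm
      have := Cfsg.Agent.H29.Dk.Ze_comm hz X
      -- `X Y X = X X Y`
      have e : Y * X = X * Y := by
        have h1 : X * (Y * X) = X * (X * Y) := by
          calc X * (Y * X) = X * Y * X := by group
            _ = X * (X * Y) := this
        exact mul_left_cancel h1
      exact e
    · have hXi := s3_inv_of_tr X hX
      have hYi := s3_inv_of_tr Y h
      have e1 : X * (X * Y) * X⁻¹ = (X * Y)⁻¹ := by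
        rw [_root_.mul_inv_rev, hXi, hYi]
        calc X * (X * Y) * (-X) = -((X * X) * Y * X) := by rw [mul_neg]; group
          _ = Y * X := by rw [s3_sq_of_tr X hX, neg_one_mul, neg_mul, neg_neg]
          _ = (-Y) * (-X) := by rw [neg_mul_neg]
      have e2 : Y * (X * Y) * Y⁻¹ = (X * Y)⁻¹ := by
        rw [_root_.mul_inv_rev, hXi, hYi]
        calc Y * (X * Y) * (-Y) = -(Y * X * (Y * Y)) := by rw [mul_neg]; group
          _ = Y * X := by rw [s3_sq_of_tr Y h, mul_neg, mul_one, neg_neg]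
          _ = (-Y) * (-X) := by rw [neg_mul_neg]
      exact closure_pair_solvable_of_inv (X * Y) X Y (s3_CT hz) (Or.inr e1) (Or.inr e2)
  · by_cases hz : Y ∈ (Ze : Subgroup SL(2, F))
    · exact hcomm (Cfsg.Agent.H29.Dk.Ze_comm hz X)
    · exact closure_pair_solvable_of_inv Y X Y (s3_CT hz) (Or.inr h) (Or.inl (by group))
  · -- the `(2,3,3)` case, in `PSL₂`
    have hy : (mkP F Y) ^ 3 = 1 := s3_mkP_cube (s3_cube_of_tr h)
    have hx : mkP F X * mkP F X = 1 := s3_mkP_sq hX
    have hyx : (mkP F Y * mkP F X) ^ 3 = 1 := by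
      rw [← map_mul]
      apply s3_mkP_cube
      apply s3_cube_of_tr
      rw [s3_tr_comm]
      exact h'
    have hsol := solvable_233 (mkP F Y) (mkP F X) hy hx hyx
    rw [Set.pair_comm] at hsol
    exact (closure_pair_solvable_map_iff (mkP F) s3_ker_mkP X Y).mp hsol

/-! ### Unipotent elements -/

theorem s3_uSL_not_mem {b : F} (hb : b ≠ 0) :
    Cfsg.Agent.H44.uSL b ∉ (Ze : Subgroup SL(2, F)) := by
  intro h
  rw [Cfsg.Agent.H29.Dk.mem_Ze] at h
  obtain ⟨-, u01, -, -⟩ := s3_uSL_entries b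
  rw [u01] at h
  exact hb h.2.1

theorem s3_tr_uSL (b : F) : tr (Cfsg.Agent.H44.uSL b) = 2 := by
  obtain ⟨u00, -, -, u11⟩ := s3_uSL_entries b
  unfold Cfsg.Agent.H65.SL2.tr
  rw [u00, u11]; norm_num

theorem s3_tr_uSL_mul (b : F) (Y : SL(2, F)) :
    tr (Cfsg.Agent.H44.uSL b * Y) = tr Y + b * Y.1 1 0 := by
  obtain ⟨u00, u01, u10, u11⟩ := s3_uSL_entries b
  unfold Cfsg.Agent.H65.SL2.tr
  simp only [mul00, mul11, u00, u01, u10, u11]
  ring

theorem s3_tr_uSL_mul_inv (b : F) (Y : SL(2, F)) :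
    tr (Cfsg.Agent.H44.uSL b * Y⁻¹) = tr Y - b * Y.1 1 0 := by
  obtain ⟨u00, u01, u10, u11⟩ := s3_uSL_entries b
  unfold Cfsg.Agent.H65.SL2.tr
  simp only [mul00, mul11, inv00, inv10, inv11, u00, u01, u10, u11]
  ring

theorem s3_solub_unip_sub [CharP F 3] (hns : ∀ a : F, a ^ 2 ≠ -1) (b : F) (hb : b ≠ 0)
    (Y : SL(2, F))
    (hs : Group.IsSolvable (Subgroup.closure ({Cfsg.Agent.H44.uSL b, Y} : Set SL(2, F)))) :
    Y.1 1 0 = 0 ∨ ((b * Y.1 1 0) ^ 2 = 1 ∧ tr Y ^ 3 = tr Y) := by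
  have h2 : (2 : F) ≠ 0 := s3_two_ne
  obtain ⟨u00, u01, u10, u11⟩ := s3_uSL_entries b
  have hUZ := s3_uSL_not_mem hb
  have hUH : Cfsg.Agent.H44.uSL b ∈ Subgroup.closure ({Cfsg.Agent.H44.uSL b, Y} : Set SL(2, F)) :=
    Subgroup.subset_closure (by simp)
  have hYH : Y ∈ Subgroup.closure ({Cfsg.Agent.H44.uSL b, Y} : Set SL(2, F)) :=
    Subgroup.subset_closure (by simp)
  have hH : ¬ Subgroup.closure ({Cfsg.Agent.H44.uSL b, Y} : Set SL(2, F)) ≤
      (Ze : Subgroup SL(2, F)) := fun h => hUZ (h hUH)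
  rcases s3_structure h2 _ hH with ⟨g, hg⟩ | ⟨V, -, hVtr, hV⟩ | ⟨V, -, W, -, hVt, hWt, hVW, hax⟩
  · left
    have h10 := hg _ hUH
    simp only [mul10, mul11, inv10, inv11, u00, u01, u10, u11] at h10
    have hg10 : g.1 1 0 = 0 := by
      have : b * g.1 1 0 ^ 2 = 0 := by linear_combination -h10
      rcases mul_eq_zero.mp this with h | h
      · exact absurd h hb
      · exact pow_eq_zero_iff (two_ne_zero) |>.mp h
    have hY10 := hg Y hYH
    simp only [mul10, mul11, inv10, inv11, hg10] at hY10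
    have hd := det_eq g
    rw [hg10, mul_zero, sub_zero] at hd
    have hg00 : g.1 0 0 ≠ 0 := by
      intro h
      rw [h, zero_mul] at hd
      exact zero_ne_one hd
    have : g.1 0 0 ^ 2 * Y.1 1 0 = 0 := by linear_combination hY10
    rcases mul_eq_zero.mp this with h | h
    · exact absurd (pow_eq_zero_iff (two_ne_zero) |>.mp h) hg00
    · exact h
  · exfalso
    rcases s3_N_cases h2 hVtr (hV _ hUH) with hU | ⟨-, hU⟩
    · have hU1 : Cfsg.Agent.H44.uSL b ≠ 1 := fun h => hUZ (h ▸ one_mem _)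
      exact hVtr (Cfsg.Agent.H65.SL2.tr_sq_of_commute_unipotent _ V (s3_tr_uSL b) hU1 hU)
    · rw [s3_tr_uSL] at hU
      exact h2 hU
  · rcases s3_Q_two hns hVt hWt hVW (s3_tr_uSL b) hUZ (hax _ hUH) (hax Y hYH) with
      h | ⟨h, h'⟩ | ⟨h, h'⟩
    · left
      exact (Cfsg.Agent.H29.Dk.mem_Ze.mp h).1
    · right
      rw [s3_tr_uSL_mul, h, zero_add] at h'
      exact ⟨h', by rw [h]; ring⟩
    · have hcube : tr Y ^ 3 = tr Y := by linear_combination tr Y * h
      rcases h' with h' | h' | h' | h'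
      · left
        have := (Cfsg.Agent.H29.Dk.mem_Ze.mp h').1
        simp only [mul10, inv00, inv10, u10, u11] at this
        linear_combination -this
      · right
        rw [s3_tr_uSL_mul_inv] at h'
        have e : b * Y.1 1 0 = tr Y := by linear_combination -h'
        exact ⟨by rw [e]; exact h, hcube⟩
      · left
        have := (Cfsg.Agent.H29.Dk.mem_Ze.mp h').1
        simp only [mul10, u10, u11] at this
        linear_combination this
      · right
        rw [s3_tr_uSL_mul] at h'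
        have e : b * Y.1 1 0 = -tr Y := by linear_combination h'
        exact ⟨by rw [e, neg_sq]; exact h, hcube⟩

/-- Two elements of order three whose product or quotient is an involution generate a solvable
group. -/
theorem solvable_332 {G : Type*} [Group G] (u y : G) (hu : u ^ 3 = 1) (hy : y ^ 3 = 1)
    (h : (u * y) * (u * y) = 1 ∨ (u * y⁻¹) * (u * y⁻¹) = 1) :
    Group.IsSolvable (Subgroup.closure ({u, y} : Set G)) := by
  have hu' : u⁻¹ ^ 3 = 1 := by rw [inv_pow, hu, inv_one]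
  rcases h with h | h
  · have hsol := solvable_233 u⁻¹ (u * y) hu' h (by rw [inv_mul_cancel_left]; exact hy)
    have hle : Subgroup.closure ({u, y} : Set G) ≤ Subgroup.closure ({u⁻¹, u * y} : Set G) := by
      rw [Subgroup.closure_le]
      rintro g (rfl | rfl)
      · have : g⁻¹ ∈ Subgroup.closure ({g⁻¹, g * y} : Set G) := Subgroup.subset_closure (by simp)
        simpa using inv_mem this
      · have h1 : u⁻¹ ∈ Subgroup.closure ({u⁻¹, u * g} : Set G) := Subgroup.subset_closure (by simp)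
        have h2 : u * g ∈ Subgroup.closure ({u⁻¹, u * g} : Set G) :=
          Subgroup.subset_closure (by simp)
        simpa using mul_mem h1 h2
    exact Group.isSolvable_of_isSolvable_injective (Subgroup.inclusion_injective hle)
  · have hsol := solvable_233 u⁻¹ (u * y⁻¹) hu' h (by
      rw [inv_mul_cancel_left, inv_pow, hy, inv_one])
    have hle : Subgroup.closure ({u, y} : Set G) ≤ Subgroup.closure ({u⁻¹, u * y⁻¹} : Set G) := by
      rw [Subgroup.closure_le]
      rintro g (rfl | rfl)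
      · have : g⁻¹ ∈ Subgroup.closure ({g⁻¹, g * y⁻¹} : Set G) :=
          Subgroup.subset_closure (by simp)
        simpa using inv_mem this
      · have h1 : u⁻¹ ∈ Subgroup.closure ({u⁻¹, u * g⁻¹} : Set G) :=
          Subgroup.subset_closure (by simp)
        have h2 : u * g⁻¹ ∈ Subgroup.closure ({u⁻¹, u * g⁻¹} : Set G) :=
          Subgroup.subset_closure (by simp)
        simpa using inv_mem (mul_mem h1 h2)
    exact Group.isSolvable_of_isSolvable_injective (Subgroup.inclusion_injective hle)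

theorem s3_solub_unip_sup [CharP F 3] (b : F) (Y : SL(2, F))
    (h : Y.1 1 0 = 0 ∨ ((b * Y.1 1 0) ^ 2 = 1 ∧ tr Y ^ 3 = tr Y)) :
    Group.IsSolvable (Subgroup.closure ({Cfsg.Agent.H44.uSL b, Y} : Set SL(2, F))) := by
  obtain ⟨u00, u01, u10, u11⟩ := s3_uSL_entries b
  rcases h with h | ⟨hc, ht⟩
  · exact closure_pair_solvable_of_borel _ Y u10 h
  · have hu : (mkP F (Cfsg.Agent.H44.uSL b)) ^ 3 = 1 := by
      apply s3_mkP_cube
      apply s3_cube_of_tr
      rw [s3_tr_uSL]
      linear_combination (s3_three : (3 : F) = 0)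
    apply (closure_pair_solvable_map_iff (mkP F) s3_ker_mkP _ Y).mp
    have ht' : tr Y = 0 ∨ tr Y ^ 2 = 1 := by
      have : tr Y * (tr Y ^ 2 - 1) = 0 := by linear_combination ht
      rcases mul_eq_zero.mp this with h | h
      · exact Or.inl h
      · exact Or.inr (by linear_combination h)
    rcases ht' with ht' | ht'
    · -- `y² = 1`, `(u y)³ = 1`
      apply solvable_233 _ _ hu (s3_mkP_sq ht')
      rw [← map_mul]
      apply s3_mkP_cube
      apply s3_cube_of_tr
      rw [s3_tr_uSL_mul, ht', zero_add]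
      exact hc
    · have hy : (mkP F Y) ^ 3 = 1 := s3_mkP_cube (s3_cube_of_tr ht')
      apply solvable_332 _ _ hu hy
      have hcases : b * Y.1 1 0 = -tr Y ∨ b * Y.1 1 0 = tr Y := by
        have : (b * Y.1 1 0 + tr Y) * (b * Y.1 1 0 - tr Y) = 0 := by linear_combination hc - ht'
        rcases mul_eq_zero.mp this with h | h
        · left; linear_combination h
        · right; linear_combination h
      rcases hcases with hcase | hcase
      · left
        rw [← map_mul]
        apply s3_mkP_sq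
        rw [s3_tr_uSL_mul, hcase]; ring
      · right
        rw [← map_inv, ← map_mul]
        apply s3_mkP_sq
        rw [s3_tr_uSL_mul_inv, hcase]; ring

/-! ### Regular semisimple elements that are not involutions modulo the centre -/

theorem s3_solub_gen_sub [CharP F 3] (hns : ∀ a : F, a ^ 2 ≠ -1) (X Y : SL(2, F))
    (hXZ : X ∉ (Ze : Subgroup SL(2, F))) (hX0 : tr X ≠ 0)
    (hX3 : X * X * X ∉ (Ze : Subgroup SL(2, F)))
    (hs : Group.IsSolvable (Subgroup.closure ({X, Y} : Set SL(2, F)))) :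
    (∃ g : SL(2, F), (g⁻¹ * X * g).1 1 0 = 0 ∧ (g⁻¹ * Y * g).1 1 0 = 0) ∨
      Y ∈ Subgroup.normalizer (Subgroup.centralizer ({X} : Set SL(2, F)) : Set SL(2, F)) := by
  have h2 : (2 : F) ≠ 0 := s3_two_ne
  have hXH : X ∈ Subgroup.closure ({X, Y} : Set SL(2, F)) := Subgroup.subset_closure (by simp)
  have hYH : Y ∈ Subgroup.closure ({X, Y} : Set SL(2, F)) := Subgroup.subset_closure (by simp)
  have hH : ¬ Subgroup.closure ({X, Y} : Set SL(2, F)) ≤ (Ze : Subgroup SL(2, F)) :=
    fun h => hXZ (h hXH)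
  rcases s3_structure h2 _ hH with ⟨g, hg⟩ | ⟨V, -, hVtr, hV⟩ | ⟨V, -, W, -, hVt, hWt, hVW, hax⟩
  · exact Or.inl ⟨g, hg X hXH, hg Y hYH⟩
  · right
    have hVZ := s3_not_mem_of_tr h2 hVtr
    rcases s3_N_cases h2 hVtr (hV X hXH) with hXV | ⟨-, hXV⟩
    · have hcen := Cfsg.Agent.H44.sl2_centralizer_eq (s3_nonScalar hVZ) (s3_nonScalar hXZ) hXV
      rw [hcen]
      rcases hV Y hYH with hY | hY
      · apply Subgroup.le_normalizer
        rw [Subgroup.mem_centralizer_iff]
        intro k hk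
        rw [Set.mem_singleton_iff] at hk
        rw [hk]
        exact (s3_comm_of_conj hY).symm
      · exact Cfsg.Agent.H18.Dk.mem_NT_of_inv hY
    · exact absurd hXV hX0
  · exfalso
    rcases s3_Q_gen hns hVt hWt hVW (hax X hXH) with h | h | h
    · exact hXZ h
    · exact hX0 h
    · exact hX3 h

theorem s3_solub_gen_sup (h2 : (2 : F) ≠ 0) (X Y : SL(2, F)) (hX4 : tr X ^ 2 ≠ 4)
    (h : (∃ g : SL(2, F), (g⁻¹ * X * g).1 1 0 = 0 ∧ (g⁻¹ * Y * g).1 1 0 = 0) ∨
      Y ∈ Subgroup.normalizer (Subgroup.centralizer ({X} : Set SL(2, F)) : Set SL(2, F))) :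
    Group.IsSolvable (Subgroup.closure ({X, Y} : Set SL(2, F))) := by
  rcases h with ⟨g, hgX, hgY⟩ | h
  · have hsol := closure_pair_solvable_of_borel _ _ hgX hgY
    have e := closure_pair_solvable_iff (MulAut.conj g⁻¹) X Y
    rw [MulAut.conj_apply, MulAut.conj_apply, inv_inv] at e
    exact e.mp hsol
  · have hXZ := s3_not_mem_of_tr h2 hX4
    have := Cfsg.Agent.H44.sl2_conj_eq_or_inv h2 hX4 h
    exact closure_pair_solvable_of_inv X X Y (s3_CT hXZ) (Or.inl (by group)) this

end S3Cases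

end Cfsg.Agent.H7
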