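import Mathlib
import Cfsg.Agent.H7.Solub3D

set_option autoImplicit false

/-!
# Solubilizers in `SL₂(F)`, characteristic 3 with `-1` a non-square: counting (helper7)
-/

namespace Cfsg.Agent.H7

open Matrix
open scoped MatrixGroups
open Cfsg.Agent.H65.SL2 (tr mul00 mul01 mul10 mul11 inv00 inv01 inv10 inv11 neg00 neg01 neg10 neg11
  one00 one01 one10 one11 det_eq)
open Cfsg.Agent.H29.Dk (Ze)
open Cfsg.Agent.H18.Dk (mkP)

section S3Count

variable {F : Type*} [Field F]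

/-- The standard element of order 4. -/
def s3w : SL(2, F) := slMk 0 (-1) 1 0 (by ring)

theorem s3w_entries : (s3w : SL(2, F)).1 0 0 = 0 ∧ (s3w : SL(2, F)).1 0 1 = -1 ∧
    (s3w : SL(2, F)).1 1 0 = 1 ∧ (s3w : SL(2, F)).1 1 1 = 0 := ⟨rfl, rfl, rfl, rfl⟩

theorem s3w_tr : tr (s3w : SL(2, F)) = 0 := by
  obtain ⟨w00, w01, w10, w11⟩ := s3w_entries (F := F)
  unfold tr
  rw [w00, w11, add_zero]

theorem s3w_mul_entries (Y : SL(2, F)) : (s3w * Y).1 0 0 = -Y.1 1 0 ∧ (s3w * Y).1 0 1 = -Y.1 1 1 ∧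
    (s3w * Y).1 1 0 = Y.1 0 0 ∧ (s3w * Y).1 1 1 = Y.1 0 1 := by
  obtain ⟨w00, w01, w10, w11⟩ := s3w_entries (F := F)
  refine ⟨?_, ?_, ?_, ?_⟩
  · rw [mul00, w00, w01]; ring
  · rw [mul01, w00, w01]; ring
  · rw [mul10, w10, w11]; ring
  · rw [mul11, w10, w11]; ring

theorem s3w_mul_entries' (Y : SL(2, F)) : (Y * s3w).1 0 0 = Y.1 0 1 ∧ (Y * s3w).1 0 1 = -Y.1 0 0 ∧
    (Y * s3w).1 1 0 = Y.1 1 1 ∧ (Y * s3w).1 1 1 = -Y.1 1 0 := by
  obtain ⟨w00, w01, w10, w11⟩ := s3w_entries (F := F)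
  refine ⟨?_, ?_, ?_, ?_⟩
  · rw [mul00, w00, w10]; ring
  · rw [mul01, w01, w11]; ring
  · rw [mul10, w00, w10]; ring
  · rw [mul11, w01, w11]; ring

theorem s3w_tr_mul (Y : SL(2, F)) : tr (s3w * Y) = Y.1 0 1 - Y.1 1 0 := by
  obtain ⟨m00, m01, m10, m11⟩ := s3w_mul_entries Y
  unfold tr
  rw [m00, m11]; ring

theorem s3w_comm_iff (Y : SL(2, F)) :
    Y * s3w = s3w * Y ↔ Y.1 0 0 = Y.1 1 1 ∧ Y.1 0 1 = -Y.1 1 0 := by
  obtain ⟨m00, m01, m10, m11⟩ := s3w_mul_entries Y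
  obtain ⟨n00, n01, n10, n11⟩ := s3w_mul_entries' Y
  constructor
  · intro h
    obtain ⟨e00, e01, e10, e11⟩ := sl2_entries h
    rw [m00, n00] at e00
    rw [m10, n10] at e10
    exact ⟨e10.symm, e00⟩
  · rintro ⟨h1, h2⟩
    apply sl2_ext4
    · rw [m00, n00]; exact h2
    · rw [m01, n01, h1]
    · rw [m10, n10, h1]
    · rw [m11, n11, h2]

theorem s3w_inv_iff (Y : SL(2, F)) :
    s3w * Y * s3w⁻¹ = Y⁻¹ ↔ Y.1 0 1 = Y.1 1 0 := by
  obtain ⟨w00, w01, w10, w11⟩ := s3w_entries (F := F)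
  obtain ⟨m00, m01, m10, m11⟩ := s3w_mul_entries Y
  constructor
  · intro h
    obtain ⟨e00, e01, e10, e11⟩ := sl2_entries h
    rw [mul01, inv01, inv11, m00, m01, w00, w01, inv01] at e01
    linear_combination e01
  · intro h
    apply sl2_ext4
    · rw [mul00, inv00, inv10, m00, m01, w10, w11, inv00]; ring
    · rw [mul01, inv01, inv11, m00, m01, w00, w01, inv01]; linear_combination h
    · rw [mul10, inv00, inv10, m10, m11, w10, w11, inv10]; linear_combination -h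
    · rw [mul11, inv01, inv11, m10, m11, w00, w01, inv11]; ring

/-- `Y` inverts `s3w` iff `Y` is symmetric of trace zero. -/
theorem s3w_inverted_iff (Y : SL(2, F)) :
    Y * s3w * Y⁻¹ = s3w⁻¹ ↔ Y.1 0 0 + Y.1 1 1 = 0 ∧ Y.1 0 1 = Y.1 1 0 := by
  obtain ⟨w00, w01, w10, w11⟩ := s3w_entries (F := F)
  obtain ⟨n00, n01, n10, n11⟩ := s3w_mul_entries' Y
  have key : Y * s3w * Y⁻¹ = s3w⁻¹ ↔ Y * s3w = s3w⁻¹ * Y := by
    constructor
    · intro h
      calc Y * s3w = (Y * s3w * Y⁻¹) * Y := by group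
        _ = s3w⁻¹ * Y := by rw [h]
    · intro h
      rw [h]; group
  rw [key]
  constructor
  · intro h
    obtain ⟨e00, e01, e10, e11⟩ := sl2_entries h
    rw [n00, mul00, inv00, inv01, w11, w01] at e00
    rw [n01, mul01, inv00, inv01, w11, w01] at e01
    constructor
    · linear_combination -e01
    · linear_combination e00
  · rintro ⟨h1, h2⟩
    apply sl2_ext4
    · rw [n00, mul00, inv00, inv01, w11, w01]; linear_combination h2
    · rw [n01, mul01, inv00, inv01, w11, w01]; linear_combination -h1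
    · rw [n10, mul10, inv10, inv11, w10, w00]; linear_combination h1
    · rw [n11, mul11, inv10, inv11, w10, w00]; linear_combination h2

theorem s3w_elliptic (hns : ∀ a : F, a ^ 2 ≠ -1) :
    Cfsg.Agent.H44.Elliptic ((s3w : SL(2, F)) : Matrix (Fin 2) (Fin 2) F) := by
  apply Cfsg.Agent.H44.elliptic_of_no_root (s3w : SL(2, F)).2
  intro a ha
  obtain ⟨w00, w01, w10, w11⟩ := s3w_entries (F := F)
  apply hns a
  rw [w00, w11] at ha
  linear_combination ha

/-- The circle `u² + v² = 1` is in bijection with the centraliser of `s3w`. -/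
def s3_circEquiv : {Y : SL(2, F) // Y.1 0 0 = Y.1 1 1 ∧ Y.1 0 1 = -Y.1 1 0} ≃
    {p : F × F // p.1 ^ 2 + p.2 ^ 2 = 1} where
  toFun Y := ⟨(Y.1.1 0 0, Y.1.1 1 0), by
    have hd := det_eq Y.1
    obtain ⟨h1, h2⟩ := Y.2
    show Y.1.1 0 0 ^ 2 + Y.1.1 1 0 ^ 2 = 1
    rw [← h1, h2] at hd
    linear_combination hd⟩
  invFun p := ⟨slMk p.1.1 (-p.1.2) p.1.2 p.1.1 (by linear_combination p.2), ⟨rfl, rfl⟩⟩
  left_inv Y := by
    obtain ⟨h1, h2⟩ := Y.2
    apply Subtype.ext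
    apply sl2_ext4
    · rfl
    · show -Y.1.1 1 0 = Y.1.1 0 1
      rw [h2]
    · rfl
    · show Y.1.1 0 0 = Y.1.1 1 1
      exact h1
  right_inv p := by
    apply Subtype.ext
    rfl

/-- Elements with `tr² = 1` and `tr (w ·)² = 1`, parametrised (characteristic 3). -/
def s3_dEquiv [CharP F 3] :
    {Y : SL(2, F) // (Y.1 0 0 + Y.1 1 1) ^ 2 = 1 ∧ (Y.1 0 1 - Y.1 1 0) ^ 2 = 1} ≃
      {e : F // e ^ 2 = 1} × {e : F // e ^ 2 = 1} × {p : F × F // p.1 ^ 2 + p.2 ^ 2 = 1} where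
  toFun Y := (⟨Y.1.1 0 0 + Y.1.1 1 1, Y.2.1⟩, ⟨Y.1.1 0 1 - Y.1.1 1 0, Y.2.2⟩,
    ⟨(Y.1.1 0 0 - Y.1.1 1 1, Y.1.1 0 1 + Y.1.1 1 0), by
      have hd := det_eq Y.1
      have h3 : (3 : F) = 0 := s3_three
      obtain ⟨h1, h2⟩ := Y.2
      show (Y.1.1 0 0 - Y.1.1 1 1) ^ 2 + (Y.1.1 0 1 + Y.1.1 1 0) ^ 2 = 1
      linear_combination h1 + h2 - 4 * hd - h3⟩)
  invFun q := ⟨slMk (-(q.1.1 + q.2.2.1.1)) (-(q.2.2.1.2 + q.2.1.1)) (-(q.2.2.1.2 - q.2.1.1))
      (-(q.1.1 - q.2.2.1.1)) (by linear_combination q.1.2 + q.2.1.2 - q.2.2.2), by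
    have h3 : (3 : F) = 0 := s3_three
    have e1 := q.1.2
    have e2 := q.2.1.2
    constructor
    · show (-(q.1.1 + q.2.2.1.1) + -(q.1.1 - q.2.2.1.1)) ^ 2 = 1
      linear_combination 4 * e1 + h3
    · show (-(q.2.2.1.2 + q.2.1.1) - -(q.2.2.1.2 - q.2.1.1)) ^ 2 = 1
      linear_combination 4 * e2 + h3⟩
  left_inv Y := by
    have h3 : (3 : F) = 0 := s3_three
    apply Subtype.ext
    apply sl2_ext4
    · show -(Y.1.1 0 0 + Y.1.1 1 1 + (Y.1.1 0 0 - Y.1.1 1 1)) = Y.1.1 0 0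
      linear_combination -Y.1.1 0 0 * h3
    · show -(Y.1.1 0 1 + Y.1.1 1 0 + (Y.1.1 0 1 - Y.1.1 1 0)) = Y.1.1 0 1
      linear_combination -Y.1.1 0 1 * h3
    · show -(Y.1.1 0 1 + Y.1.1 1 0 - (Y.1.1 0 1 - Y.1.1 1 0)) = Y.1.1 1 0
      linear_combination -Y.1.1 1 0 * h3
    · show -(Y.1.1 0 0 + Y.1.1 1 1 - (Y.1.1 0 0 - Y.1.1 1 1)) = Y.1.1 1 1
      linear_combination -Y.1.1 1 1 * h3
  right_inv q := by
    have h3 : (3 : F) = 0 := s3_three
    obtain ⟨⟨s, hs⟩, ⟨w, hw⟩, ⟨⟨u, v⟩, huv⟩⟩ := q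
    refine Prod.ext (Subtype.ext ?_) (Prod.ext (Subtype.ext ?_) (Subtype.ext (Prod.ext ?_ ?_)))
    · show -(s + u) + -(s - u) = s
      linear_combination -s * h3
    · show -(v + w) - -(v - w) = w
      linear_combination -w * h3
    · show -(s + u) - -(s - u) = u
      linear_combination -u * h3
    · show -(v + w) + -(v - w) = v
      linear_combination -v * h3

end S3Count

section S3CountFin

variable {F : Type*} [Field F] [Fintype F]

theorem s3_card_Cs (hodd : Odd (Fintype.card F)) (hns : ∀ a : F, a ^ 2 ≠ -1) :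
    Nat.card {Y : SL(2, F) // Y.1 0 0 = Y.1 1 1 ∧ Y.1 0 1 = -Y.1 1 0} = Fintype.card F + 1 := by
  rw [← Cfsg.Agent.H44.sl2_card_centralizer_elliptic hodd s3w (s3w_elliptic hns)]
  apply Nat.card_congr
  refine Equiv.subtypeEquivRight (fun Y => ?_)
  rw [Cfsg.Agent.H44.mem_centralizer_singleton_iff, ← s3w_comm_iff, eq_comm]

theorem s3_card_circ (hodd : Odd (Fintype.card F)) (hns : ∀ a : F, a ^ 2 ≠ -1) :
    Nat.card {p : F × F // p.1 ^ 2 + p.2 ^ 2 = 1} = Fintype.card F + 1 := by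
  rw [← Nat.card_congr s3_circEquiv, s3_card_Cs hodd hns]

theorem s3_card_Ds [CharP F 3] (hodd : Odd (Fintype.card F)) (hns : ∀ a : F, a ^ 2 ≠ -1) :
    Nat.card {Y : SL(2, F) // (Y.1 0 0 + Y.1 1 1) ^ 2 = 1 ∧ (Y.1 0 1 - Y.1 1 0) ^ 2 = 1} =
      4 * (Fintype.card F + 1) := by
  rw [Nat.card_congr s3_dEquiv, Nat.card_prod, Nat.card_prod, s3_card_circ hodd hns,
    Cfsg.Agent.H44.card_sq_eq_one_odd hodd]
  ring

theorem s3_card_Ps (hns : ∀ a : F, a ^ 2 ≠ -1) :
    Nat.card {Y : SL(2, F) // Y.1 0 0 + Y.1 1 1 = 0} =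
      Fintype.card F * (Fintype.card F - 1) := by
  apply Cfsg.Agent.H44.card_trace_class 0
  intro a ha
  apply hns a
  linear_combination ha

theorem s3_card_Rs (hns : ∀ a : F, a ^ 2 ≠ -1) :
    Nat.card {Y : SL(2, F) // Y.1 0 1 = Y.1 1 0} =
      Fintype.card F * (Fintype.card F - 1) := by
  rw [← s3_card_Ps hns]
  apply Nat.card_congr
  refine Equiv.subtypeEquiv (Equiv.mulLeft s3w) (fun Y => ?_)
  have := s3w_tr_mul Y
  unfold tr at this
  show _ ↔ (s3w * Y).1 0 0 + (s3w * Y).1 1 1 = 0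
  rw [this, sub_eq_zero]

theorem s3_card_PRs (hodd : Odd (Fintype.card F)) (hns : ∀ a : F, a ^ 2 ≠ -1) :
    Nat.card {Y : SL(2, F) // Y.1 0 0 + Y.1 1 1 = 0 ∧ Y.1 0 1 = Y.1 1 0} = Fintype.card F + 1 := by
  have h2 : (2 : F) ≠ 0 := Cfsg.Agent.H44.two_ne_zero_of_odd hodd
  obtain ⟨w00, w01, w10, w11⟩ := s3w_entries (F := F)
  have ht : ((s3w : SL(2, F)).1 0 0 + (s3w : SL(2, F)).1 1 1) ^ 2 ≠ 4 := by
    rw [w00, w11]
    intro h
    apply h2
    have h4 : (2 : F) * 2 = 0 := by linear_combination -h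
    exact (mul_self_eq_zero.mp h4)
  have hN := Cfsg.Agent.H44.sl2_card_normalizer hodd ht
  have hC := Cfsg.Agent.H44.sl2_card_centralizer_elliptic hodd s3w (s3w_elliptic hns)
  rw [hC] at hN
  have hset : ((Subgroup.normalizer (Subgroup.centralizer ({s3w} : Set SL(2, F)) : Set SL(2, F)) :
      Subgroup SL(2, F)) : Set SL(2, F)) =
      ((Subgroup.centralizer ({s3w} : Set SL(2, F)) : Subgroup SL(2, F)) : Set SL(2, F)) ∪
        {Y : SL(2, F) | Y.1 0 0 + Y.1 1 1 = 0 ∧ Y.1 0 1 = Y.1 1 0} := by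
    ext Y
    constructor
    · intro hY
      rcases Cfsg.Agent.H44.sl2_conj_eq_or_inv h2 ht hY with h | h
      · left
        rw [SetLike.mem_coe, Cfsg.Agent.H44.mem_centralizer_singleton_iff]
        calc s3w * Y = (Y * s3w * Y⁻¹) * Y := by rw [h]
          _ = Y * s3w := by group
      · right
        exact (s3w_inverted_iff Y).mp h
    · rintro (hY | hY)
      · exact Subgroup.le_normalizer hY
      · exact Cfsg.Agent.H18.Dk.mem_NT_of_inv ((s3w_inverted_iff Y).mpr hY)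
  have hdisj : Disjoint
      (((Subgroup.centralizer ({s3w} : Set SL(2, F)) : Subgroup SL(2, F)) : Set SL(2, F)))
      {Y : SL(2, F) | Y.1 0 0 + Y.1 1 1 = 0 ∧ Y.1 0 1 = Y.1 1 0} := by
    rw [Set.disjoint_left]
    rintro Y hY ⟨h1, h3⟩
    rw [SetLike.mem_coe, Cfsg.Agent.H44.mem_centralizer_singleton_iff] at hY
    obtain ⟨e1, e2⟩ := (s3w_comm_iff Y).mp hY.symm
    have hd := det_eq Y
    have ha : Y.1 0 0 = 0 := by
      have : (2 : F) * Y.1 0 0 = 0 := by linear_combination h1 + e1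
      exact (mul_eq_zero.mp this).resolve_left h2
    have hc : Y.1 1 0 = 0 := by
      have : (2 : F) * Y.1 1 0 = 0 := by linear_combination e2 - h3
      exact (mul_eq_zero.mp this).resolve_left h2
    rw [ha, hc] at hd
    simp at hd
  have h1 : (((Subgroup.normalizer (Subgroup.centralizer ({s3w} : Set SL(2, F)) : Set SL(2, F)) :
      Subgroup SL(2, F)) : Set SL(2, F))).ncard = 2 * (Fintype.card F + 1) := by
    rw [← Nat.card_coe_set_eq]; exact hN
  have h3 : (((Subgroup.centralizer ({s3w} : Set SL(2, F)) : Subgroup SL(2, F)) :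
      Set SL(2, F))).ncard = Fintype.card F + 1 := by
    rw [← Nat.card_coe_set_eq]; exact hC
  rw [hset, Set.ncard_union_eq hdisj, h3] at h1
  have h4 := Nat.card_coe_set_eq {Y : SL(2, F) | Y.1 0 0 + Y.1 1 1 = 0 ∧ Y.1 0 1 = Y.1 1 0}
  refine h4.trans ?_
  omega

theorem s3_card_four (hodd : Odd (Fintype.card F)) :
    ({Y : SL(2, F) | (Y.1 0 0 + Y.1 1 1 = 0 ∨ Y.1 0 1 = Y.1 1 0) ∧
      (Y.1 0 0 = Y.1 1 1 ∧ Y.1 0 1 = -Y.1 1 0)}).ncard = 4 := by
  have h2 : (2 : F) ≠ 0 := Cfsg.Agent.H44.two_ne_zero_of_odd hodd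
  obtain ⟨w00, w01, w10, w11⟩ := s3w_entries (F := F)
  have hset : {Y : SL(2, F) | (Y.1 0 0 + Y.1 1 1 = 0 ∨ Y.1 0 1 = Y.1 1 0) ∧
      (Y.1 0 0 = Y.1 1 1 ∧ Y.1 0 1 = -Y.1 1 0)} = {1, -1, s3w, -s3w} := by
    ext Y
    simp only [Set.mem_ofPred_eq, Set.mem_insert_iff, Set.mem_singleton_iff]
    constructor
    · rintro ⟨h | h, e1, e2⟩
      · have ha : Y.1 0 0 = 0 := by
          have : (2 : F) * Y.1 0 0 = 0 := by linear_combination h + e1
          exact (mul_eq_zero.mp this).resolve_left h2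
        have hd' : Y.1 1 1 = 0 := by rw [← e1]; exact ha
        have hd := det_eq Y
        rw [ha, hd', e2] at hd
        have hc : (Y.1 1 0 - 1) * (Y.1 1 0 + 1) = 0 := by linear_combination hd
        rcases mul_eq_zero.mp hc with hc | hc
        · right; right; left
          apply sl2_ext4
          · rw [ha, w00]
          · rw [e2, w01]; linear_combination -hc
          · rw [w10]; linear_combination hc
          · rw [hd', w11]
        · right; right; right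
          apply sl2_ext4
          · rw [ha, neg00, w00, neg_zero]
          · rw [e2, neg01, w01]; linear_combination -hc
          · rw [neg10, w10]; linear_combination hc
          · rw [hd', neg11, w11, neg_zero]
      · have hc : Y.1 1 0 = 0 := by
          have : (2 : F) * Y.1 1 0 = 0 := by linear_combination e2 - h
          exact (mul_eq_zero.mp this).resolve_left h2
        have hb : Y.1 0 1 = 0 := by rw [h]; exact hc
        have hd := det_eq Y
        rw [hb, hc, ← e1] at hd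
        have ha : (Y.1 0 0 - 1) * (Y.1 0 0 + 1) = 0 := by linear_combination hd
        rcases mul_eq_zero.mp ha with ha | ha
        · left
          apply sl2_ext4
          · rw [one00]; linear_combination ha
          · rw [hb, one01]
          · rw [hc, one10]
          · rw [← e1, one11]; linear_combination ha
        · right; left
          apply sl2_ext4
          · rw [neg00, one00]; linear_combination ha
          · rw [hb, neg01, one01, neg_zero]
          · rw [hc, neg10, one10, neg_zero]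
          · rw [← e1, neg11, one11]; linear_combination ha
    · rintro (rfl | rfl | rfl | rfl)
      · rw [one00, one01, one10, one11]; simp
      · rw [neg00, neg01, neg10, neg11, one00, one01, one10, one11]; simp
      · rw [w00, w01, w10, w11]; simp
      · rw [neg00, neg01, neg10, neg11, w00, w01, w10, w11]; simp
  rw [hset]
  have n3 : (s3w : SL(2, F)) ≠ -s3w := by
    intro h
    obtain ⟨-, -, e10, -⟩ := sl2_entries h
    rw [neg10, w10] at e10
    apply h2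
    linear_combination e10
  have n2 : (-1 : SL(2, F)) ∉ ({s3w, -s3w} : Set SL(2, F)) := by
    simp only [Set.mem_insert_iff, Set.mem_singleton_iff]
    rintro (h | h)
    · obtain ⟨e00, -, -, -⟩ := sl2_entries h
      rw [neg00, one00, w00] at e00
      exact one_ne_zero (by linear_combination -e00)
    · obtain ⟨e00, -, -, -⟩ := sl2_entries h
      rw [neg00, one00, neg00, w00] at e00
      exact one_ne_zero (by linear_combination -e00)
  have n1 : (1 : SL(2, F)) ∉ ({-1, s3w, -s3w} : Set SL(2, F)) := by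
    simp only [Set.mem_insert_iff, Set.mem_singleton_iff]
    rintro (h | h | h)
    · obtain ⟨e00, -, -, -⟩ := sl2_entries h
      rw [neg00, one00] at e00
      apply h2
      linear_combination e00
    · obtain ⟨e00, -, -, -⟩ := sl2_entries h
      rw [one00, w00] at e00
      exact one_ne_zero e00
    · obtain ⟨e00, -, -, -⟩ := sl2_entries h
      rw [one00, neg00, w00] at e00
      exact one_ne_zero (by linear_combination e00)
  rw [Set.ncard_insert_of_notMem n1, Set.ncard_insert_of_notMem n2, Set.ncard_pair n3]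

/-- The solubilizer of the standard element of order 4 has `2q(q+1)` elements. -/
theorem s3_card_inv_set [CharP F 3] (hodd : Odd (Fintype.card F)) (hns : ∀ a : F, a ^ 2 ≠ -1) :
    Nat.card {Y : SL(2, F) // Y * s3w = s3w * Y ∨ tr Y = 0 ∨ s3w * Y * s3w⁻¹ = Y⁻¹ ∨
      (tr Y ^ 2 = 1 ∧ tr (s3w * Y) ^ 2 = 1)} = 2 * Fintype.card F * (Fintype.card F + 1) := by
  have h2 : (2 : F) ≠ 0 := Cfsg.Agent.H44.two_ne_zero_of_odd hodd
  have h3 : (3 : F) = 0 := s3_three
  have hset : {Y : SL(2, F) | Y * s3w = s3w * Y ∨ tr Y = 0 ∨ s3w * Y * s3w⁻¹ = Y⁻¹ ∨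
      (tr Y ^ 2 = 1 ∧ tr (s3w * Y) ^ 2 = 1)} =
      (({Y : SL(2, F) | Y.1 0 0 + Y.1 1 1 = 0} ∪ {Y : SL(2, F) | Y.1 0 1 = Y.1 1 0}) ∪
        {Y : SL(2, F) | Y.1 0 0 = Y.1 1 1 ∧ Y.1 0 1 = -Y.1 1 0}) ∪
        {Y : SL(2, F) | (Y.1 0 0 + Y.1 1 1) ^ 2 = 1 ∧ (Y.1 0 1 - Y.1 1 0) ^ 2 = 1} := by
    ext Y
    simp only [Set.mem_ofPred_eq, Set.mem_union]
    rw [s3w_comm_iff, s3w_inv_iff, s3w_tr_mul]
    unfold tr
    tauto
  have hP : ({Y : SL(2, F) | Y.1 0 0 + Y.1 1 1 = 0}).ncard =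
      Fintype.card F * (Fintype.card F - 1) := by
    rw [← Nat.card_coe_set_eq]; exact s3_card_Ps hns
  have hR : ({Y : SL(2, F) | Y.1 0 1 = Y.1 1 0}).ncard =
      Fintype.card F * (Fintype.card F - 1) := by
    rw [← Nat.card_coe_set_eq]; exact s3_card_Rs hns
  have hC : ({Y : SL(2, F) | Y.1 0 0 = Y.1 1 1 ∧ Y.1 0 1 = -Y.1 1 0}).ncard =
      Fintype.card F + 1 := by
    rw [← Nat.card_coe_set_eq]; exact s3_card_Cs hodd hns
  have hD : ({Y : SL(2, F) | (Y.1 0 0 + Y.1 1 1) ^ 2 = 1 ∧ (Y.1 0 1 - Y.1 1 0) ^ 2 = 1}).ncard =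
      4 * (Fintype.card F + 1) := by
    rw [← Nat.card_coe_set_eq]; exact s3_card_Ds hodd hns
  have hPR : ({Y : SL(2, F) | Y.1 0 0 + Y.1 1 1 = 0} ∩ {Y : SL(2, F) | Y.1 0 1 = Y.1 1 0}).ncard =
      Fintype.card F + 1 := by
    rw [← Nat.card_coe_set_eq]; exact s3_card_PRs hodd hns
  have h4 : (({Y : SL(2, F) | Y.1 0 0 + Y.1 1 1 = 0} ∪ {Y : SL(2, F) | Y.1 0 1 = Y.1 1 0}) ∩
        {Y : SL(2, F) | Y.1 0 0 = Y.1 1 1 ∧ Y.1 0 1 = -Y.1 1 0}).ncard = 4 :=
    s3_card_four hodd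
  have hdisj : Disjoint
      (({Y : SL(2, F) | Y.1 0 0 + Y.1 1 1 = 0} ∪ {Y : SL(2, F) | Y.1 0 1 = Y.1 1 0}) ∪
        {Y : SL(2, F) | Y.1 0 0 = Y.1 1 1 ∧ Y.1 0 1 = -Y.1 1 0})
      {Y : SL(2, F) | (Y.1 0 0 + Y.1 1 1) ^ 2 = 1 ∧ (Y.1 0 1 - Y.1 1 0) ^ 2 = 1} := by
    rw [Set.disjoint_left]
    rintro Y ((h | h) | ⟨e1, e2⟩) ⟨d1, d2⟩
    · rw [Set.mem_ofPred_eq] at h
      rw [h] at d1
      simp at d1
    · rw [Set.mem_ofPred_eq] at h
      rw [h, sub_self] at d2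
      simp at d2
    · have hd := det_eq Y
      apply h2
      rw [← e1] at hd d1
      rw [e2] at hd d2
      linear_combination d1 + d2 - 4 * hd
  have hu1 := Set.ncard_union_add_ncard_inter {Y : SL(2, F) | Y.1 0 0 + Y.1 1 1 = 0}
    {Y : SL(2, F) | Y.1 0 1 = Y.1 1 0}
  have hu2 := Set.ncard_union_add_ncard_inter
    ({Y : SL(2, F) | Y.1 0 0 + Y.1 1 1 = 0} ∪ {Y : SL(2, F) | Y.1 0 1 = Y.1 1 0})
    {Y : SL(2, F) | Y.1 0 0 = Y.1 1 1 ∧ Y.1 0 1 = -Y.1 1 0}
  have hcard := Nat.card_coe_set_eq {Y : SL(2, F) | Y * s3w = s3w * Y ∨ tr Y = 0 ∨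
    s3w * Y * s3w⁻¹ = Y⁻¹ ∨ (tr Y ^ 2 = 1 ∧ tr (s3w * Y) ^ 2 = 1)}
  rw [hPR, hP, hR] at hu1
  rw [h4, hC] at hu2
  refine hcard.trans ?_
  rw [hset, Set.ncard_union_eq hdisj, hD]
  obtain ⟨m, hm⟩ : ∃ m, Fintype.card F = m + 1 :=
    ⟨Fintype.card F - 1, by have := Fintype.card_pos (α := F); omega⟩
  rw [hm] at hu1 hu2 ⊢
  simp only [Nat.add_sub_cancel] at hu1
  have e1 : 2 * (m + 1) * (m + 1 + 1) + 4 = (m + 1) * m + (m + 1) * m + (m + 1 + 1) + 4 * (m + 1 + 1) - (m+1+1) := by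
    have : 2 * (m + 1) * (m + 1 + 1) + 4 + (m + 1 + 1) =
        (m + 1) * m + (m + 1) * m + (m + 1 + 1) + 4 * (m + 1 + 1) := by ring
    omega
  generalize (m + 1) * m = k at *
  omega

/-! ### The unipotent case -/

/-- Parametrisation of the non-Borel part of the solubilizer of a unipotent element. -/
def s3_uEquiv (b : F) (hb : b ≠ 0) :
    {Y : SL(2, F) // (b * Y.1 1 0) ^ 2 = 1 ∧ tr Y ^ 3 = tr Y} ≃
      {e : F // e ^ 2 = 1} × {t : F // t ^ 3 = t} × F where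
  toFun Y := (⟨b * Y.1.1 1 0, Y.2.1⟩, ⟨tr Y.1, Y.2.2⟩, Y.1.1 0 0)
  invFun q := ⟨slMk q.2.2 ((q.2.2 * (q.2.1.1 - q.2.2) - 1) * b * q.1.1) (q.1.1 * b⁻¹)
      (q.2.1.1 - q.2.2) (by
        have he := q.1.2
        have hbb : b * b⁻¹ = 1 := mul_inv_cancel₀ hb
        linear_combination (-(q.2.2 * (q.2.1.1 - q.2.2) - 1)) * he
          - (q.2.2 * (q.2.1.1 - q.2.2) - 1) * q.1.1 ^ 2 * hbb), by
    have he := q.1.2
    have ht := q.2.1.2
    have hbb : b * b⁻¹ = 1 := mul_inv_cancel₀ hb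
    constructor
    · show (b * (q.1.1 * b⁻¹)) ^ 2 = 1
      linear_combination he + (q.1.1 ^ 2 * (b * b⁻¹ + 1)) * hbb
    · show (q.2.2 + (q.2.1.1 - q.2.2)) ^ 3 = q.2.2 + (q.2.1.1 - q.2.2)
      linear_combination ht⟩
  left_inv Y := by
    have hd := det_eq Y.1
    obtain ⟨h1, h2⟩ := Y.2
    have hbb : b * b⁻¹ = 1 := mul_inv_cancel₀ hb
    apply Subtype.ext
    apply sl2_ext4
    · rfl
    · show (Y.1.1 0 0 * (tr Y.1 - Y.1.1 0 0) - 1) * b * (b * Y.1.1 1 0) = Y.1.1 0 1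
      unfold tr
      linear_combination (b ^ 2 * Y.1.1 1 0) * hd + Y.1.1 0 1 * h1
    · show b * Y.1.1 1 0 * b⁻¹ = Y.1.1 1 0
      linear_combination Y.1.1 1 0 * hbb
    · show tr Y.1 - Y.1.1 0 0 = Y.1.1 1 1
      unfold tr
      ring
  right_inv q := by
    have hbb : b * b⁻¹ = 1 := mul_inv_cancel₀ hb
    obtain ⟨⟨e, he⟩, ⟨t, ht⟩, a⟩ := q
    refine Prod.ext (Subtype.ext ?_) (Prod.ext (Subtype.ext ?_) ?_)
    · show b * (e * b⁻¹) = e
      linear_combination e * hbb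
    · show a + (t - a) = t
      ring
    · rfl

theorem s3_card_cube [CharP F 3] : Nat.card {t : F // t ^ 3 = t} = 3 := by
  have h2 : (2 : F) ≠ 0 := s3_two_ne
  have : {t : F | t ^ 3 = t} = {0, 1, -1} := by
    ext t
    simp only [Set.mem_ofPred_eq, Set.mem_insert_iff, Set.mem_singleton_iff]
    constructor
    · intro h
      have : t * ((t - 1) * (t + 1)) = 0 := by linear_combination h
      rcases mul_eq_zero.mp this with h | h
      · left; exact h
      · rcases mul_eq_zero.mp h with h | h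
        · right; left; linear_combination h
        · right; right; linear_combination h
    · rintro (rfl | rfl | rfl) <;> ring
  show Nat.card ({t : F | t ^ 3 = t} : Set F) = 3
  have n2 : (1 : F) ≠ -1 := by
    intro h; apply h2; linear_combination h
  have n1 : (0 : F) ∉ ({1, -1} : Set F) := by
    simp
  rw [this, Nat.card_coe_set_eq, Set.ncard_insert_of_notMem n1, Set.ncard_pair n2]

/-- The solubilizer of a nontrivial unipotent element has `q(q+5)` elements. -/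
theorem s3_card_unip_set [CharP F 3] (hodd : Odd (Fintype.card F)) (b : F) (hb : b ≠ 0) :
    Nat.card {Y : SL(2, F) // Y.1 1 0 = 0 ∨ ((b * Y.1 1 0) ^ 2 = 1 ∧ tr Y ^ 3 = tr Y)} =
      Fintype.card F * (Fintype.card F + 5) := by
  have hset : {Y : SL(2, F) | Y.1 1 0 = 0 ∨ ((b * Y.1 1 0) ^ 2 = 1 ∧ tr Y ^ 3 = tr Y)} =
      Set.range (borelElt (F := F)) ∪
        {Y : SL(2, F) | (b * Y.1 1 0) ^ 2 = 1 ∧ tr Y ^ 3 = tr Y} := by
    ext Y
    simp only [Set.mem_ofPred_eq, Set.mem_union, mem_range_borelElt]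
  have hd : Disjoint (Set.range (borelElt (F := F)))
      {Y : SL(2, F) | (b * Y.1 1 0) ^ 2 = 1 ∧ tr Y ^ 3 = tr Y} := by
    rw [Set.disjoint_left]
    rintro Y h1 ⟨h3, -⟩
    rw [mem_range_borelElt] at h1
    rw [h1] at h3
    simp at h3
  have h2 : ({Y : SL(2, F) | (b * Y.1 1 0) ^ 2 = 1 ∧ tr Y ^ 3 = tr Y}).ncard =
      2 * (3 * Fintype.card F) := by
    rw [← Nat.card_coe_set_eq]
    show Nat.card {Y : SL(2, F) // (b * Y.1 1 0) ^ 2 = 1 ∧ tr Y ^ 3 = tr Y} = _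
    rw [Nat.card_congr (s3_uEquiv b hb), Nat.card_prod, Nat.card_prod,
      Cfsg.Agent.H44.card_sq_eq_one_odd hodd, s3_card_cube, Nat.card_eq_fintype_card]
  have hcard := Nat.card_coe_set_eq {Y : SL(2, F) | Y.1 1 0 = 0 ∨
    ((b * Y.1 1 0) ^ 2 = 1 ∧ tr Y ^ 3 = tr Y)}
  refine hcard.trans ?_
  rw [hset, Set.ncard_union_eq hd, Set.ncard_range_of_injective borelElt_injective,
    card_units_prod, h2]
  obtain ⟨m, hm⟩ : ∃ m, Fintype.card F = m + 1 :=
    ⟨Fintype.card F - 1, by have := Fintype.card_pos (α := F); omega⟩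
  rw [hm]
  simp only [Nat.add_sub_cancel]
  ring

/-! ### The split case -/

end S3CountFin

section S3CountSplit

variable {F : Type*} [Field F]

/-- Antidiagonal elements. -/
def antiElt' (c : Fˣ) : SL(2, F) :=
  slMk 0 (-(c : F)⁻¹) (c : F) 0 (by
    have := inv_mul_cancel₀ (Units.ne_zero c)
    linear_combination this)

theorem antiElt'_injective : Function.Injective (antiElt' (F := F)) := by
  intro c c' h
  obtain ⟨-, -, e10, -⟩ := sl2_entries h
  simp only [antiElt', slMk_10] at e10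
  exact Units.ext e10

theorem mem_range_antiElt' (y : SL(2, F)) :
    y ∈ Set.range (antiElt' (F := F)) ↔ y.1 0 0 = 0 ∧ y.1 1 1 = 0 := by
  constructor
  · rintro ⟨c, rfl⟩
    simp [antiElt']
  · rintro ⟨h00, h11⟩
    have hd := sl2_det y
    rw [h00, h11] at hd
    have h10 : y.1 1 0 ≠ 0 := by
      intro h
      rw [h] at hd
      simp at hd
    refine ⟨Units.mk0 _ h10, ?_⟩
    apply sl2_ext4 <;> simp only [antiElt', slMk_00, slMk_01, slMk_10, slMk_11, Units.val_mk0]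
    · exact h00.symm
    · rw [← mul_right_inj' h10, mul_neg, mul_inv_cancel₀ h10]
      linear_combination hd
    · exact h11.symm

theorem s3_card_diag_set [Fintype F] :
    Nat.card {y : SL(2, F) // y.1 1 0 = 0 ∨ y.1 0 1 = 0 ∨ (y.1 0 0 = 0 ∧ y.1 1 1 = 0)} =
      2 * Fintype.card F * (Fintype.card F - 1) := by
  have hset : {y : SL(2, F) | y.1 1 0 = 0 ∨ y.1 0 1 = 0 ∨ (y.1 0 0 = 0 ∧ y.1 1 1 = 0)} =
      Set.range (borelElt (F := F)) ∪ Set.range (lowerElt (F := F)) ∪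
        Set.range (antiElt' (F := F)) := by
    ext y
    simp only [Set.mem_ofPred_eq, Set.mem_union, mem_range_borelElt, mem_range_lowerElt,
      mem_range_antiElt']
    by_cases h : y.1 1 0 = 0
    · simp [h]
    · simp [h]
  have hd1 : Disjoint (Set.range (borelElt (F := F))) (Set.range (lowerElt (F := F))) := by
    rw [Set.disjoint_left]
    intro y h1 h3
    rw [mem_range_borelElt] at h1
    rw [mem_range_lowerElt] at h3
    exact h3.2 h1
  have hd2 : Disjoint (Set.range (borelElt (F := F)) ∪ Set.range (lowerElt (F := F)))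
      (Set.range (antiElt' (F := F))) := by
    rw [Set.disjoint_left]
    rintro y h1 h3
    rw [mem_range_antiElt'] at h3
    have hd := sl2_det y
    rw [h3.1, h3.2] at hd
    rcases h1 with h1 | h1
    · rw [mem_range_borelElt] at h1
      rw [h1] at hd
      simp at hd
    · rw [mem_range_lowerElt] at h1
      rw [h1.1] at hd
      simp at hd
  have hcard := Nat.card_coe_set_eq {y : SL(2, F) | y.1 1 0 = 0 ∨ y.1 0 1 = 0 ∨
      (y.1 0 0 = 0 ∧ y.1 1 1 = 0)}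
  refine hcard.trans ?_
  rw [hset, Set.ncard_union_eq hd2, Set.ncard_union_eq hd1,
    Set.ncard_range_of_injective borelElt_injective,
    Set.ncard_range_of_injective lowerElt_injective,
    Set.ncard_range_of_injective antiElt'_injective, card_units_prod, card_units_units,
    card_units_nat]
  obtain ⟨m, hm⟩ : ∃ m, Fintype.card F = m + 1 :=
    ⟨Fintype.card F - 1, by have := Fintype.card_pos (α := F); omega⟩
  rw [hm]
  simp only [Nat.add_sub_cancel]
  ring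

end S3CountSplit

end Cfsg.Agent.H7
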