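import Mathlib
import Cfsg.Agent.H7.Solub3E

set_option autoImplicit false

/-!
# Solubilizers in `SL₂(F)` and `PSL₂(F)`, characteristic 3 with `-1` a non-square (helper7)
-/

namespace Cfsg.Agent.H7

open Matrix
open scoped MatrixGroups
open Cfsg.Agent.H65.SL2 (tr mul00 mul01 mul10 mul11 inv00 inv01 inv10 inv11 neg00 neg01 neg10 neg11
  one00 one01 one10 one11 det_eq)
open Cfsg.Agent.H29.Dk (Ze)
open Cfsg.Agent.H18.Dk (mkP)

section S3Main

variable {F : Type*} [Field F]

theorem s3_conj10 (g Y : SL(2, F)) :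
    (g⁻¹ * Y * g).1 1 0 = Y.1 1 0 * g.1 0 0 ^ 2 - Y.1 0 1 * g.1 1 0 ^ 2 +
      (Y.1 1 1 - Y.1 0 0) * g.1 0 0 * g.1 1 0 := by
  rw [mul10, mul10, mul11, inv10, inv11]; ring

theorem s3_card_conj (X g : SL(2, F)) :
    Nat.card {Y : SL(2, F) // Group.IsSolvable (Subgroup.closure ({g * X * g⁻¹, Y} : Set SL(2, F)))} =
      Nat.card {Y : SL(2, F) // Group.IsSolvable (Subgroup.closure ({X, Y} : Set SL(2, F)))} := by
  have := card_solubilizer_equiv (MulAut.conj g) X
  rwa [MulAut.conj_apply] at this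

/-- The solubilizer of a regular diagonal element. -/
theorem s3_split_iff (h2 : (2 : F) ≠ 0) (d : SL(2, F)) (d01 : d.1 0 1 = 0) (d10 : d.1 1 0 = 0)
    (dsq : d.1 0 0 ^ 2 ≠ 1) (Y : SL(2, F)) :
    ((∃ g : SL(2, F), (g⁻¹ * d * g).1 1 0 = 0 ∧ (g⁻¹ * Y * g).1 1 0 = 0) ∨
      Y ∈ Subgroup.normalizer (Subgroup.centralizer ({d} : Set SL(2, F)) : Set SL(2, F))) ↔
    (Y.1 1 0 = 0 ∨ Y.1 0 1 = 0 ∨ (Y.1 0 0 = 0 ∧ Y.1 1 1 = 0)) := by
  have hdd := det_eq d
  rw [d01] at hdd
  have hne : d.1 1 1 - d.1 0 0 ≠ 0 := by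
    intro h
    apply dsq
    linear_combination hdd - d.1 0 0 * h
  have ht : (d.1 0 0 + d.1 1 1) ^ 2 ≠ 4 := by
    intro h
    apply hne
    have : (d.1 1 1 - d.1 0 0) ^ 2 = 0 := by linear_combination h - 4 * hdd
    exact pow_eq_zero_iff (by norm_num) |>.mp this
  constructor
  · rintro (⟨g, hgd, hgY⟩ | hn)
    · rw [s3_conj10, d01, d10] at hgd
      rw [s3_conj10] at hgY
      have hgg : g.1 0 0 * g.1 1 0 = 0 := by
        have : (d.1 1 1 - d.1 0 0) * (g.1 0 0 * g.1 1 0) = 0 := by linear_combination hgd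
        exact (mul_eq_zero.mp this).resolve_left hne
      have hdg := det_eq g
      rcases mul_eq_zero.mp hgg with h0 | h0
      · right; left
        rw [h0] at hgY hdg
        have hg10 : g.1 1 0 ≠ 0 := by
          intro h; rw [h] at hdg; simp at hdg
        have : Y.1 0 1 * g.1 1 0 ^ 2 = 0 := by linear_combination -hgY
        exact (mul_eq_zero.mp this).resolve_right (pow_ne_zero 2 hg10)
      · left
        rw [h0] at hgY hdg
        have hg00 : g.1 0 0 ≠ 0 := by
          intro h; rw [h] at hdg; simp at hdg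
        have : Y.1 1 0 * g.1 0 0 ^ 2 = 0 := by linear_combination hgY
        exact (mul_eq_zero.mp this).resolve_right (pow_ne_zero 2 hg00)
    · rcases Cfsg.Agent.H44.sl2_conj_eq_or_inv h2 ht hn with h | h
      · left
        have hc : Y * d = d * Y := by
          calc Y * d = (Y * d * Y⁻¹) * Y := by group
            _ = d * Y := by rw [h]
        obtain ⟨-, -, e10, -⟩ := sl2_entries hc
        rw [mul10, mul10, d10] at e10
        have : Y.1 1 0 * (d.1 1 1 - d.1 0 0) = 0 := by linear_combination -e10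
        exact (mul_eq_zero.mp this).resolve_right hne
      · right; right
        have hc : Y * d = d⁻¹ * Y := by
          calc Y * d = (Y * d * Y⁻¹) * Y := by group
            _ = d⁻¹ * Y := by rw [h]
        obtain ⟨e00, -, -, e11⟩ := sl2_entries hc
        rw [mul00, mul00, inv00, inv01, d10, d01] at e00
        rw [mul11, mul11, inv10, inv11, d10, d01] at e11
        constructor
        · have : Y.1 0 0 * (d.1 1 1 - d.1 0 0) = 0 := by linear_combination -e00
          exact (mul_eq_zero.mp this).resolve_right hne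
        · have : Y.1 1 1 * (d.1 1 1 - d.1 0 0) = 0 := by linear_combination e11
          exact (mul_eq_zero.mp this).resolve_right hne
  · rintro (h | h | ⟨h0, h1⟩)
    · left
      refine ⟨1, ?_, ?_⟩
      · rw [s3_conj10, d10, one00, one10]; ring
      · rw [s3_conj10, h, one00, one10]; ring
    · left
      obtain ⟨w00, w01, w10, w11⟩ := s3w_entries (F := F)
      refine ⟨s3w, ?_, ?_⟩
      · rw [s3_conj10, d01, w00, w10]; ring
      · rw [s3_conj10, h, w00, w10]; ring
    · right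
      apply Cfsg.Agent.H18.Dk.mem_NT_of_inv
      have hc : Y * d = d⁻¹ * Y := by
        apply sl2_ext4
        · rw [mul00, mul00, inv00, inv01, d10, d01, h0]; ring
        · rw [mul01, mul01, inv00, inv01, d01, h0, h1]; ring
        · rw [mul10, mul10, inv10, inv11, d10, h0, h1]; ring
        · rw [mul11, mul11, inv10, inv11, d10, d01, h1]; ring
      rw [hc]; group

end S3Main

section S3MainFin

variable {F : Type*} [Field F] [Fintype F] [CharP F 3]

omit [Fintype F] in
theorem s3_tr4 {X : SL(2, F)} (ht1 : tr X ^ 2 ≠ 1) : tr X ^ 2 ≠ 4 := by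
  have h3 : (3 : F) = 0 := s3_three
  intro h
  apply ht1
  linear_combination h + h3

/-- Solubilizer of an element of trace zero. -/
theorem s3_card_solub_inv (hodd : Odd (Fintype.card F)) (hns : ∀ a : F, a ^ 2 ≠ -1)
    (X : SL(2, F)) (hX : tr X = 0) :
    Nat.card {Y : SL(2, F) // Group.IsSolvable (Subgroup.closure ({X, Y} : Set SL(2, F)))} =
      2 * Fintype.card F * (Fintype.card F + 1) := by
  have h2 : (2 : F) ≠ 0 := s3_two_ne
  have hw := s3w_tr (F := F)
  have hc : IsConj s3w X := by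
    apply Cfsg.Agent.H44.SL2_isConj_of_trace_odd hodd
    · rw [Matrix.trace_fin_two, Matrix.trace_fin_two]
      unfold tr at hw hX
      rw [hw, hX]
    · rw [Matrix.trace_fin_two]
      unfold tr at hw
      rw [hw]
      intro h
      apply h2
      have h4 : (2 : F) * 2 = 0 := by linear_combination -h
      exact mul_self_eq_zero.mp h4
  obtain ⟨g, hg⟩ := isConj_iff.mp hc
  rw [← hg, s3_card_conj, ← s3_card_inv_set hodd hns]
  apply Nat.card_congr
  exact Equiv.subtypeEquivRight
    (fun Y => ⟨s3_solub_inv_sub hns s3w Y hw, s3_solub_inv_sup s3w Y hw⟩)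

/-- Solubilizer of a non-central element of trace two. -/
theorem s3_card_solub_unip (hodd : Odd (Fintype.card F)) (hns : ∀ a : F, a ^ 2 ≠ -1)
    (X : SL(2, F)) (hXZ : X ∉ (Ze : Subgroup SL(2, F))) (hX : tr X = 2) :
    Nat.card {Y : SL(2, F) // Group.IsSolvable (Subgroup.closure ({X, Y} : Set SL(2, F)))} =
      Fintype.card F * (Fintype.card F + 5) := by
  obtain ⟨b, hb, hc⟩ := Cfsg.Agent.H44.SL2_isConj_uSL X (s3_nonScalar hXZ)
    (by rw [Matrix.trace_fin_two]; exact hX)
  obtain ⟨g, hg⟩ := isConj_iff.mp hc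
  rw [← s3_card_conj X g, hg, ← s3_card_unip_set hodd b hb]
  apply Nat.card_congr
  exact Equiv.subtypeEquivRight
    (fun Y => ⟨s3_solub_unip_sub hns b hb Y, s3_solub_unip_sup b Y⟩)

/-- Solubilizer of a split regular semisimple element of order not dividing 4 or 6. -/
theorem s3_card_solub_split (hodd : Odd (Fintype.card F)) (hns : ∀ a : F, a ^ 2 ≠ -1)
    (X : SL(2, F)) (ht0 : tr X ≠ 0) (ht1 : tr X ^ 2 ≠ 1)
    (hne : ¬ Cfsg.Agent.H44.Elliptic (X : Matrix (Fin 2) (Fin 2) F)) :
    Nat.card {Y : SL(2, F) // Group.IsSolvable (Subgroup.closure ({X, Y} : Set SL(2, F)))} =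
      2 * Fintype.card F * (Fintype.card F - 1) := by
  have h2 : (2 : F) ≠ 0 := s3_two_ne
  have ht4 := s3_tr4 ht1
  obtain ⟨d, d01, d10, dsq, hc⟩ := Cfsg.Agent.H44.sl2_exists_diag_conj hodd X ht4 hne
  obtain ⟨g, hg⟩ := isConj_iff.mp hc
  have htd : tr d = tr X := by rw [← hg, Cfsg.Agent.H65.SL2.tr_conj]
  rw [← hg, s3_card_conj, ← s3_card_diag_set]
  apply Nat.card_congr
  refine Equiv.subtypeEquivRight (fun Y => ?_)
  rw [← s3_split_iff h2 d d01 d10 dsq Y]
  have hd4 : tr d ^ 2 ≠ 4 := by rw [htd]; exact ht4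
  have hdZ : d ∉ (Ze : Subgroup SL(2, F)) := s3_not_mem_of_tr h2 hd4
  have hd3 : d * d * d ∉ (Ze : Subgroup SL(2, F)) :=
    fun h => ht1 (by rw [← htd]; exact s3_tr_of_cube h)
  constructor
  · exact s3_solub_gen_sub hns d Y hdZ (by rw [htd]; exact ht0) hd3
  · exact s3_solub_gen_sup h2 d Y hd4

/-- Solubilizer of an elliptic element of order not dividing 4 or 6. -/
theorem s3_card_solub_ellip (hodd : Odd (Fintype.card F)) (hns : ∀ a : F, a ^ 2 ≠ -1)
    (X : SL(2, F)) (ht0 : tr X ≠ 0) (ht1 : tr X ^ 2 ≠ 1)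
    (hell : Cfsg.Agent.H44.Elliptic (X : Matrix (Fin 2) (Fin 2) F)) :
    Nat.card {Y : SL(2, F) // Group.IsSolvable (Subgroup.closure ({X, Y} : Set SL(2, F)))} =
      2 * (Fintype.card F + 1) := by
  have h2 : (2 : F) ≠ 0 := s3_two_ne
  have ht4 := s3_tr4 ht1
  have hXZ : X ∉ (Ze : Subgroup SL(2, F)) := s3_not_mem_of_tr h2 ht4
  have hX3 : X * X * X ∉ (Ze : Subgroup SL(2, F)) := fun h => ht1 (s3_tr_of_cube h)
  rw [← Cfsg.Agent.H44.sl2_card_centralizer_elliptic hodd X hell,
    ← Cfsg.Agent.H44.sl2_card_normalizer hodd ht4]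
  apply Nat.card_congr
  refine Equiv.subtypeEquivRight (fun Y => ?_)
  constructor
  · intro hs
    rcases s3_solub_gen_sub hns X Y hXZ ht0 hX3 hs with ⟨g, hgX, -⟩ | h
    · exfalso
      have hd := det_eq (g⁻¹ * X * g)
      rw [hgX] at hd
      have htr : tr (g⁻¹ * X * g) = tr X := s3_tr_conj' g X
      unfold tr at htr
      refine Cfsg.Agent.H44.not_elliptic_of_root X.2 ((g⁻¹ * X * g).1 0 0) ?_ hell
      linear_combination ((g⁻¹ * X * g).1 0 0) * htr - hd
    · exact h
  · intro h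
    exact s3_solub_gen_sup h2 X Y ht4 (Or.inr h)

omit [CharP F 3] in
/-- Passing from `SL₂` to `PSL₂` halves the solubilizer. -/
theorem s3_card_psl (hodd : Odd (Fintype.card F)) (X : SL(2, F)) :
    2 * Nat.card {y : PSL(2, F) //
        Group.IsSolvable (Subgroup.closure ({mkP F X, y} : Set PSL(2, F)))} =
      Nat.card {Y : SL(2, F) // Group.IsSolvable (Subgroup.closure ({X, Y} : Set SL(2, F)))} := by
  have hZ : Nat.card (Subgroup.center SL(2, F)) = 2 := by
    rw [← Cfsg.Agent.H18.Dk.Ze_eq_center, Cfsg.Agent.H18.Dk.card_Ze]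
    obtain ⟨k, hk⟩ := hodd
    rw [hk]
    simp
  have h := card_preimage_quot (Subgroup.center SL(2, F))
    (fun y => Group.IsSolvable (Subgroup.closure ({mkP F X, y} : Set PSL(2, F))))
  rw [hZ] at h
  rw [← h]
  apply Nat.card_congr
  exact Equiv.subtypeEquivRight
    (fun Y => closure_pair_solvable_map_iff (mkP F) s3_ker_mkP X Y)

/-- Solubilizer sizes in `PSL₂(F)`, `F` finite of characteristic 3 with `-1` a non-square. -/
theorem s3_psl_main (hns : ∀ a : F, a ^ 2 ≠ -1) (x : PSL(2, F)) :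
    (orderOf x = 2 → Nat.card {y : PSL(2, F) //
        Group.IsSolvable (Subgroup.closure ({x, y} : Set PSL(2, F)))} =
      Fintype.card F * (Fintype.card F + 1)) ∧
    (orderOf x = 3 → 2 * Nat.card {y : PSL(2, F) //
        Group.IsSolvable (Subgroup.closure ({x, y} : Set PSL(2, F)))} =
      Fintype.card F * (Fintype.card F + 5)) ∧
    (x ≠ 1 → orderOf x ≠ 2 → orderOf x ∣ Fintype.card F - 1 → Nat.card {y : PSL(2, F) //
        Group.IsSolvable (Subgroup.closure ({x, y} : Set PSL(2, F)))} =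
      Fintype.card F * (Fintype.card F - 1)) ∧
    (x ≠ 1 → orderOf x ≠ 2 → orderOf x ∣ Fintype.card F + 1 → Nat.card {y : PSL(2, F) //
        Group.IsSolvable (Subgroup.closure ({x, y} : Set PSL(2, F)))} =
      Fintype.card F + 1) := by
  classical
  have h2 : (2 : F) ≠ 0 := s3_two_ne
  have h3 : (3 : F) = 0 := s3_three
  have : Fact (Nat.Prime 3) := ⟨Nat.prime_three⟩
  have : Fact (Nat.Prime 2) := ⟨Nat.prime_two⟩
  obtain ⟨n, -, hq⟩ := FiniteField.card F 3
  have hodd : Odd (Fintype.card F) := by rw [hq]; exact Odd.pow (by decide)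
  have h3q : 3 ∣ Fintype.card F := by rw [hq]; exact dvd_pow_self 3 n.ne_zero
  have hqpos : 0 < Fintype.card F := Fintype.card_pos
  obtain ⟨X, rfl⟩ := Cfsg.Agent.H18.Dk.mkP_surjective x
  have hcard := s3_card_psl hodd X
  have hX1 : mkP F X ≠ 1 → X ∉ (Ze : Subgroup SL(2, F)) :=
    fun h hz => h (Cfsg.Agent.H18.Dk.mkP_eq_one_iff.mpr hz)
  have ht0 : mkP F X ≠ 1 → orderOf (mkP F X) ≠ 2 → tr X ≠ 0 := by
    intro hx1 ho ht
    apply ho
    have : (mkP F X) ^ 2 = 1 := by rw [pow_two, s3_mkP_sq ht]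
    exact orderOf_eq_prime this hx1
  have ht1 : ∀ m : ℕ, ¬ 3 ∣ m → mkP F X ≠ 1 → orderOf (mkP F X) ∣ m → tr X ^ 2 ≠ 1 := by
    intro m hm hx1 ho ht
    have hc : (mkP F X) ^ 3 = 1 := s3_mkP_cube (s3_cube_of_tr ht)
    have : orderOf (mkP F X) = 3 := orderOf_eq_prime hc hx1
    rw [this] at ho
    exact hm ho
  have hoX : orderOf (mkP F X) ∣ Nat.card (Subgroup.centralizer ({X} : Set SL(2, F))) :=
    (orderOf_map_dvd (mkP F) X).trans (orderOf_dvd_card_centralizer X)
  have hdvd2 : mkP F X ≠ 1 → orderOf (mkP F X) ≠ 2 → orderOf (mkP F X) ∣ Fintype.card F - 1 →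
      orderOf (mkP F X) ∣ Fintype.card F + 1 → False := by
    intro hx1 ho2 hd1 hd2
    have hsub := Nat.dvd_sub hd2 hd1
    have e : Fintype.card F + 1 - (Fintype.card F - 1) = 2 := by omega
    rw [e] at hsub
    rcases (Nat.dvd_prime Nat.prime_two).mp hsub with h | h
    · exact hx1 (orderOf_eq_one_iff.mp h)
    · exact ho2 h
  refine ⟨fun ho => ?_, fun ho => ?_, fun hx1 ho2 hd => ?_, fun hx1 ho2 hd => ?_⟩
  · have hx1 : mkP F X ≠ 1 := by
      intro h
      rw [h, orderOf_one] at ho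
      omega
    have hXZ := hX1 hx1
    have hsq : mkP F (X * X) = 1 := by
      have hpo := pow_orderOf_eq_one (mkP F X)
      rw [ho] at hpo
      rw [map_mul, ← pow_two, hpo]
    rw [Cfsg.Agent.H18.Dk.mkP_eq_one_iff] at hsq
    have htr : tr X = 0 := by
      rcases s3_ze_cases h2 hsq with h | h
      · exfalso
        exact hXZ (Cfsg.Agent.H29.Dk.mem_Ze_of_mul_self h2 h)
      · exact Cfsg.Agent.H65.SL2.tr_eq_zero_of_mul_self X h
    rw [s3_card_solub_inv hodd hns X htr] at hcard
    have : 2 * Nat.card {y : PSL(2, F) //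
        Group.IsSolvable (Subgroup.closure ({mkP F X, y} : Set PSL(2, F)))} =
        2 * (Fintype.card F * (Fintype.card F + 1)) := by rw [hcard]; ring
    exact Nat.eq_of_mul_eq_mul_left (by norm_num) this
  · have hx1 : mkP F X ≠ 1 := by
      intro h
      rw [h, orderOf_one] at ho
      omega
    have hXZ := hX1 hx1
    have hcube : (mkP F X) ^ 3 = 1 := by
      have hpo := pow_orderOf_eq_one (mkP F X)
      rwa [ho] at hpo
    rw [← map_pow, Cfsg.Agent.H18.Dk.mkP_eq_one_iff] at hcube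
    have hp : X ^ 3 = X * X * X := by simp [pow_succ]
    rw [hp] at hcube
    have htr := s3_tr_of_cube hcube
    have hc : (tr X - 1) * (tr X + 1) = 0 := by linear_combination htr
    rcases mul_eq_zero.mp hc with h | h
    · have hnZ : -X ∉ (Ze : Subgroup SL(2, F)) := by
        intro hz
        apply hXZ
        have := s3_neg_mem_ze hz
        rwa [neg_neg] at this
      have htr' : tr (-X) = 2 := by rw [s3_tr_neg]; linear_combination -h - h3
      have hcard' := s3_card_psl hodd (-X)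
      rw [s3_mkP_neg, s3_card_solub_unip hodd hns (-X) hnZ htr'] at hcard'
      exact hcard'
    · have htr' : tr X = 2 := by linear_combination h - h3
      rw [s3_card_solub_unip hodd hns X hXZ htr'] at hcard
      exact hcard
  · have t0 := ht0 hx1 ho2
    have t1 := ht1 (Fintype.card F - 1) (by omega) hx1 hd
    have hne : ¬ Cfsg.Agent.H44.Elliptic (X : Matrix (Fin 2) (Fin 2) F) := by
      intro hell
      rw [Cfsg.Agent.H44.sl2_card_centralizer_elliptic hodd X hell] at hoX
      exact hdvd2 hx1 ho2 hd hoX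
    rw [s3_card_solub_split hodd hns X t0 t1 hne] at hcard
    have : 2 * Nat.card {y : PSL(2, F) //
        Group.IsSolvable (Subgroup.closure ({mkP F X, y} : Set PSL(2, F)))} =
        2 * (Fintype.card F * (Fintype.card F - 1)) := by rw [hcard]; ring
    exact Nat.eq_of_mul_eq_mul_left (by norm_num) this
  · have t0 := ht0 hx1 ho2
    have t1 := ht1 (Fintype.card F + 1) (by omega) hx1 hd
    have hell : Cfsg.Agent.H44.Elliptic (X : Matrix (Fin 2) (Fin 2) F) := by
      by_contra hne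
      rw [Cfsg.Agent.H44.sl2_card_centralizer_split hodd X (s3_tr4 t1) hne] at hoX
      exact hdvd2 hx1 ho2 hoX hd
    rw [s3_card_solub_ellip hodd hns X t0 t1 hell] at hcard
    exact Nat.eq_of_mul_eq_mul_left (by norm_num) hcard

end S3MainFin

end Cfsg.Agent.H7
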