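import Mathlib
import Cfsg.Agent.H17.TgDefs

/-! S1904 piece TG-QEX2 (helper7, parallel take): if `B` has exponent at least 8, then
`C_X(Ω₂(B)) ≠ B`.  Route: all squares lie in `B`; an element `x ∉ B` inverts every
`x b x⁻¹ b⁻¹` (`b ∈ B`); the map `V_B → V_B`, `v ↦ x e x⁻¹ e⁻¹` (`e` a square root of `v`) is
injective, hence onto, so `x` inverts `Ω₂(B)`; three elements `x, x', x x' ∉ B` then force
`Ω₂(B)` to have exponent 2. -/

set_option autoImplicit false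

universe u

namespace Cfsg.Agent.H7.Tg

open Cfsg Cfsg.Agent.H17.Tg

theorem qex2 (hVB : StVB.{u}) (hSq : StSq.{u}) (hC2 : StC2.{u}) (hC3 : StC3.{u})
    (hIdx2 : StIdx2.{u}) : StQex2.{u} := by
  intro X _ _ A hH B hB hBn hex hC
  obtain ⟨b0, hb0, hb04⟩ := hex
  have hNAI : NAI A B := hB.1
  obtain ⟨hV1, hV4, -, -, -, -⟩ := hVB X A hH B hNAI hBn
  obtain ⟨hBnorm, hBinv, hBab⟩ := hNAI
  have hi : ∀ b ∈ B, b ^ 2 ^ 1 = 1 → b ∈ Subgroup.center X := fun b hb h =>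
    hV1 b hb (by simpa using h)
  have hc3 := (hC3 X A hH B hB.1 hBn 1 hi).2
  have hsqB : ∀ x : X, x ^ 2 ∈ B := fun x =>
    hC _ (fun b hb hb4 => hc3 x b hb (by simpa using hb4))
  have hc2 : ∀ x : X, x ∉ B → ∀ d ∈ B, d ^ 4 = 1 → x * d = d * x → d ^ 2 = 1 := by
    intro x hx d hd hd4 hxd
    by_contra hd2
    exact hx (hC x (fun b hb hb4 => hC2 X A hH B hB.1 hBn 1 hi x d hd (by simpa using hd4)
      (by simpa using hd2) hxd b hb (by simpa using hb4)))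
  have hb02 : b0 ^ 2 ≠ 1 := fun h => hb04 (by
    have h4 : b0 ^ 4 = (b0 ^ 2) ^ 2 := by rw [← pow_mul]
    rw [h4, h, one_pow])
  have hsq1 : ∀ c ∈ B, c ^ 2 = 1 → ∃ b ∈ B, b ^ 2 = c := fun c hc hc2' =>
    hSq X A hH B hB.1 hBn 1 b0 hb0 (by simpa using hb02) c hc (by simpa using hc2')
  have hsq2 : ∀ c ∈ B, c ^ 4 = 1 → ∃ b ∈ B, b ^ 2 = c := fun c hc hc4 =>
    hSq X A hH B hB.1 hBn 2 b0 hb0 (by simpa using hb04) c hc (by simpa using hc4)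
  have hVcen : ∀ v ∈ B, v ^ 2 = 1 → ∀ g : X, g * v = v * g := fun v hv hv2 g =>
    (Subgroup.mem_center_iff.mp (hV1 v hv hv2) g)
  -- key: elements outside `B` invert `Ω₂(B)`
  have hinv : ∀ x : X, x ∉ B → ∀ d ∈ B, d ^ 4 = 1 → x * d * x⁻¹ = d⁻¹ := by
    intro x hx d hd hd4
    have hcmB : ∀ b ∈ B, x * b * x⁻¹ * b⁻¹ ∈ B := fun b hb =>
      B.mul_mem (hBnorm.conj_mem b hb x) (B.inv_mem hb)
    have hcm_mul : ∀ b ∈ B, ∀ b' ∈ B, x * (b * b') * x⁻¹ * (b * b')⁻¹ =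
        (x * b * x⁻¹ * b⁻¹) * (x * b' * x⁻¹ * b'⁻¹) := by
      intro b hb b' hb'
      have h1 := hBab b⁻¹ (B.inv_mem hb) (x * b' * x⁻¹ * b'⁻¹) (hcmB b' hb')
      calc x * (b * b') * x⁻¹ * (b * b')⁻¹
          = (x * b * x⁻¹) * ((x * b' * x⁻¹ * b'⁻¹) * b⁻¹) := by group
        _ = (x * b * x⁻¹) * (b⁻¹ * (x * b' * x⁻¹ * b'⁻¹)) := by rw [h1]
        _ = _ := by group
    have hcm_inv' : ∀ b ∈ B, x * b⁻¹ * x⁻¹ * (b⁻¹)⁻¹ = (x * b * x⁻¹ * b⁻¹)⁻¹ := by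
      intro b hb
      have h := hcm_mul b hb b⁻¹ (B.inv_mem hb)
      have h0 : x * (b * b⁻¹) * x⁻¹ * (b * b⁻¹)⁻¹ = 1 := by group
      rw [h0] at h
      exact eq_inv_of_mul_eq_one_right h.symm
    have hcm_inv : ∀ b ∈ B, x * (x * b * x⁻¹ * b⁻¹) * x⁻¹ = (x * b * x⁻¹ * b⁻¹)⁻¹ := by
      intro b hb
      have h := hBab (x ^ 2) (hsqB x) b hb
      have h' : x * x * b = b * x * x := by simpa [pow_two, mul_assoc] using h
      calc x * (x * b * x⁻¹ * b⁻¹) * x⁻¹ = (x * x * b) * x⁻¹ * b⁻¹ * x⁻¹ := by group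
        _ = (b * x * x) * x⁻¹ * b⁻¹ * x⁻¹ := by rw [h']
        _ = _ := by group
    have hcm_sq : ∀ d ∈ B, d ^ 4 = 1 → (x * d * x⁻¹ * d⁻¹) ^ 2 = 1 := by
      intro d hd hd4
      have hd2 : (d ^ 2) ^ 2 = 1 := by rw [← pow_mul]; exact hd4
      have hz := hVcen (d ^ 2) (B.pow_mem hd 2) hd2 x
      rw [pow_two, ← hcm_mul d hd d hd, ← pow_two, hz]
      group
    -- the injective map `V_B → V_B`
    have hch : ∀ v : {v : X // v ∈ B ∧ v ^ 2 = 1}, ∃ e : X, e ∈ B ∧ e ^ 2 = v.1 := fun v => by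
      obtain ⟨e, he, he2⟩ := hsq1 v.1 v.2.1 v.2.2
      exact ⟨e, he, he2⟩
    choose e heB he2 using hch
    have he4 : ∀ v : {v : X // v ∈ B ∧ v ^ 2 = 1}, e v ^ 4 = 1 := fun v => by
      have h4 : e v ^ 4 = (e v ^ 2) ^ 2 := by rw [← pow_mul]
      rw [h4, he2, v.2.2]
    let f : {v : X // v ∈ B ∧ v ^ 2 = 1} → {v : X // v ∈ B ∧ v ^ 2 = 1} := fun v =>
      ⟨x * e v * x⁻¹ * (e v)⁻¹, hcmB _ (heB v), hcm_sq _ (heB v) (he4 v)⟩
    have hfinj : Function.Injective f := by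
      intro v v' hvv
      have h1 : x * e v * x⁻¹ * (e v)⁻¹ = x * e v' * x⁻¹ * (e v')⁻¹ := congrArg Subtype.val hvv
      have hgB : e v * (e v')⁻¹ ∈ B := B.mul_mem (heB v) (B.inv_mem (heB v'))
      have hcomm : Commute (e v) (e v')⁻¹ := hBab _ (heB v) _ (B.inv_mem (heB v'))
      have hg4 : (e v * (e v')⁻¹) ^ 4 = 1 := by
        rw [hcomm.mul_pow, inv_pow, he4, he4]; simp
      have hcg : x * (e v * (e v')⁻¹) * x⁻¹ * (e v * (e v')⁻¹)⁻¹ = 1 := by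
        rw [hcm_mul _ (heB v) _ (B.inv_mem (heB v')), hcm_inv' _ (heB v'), h1]
        exact mul_inv_cancel _
      have hxg : x * (e v * (e v')⁻¹) = (e v * (e v')⁻¹) * x :=
        mul_inv_eq_iff_eq_mul.mp (mul_inv_eq_one.mp hcg)
      have hg2 := hc2 x hx _ hgB hg4 hxg
      rw [hcomm.mul_pow, inv_pow, he2, he2] at hg2
      exact Subtype.ext (mul_inv_eq_one.mp hg2)
    have hfsurj : Function.Surjective f := Finite.injective_iff_surjective.mp hfinj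
    have hd2V : (d ^ 2) ^ 2 = 1 := by rw [← pow_mul]; exact hd4
    obtain ⟨v, hv⟩ := hfsurj ⟨d ^ 2, B.pow_mem hd 2, hd2V⟩
    have hv' : x * e v * x⁻¹ * (e v)⁻¹ = d ^ 2 := congrArg Subtype.val hv
    obtain ⟨b, hb, hb2⟩ := hsq2 (e v) (heB v) (he4 v)
    have hcB : x * b * x⁻¹ * b⁻¹ ∈ B := hcmB b hb
    have hc2' : (x * b * x⁻¹ * b⁻¹) ^ 2 = d ^ 2 := by
      rw [pow_two, ← hcm_mul b hb b hb, ← pow_two, hb2, hv']
    have hxc := hcm_inv b hb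
    generalize x * b * x⁻¹ * b⁻¹ = c at hcB hc2' hxc
    have hcomm : Commute d c⁻¹ := hBab d hd c⁻¹ (B.inv_mem hcB)
    have hw2 : (d * c⁻¹) ^ 2 = 1 := by
      rw [hcomm.mul_pow, inv_pow, hc2']; exact mul_inv_cancel _
    have hwc := hVcen (d * c⁻¹) (B.mul_mem hd (B.inv_mem hcB)) hw2
    have hfin : d * c⁻¹ * c⁻¹ * d = 1 := by
      have h := hw2
      rw [pow_two] at h
      calc d * c⁻¹ * c⁻¹ * d = d * c⁻¹ * (c⁻¹ * d) := by group
        _ = d * c⁻¹ * (d * c⁻¹) := by rw [← hcomm.eq]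
        _ = 1 := h
    calc x * d * x⁻¹ = x * (d * c⁻¹) * c * x⁻¹ := by group
      _ = (d * c⁻¹) * x * c * x⁻¹ := by rw [hwc x]
      _ = (d * c⁻¹) * (x * c * x⁻¹) := by group
      _ = (d * c⁻¹) * c⁻¹ := by rw [hxc]
      _ = d⁻¹ := eq_inv_of_mul_eq_one_left hfin
  -- an element outside `B`
  have hBtop : ∃ x : X, x ∉ B := by
    by_contra hall
    push Not at hall
    exact hBn (fun z _ => Subgroup.mem_center_iff.mpr (fun g => hBab g (hall g) z (hall z)))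
  obtain ⟨x, hx⟩ := hBtop
  have hx2 : ∃ x' : X, x' ∉ B ∧ x * x' ∉ B := by
    by_contra hall
    push Not at hall
    refine hIdx2 X A hH B hBinv (Subgroup.index_eq_two_iff.mpr ⟨x, fun b => ?_⟩)
    by_cases hb : b ∈ B
    · refine Or.inr ⟨hb, fun hbx => hx ?_⟩
      have := B.mul_mem (B.inv_mem hb) hbx
      simpa using this
    · refine Or.inl ⟨?_, hb⟩
      have h1 := hall b hb
      have h2 := hBnorm.conj_mem _ h1 x⁻¹
      simpa [mul_assoc] using h2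
  obtain ⟨x', hx', hxx'⟩ := hx2
  -- an element of order 4 in `B`
  have : Nontrivial {v : X // v ∈ B ∧ v ^ 2 = 1} :=
    Finite.one_lt_card_iff_nontrivial.mp (by rw [hV4]; norm_num)
  obtain ⟨v, hv⟩ := exists_ne (⟨1, B.one_mem, one_pow 2⟩ : {v : X // v ∈ B ∧ v ^ 2 = 1})
  obtain ⟨d, hd, hd2⟩ := hsq1 v.1 v.2.1 v.2.2
  have hd4 : d ^ 4 = 1 := by
    have h4 : d ^ 4 = (d ^ 2) ^ 2 := by rw [← pow_mul]
    rw [h4, hd2, v.2.2]
  have h1 := hinv x hx d hd hd4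
  have h2 := hinv x' hx' d hd hd4
  have h3 := hinv (x * x') hxx' d hd hd4
  have h4 : x * x' * d * (x * x')⁻¹ = d := by
    calc x * x' * d * (x * x')⁻¹ = x * (x' * d * x'⁻¹) * x⁻¹ := by group
      _ = x * d⁻¹ * x⁻¹ := by rw [h2]
      _ = (x * d * x⁻¹)⁻¹ := by group
      _ = d := by rw [h1, inv_inv]
  have h5 : d = d⁻¹ := h4.symm.trans h3
  apply hv
  apply Subtype.ext
  show v.1 = 1
  rw [← hd2, pow_two]
  exact mul_eq_one_iff_eq_inv.mpr h5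

example : (StVB.{u}) → (StSq.{u}) → (StC2.{u}) → (StC3.{u}) → (StIdx2.{u}) →
    Cfsg.Agent.H17.Tg.StQex2.{u} := qex2

end Cfsg.Agent.H7.Tg
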